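import Cfsg.Agent.H87.BCDefs
import Cfsg.Agent.H88.NormModel

set_option autoImplicit false

/-!
# Piece BACK of helper87's S5110 project: from the normalizer system back to the system

If `V` receives every member of its class (`Rcv`) and is fully automized and receptive in the normalizer
system `N_F(V)`, then it is fully automized and receptive in `F`.
-/

namespace Cfsg.Agent.H67.BC

open Cfsg Cfsg.FusionSystem Cfsg.Agent.H86 Cfsg.Agent.H87

variable {Ω : Type*} [Group Ω] {S : Subgroup Ω}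

/-- A map of the normalizer system is a map of the system. -/
lemma mor_of_mor_normalizer {F : FusionSystem S} {V : Subgroup Ω} {E : FusionSystem (normalizerIn S V)}
    (hE : F.IsNormalizerSystem V E) {P : Subgroup Ω} {f : Ω → Ω} (hf : Mor E P f) : Mor F P f := by
  obtain ⟨-, -, f', hf', hf'f, -⟩ := (Cfsg.Agent.H88.mor_normalizerSystem_iff hE).1 hf
  exact (hf'.restrict le_sup_left).congr hf'f

/-- A map of the system from `V` onto `V` is a map of the normalizer system. -/
lemma mor_normalizer_of_mor {F : FusionSystem S} {V : Subgroup Ω} {E : FusionSystem (normalizerIn S V)}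
    (hE : F.IsNormalizerSystem V E) {f : Ω → Ω} (hf : Mor F V f) (himg : imgS V f = V) : Mor E V f := by
  have hVS : V ≤ S := hf.le
  have hVN : V ≤ normalizerIn S V := Cfsg.Agent.H86.le_normalizerIn hVS
  refine (Cfsg.Agent.H88.mor_normalizerSystem_iff hE).2 ⟨hVN, fun x hx => ?_, f, ?_, fun _ _ => rfl, himg⟩
  · apply hVN
    rw [← himg]
    exact hf.mem_imgS_of_mem hx
  · rw [sup_idem]
    exact hf

/-- The automorphism groups of `V` in the system and in its normalizer system coincide. -/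
lemma autGroup_normalizer_eq {F : FusionSystem S} {V : Subgroup Ω} (hVS : V ≤ S)
    {E : FusionSystem (normalizerIn S V)} (hE : F.IsNormalizerSystem V E) :
    E.autGroup V = F.autGroup V := by
  have hVN : V ≤ normalizerIn S V := Cfsg.Agent.H86.le_normalizerIn hVS
  ext α
  rw [mem_autGroup_iff hVN, mem_autGroup_iff hVS]
  constructor
  · exact mor_of_mor_normalizer hE
  · intro h
    exact mor_normalizer_of_mor hE h (imgS_autFun h)

/-- The automorphisms of `V` induced by `N_S(V)` are those induced by `S`. -/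
lemma autInducedBy_normalizerIn_eq (S V : Subgroup Ω) :
    autInducedBy (normalizerIn S V) V = autInducedBy S V := by
  apply le_antisymm
  · exact Cfsg.Agent.H86.autInducedBy_mono V inf_le_left
  · intro α hα
    obtain ⟨g, hg, H⟩ := (mem_autInducedBy_iff S V α).1 hα
    exact (mem_autInducedBy_iff _ V α).2
      ⟨g, mem_normalizerIn_iff.2 ⟨hg, Cfsg.Agent.H86.mem_normalizer_of_induces H⟩, H⟩

/-- **Piece BACK.** -/
theorem sat_of_normalizer [Finite S] {p : ℕ} [Fact p.Prime] (hS : IsPGroup p S) {F : FusionSystem S}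
    {P V : Subgroup Ω} (hV : F.IsConj P V) (hrcv : ∀ Q, F.IsConj P Q → Rcv F Q V)
    {E : FusionSystem (normalizerIn S V)} (hE : F.IsNormalizerSystem V E)
    (hfa : E.IsFullyAutomized p V) (hrc : E.IsReceptive V) :
    F.IsFullyAutomized p V ∧ F.IsReceptive V := by
  have hVS : V ≤ S := isConj_le_right hV
  have hVN : V ≤ normalizerIn S V := Cfsg.Agent.H86.le_normalizerIn hVS
  have hVfin : Finite V := finite_of_le hVS
  refine ⟨⟨hVS, ?_⟩, ?_⟩
  · have h := hfa.2
    rw [autGroup_normalizer_eq hVS hE, autInducedBy_normalizerIn_eq] at h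
    exact h
  · refine receptive_of hVS (fun Q φ hφ himg N' hN' => ?_)
    have hQV : F.IsConj Q V := isConj_iff.2 ⟨φ, hφ, himg⟩
    have hQS : Q ≤ S := hφ.le
    have hQN : Q ≤ normalizerIn S Q := Cfsg.Agent.H86.le_normalizerIn hQS
    obtain ⟨ψ, hψ, hψV⟩ := hrcv Q (isConj_trans hV (isConj_symm hQV))
    have hψQ : Mor F Q ψ := hψ.restrict hQN
    -- the inverse of `ψ` on `V`
    have hinv : Mor F V (invOn Q ψ) := by
      have := hψQ.inv
      rwa [hψV] at this
    have hinvmem : ∀ y ∈ V, invOn Q ψ y ∈ Q := fun y hy => hψQ.invOn_mem (by rw [hψV]; exact hy)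
    have hinvimg : imgS V (invOn Q ψ) = Q := by
      have := hψQ.imgS_inv
      rwa [hψV] at this
    -- `α = φ ∘ ψ⁻¹` on `V`
    have hαF : Mor F V (φ ∘ invOn Q ψ) := hinv.comp hφ hinvmem
    have hαimg : imgS V (φ ∘ invOn Q ψ) = V := by
      rw [hinv.imgS_comp hφ hinvmem, hinvimg, himg]
    have hαE : Mor E V (φ ∘ invOn Q ψ) := mor_normalizer_of_mor hE hαF hαimg
    have hαψ : ∀ x ∈ Q, (φ ∘ invOn Q ψ) (ψ x) = φ x := by
      intro x hx
      show φ (invOn Q ψ (ψ x)) = φ x
      rw [invOn_apply hψQ.injOn hx]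
    have hψmemV : ∀ x ∈ Q, ψ x ∈ V := fun x hx => by
      rw [← hψV]
      exact hψQ.mem_imgS_of_mem hx
    obtain ⟨ρ, hρ, hρα⟩ := receptive_extend' hrc hαE hαimg
    have hρF : Mor F (extSub (normalizerIn S V) V (φ ∘ invOn Q ψ)) ρ := mor_of_mor_normalizer hE hρ
    -- `N'` lies in `N_S(Q)` and `ψ` maps it into the extender of `α` in the normalizer system
    have hN'le : N' ≤ normalizerIn S Q := fun g hg =>
      mem_normalizerIn_iff.2 ⟨((hN' g).1 hg).1, ((hN' g).1 hg).2.1⟩
    have hψN' : ∀ g ∈ N', ψ g ∈ extSub (normalizerIn S V) V (φ ∘ invOn Q ψ) := by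
      intro g hg
      obtain ⟨hgS, hgN, h, hh, H⟩ := (hN' g).1 hg
      have hgNQ : g ∈ normalizerIn S Q := hN'le hg
      have hψgN : ψ g ∈ Subgroup.normalizer (V : Set Ω) := by
        have := hψ.mem_normalizer_imgS hQN (fun g hg => (mem_normalizerIn_iff.1 hg).2) hgNQ
        rwa [hψV] at this
      -- `h` normalizes `V`
      have hconj : ∀ (g' h' : Ω), g' ∈ Subgroup.normalizer (Q : Set Ω) →
          (∀ x ∈ Q, φ (g' * x * g'⁻¹) = h' * φ x * h'⁻¹) → ∀ y ∈ V, h' * y * h'⁻¹ ∈ V := by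
        intro g' h' hg' H' y hy
        rw [← himg] at hy
        obtain ⟨x, hx, rfl⟩ := hφ.mem_imgS.1 hy
        rw [← H' x hx, ← himg]
        exact hφ.mem_imgS_of_mem (conj_mem_of_mem_normalizer hg' hx)
      have hhN : h ∈ Subgroup.normalizer (V : Set Ω) := by
        refine mem_normalizer_of_forall_conj_mem (hconj g h hgN H) ?_
        have H' : ∀ x ∈ Q, φ (g⁻¹ * x * g⁻¹⁻¹) = h⁻¹ * φ x * h⁻¹⁻¹ := by
          intro x hx
          have hx' : g⁻¹ * x * g ∈ Q := conj_inv_mem_of_mem_normalizer hgN hx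
          have := H (g⁻¹ * x * g) hx'
          have e : g * (g⁻¹ * x * g) * g⁻¹ = x := by group
          rw [e] at this
          rw [inv_inv, inv_inv, this]
          group
        intro y hy
        have := hconj g⁻¹ h⁻¹ (Subgroup.inv_mem _ hgN) H' y hy
        rwa [inv_inv] at this
      rw [mem_extSub_iff hαE]
      refine ⟨mem_normalizerIn_iff.2 ⟨hψ.mem hgNQ, hψgN⟩, hψgN, h, mem_normalizerIn_iff.2 ⟨hh, hhN⟩, ?_⟩
      intro v hv
      rw [← hψV] at hv
      obtain ⟨x, hx, rfl⟩ := hψQ.mem_imgS.1 hv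
      have hgx : g * x * g⁻¹ ∈ Q := conj_mem_of_mem_normalizer hgN hx
      have e : ψ g * ψ x * (ψ g)⁻¹ = ψ (g * x * g⁻¹) := by
        rw [hψ.map_mul (Subgroup.mul_mem _ hgNQ (hQN hx)) (Subgroup.inv_mem _ hgNQ),
          hψ.map_mul hgNQ (hQN hx), hψ.map_inv hgNQ]
      rw [e, hαψ _ hgx, hαψ x hx]
      exact H x hx
    refine ⟨ρ ∘ ψ, (hψ.restrict hN'le).comp hρF hψN', fun x hx => ?_⟩
    show ρ (ψ x) = φ x
    rw [hρα _ (hψmemV x hx), hαψ x hx]

end Cfsg.Agent.H67.BC
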