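import Cfsg.Agent.H87.BCDefs
import Cfsg.Agent.H86.FusNormal

set_option autoImplicit false

/-!
# Piece FAR of helper87's S5110 project: fully automized and receptive from the extension property

`E` is a fusion system over a finite `p`-group `N` with a normal subgroup `V`; every subgroup strictly
containing `V` has a fully automized receptive conjugate; `V₀ > V` is invariant under the maps of `E`
and every map of `E` on `V` extends to `V₀`. Then `V` is fully automized and receptive in `E`.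
-/

namespace Cfsg.Agent.H67.BC

open Cfsg Cfsg.FusionSystem Cfsg.Agent.H86 Cfsg.Agent.H87

/-- The image of a Sylow `p`-subgroup of `A` under a homomorphism defined on `A` is a Sylow
`p`-subgroup of the image. -/
lemma isSylIn_map_of_range {G G' : Type*} [Group G] [Group G'] [Finite G] {p : ℕ} [Fact p.Prime]
    {T A : Subgroup G} {B T' : Subgroup G'} (r : ↥A →* G') (hr : r.range = B)
    (hT : (T.subgroupOf A).map r = T') (h : IsSylIn p T A) : IsSylIn p T' B := by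
  subst hr hT
  obtain ⟨R, hR⟩ := h
  refine ⟨R.mapSurjective r.rangeRestrict_surjective, ?_⟩
  rw [Sylow.coe_mapSurjective, hR]
  ext ⟨y, hy⟩
  simp only [Subgroup.mem_map, Subgroup.mem_subgroupOf]
  constructor
  · rintro ⟨a, ha, hay⟩
    exact ⟨a, ha, congrArg Subtype.val hay⟩
  · rintro ⟨a, ha, hay⟩
    exact ⟨a, ha, Subtype.ext hay⟩

variable {Ω : Type*} [Group Ω]

/-- The restriction homomorphism `Aut_E(V₀) → Aut(V)` for a subgroup `V ≤ V₀` preserved by the maps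
of `E` on `V₀`. -/
lemma exists_res {N : Subgroup Ω} {E : FusionSystem N} {V V₀ : Subgroup Ω} (hV₀N : V₀ ≤ N)
    (hVV₀ : V ≤ V₀) (hsc : ∀ f, Mor E V₀ f → imgS V f = V) :
    ∃ res : ↥(E.autGroup V₀) →* MulAut V, ∀ (α : ↥(E.autGroup V₀)) (x : V),
      ((res α x : V) : Ω) = autFun V₀ (α : MulAut V₀) (x : Ω) := by
  have hmor : ∀ α : ↥(E.autGroup V₀), Mor E V₀ (autFun V₀ (α : MulAut V₀)) :=
    fun α => (mem_autGroup_iff hV₀N α.1).1 α.2
  refine ⟨MonoidHom.mk' (fun α => mkAut ((hmor α).restrict hVV₀) (hsc _ (hmor α))) ?_, fun α x => rfl⟩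
  intro α β
  ext x
  rw [MulAut.mul_apply, mkAut_apply, mkAut_apply, mkAut_apply]
  exact autFun_mul α.1 β.1 (hVV₀ x.2)

/-- **Piece FAR.** -/
theorem sat_of_ext_overgroup {N : Subgroup Ω} [Finite N] {p : ℕ} [Fact p.Prime] {E : FusionSystem N}
    {V : Subgroup Ω} (hN : IsPGroup p N) (hV : E.IsNormal V)
    (hover : ∀ X : Subgroup Ω, V < X → X ≤ N → SatClass E p X) {V₀ : Subgroup Ω} (hVV₀ : V < V₀)
    (hV₀N : V₀ ≤ N) (hinv : ∀ f, Mor E V₀ f → imgS V₀ f = V₀)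
    (hext : ∀ a, Mor E V a → ∃ a', Mor E V₀ a' ∧ ∀ x ∈ V, a' x = a x) :
    E.IsFullyAutomized p V ∧ E.IsReceptive V := by
  classical
  have hVN : V ≤ N := hV.1
  have hVle : V ≤ V₀ := hVV₀.le
  have hVfin : Finite V := finite_of_le hVN
  have hV₀fin : Finite V₀ := finite_of_le hV₀N
  have hsc := (stronglyClosed_iff.1 (IsNormal.stronglyClosed hV)).2
  have hscV : ∀ f, Mor E V f → imgS V f = V := fun f hf => imgS_eq_of_maps hf (hsc V f le_rfl hf)
  have hscV₀ : ∀ f, Mor E V₀ f → imgS V f = V := fun f hf => hscV f (hf.restrict hVle)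
  -- `V₀` is fully automized and receptive
  obtain ⟨Q, hQ, hfa₀, hrc₀⟩ := hover V₀ hVV₀ hV₀N
  obtain ⟨f₀, hf₀, rfl⟩ := isConj_iff.1 hQ
  rw [hinv f₀ hf₀] at hfa₀ hrc₀
  have hsyl₀ : IsSylIn p (autInducedBy N V₀) (E.autGroup V₀) := hfa₀.2
  -- `N` normalizes `V₀` and `V`
  have key₀ : ∀ g ∈ N, ∀ y ∈ V₀, g * y * g⁻¹ ∈ V₀ := by
    intro g hg y hy
    have h1 := hinv _ (Mor.conj E hV₀N hg)
    rw [← h1]
    exact (Mor.conj E hV₀N hg).mem_imgS_of_mem hy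
  have hNV₀ : ∀ g ∈ N, g ∈ Subgroup.normalizer (V₀ : Set Ω) := by
    intro g hg
    refine mem_normalizer_of_forall_conj_mem (key₀ g hg) (fun y hy => ?_)
    have := key₀ g⁻¹ (N.inv_mem hg) y hy
    rwa [inv_inv] at this
  have keyV : ∀ g ∈ N, ∀ y ∈ V, g * y * g⁻¹ ∈ V :=
    fun g hg y hy => hsc V _ le_rfl (Mor.conj E hVN hg) y hy
  obtain ⟨res, hres⟩ := exists_res hV₀N hVle hscV₀
  -- conjugation automorphisms of `V₀`
  have hcn : ∀ n ∈ N, ∃ c : MulAut V₀, c ∈ autInducedBy N V₀ ∧ c ∈ E.autGroup V₀ ∧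
      ∀ x : V₀, ((c x : V₀) : Ω) = n * x * n⁻¹ := by
    intro n hn
    have hm := Mor.conj E hV₀N hn
    refine ⟨mkAut hm (hinv _ hm), ?_, mkAut_mem hm _, fun x => rfl⟩
    exact (mem_autInducedBy_iff N V₀ _).2 ⟨n, hn, fun x => rfl⟩
  have hres_ind : ∀ α : ↥(E.autGroup V₀), (α : MulAut V₀) ∈ autInducedBy N V₀ →
      res α ∈ autInducedBy N V := by
    intro α hα
    obtain ⟨g, hg, H⟩ := (mem_autInducedBy_iff N V₀ _).1 hα
    refine (mem_autInducedBy_iff N V _).2 ⟨g, hg, fun x => ?_⟩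
    rw [hres, autFun_of_mem _ (hVle x.2), H]
  have hrange : res.range = E.autGroup V := by
    apply le_antisymm
    · rintro _ ⟨α, rfl⟩
      rw [mem_autGroup_iff hVN]
      have hm := ((mem_autGroup_iff hV₀N α.1).1 α.2).restrict hVle
      refine hm.congr (fun x hx => ?_)
      rw [autFun_of_mem _ hx, hres]
    · intro β hβ
      have hm := (mem_autGroup_iff hVN β).1 hβ
      obtain ⟨a', ha', ha'β⟩ := hext _ hm
      refine ⟨⟨mkAut ha' (hinv a' ha'), mkAut_mem ha' _⟩, ?_⟩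
      ext x
      rw [hres]
      show autFun V₀ (mkAut ha' (hinv a' ha')) (x : Ω) = _
      rw [autFun_mkAut ha' _ (hVle x.2), ha'β x x.2, autFun_apply]
  have hmapind : ((autInducedBy N V₀).subgroupOf (E.autGroup V₀)).map res = autInducedBy N V := by
    apply le_antisymm
    · rintro _ ⟨α, hα, rfl⟩
      exact hres_ind α (Subgroup.mem_subgroupOf.1 hα)
    · intro β hβ
      obtain ⟨g, hg, H⟩ := (mem_autInducedBy_iff N V β).1 hβ
      obtain ⟨c, hc1, hc2, hc3⟩ := hcn g hg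
      refine ⟨⟨c, hc2⟩, Subgroup.mem_subgroupOf.2 hc1, ?_⟩
      ext x
      rw [hres, autFun_of_mem _ (hVle x.2), hc3, H]
  refine ⟨⟨hVN, isSylIn_map_of_range res hrange hmapind hsyl₀⟩, ?_⟩
  -- receptive
  refine receptive_of hVN (fun P f hf himg N' hN' => ?_)
  have hPV : V = P := by
    have hinvm : Mor E V (invOn P f) := by
      have := hf.inv
      rwa [himg] at this
    have himg' : imgS V (invOn P f) = P := by
      have := hf.imgS_inv
      rwa [himg] at this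
    rw [← himg']
    exact (hscV _ hinvm).symm
  subst hPV
  obtain ⟨a', ha', ha'f⟩ := hext f hf
  obtain ⟨αh, hαhA, hαh⟩ : ∃ αh : MulAut V₀, αh ∈ E.autGroup V₀ ∧ ∀ x ∈ V₀, autFun V₀ αh x = a' x :=
    ⟨mkAut ha' (hinv a' ha'), mkAut_mem ha' _, fun x hx => autFun_mkAut ha' _ hx⟩
  have hN'le : N' ≤ N := fun g hg => ((hN' g).1 hg).1
  -- the preimage `D` of `Aut_N(V)` under the restriction
  obtain ⟨D, hD_mem⟩ : ∃ D : Subgroup (MulAut V₀), ∀ β, β ∈ D ↔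
      ∃ h : β ∈ E.autGroup V₀, res ⟨β, h⟩ ∈ autInducedBy N V := by
    refine ⟨((autInducedBy N V).comap res).map (E.autGroup V₀).subtype, fun β => ?_⟩
    rw [Subgroup.mem_map]
    constructor
    · rintro ⟨b, hb, rfl⟩
      exact ⟨b.2, hb⟩
    · rintro ⟨h, hb⟩
      exact ⟨⟨β, h⟩, hb, rfl⟩
  have hD_le : D ≤ E.autGroup V₀ := fun β hβ => ((hD_mem β).1 hβ).1
  have hind_le : autInducedBy N V₀ ≤ D := by
    intro α hα
    have hαA : α ∈ E.autGroup V₀ := autInducedBy_le_autGroup E hV₀N hα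
    exact (hD_mem α).2 ⟨hαA, hres_ind ⟨α, hαA⟩ hα⟩
  have hsylD : IsSylIn p (autInducedBy N V₀) D := hsyl₀.mono hind_le hD_le
  -- the conjugate `X` of `Aut_{N'}(V₀)` by `αh`
  have hX_le : (autInducedBy N' V₀).map (MulAut.conj αh).toMonoidHom ≤ D := by
    rintro _ ⟨γ, hγ, rfl⟩
    obtain ⟨g, hg, H⟩ := (mem_autInducedBy_iff N' V₀ γ).1 hγ
    obtain ⟨hgN, hgnorm, h, hh, Hh⟩ := (hN' g).1 hg
    have hγA : γ ∈ E.autGroup V₀ :=
      autInducedBy_le_autGroup E hV₀N (Cfsg.Agent.H86.autInducedBy_mono V₀ hN'le hγ)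
    have hmem : αh * γ * αh⁻¹ ∈ E.autGroup V₀ :=
      Subgroup.mul_mem _ (Subgroup.mul_mem _ hαhA hγA) (Subgroup.inv_mem _ hαhA)
    rw [hD_mem]
    refine ⟨hmem, ?_⟩
    rw [mem_autInducedBy_iff]
    refine ⟨h, hh, fun y => ?_⟩
    rw [hres]
    have hy : (y : Ω) ∈ imgS V f := by rw [himg]; exact y.2
    obtain ⟨x, hx, hxy⟩ := hf.mem_imgS.1 hy
    have hx₀ : x ∈ V₀ := hVle hx
    have hgx : g * x * g⁻¹ ∈ V := keyV g hgN x hx
    show autFun V₀ (αh * γ * αh⁻¹) (y : Ω) = _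
    rw [← hxy, autFun_mul _ _ (hVle (hxy ▸ y.2)), ← ha'f x hx, ← hαh x hx₀, autFun_inv_apply αh hx₀,
      autFun_mul _ _ hx₀, autFun_of_mem γ hx₀, H, hαh _ (hVle hgx), ha'f _ hgx, hαh x hx₀,
      ha'f x hx]
    exact Hh x hx
  have hXp : IsPGroup p ((autInducedBy N' V₀).map (MulAut.conj αh).toMonoidHom) :=
    (autInducedBy_isPGroup (hN.to_le hN'le) V₀).map _
  obtain ⟨δ, hδD, hδ⟩ := hsylD.exists_conj_le hX_le hXp
  obtain ⟨hδA, hδres⟩ := (hD_mem δ).1 hδD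
  obtain ⟨n, hn, Hn⟩ := (mem_autInducedBy_iff N V _).1 hδres
  obtain ⟨c, hc1, hc2, hc3⟩ := hcn n hn
  have hα'A : c⁻¹ * δ * αh ∈ E.autGroup V₀ :=
    Subgroup.mul_mem _ (Subgroup.mul_mem _ (Subgroup.inv_mem _ hc2) hδA) hαhA
  have hm' : Mor E V₀ (autFun V₀ (c⁻¹ * δ * αh)) := (mem_autGroup_iff hV₀N _).1 hα'A
  have himg' : imgS V₀ (autFun V₀ (c⁻¹ * δ * αh)) = V₀ := hinv _ hm'
  have hagree : ∀ x ∈ V, autFun V₀ (c⁻¹ * δ * αh) x = f x := by
    intro x hx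
    have hx₀ := hVle hx
    have hfx : f x ∈ V := hsc V f le_rfl hf x hx
    rw [autFun_mul _ _ hx₀, hαh x hx₀, ha'f x hx, autFun_mul _ _ (hVle hfx)]
    have h1 : autFun V₀ δ (f x) = autFun V₀ c (f x) := by
      have := Hn ⟨f x, hfx⟩
      rw [hres] at this
      rw [autFun_of_mem c (hVle hfx), hc3]
      exact this
    rw [h1, autFun_inv_apply c (hVle hfx)]
  have hN'ext : N' ≤ extSub N V₀ (autFun V₀ (c⁻¹ * δ * αh)) := by
    intro g hg
    obtain ⟨hgN, -, -⟩ := (hN' g).1 hg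
    rw [mem_extSub_iff hm']
    obtain ⟨γ, -, -, hγ3⟩ := hcn g hgN
    have hγN' : γ ∈ autInducedBy N' V₀ := (mem_autInducedBy_iff N' V₀ γ).2 ⟨g, hg, hγ3⟩
    have hX : αh * γ * αh⁻¹ ∈ (autInducedBy N' V₀).map (MulAut.conj αh).toMonoidHom :=
      ⟨γ, hγN', rfl⟩
    have h2 := hδ _ hX
    have h3 : c⁻¹ * (δ * (αh * γ * αh⁻¹) * δ⁻¹) * c ∈ autInducedBy N V₀ :=
      Subgroup.mul_mem _ (Subgroup.mul_mem _ (Subgroup.inv_mem _ hc1) h2) hc1
    obtain ⟨h', hh', Hh'⟩ := (mem_autInducedBy_iff N V₀ _).1 h3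
    refine ⟨hgN, hNV₀ g hgN, h', hh', fun x hx => ?_⟩
    have e : c⁻¹ * (δ * (αh * γ * αh⁻¹) * δ⁻¹) * c = (c⁻¹ * δ * αh) * γ * (c⁻¹ * δ * αh)⁻¹ := by
      group
    rw [e] at Hh'
    have := Hh' ((c⁻¹ * δ * αh) ⟨x, hx⟩)
    rw [MulAut.mul_apply, MulAut.mul_apply, MulAut.inv_apply_self] at this
    rw [autFun_of_mem _ hx, autFun_of_mem _ (key₀ g hgN x hx), ← this]
    congr 2
    exact Subtype.ext (hγ3 ⟨x, hx⟩).symm
  obtain ⟨f', hf', hf'f⟩ := receptive_extend' hrc₀ hm' himg'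
  exact ⟨f', hf'.restrict hN'ext, fun x hx => (hf'f x (hVle hx)).trans (hagree x hx)⟩

end Cfsg.Agent.H67.BC
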