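import Mathlib
import Cfsg.Agent.H11.AbNormalCyclic
import Cfsg.Agent.H3.SelfCentCyclic

/-!
# Piece T10 of the S4125 team project

A noncyclic finite `2`-group without a normal four-group has a cyclic maximal subgroup `⟨c⟩`
of order `2 ^ m ≥ 4` and an element `b` outside it acting on `c` by a power `e ≡ 3 (mod 4)`
(dihedral, generalized quaternion or semidihedral type).
-/

set_option autoImplicit false

universe u

namespace Cfsg.Agent.H67.Baer

/-- Generic packaging when `b` inverts `c`. -/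
theorem cyclic_max_of_inv {P : Type u} [Group P] [Finite P] (hP : IsPGroup 2 P) (c b : P)
    (hc4 : 4 ≤ orderOf c) (hinv : b * c * b⁻¹ = c⁻¹) (hb2 : b ^ 2 ∈ Subgroup.zpowers c)
    (hcov : ∀ x : P, x ∈ Subgroup.zpowers c ∨ b⁻¹ * x ∈ Subgroup.zpowers c) :
    ∃ (c b : P) (m e : ℕ), 2 ≤ m ∧ orderOf c = 2 ^ m ∧ e % 4 = 3 ∧ (e * e) % 2 ^ m = 1 ∧
      b * c * b⁻¹ = c ^ e ∧ b ^ 2 ∈ Subgroup.zpowers c ∧
      ∀ x : P, x ∈ Subgroup.zpowers c ∨ b⁻¹ * x ∈ Subgroup.zpowers c := by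
  obtain ⟨m, hm⟩ := (IsPGroup.iff_orderOf.mp hP) c
  have hm2 : 2 ≤ m := by
    by_contra h
    have h01 : m = 0 ∨ m = 1 := by omega
    rcases h01 with rfl | rfl
    · rw [hm] at hc4; norm_num at hc4
    · rw [hm] at hc4; norm_num at hc4
  obtain ⟨k, rfl⟩ : ∃ k, m = k + 2 := ⟨m - 2, by omega⟩
  have hpow : 2 ^ (k + 2) = 4 * 2 ^ k := by ring
  have hpos : 0 < 2 ^ k := by positivity
  refine ⟨c, b, k + 2, 2 ^ (k + 2) - 1, hm2, hm, ?_, ?_, ?_, hb2, hcov⟩
  · omega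
  · obtain ⟨N, hN⟩ : ∃ N, N = 2 ^ (k + 2) := ⟨_, rfl⟩
    rw [← hN]
    have hN4 : 4 ≤ N := by omega
    obtain ⟨j, rfl⟩ : ∃ j, N = j + 2 := ⟨N - 2, by omega⟩
    have : (j + 2 - 1) * (j + 2 - 1) = (j + 2) * j + 1 := by
      have : j + 2 - 1 = j + 1 := by omega
      rw [this]; ring
    rw [this, Nat.mul_add_mod]
    exact Nat.mod_eq_of_lt (by omega)
  · rw [hinv]
    have h1 : c ^ (2 ^ (k + 2) - 1) * c = 1 := by
      rw [← pow_succ, Nat.sub_add_cancel (by omega), ← hm, pow_orderOf_eq_one]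
    exact (eq_inv_of_mul_eq_one_left h1).symm

/-- Transport of membership in a cyclic subgroup along an isomorphism. -/
theorem symm_mem_zpowers {P Q : Type*} [Group P] [Group Q] (φ : P ≃* Q) (c y : Q)
    (h : y ∈ Subgroup.zpowers c) : φ.symm y ∈ Subgroup.zpowers (φ.symm c) := by
  obtain ⟨k, hk⟩ := Subgroup.mem_zpowers_iff.mp h
  exact Subgroup.mem_zpowers_iff.mpr ⟨k, by rw [← map_zpow, hk]⟩

/-- Packaging for a group isomorphic to a group where `b` inverts `c`. -/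
theorem cyclic_max_of_equiv {P : Type u} {Q : Type*} [Group P] [Finite P] [Group Q]
    (hP : IsPGroup 2 P) (φ : P ≃* Q) (c b : Q)
    (hc4 : 4 ≤ orderOf c) (hinv : b * c * b⁻¹ = c⁻¹) (hb2 : b ^ 2 ∈ Subgroup.zpowers c)
    (hcov : ∀ x : Q, x ∈ Subgroup.zpowers c ∨ b⁻¹ * x ∈ Subgroup.zpowers c) :
    ∃ (c b : P) (m e : ℕ), 2 ≤ m ∧ orderOf c = 2 ^ m ∧ e % 4 = 3 ∧ (e * e) % 2 ^ m = 1 ∧
      b * c * b⁻¹ = c ^ e ∧ b ^ 2 ∈ Subgroup.zpowers c ∧
      ∀ x : P, x ∈ Subgroup.zpowers c ∨ b⁻¹ * x ∈ Subgroup.zpowers c := by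
  refine cyclic_max_of_inv hP (φ.symm c) (φ.symm b) ?_ ?_ ?_ ?_
  · rw [MulEquiv.orderOf_eq]; exact hc4
  · rw [← map_inv, ← map_mul, ← map_mul, hinv, map_inv]
  · rw [← map_pow]; exact symm_mem_zpowers φ c _ hb2
  · intro x
    rcases hcov (φ x) with h | h
    · left
      have := symm_mem_zpowers φ c _ h
      simpa using this
    · right
      have := symm_mem_zpowers φ c _ h
      simpa using this

/-- The quaternion case. -/
theorem quaternion_facts (n : ℕ) [NeZero n] :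
    (QuaternionGroup.xa (0 : ZMod (2 * n)) * QuaternionGroup.a 1 * (QuaternionGroup.xa 0)⁻¹
        = (QuaternionGroup.a 1)⁻¹) ∧
    ((QuaternionGroup.xa (0 : ZMod (2 * n))) ^ 2 ∈
        Subgroup.zpowers (QuaternionGroup.a (1 : ZMod (2 * n)))) ∧
    ∀ x : QuaternionGroup n, x ∈ Subgroup.zpowers (QuaternionGroup.a (1 : ZMod (2 * n))) ∨
      (QuaternionGroup.xa (0 : ZMod (2 * n)))⁻¹ * x ∈
        Subgroup.zpowers (QuaternionGroup.a (1 : ZMod (2 * n))) := by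
  have hai : ∀ i : ZMod (2 * n), QuaternionGroup.a i ∈
      Subgroup.zpowers (QuaternionGroup.a (1 : ZMod (2 * n))) := by
    intro i
    have : QuaternionGroup.a i = (QuaternionGroup.a (1 : ZMod (2 * n))) ^ i.val := by
      rw [QuaternionGroup.a_one_pow, ZMod.natCast_zmod_val]
    rw [this]
    exact Subgroup.pow_mem _ (Subgroup.mem_zpowers _) _
  refine ⟨?_, ?_, ?_⟩
  · rw [mul_inv_eq_iff_eq_mul, eq_inv_mul_iff_mul_eq]
    simp
  · rw [sq, QuaternionGroup.xa_mul_xa]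
    exact hai _
  · rintro (i | i)
    · left; exact hai i
    · right
      have : (QuaternionGroup.xa (0 : ZMod (2 * n)))⁻¹ * QuaternionGroup.xa i
          = QuaternionGroup.a i := by
        rw [inv_mul_eq_iff_eq_mul]; simp
      rw [this]; exact hai i

/-- The dihedral case. -/
theorem dihedral_facts (n : ℕ) [NeZero n] :
    (DihedralGroup.sr (0 : ZMod n) * DihedralGroup.r 1 * (DihedralGroup.sr 0)⁻¹
        = (DihedralGroup.r 1)⁻¹) ∧
    ((DihedralGroup.sr (0 : ZMod n)) ^ 2 ∈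
        Subgroup.zpowers (DihedralGroup.r (1 : ZMod n))) ∧
    ∀ x : DihedralGroup n, x ∈ Subgroup.zpowers (DihedralGroup.r (1 : ZMod n)) ∨
      (DihedralGroup.sr (0 : ZMod n))⁻¹ * x ∈
        Subgroup.zpowers (DihedralGroup.r (1 : ZMod n)) := by
  have hai : ∀ i : ZMod n, DihedralGroup.r i ∈
      Subgroup.zpowers (DihedralGroup.r (1 : ZMod n)) := by
    intro i
    have : DihedralGroup.r i = (DihedralGroup.r (1 : ZMod n)) ^ i.val := by
      rw [DihedralGroup.r_one_pow, ZMod.natCast_zmod_val]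
    rw [this]
    exact Subgroup.pow_mem _ (Subgroup.mem_zpowers _) _
  refine ⟨?_, ?_, ?_⟩
  · rw [mul_inv_eq_iff_eq_mul, eq_inv_mul_iff_mul_eq]
    simp
  · rw [sq, DihedralGroup.sr_mul_sr]
    exact hai _
  · rintro (i | i)
    · left; exact hai i
    · right
      have : (DihedralGroup.sr (0 : ZMod n))⁻¹ * DihedralGroup.sr i
          = DihedralGroup.r i := by
        rw [inv_mul_eq_iff_eq_mul]; simp
      rw [this]; exact hai i

/-- The semidihedral case. -/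
theorem cyclic_max_of_quasiDihedral {P : Type u} [Group P] [Finite P]
    (h : Cfsg.IsQuasiDihedral P) :
    ∃ (c b : P) (m e : ℕ), 2 ≤ m ∧ orderOf c = 2 ^ m ∧ e % 4 = 3 ∧ (e * e) % 2 ^ m = 1 ∧
      b * c * b⁻¹ = c ^ e ∧ b ^ 2 ∈ Subgroup.zpowers c ∧
      ∀ x : P, x ∈ Subgroup.zpowers c ∨ b⁻¹ * x ∈ Subgroup.zpowers c := by
  obtain ⟨n, hn3, hcard, x, y, hx, hy, hxy⟩ := h
  obtain ⟨k, rfl⟩ : ∃ k, n = k + 3 := ⟨n - 3, by omega⟩
  have hK : 0 < 2 ^ k := by positivity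
  have e1 : 2 ^ (k + 3 - 1) = 4 * 2 ^ k := by
    have : k + 3 - 1 = k + 2 := by omega
    rw [this]; ring
  have e2 : 2 ^ (k + 3) = 8 * 2 ^ k := by ring
  obtain ⟨K, hKdef⟩ : ∃ K, K = 2 ^ k := ⟨_, rfl⟩
  rw [← hKdef] at hK e1 e2
  have hynot : y ∉ Subgroup.zpowers x := by
    intro hmem
    obtain ⟨j, hj⟩ := Subgroup.mem_zpowers_iff.mp hmem
    have hcomm : y * x = x * y := by
      rw [← hj, ← zpow_add_one, ← zpow_one_add, add_comm]
    have h1 : y * x * y⁻¹ = x := by rw [hcomm]; group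
    rw [h1] at hxy
    have h2 : x ^ (2 ^ (k + 3 - 1) - 1 - 1) = 1 := by
      have h3 : x ^ (2 ^ (k + 3 - 1) - 1 - 1) * x = x := by
        rw [← pow_succ, Nat.sub_add_cancel (by omega)]; exact hxy.symm
      exact mul_eq_right.mp h3
    have h4 := orderOf_dvd_of_pow_eq_one h2
    rw [hx] at h4
    have h5 := Nat.le_of_dvd (by omega) h4
    omega
  have hidx : (Subgroup.zpowers x).index = 2 := by
    have h1 := Subgroup.card_mul_index (Subgroup.zpowers x)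
    rw [Nat.card_zpowers, hx, hcard, pow_succ] at h1
    exact Nat.eq_of_mul_eq_mul_left (by positivity) h1
  refine ⟨x, y, k + 3, 2 ^ (k + 3 - 1) - 1, by omega, hx, ?_, ?_, hxy, ?_, ?_⟩
  · omega
  · rw [e1, e2]
    have : (4 * K - 1) * (4 * K - 1) = 8 * K * (2 * K - 1) + 1 := by
      obtain ⟨j, rfl⟩ : ∃ j, K = j + 1 := ⟨K - 1, by omega⟩
      have h1 : 4 * (j + 1) - 1 = 4 * j + 3 := by omega
      have h2 : 2 * (j + 1) - 1 = 2 * j + 1 := by omega
      rw [h1, h2]; ring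
    rw [this, Nat.mul_add_mod]
    exact Nat.mod_eq_of_lt (by omega)
  · have : y ^ 2 = 1 := by rw [← hy, pow_orderOf_eq_one]
    rw [this]; exact Subgroup.one_mem _
  · intro z
    by_cases hz : z ∈ Subgroup.zpowers x
    · exact Or.inl hz
    · right
      rw [Subgroup.mul_mem_iff_of_index_two hidx]
      constructor
      · intro h; exact absurd ((Subgroup.inv_mem_iff _).mp h) hynot
      · intro h; exact absurd h hz

/-- **Piece T10.** A noncyclic finite `2`-group with no normal four-group has a cyclic maximal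
subgroup `⟨c⟩` of order `2 ^ m`, `m ≥ 2`, and an element `b` with `b c b⁻¹ = c ^ e`,
`e ≡ 3 (mod 4)`, `e ^ 2 ≡ 1 (mod 2 ^ m)`, `b ^ 2 ∈ ⟨c⟩`, `P = ⟨c⟩ ∪ b ⟨c⟩`. -/
theorem exists_cyclic_max {P : Type u} [Group P] [Finite P] (hP : IsPGroup 2 P)
    (hnc : ¬ IsCyclic P)
    (hE : ¬ ∃ E : Subgroup P, E.Normal ∧ Nat.card E = 4 ∧ ∀ e ∈ E, e ^ 2 = 1) :
    ∃ (c b : P) (m e : ℕ), 2 ≤ m ∧ orderOf c = 2 ^ m ∧ e % 4 = 3 ∧ (e * e) % 2 ^ m = 1 ∧
      b * c * b⁻¹ = c ^ e ∧ b ^ 2 ∈ Subgroup.zpowers c ∧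
      ∀ x : P, x ∈ Subgroup.zpowers c ∨ b⁻¹ * x ∈ Subgroup.zpowers c := by
  have : Fact (Nat.Prime 2) := ⟨Nat.prime_two⟩
  have hn : ∀ A : Subgroup P, A.Normal → IsMulCommutative A → IsCyclic A := by
    intro A hAn hAc
    by_contra hAnc
    have := hAn
    have hcomm : ∀ a ∈ A, ∀ b ∈ A, a * b = b * a := by
      intro a ha b hb
      have := hAc.is_comm.comm ⟨a, ha⟩ ⟨b, hb⟩
      exact congrArg Subtype.val this
    obtain ⟨V, hVn, -, hVcard, hVexp, -⟩ :=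
      Cfsg.Agent.H3.exists_normal_elemAb_sq hP A hcomm hAnc
    exact hE ⟨V, hVn, by rw [hVcard]; norm_num, hVexp⟩
  rcases Cfsg.Agent.H11.two_case hP hn hnc with ⟨n, ⟨φ⟩⟩ | ⟨n, hn8, ⟨φ⟩⟩ | hQD
  · -- generalized quaternion
    have hord : orderOf (φ.symm (QuaternionGroup.a (1 : ZMod (2 * n)))) = 2 * n := by
      rw [MulEquiv.orderOf_eq, QuaternionGroup.orderOf_a_one]
    have hpos : 0 < 2 * n := by rw [← hord]; exact orderOf_pos _
    have hn1 : n ≠ 1 := by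
      rintro rfl
      have := QuaternionGroup.quaternionGroup_one_isCyclic
      exact hnc (isCyclic_of_surjective φ.symm φ.symm.surjective)
    have : NeZero n := ⟨by omega⟩
    obtain ⟨f1, f2, f3⟩ := quaternion_facts n
    refine cyclic_max_of_equiv hP φ (QuaternionGroup.a 1) (QuaternionGroup.xa 0) ?_ f1 f2 f3
    rw [QuaternionGroup.orderOf_a_one]; omega
  · -- dihedral
    have : NeZero n := ⟨by omega⟩
    obtain ⟨f1, f2, f3⟩ := dihedral_facts n
    refine cyclic_max_of_equiv hP φ (DihedralGroup.r 1) (DihedralGroup.sr 0) ?_ f1 f2 f3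
    rw [DihedralGroup.orderOf_r_one]; omega
  · exact cyclic_max_of_quasiDihedral hQD

end Cfsg.Agent.H67.Baer
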