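import Mathlib

set_option autoImplicit false

/-!
Group-theoretic preliminaries for the fusion-system version of the Camina–Herzog theorem:
the elements of order at most two in the centre of a finite `2`-group, the chain obtained by
intersecting with the `2^i`-th powers of the centre, the `2`-group of automorphisms which are
unipotent with respect to this chain, and a Sylow conjugation lemma for images.
-/

namespace Cfsg.Agent.H67

/-- The elements of the centre of order at most `2`. -/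
def omegaCenter (G : Type*) [Group G] : Subgroup G where
  carrier := {e | e ∈ Subgroup.center G ∧ e * e = 1}
  mul_mem' := by
    rintro a b ⟨ha, ha2⟩ ⟨hb, hb2⟩
    refine ⟨Subgroup.mul_mem _ ha hb, ?_⟩
    have hb' := Subgroup.mem_center_iff.1 hb
    have : a * b * (a * b) = (a * a) * (b * b) := by
      calc a * b * (a * b) = a * (b * a) * b := by group
        _ = a * (a * b) * b := by rw [hb' a]
        _ = _ := by group
    rw [this, ha2, hb2, one_mul]
  one_mem' := ⟨Subgroup.one_mem _, by simp⟩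
  inv_mem' := by
    rintro a ⟨ha, ha2⟩
    have : a⁻¹ = a := inv_eq_of_mul_eq_one_left ha2
    rw [this]
    exact ⟨ha, ha2⟩

theorem mem_omegaCenter {G : Type*} [Group G] {e : G} :
    e ∈ omegaCenter G ↔ e ∈ Subgroup.center G ∧ e * e = 1 := Iff.rfl

/-- The elements of `omegaCenter` which are `2^i`-th powers of central elements. -/
def omegaChain (G : Type*) [Group G] (i : ℕ) : Subgroup G where
  carrier := {e | e ∈ omegaCenter G ∧ ∃ a ∈ Subgroup.center G, a ^ (2 ^ i) = e}
  mul_mem' := by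
    rintro x y ⟨hx, a, ha, rfl⟩ ⟨hy, b, hb, rfl⟩
    refine ⟨mul_mem hx hy, a * b, mul_mem ha hb, ?_⟩
    have hc : Commute a b := Subgroup.mem_center_iff.1 hb a
    exact hc.mul_pow _
  one_mem' := ⟨one_mem _, 1, one_mem _, one_pow _⟩
  inv_mem' := by
    rintro x ⟨hx, a, ha, rfl⟩
    exact ⟨inv_mem hx, a⁻¹, inv_mem ha, inv_pow a _⟩

theorem mem_omegaChain {G : Type*} [Group G] {i : ℕ} {e : G} :
    e ∈ omegaChain G i ↔ e ∈ omegaCenter G ∧ ∃ a ∈ Subgroup.center G, a ^ (2 ^ i) = e := Iff.rfl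

theorem omegaChain_le_omegaCenter (G : Type*) [Group G] (i : ℕ) : omegaChain G i ≤ omegaCenter G :=
  fun _ h => h.1

theorem mem_omegaChain_zero {G : Type*} [Group G] {e : G} (h : e ∈ omegaCenter G) :
    e ∈ omegaChain G 0 :=
  ⟨h, e, h.1, by simp⟩

theorem omegaChain_succ_le (G : Type*) [Group G] (i : ℕ) : omegaChain G (i + 1) ≤ omegaChain G i := by
  rintro e ⟨he, a, ha, rfl⟩
  refine ⟨he, a ^ 2, pow_mem ha 2, ?_⟩
  rw [← pow_mul, pow_succ']

theorem omegaChain_antitone (G : Type*) [Group G] {i j : ℕ} (h : i ≤ j) :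
    omegaChain G j ≤ omegaChain G i := by
  induction h with
  | refl => exact le_rfl
  | step _ ih => exact (omegaChain_succ_le G _).trans ih

theorem eq_one_of_mem_omegaChain_card {G : Type*} [Group G] [Finite G] (hG : IsPGroup 2 G) {e : G}
    {m : ℕ} (hm : Nat.card G ≤ m) (h : e ∈ omegaChain G m) : e = 1 := by
  obtain ⟨-, a, -, rfl⟩ := h
  obtain ⟨n, hn⟩ := IsPGroup.iff_card.1 hG
  have h1 : orderOf a ∣ 2 ^ n := hn ▸ orderOf_dvd_natCard a
  have h2 : n ≤ m := by
    have : n < 2 ^ n := Nat.lt_two_pow_self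
    omega
  exact orderOf_dvd_iff_pow_eq_one.1 (h1.trans (pow_dvd_pow 2 h2))

theorem map_mem_omegaCenter {G : Type*} [Group G] (β : G ≃* G) {e : G} (h : e ∈ omegaCenter G) :
    β e ∈ omegaCenter G := by
  refine ⟨Subgroup.mem_center_iff.2 (fun g => ?_), ?_⟩
  · have h1 := Subgroup.mem_center_iff.1 h.1 (β.symm g)
    have h2 := congrArg β h1
    rwa [map_mul, map_mul, β.apply_symm_apply] at h2
  · rw [← map_mul, h.2, map_one]

theorem map_mem_center {G : Type*} [Group G] (β : G ≃* G) {a : G} (h : a ∈ Subgroup.center G) :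
    β a ∈ Subgroup.center G := by
  refine Subgroup.mem_center_iff.2 (fun g => ?_)
  have h1 := Subgroup.mem_center_iff.1 h (β.symm g)
  have h2 := congrArg β h1
  rwa [map_mul, map_mul, β.apply_symm_apply] at h2

theorem map_mem_omegaChain {G : Type*} [Group G] (β : G ≃* G) {i : ℕ} {e : G}
    (h : e ∈ omegaChain G i) : β e ∈ omegaChain G i := by
  obtain ⟨he, a, ha, rfl⟩ := h
  exact ⟨map_mem_omegaCenter β he, β a, map_mem_center β ha, (map_pow β a _).symm⟩

/-- Restriction of automorphisms to `omegaCenter`. -/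
def resAut (G : Type*) [Group G] : MulAut G →* MulAut (omegaCenter G) where
  toFun β :=
    { toFun := fun e => ⟨β e, map_mem_omegaCenter β e.2⟩
      invFun := fun e => ⟨β.symm e, map_mem_omegaCenter β.symm e.2⟩
      left_inv := fun e => Subtype.ext (β.symm_apply_apply _)
      right_inv := fun e => Subtype.ext (β.apply_symm_apply _)
      map_mul' := fun a b => Subtype.ext (map_mul β _ _) }
  map_one' := by ext e; rfl
  map_mul' := fun β γ => by ext e; rfl

theorem resAut_apply {G : Type*} [Group G] (β : MulAut G) (e : omegaCenter G) :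
    ((resAut G β e : omegaCenter G) : G) = β e := rfl

/-- `σ` moves each element of the `i`-th term of the chain by an element of the `(i+m)`-th term. -/
def Unip (G : Type*) [Group G] (m : ℕ) (σ : MulAut (omegaCenter G)) : Prop :=
  ∀ i : ℕ, ∀ e : omegaCenter G, (e : G) ∈ omegaChain G i →
    ((σ e : omegaCenter G) : G) * (e : G) ∈ omegaChain G (i + m)

theorem coe_mul_self {G : Type*} [Group G] (e : omegaCenter G) : (e : G) * (e : G) = 1 := e.2.2

theorem mul_self_eq_one' {G : Type*} [Group G] (e : omegaCenter G) : e * e = 1 :=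
  Subtype.ext (coe_mul_self e)

theorem Unip.one {G : Type*} [Group G] (m : ℕ) : Unip G m 1 := by
  intro i e _
  show (e : G) * (e : G) ∈ _
  rw [coe_mul_self]
  exact one_mem _

theorem Unip.mul {G : Type*} [Group G] {σ σ' : MulAut (omegaCenter G)} (h : Unip G 1 σ)
    (h' : Unip G 1 σ') : Unip G 1 (σ * σ') := by
  intro i e he
  have h1 := h' i e he
  have h2 : ((σ' e : omegaCenter G) : G) ∈ omegaChain G i := by
    have : ((σ' e : omegaCenter G) : G) = ((σ' e : omegaCenter G) : G) * (e : G) * (e : G) := by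
      rw [mul_assoc, coe_mul_self, mul_one]
    rw [this]
    exact mul_mem (omegaChain_succ_le G i h1) he
  have h3 := h i (σ' e) h2
  have : ((σ (σ' e) : omegaCenter G) : G) * (e : G) =
      ((σ (σ' e) : omegaCenter G) : G) * ((σ' e : omegaCenter G) : G) *
        (((σ' e : omegaCenter G) : G) * (e : G)) := by
    rw [mul_assoc, ← mul_assoc ((σ' e : omegaCenter G) : G), coe_mul_self, one_mul]
  show ((σ (σ' e) : omegaCenter G) : G) * (e : G) ∈ _
  rw [this]
  exact mul_mem h3 h1

theorem Unip.sq {G : Type*} [Group G] {m : ℕ} {σ : MulAut (omegaCenter G)} (h : Unip G m σ) :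
    Unip G (2 * m) (σ * σ) := by
  intro i e he
  have h1 := h i e he
  have h2 := h (i + m) (σ e * e) h1
  have e1 : σ e = σ e * e * e := by rw [mul_assoc, mul_self_eq_one', mul_one]
  have e2 : σ (σ e) * e = σ (σ e * e) * (σ e * e) := by
    conv_lhs => rw [e1]
    rw [map_mul, mul_assoc]
  have e3 : i + 2 * m = i + m + m := by ring
  rw [e3]
  show ((σ (σ e) : omegaCenter G) : G) * (e : G) ∈ _
  have e4 : ((σ (σ e) : omegaCenter G) : G) * (e : G) = ((σ (σ e) * e : omegaCenter G) : G) := rfl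
  rw [e4, e2]
  exact h2

theorem Unip.pow_two_pow {G : Type*} [Group G] {σ : MulAut (omegaCenter G)} (h : Unip G 1 σ) (j : ℕ) :
    Unip G (2 ^ j) (σ ^ 2 ^ j) := by
  induction j with
  | zero => simpa using h
  | succ j ih =>
    have := ih.sq
    rwa [← pow_two, ← pow_mul, ← pow_succ, ← pow_succ'] at this

theorem Unip.eq_one {G : Type*} [Group G] [Finite G] (hG : IsPGroup 2 G) {m : ℕ}
    {σ : MulAut (omegaCenter G)} (h : Unip G m σ) (hm : Nat.card G ≤ m) : σ = 1 := by
  ext e
  have h1 := h 0 e (mem_omegaChain_zero e.2)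
  have h2 := eq_one_of_mem_omegaChain_card hG (by omega) h1
  have h3 : ((σ e : omegaCenter G) : G) = ((σ e : omegaCenter G) : G) * (e : G) * (e : G) := by
    rw [mul_assoc, coe_mul_self, mul_one]
  rw [h3, h2, one_mul]
  rfl

/-- The group of automorphisms of `omegaCenter` acting trivially on the factors of the chain. -/
def unipSub (G : Type*) [Group G] [Finite G] : Subgroup (MulAut (omegaCenter G)) where
  carrier := {σ | Unip G 1 σ}
  mul_mem' := fun h h' => Unip.mul h h'
  one_mem' := Unip.one 1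
  inv_mem' := by
    intro σ hσ
    have hpow : ∀ n : ℕ, Unip G 1 (σ ^ n) := by
      intro n
      induction n with
      | zero => rw [pow_zero]; exact Unip.one 1
      | succ n ih => rw [pow_succ]; exact Unip.mul ih hσ
    have hfin : Finite (MulAut (omegaCenter G)) :=
      Finite.of_injective (fun σ : MulAut (omegaCenter G) => (σ : omegaCenter G → omegaCenter G))
        DFunLike.coe_injective
    have h1 : σ ^ (orderOf σ - 1) * σ = 1 := by
      rw [← pow_succ, Nat.sub_add_cancel (orderOf_pos σ), pow_orderOf_eq_one]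
    have : σ⁻¹ = σ ^ (orderOf σ - 1) := (eq_inv_of_mul_eq_one_left h1).symm
    show Unip G 1 σ⁻¹
    rw [this]
    exact hpow _

theorem mem_unipSub {G : Type*} [Group G] [Finite G] {σ : MulAut (omegaCenter G)} :
    σ ∈ unipSub G ↔ Unip G 1 σ := Iff.rfl

theorem unipSub_isPGroup {G : Type*} [Group G] [Finite G] (hG : IsPGroup 2 G) :
    IsPGroup 2 (unipSub G) := by
  intro σ
  refine ⟨Nat.card G, Subtype.ext ?_⟩
  have h1 := (mem_unipSub.1 σ.2).pow_two_pow (Nat.card G)
  have h2 : Nat.card G ≤ 2 ^ Nat.card G := Nat.lt_two_pow_self.le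
  rw [Subgroup.coe_pow]
  exact h1.eq_one hG h2

/-- The chain condition for an automorphism of `G`. -/
def ChainUnip (G : Type*) [Group G] (β : MulAut G) : Prop :=
  ∀ i : ℕ, ∀ e ∈ omegaChain G i, β e * e ∈ omegaChain G (i + 1)

theorem resAut_mem_unipSub {G : Type*} [Group G] [Finite G] {β : MulAut G} (h : ChainUnip G β) :
    resAut G β ∈ unipSub G :=
  fun i e he => h i e he

theorem ChainUnip.conj {G : Type*} [Group G] {β : MulAut G} (h : ChainUnip G β) (γ : MulAut G) :
    ChainUnip G (γ * β * γ⁻¹) := by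
  intro i e he
  have h1 : γ⁻¹ e ∈ omegaChain G i := map_mem_omegaChain γ⁻¹ he
  have h2 := map_mem_omegaChain γ (h i _ h1)
  have h3 : γ (β (γ⁻¹ e) * γ⁻¹ e) = (γ * β * γ⁻¹) e * e := by
    rw [map_mul]
    show γ (β (γ⁻¹ e)) * γ (γ⁻¹ e) = γ (β (γ⁻¹ e)) * e
    congr 1
    exact MulAut.apply_inv_self G γ e
  rwa [h3] at h2

/-- Two elements whose images lie in a common `p`-subgroup of the target are, modulo the kernel,
simultaneously conjugate into a given Sylow `p`-subgroup. -/
theorem exists_conj_sylow_of_map_mem {A B : Type*} [Group A] [Group B] [Finite A] {p : ℕ}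
    [Fact p.Prime] (ρ : A →* B) (P : Sylow p A) (U : Subgroup B) (hU : IsPGroup p U) {x y : A}
    (hx : ρ x ∈ U) (hy : ρ y ∈ U) :
    ∃ g : A, ∃ b₁ ∈ P, ∃ b₂ ∈ P, ρ x = ρ (g * b₁ * g⁻¹) ∧ ρ y = ρ (g * b₂ * g⁻¹) := by
  have hsurj := ρ.rangeRestrict_surjective
  have hfin : Finite ρ.range := Finite.of_surjective ρ.rangeRestrict hsurj
  obtain ⟨Q, hQ⟩ := IsPGroup.exists_le_sylow (hU.comap_subtype (K := ρ.range))
  obtain ⟨g', hg'⟩ := MulAction.exists_smul_eq ρ.range (P.mapSurjective hsurj) Q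
  obtain ⟨g, rfl⟩ := hsurj g'
  have key : ∀ a : A, ρ a ∈ U → ∃ b ∈ P, ρ a = ρ (g * b * g⁻¹) := by
    intro a ha
    have h1 : ρ.rangeRestrict a ∈ (Q : Subgroup ρ.range) := hQ (by
      show (ρ.range.subtype (ρ.rangeRestrict a)) ∈ U
      exact ha)
    rw [← hg', Sylow.coe_subgroup_smul, Subgroup.mem_smul_pointwise_iff_exists] at h1
    obtain ⟨s, hs, hsa⟩ := h1
    rw [Sylow.coe_mapSurjective] at hs
    obtain ⟨b, hb, rfl⟩ := hs
    refine ⟨b, hb, ?_⟩
    have h2 := congrArg Subtype.val hsa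
    rw [MulAut.smul_def, MulAut.conj_apply] at h2
    rw [map_mul, map_mul, map_inv]
    exact h2.symm
  obtain ⟨b₁, hb₁, e₁⟩ := key x hx
  obtain ⟨b₂, hb₂, e₂⟩ := key y hy
  exact ⟨g, b₁, hb₁, b₂, hb₂, e₁, e₂⟩

theorem pow_mul_conj_identity {G : Type*} [Group G] (a v : G) (M : ℕ)
    (h1 : a * (v * a * v⁻¹) = (v * a * v⁻¹) * a) (h2 : a * (v * v) = (v * v) * a) :
    (a * v) ^ (2 * M) = a ^ M * (v * a ^ M * v⁻¹) * v ^ (2 * M) := by
  have hsq : (a * v) ^ 2 = (a * (v * a * v⁻¹)) * (v * v) := by rw [pow_two]; group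
  have e1 : Commute a (v * v) := h2
  have e2 : Commute (v * a * v⁻¹) (v * v) := by
    show v * a * v⁻¹ * (v * v) = v * v * (v * a * v⁻¹)
    have : v * v * (v * a * v⁻¹) = v * ((v * v) * a) * v⁻¹ := by group
    rw [this, ← h2]
    group
  have hc2 : Commute (a * (v * a * v⁻¹)) (v * v) := e1.mul_left e2
  have hc1 : Commute a (v * a * v⁻¹) := h1
  rw [pow_mul, hsq, hc2.mul_pow, hc1.mul_pow, conj_pow, ← pow_two, ← pow_mul]

theorem exists_sq_mem_not_mem {G : Type*} [Group G] (H : Subgroup G) {g : G} (hg : g ∉ H) {k : ℕ}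
    (hk : g ^ 2 ^ k ∈ H) : ∃ j : ℕ, g ^ 2 ^ j ∉ H ∧ g ^ 2 ^ j * g ^ 2 ^ j ∈ H := by
  induction k with
  | zero => exact absurd (by simpa using hk) hg
  | succ k ih =>
    by_cases hk' : g ^ 2 ^ k ∈ H
    · exact ih hk'
    · refine ⟨k, hk', ?_⟩
      rw [← pow_add, ← two_mul, ← pow_succ']
      exact hk

theorem conj_fix_iff {E : Type*} [Group E] (γ σ : MulAut E) (e : E) :
    (γ * σ * γ⁻¹) e = e ↔ σ (γ⁻¹ e) = γ⁻¹ e := by
  show γ (σ (γ⁻¹ e)) = e ↔ _
  constructor
  · intro h
    have := congrArg (γ⁻¹ : MulAut E) h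
    rwa [MulAut.inv_apply_self] at this
  · intro h
    rw [h, MulAut.apply_inv_self]

end Cfsg.Agent.H67
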