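import Mathlib
import Cfsg.Prelude.Def_FusionSystem
import Cfsg.Agent.H86.FusExt
import Cfsg.Agent.H88.Ess
import Cfsg.Agent.H67.CentralUnip

set_option autoImplicit false
set_option maxHeartbeats 400000

/-!
The fusion-system version of the Camina–Herzog theorem: a saturated fusion system over a finite
`2`-group `S` in which every element is conjugate into `Z(S)` has `S` abelian.
-/

namespace Cfsg.Agent.H67

open Cfsg Cfsg.FusionSystem Cfsg.Agent.H86

variable {Ω : Type*} [Group Ω] {S : Subgroup Ω}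

/-- The centre of `S`, as a subgroup of the ambient group. -/
def zen (S : Subgroup Ω) : Subgroup Ω := S ⊓ Subgroup.centralizer (S : Set Ω)

theorem mem_zen {z : Ω} : z ∈ zen S ↔ z ∈ S ∧ ∀ y ∈ S, y * z = z * y := by
  unfold zen
  rw [Subgroup.mem_inf, Subgroup.mem_centralizer_iff]
  rfl

theorem zen_le (S : Subgroup Ω) : zen S ≤ S := inf_le_left

/-- The centralizer of the element `u` in `P`. -/
def cenE (P : Subgroup Ω) (u : Ω) : Subgroup Ω := P ⊓ Subgroup.centralizer {u}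

theorem mem_cenE {P : Subgroup Ω} {u g : Ω} : g ∈ cenE P u ↔ g ∈ P ∧ u * g = g * u := by
  unfold cenE
  rw [Subgroup.mem_inf, Subgroup.mem_centralizer_iff]
  simp

theorem cenE_le (P : Subgroup Ω) (u : Ω) : cenE P u ≤ P := inf_le_left

theorem le_cenE_of_mem_zen {z : Ω} (hz : z ∈ zen S) : S ≤ cenE S z :=
  fun s hs => mem_cenE.2 ⟨hs, ((mem_zen.1 hz).2 s hs).symm⟩

theorem mor_pow_cf {F : FusionSystem S} {P : Subgroup Ω} {f : Ω → Ω} (hf : Mor F P f) {x : Ω}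
    (hx : x ∈ P) (n : ℕ) : f (x ^ n) = f x ^ n := by
  induction n with
  | zero => rw [pow_zero, pow_zero]; exact hf.map_one
  | succ n ih => rw [pow_succ, pow_succ, hf.map_mul (pow_mem hx n) hx, ih]

theorem mor_zpowers_mem {F : FusionSystem S} {P : Subgroup Ω} {f : Ω → Ω} (hf : Mor F P f) {x : Ω}
    (hx : x ∈ P) {y : Ω} (hy : y ∈ Subgroup.zpowers x) : f y ∈ Subgroup.zpowers (f x) := by
  obtain ⟨φ, -, hφf⟩ := hf
  obtain ⟨k, rfl⟩ := Subgroup.mem_zpowers_iff.1 hy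
  have h1 : f (x ^ k) = φ (⟨x, hx⟩ ^ k) := (hφf ⟨x ^ k, zpow_mem hx k⟩).symm
  rw [h1, map_zpow, hφf]
  exact Subgroup.zpow_mem_zpowers _ k

section Sat

variable [Finite S] (hS : IsPGroup 2 S) {F : FusionSystem S} (hF : F.IsSaturated 2)

include hS hF in
/-- A map from a cyclic group onto a subgroup of the centre extends to the centralizer. -/
theorem exists_ext_cen {x : Ω} {f : Ω → Ω} (hf : Mor F (Subgroup.zpowers x) f)
    (hz : f x ∈ zen S) : ∃ f', Mor F (cenE S x) f' ∧ f' x = f x := by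
  have hxm : x ∈ Subgroup.zpowers x := Subgroup.mem_zpowers x
  have hQle : imgS (Subgroup.zpowers x) f ≤ zen S := by
    intro y hy
    obtain ⟨t, ht, rfl⟩ := hf.mem_imgS.1 hy
    exact (Subgroup.zpowers_le.2 hz) (mor_zpowers_mem hf hxm ht)
  have h1 : centralizerIn S (imgS (Subgroup.zpowers x) f) = S := by
    refine le_antisymm inf_le_left (fun s hs => ?_)
    rw [mem_centralizerIn_iff]
    exact ⟨hs, fun y hy => ((mem_zen.1 (hQle hy)).2 s hs).symm⟩
  have hfc : F.IsFullyCentralized (imgS (Subgroup.zpowers x) f) := by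
    refine ⟨hf.imgS_le, fun Q' _ => ?_⟩
    rw [h1]
    exact Subgroup.card_le_of_le (inf_le_left : centralizerIn S Q' ≤ S)
  have hrec := saturated_receptive_of_fullyCentralized hS hF hfc
  obtain ⟨f', hf', hf'f⟩ := receptive_extend' hrec hf rfl
  have hle : cenE S x ≤ extSub S (Subgroup.zpowers x) f := by
    intro g hg
    apply centralizerIn_le_extSub hf
    rw [mem_centralizerIn_iff]
    obtain ⟨hgS, hgx⟩ := mem_cenE.1 hg
    refine ⟨hgS, fun y hy => ?_⟩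
    obtain ⟨k, rfl⟩ := Subgroup.mem_zpowers_iff.1 hy
    exact (show Commute x g from hgx).zpow_left k
  exact ⟨f', hf'.restrict hle, hf'f x hxm⟩

/-- Automorphisms of `S` in the system preserve the centre, in both directions. -/
theorem zen_aut {a : Ω → Ω} (ha : Mor F S a) {w : Ω} (hw : w ∈ S) : a w ∈ zen S ↔ w ∈ zen S := by
  constructor
  · intro h
    refine mem_zen.2 ⟨hw, fun y hy => ?_⟩
    apply ha.injOn (S.mul_mem hy hw) (S.mul_mem hw hy)
    rw [ha.map_mul hy hw, ha.map_mul hw hy]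
    exact (mem_zen.1 h).2 _ (ha.mem hy)
  · intro h
    have himg : imgS S a = S := imgS_eq_of_maps ha (fun x hx => ha.mem hx)
    refine mem_zen.2 ⟨ha.mem hw, fun y hy => ?_⟩
    rw [← himg] at hy
    obtain ⟨y', hy', rfl⟩ := ha.mem_imgS.1 hy
    rw [← ha.map_mul hy' hw, ← ha.map_mul hw hy', (mem_zen.1 h).2 y' hy']

include hS hF in
/-- A central element conjugate to an `n`-th power of a central element is such a power. -/
theorem exists_pow_eq_of_conj {c w : Ω} (hc : c ∈ zen S) (hw : w ∈ zen S) (n : ℕ) {g : Ω → Ω}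
    (hg : Mor F (Subgroup.zpowers c) g) (hgc : g c = w ^ n) : ∃ w₀ ∈ zen S, c = w₀ ^ n := by
  obtain ⟨g', hg', hg'c⟩ := exists_ext_cen hS hF hg (by rw [hgc]; exact pow_mem hw n)
  have ha : Mor F S g' := hg'.restrict (le_cenE_of_mem_zen hc)
  have himg : imgS S g' = S := imgS_eq_of_maps ha (fun x hx => ha.mem hx)
  have hwS : w ∈ imgS S g' := by rw [himg]; exact zen_le S hw
  obtain ⟨w₀, hw₀, hw₀w⟩ := ha.mem_imgS.1 hwS
  have hw₀z : w₀ ∈ zen S := (zen_aut ha hw₀).1 (by rw [hw₀w]; exact hw)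
  refine ⟨w₀, hw₀z, ?_⟩
  apply ha.injOn (zen_le S hc) (pow_mem hw₀ n)
  rw [mor_pow_cf ha hw₀, hw₀w, hg'c, hgc]

end Sat

section Hyp

variable [Finite S] (hS : IsPGroup 2 S) {F : FusionSystem S} (hF : F.IsSaturated 2)
  (h : ∀ x ∈ S, ∃ z ∈ zen S, F.IsConjElt x z)

include hS hF h in
/-- Purity of the centre. -/
theorem exists_pow_eq_of_pow_mem {y : Ω} (hy : y ∈ S) (n : ℕ) (hyn : y ^ n ∈ zen S) :
    ∃ w ∈ zen S, y ^ n = w ^ n := by
  obtain ⟨z, hz, hconj⟩ := h y hy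
  obtain ⟨f, hf, rfl⟩ := isConjElt_iff.1 hconj
  have hym : y ∈ Subgroup.zpowers y := Subgroup.mem_zpowers y
  have hle : Subgroup.zpowers (y ^ n) ≤ Subgroup.zpowers y := Subgroup.zpowers_le.2 (pow_mem hym n)
  exact exists_pow_eq_of_conj hS hF hyn hz n (hf.restrict hle) (mor_pow_cf hf hym n)

include hS hF h in
theorem exists_mor_cen {x : Ω} (hx : x ∈ S) : ∃ f, Mor F (cenE S x) f ∧ f x ∈ zen S := by
  obtain ⟨z, hz, hconj⟩ := h x hx
  obtain ⟨f, hf, rfl⟩ := isConjElt_iff.1 hconj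
  obtain ⟨f', hf', hf'x⟩ := exists_ext_cen hS hF hf hz
  exact ⟨f', hf', by rw [hf'x]; exact hz⟩

include hS hF h in
/-- The key commutator claim. -/
theorem comm_mem_pow {a v : Ω} (ha : a ∈ S) (hv : v ∈ S) (M : ℕ)
    (h1 : a * (v * a * v⁻¹) = (v * a * v⁻¹) * a) (h2 : a * (v * v) = (v * v) * a)
    (hc : a ^ M * (v * a ^ M * v⁻¹) ∈ zen S) :
    ∃ w ∈ zen S, a ^ M * (v * a ^ M * v⁻¹) = w ^ (2 * M) := by
  obtain ⟨c, hcdef⟩ : ∃ c, c = a ^ M * (v * a ^ M * v⁻¹) := ⟨_, rfl⟩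
  rw [← hcdef] at hc ⊢
  have hpow : (a * v) ^ (2 * M) = c * v ^ (2 * M) := by
    rw [hcdef]; exact pow_mul_conj_identity a v M h1 h2
  obtain ⟨q, hqdef⟩ : ∃ q, q = v ^ (2 * M) := ⟨_, rfl⟩
  rw [← hqdef] at hpow
  have hqS : q ∈ S := by rw [hqdef]; exact pow_mem hv _
  obtain ⟨ψ, hψ, hψq⟩ := exists_mor_cen hS hF h hqS
  have haC : a ∈ cenE S q := by
    refine mem_cenE.2 ⟨ha, ?_⟩
    have h3 : Commute (v * v) a := (show Commute a (v * v) from h2).symm
    have hq' : q = (v * v) ^ M := by rw [hqdef, pow_mul, pow_two]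
    rw [hq']
    exact h3.pow_left M
  have hvC : v ∈ cenE S q := by
    refine mem_cenE.2 ⟨hv, ?_⟩
    rw [hqdef]
    exact (Commute.refl v).pow_left _
  have hcC : c ∈ cenE S q := mem_cenE.2 ⟨zen_le S hc, (mem_zen.1 hc).2 q hqS⟩
  have hqC : q ∈ cenE S q := mem_cenE.2 ⟨hqS, rfl⟩
  have havC : a * v ∈ cenE S q := mul_mem haC hvC
  have e1 : (ψ a * ψ v) ^ (2 * M) = ψ c * ψ q := by
    rw [← hψ.map_mul haC hvC, ← mor_pow_cf hψ havC, hpow, hψ.map_mul hcC hqC]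
  have e2 : ψ q = ψ v ^ (2 * M) := by rw [hqdef]; exact mor_pow_cf hψ hvC _
  have hψvS : ψ v ∈ S := hψ.mem hvC
  obtain ⟨w₁, hw₁, e3⟩ := exists_pow_eq_of_pow_mem hS hF h hψvS (2 * M) (by rw [← e2]; exact hψq)
  obtain ⟨s, hsdef⟩ : ∃ s, s = ψ a * ψ v * w₁⁻¹ := ⟨_, rfl⟩
  have hsS : s ∈ S := by
    rw [hsdef]
    exact S.mul_mem (S.mul_mem (hψ.mem haC) hψvS) (S.inv_mem (zen_le S hw₁))
  have e4 : s ^ (2 * M) = ψ c := by
    have hcomm : Commute (ψ a * ψ v) w₁⁻¹ :=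
      (mem_zen.1 (inv_mem hw₁)).2 (ψ a * ψ v) (S.mul_mem (hψ.mem haC) hψvS)
    rw [hsdef, hcomm.mul_pow, e1, e2, e3, inv_pow, mul_inv_cancel_right]
  obtain ⟨z, hz, hconj⟩ := h s hsS
  obtain ⟨φ, hφ, hφs⟩ := isConjElt_iff.1 hconj
  have hsm : s ∈ Subgroup.zpowers s := Subgroup.mem_zpowers s
  have hψc : Mor F (Subgroup.zpowers c) ψ := hψ.restrict (Subgroup.zpowers_le.2 hcC)
  have hmaps : ∀ x ∈ Subgroup.zpowers c, ψ x ∈ Subgroup.zpowers s := by
    intro x hx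
    have h3 := mor_zpowers_mem hψ hcC hx
    have h4 : Subgroup.zpowers (ψ c) ≤ Subgroup.zpowers s := by
      rw [Subgroup.zpowers_le, ← e4]; exact pow_mem hsm _
    exact h4 h3
  have hcomp : Mor F (Subgroup.zpowers c) (φ ∘ ψ) := hψc.comp hφ hmaps
  have e5 : (φ ∘ ψ) c = z ^ (2 * M) := by
    show φ (ψ c) = _
    rw [← e4, mor_pow_cf hφ hsm, hφs]
  exact exists_pow_eq_of_conj hS hF hc hz (2 * M) hcomp e5

omit [Finite S] in
theorem mem_zen_of_fixed [Finite S] {R : Subgroup Ω} {u : Ω} (hRdef : ∀ g, g ∈ R ↔ g ∈ S ∧ u * g = g * u)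
    (hmax : ∀ u' ∈ S, u' ∉ zen S → u' * u' = 1 → Nat.card (cenE S u') ≤ Nat.card R)
    {e g : Ω} (heR : e ∈ R) (hec : ∀ x ∈ R, x * e = e * x) (he2 : e * e = 1)
    (hgS : g ∈ S) (hgR : g ∉ R) (hge : e * g = g * e) : e ∈ zen S := by
  by_contra hne
  have hRS : R ≤ S := fun x hx => ((hRdef x).1 hx).1
  have h1 := hmax e (hRS heR) hne he2
  have hlt : R < cenE S e := by
    refine lt_of_le_of_ne (fun x hx => mem_cenE.2 ⟨hRS hx, (hec x hx).symm⟩) (fun heq => hgR ?_)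
    rw [heq]; exact mem_cenE.2 ⟨hgS, hge⟩
  have : Finite (cenE S e) := finite_of_le (cenE_le S e)
  exact absurd (card_lt_card_of_lt hlt) (not_lt.2 h1)

end Hyp

section Main

variable [Finite S] (hS : IsPGroup 2 S) {F : FusionSystem S} (hF : F.IsSaturated 2)
  (h : ∀ x ∈ S, ∃ z ∈ zen S, F.IsConjElt x z)

include hS hF h in
/-- The local contradiction: if `R = C_S(u)` for a non-central involution `u` with centralizer of
maximal order among the non-central involutions, and `R` is fully automized, then no element of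
`Aut_F(R)` maps `u` into the centre of `S`. -/
theorem no_central_image {R : Subgroup Ω} {u : Ω} (hu : u ∈ S) (hu2 : u * u = 1) (huZ : u ∉ zen S)
    (hRdef : ∀ g, g ∈ R ↔ g ∈ S ∧ u * g = g * u)
    (hmax : ∀ u' ∈ S, u' ∉ zen S → u' * u' = 1 → Nat.card (cenE S u') ≤ Nat.card R)
    (hfa : F.IsFullyAutomized 2 R) {α : MulAut R} (hα : α ∈ F.autGroup R) (huR : u ∈ R)
    (hαu : ((α ⟨u, huR⟩ : R) : Ω) ∈ zen S) : False := by
  have hRS : R ≤ S := fun x hx => ((hRdef x).1 hx).1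
  have hfinR : Finite R := finite_of_le hRS
  have hRp : IsPGroup 2 R := hS.to_le hRS
  have huc : ∀ x ∈ R, x * u = u * x := fun x hx => ((hRdef x).1 hx).2.symm
  have hZR : zen S ≤ R := fun z hz => (hRdef z).2 ⟨zen_le S hz, (mem_zen.1 hz).2 u hu⟩
  have hRlt : R < S := by
    refine lt_of_le_of_ne hRS (fun heq => huZ (mem_zen.2 ⟨hu, fun y hy => huc y ?_⟩))
    rw [heq]; exact hy
  -- an element `v` of `N_S(R) \ R` with `v² ∈ R`
  obtain ⟨g, hgN, hgR⟩ := exists_mem_normalizerIn_not_mem hS hRlt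
  have hgS : g ∈ S := (mem_normalizerIn_iff.1 hgN).1
  obtain ⟨k, hk⟩ := hS ⟨g, hgS⟩
  have hk' : g ^ 2 ^ k ∈ R := by
    have h1 : g ^ 2 ^ k = 1 := by
      have := congrArg Subtype.val hk
      simpa using this
    rw [h1]; exact R.one_mem
  obtain ⟨j, hvR, hvvR⟩ := exists_sq_mem_not_mem R hgR hk'
  obtain ⟨v, hvdef⟩ : ∃ v, v = g ^ 2 ^ j := ⟨_, rfl⟩
  rw [← hvdef] at hvR hvvR
  have hvN : v ∈ normalizerIn S R := by rw [hvdef]; exact pow_mem hgN _
  have hvS : v ∈ S := (mem_normalizerIn_iff.1 hvN).1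
  have hvn : v ∈ Subgroup.normalizer (R : Set Ω) := (mem_normalizerIn_iff.1 hvN).2
  -- the automorphism `τ` induced by `v`
  have hcv : Mor F R (fun x => v * x * v⁻¹) := Mor.conj F hRS hvS
  have himg : imgS R (fun x => v * x * v⁻¹) = R :=
    imgS_eq_of_maps hcv (fun x hx => conj_mem_of_mem_normalizer hvn hx)
  obtain ⟨τ, hτdef⟩ : ∃ τ : MulAut R, τ = mkAut hcv himg := ⟨_, rfl⟩
  have hτ : ∀ x : R, ((τ x : R) : Ω) = v * x * v⁻¹ := fun x => by rw [hτdef]; rfl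
  have hτA : τ ∈ F.autGroup R := by rw [hτdef]; exact mkAut_mem hcv himg
  have hτS : τ ∈ autInducedBy S R := (mem_autInducedBy_iff S R τ).2 ⟨v, hvS, hτ⟩
  -- `τ` is unipotent on the chain
  have hτU : ChainUnip R τ := by
    rintro i e ⟨heO, a, haC, rfl⟩
    have haS : (a : Ω) ∈ S := hRS a.2
    have hac : ∀ x ∈ R, x * (a : Ω) = (a : Ω) * x := fun x hx => by
      have := Subgroup.mem_center_iff.1 haC ⟨x, hx⟩
      exact congrArg Subtype.val this
    have h1 : (a : Ω) * (v * (a : Ω) * v⁻¹) = (v * (a : Ω) * v⁻¹) * (a : Ω) :=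
      (hac _ (conj_mem_of_mem_normalizer hvn a.2)).symm
    have h2 : (a : Ω) * (v * v) = (v * v) * (a : Ω) := (hac _ hvvR).symm
    obtain ⟨E, hEdef⟩ : ∃ E : Ω, E = (a : Ω) ^ 2 ^ i := ⟨_, rfl⟩
    have hER : E ∈ R := by rw [hEdef]; exact pow_mem a.2 _
    have hEc : ∀ x ∈ R, x * E = E * x := fun x hx => by
      rw [hEdef]
      exact (show Commute x (a : Ω) from hac x hx).pow_right _
    have hE2 : E * E = 1 := by
      have := congrArg Subtype.val heO.2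
      rw [hEdef]
      simpa using this
    have hcomm1 : E * (v * E * v⁻¹) = (v * E * v⁻¹) * E :=
      (hEc _ (conj_mem_of_mem_normalizer hvn hER)).symm
    have hcomm2 : E * (v * v) = (v * v) * E := (hEc _ hvvR).symm
    obtain ⟨c, hcdef⟩ : ∃ c : R, c = τ (a ^ 2 ^ i) * a ^ 2 ^ i := ⟨_, rfl⟩
    have hcO : c ∈ omegaCenter R := by
      rw [hcdef]; exact mul_mem (map_mem_omegaCenter τ heO) heO
    have hcval : (c : Ω) = E * (v * E * v⁻¹) := by
      rw [hcdef, Subgroup.coe_mul, hτ, Subgroup.coe_pow, ← hEdef, hcomm1]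
    have hcfix : (c : Ω) * v = v * (c : Ω) := by
      rw [hcval]
      calc E * (v * E * v⁻¹) * v = (v * E * v⁻¹) * E * v := by rw [hcomm1]
        _ = v * E * v⁻¹ * (E * (v * v)) * v⁻¹ := by group
        _ = v * E * v⁻¹ * ((v * v) * E) * v⁻¹ := by rw [hcomm2]
        _ = v * (E * (v * E * v⁻¹)) := by group
    have hcc : ∀ x ∈ R, x * (c : Ω) = (c : Ω) * x := fun x hx => by
      have := Subgroup.mem_center_iff.1 hcO.1 ⟨x, hx⟩
      exact congrArg Subtype.val this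
    have hc2 : (c : Ω) * (c : Ω) = 1 := congrArg Subtype.val hcO.2
    have hcZ : (c : Ω) ∈ zen S := mem_zen_of_fixed hRdef hmax c.2 hcc hc2 hvS hvR hcfix
    rw [hcval, hEdef] at hcZ
    obtain ⟨w, hw, hcw⟩ := comm_mem_pow hS hF h haS hvS (2 ^ i) h1 h2 hcZ
    show τ (a ^ 2 ^ i) * a ^ 2 ^ i ∈ omegaChain R (i + 1)
    rw [← hcdef]
    refine ⟨hcO, ⟨w, hZR hw⟩, Subgroup.mem_center_iff.2 (fun x => Subtype.ext ?_), Subtype.ext ?_⟩
    · exact (mem_zen.1 hw).2 x (hRS x.2)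
    · show w ^ 2 ^ (i + 1) = (c : Ω)
      rw [hcval, hEdef, hcw, pow_succ']
  -- the Sylow subgroup and the restriction map
  obtain ⟨-, P, hP⟩ := hfa
  have hfinA : Finite (MulAut R) :=
    Finite.of_injective (fun σ : MulAut R => (σ : R → R)) DFunLike.coe_injective
  obtain ⟨ρ, hρdef⟩ : ∃ ρ : F.autGroup R →* MulAut (omegaCenter R),
      ρ = (resAut R).comp (F.autGroup R).subtype := ⟨_, rfl⟩
  have hρ : ∀ b : F.autGroup R, ∀ e : omegaCenter R,
      (((ρ b e : omegaCenter R) : R) : Ω) = (((b : MulAut R) (e : R) : R) : Ω) := by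
    intro b e; rw [hρdef]; rfl
  have hτP : (⟨τ, hτA⟩ : F.autGroup R) ∈ P := by
    have : (⟨τ, hτA⟩ : F.autGroup R) ∈ (P : Subgroup (F.autGroup R)) := by
      rw [hP]; exact Subgroup.mem_subgroupOf.2 hτS
    exact this
  have hx : ρ ⟨τ, hτA⟩ ∈ unipSub R := by
    rw [hρdef]; exact resAut_mem_unipSub hτU
  have hy : ρ (⟨α, hα⟩ * ⟨τ, hτA⟩ * ⟨α, hα⟩⁻¹) ∈ unipSub R := by
    rw [hρdef]; exact resAut_mem_unipSub (hτU.conj α)
  obtain ⟨g', b₁, hb₁, b₂, hb₂, e₁, e₂⟩ :=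
    exists_conj_sylow_of_map_mem ρ P (unipSub R) (unipSub_isPGroup hRp) hx hy
  -- fixed points of the elements of the Sylow subgroup
  have hfix : ∀ b : F.autGroup R, b ∈ P → ρ b ≠ 1 → ∀ e : omegaCenter R,
      ρ b e = e ↔ ((e : R) : Ω) ∈ zen S := by
    intro b hb hne e
    have hb' : (b : MulAut R) ∈ autInducedBy S R := by
      have : b ∈ (P : Subgroup (F.autGroup R)) := hb
      rw [hP] at this
      exact Subgroup.mem_subgroupOf.1 this
    obtain ⟨s, hsS, hs⟩ := (mem_autInducedBy_iff S R _).1 hb'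
    have hcen : ∀ e' : omegaCenter R, ∀ x ∈ R, x * ((e' : R) : Ω) = ((e' : R) : Ω) * x := by
      intro e' x hx
      have := Subgroup.mem_center_iff.1 e'.2.1 ⟨x, hx⟩
      exact congrArg Subtype.val this
    have hsR : s ∉ R := by
      intro hsR
      apply hne
      ext e'
      rw [hρ, hs]
      show s * ((e' : R) : Ω) * s⁻¹ = ((e' : R) : Ω)
      rw [hcen e' s hsR, mul_inv_cancel_right]
    constructor
    · intro hfx
      have h3 : (((ρ b e : omegaCenter R) : R) : Ω) = ((e : R) : Ω) := by rw [hfx]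
      rw [hρ, hs] at h3
      have h4 : ((e : R) : Ω) * s = s * ((e : R) : Ω) := by
        conv_lhs => rw [← h3]
        group
      exact mem_zen_of_fixed hRdef hmax (e : R).2 (hcen e) (congrArg Subtype.val e.2.2) hsS hsR h4
    · intro hz
      apply Subtype.ext
      apply Subtype.ext
      rw [hρ, hs, (mem_zen.1 hz).2 s hsS, mul_inv_cancel_right]
  -- `τ` moves `u`
  obtain ⟨uE, huE⟩ : ∃ uE : omegaCenter R, ((uE : R) : Ω) = u :=
    ⟨⟨⟨u, huR⟩, Subgroup.mem_center_iff.2 (fun x => Subtype.ext (huc x x.2)), Subtype.ext hu2⟩, rfl⟩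
  have hτne : ρ ⟨τ, hτA⟩ ≠ 1 := by
    intro h1
    have h2 : (((ρ ⟨τ, hτA⟩ uE : omegaCenter R) : R) : Ω) = ((uE : R) : Ω) := by rw [h1]; rfl
    rw [hρ] at h2
    have h3 : (((τ (uE : R)) : R) : Ω) = ((uE : R) : Ω) := h2
    rw [hτ, huE] at h3
    apply hvR
    rw [hRdef]
    refine ⟨hvS, ?_⟩
    conv_lhs => rw [← h3]
    group
  have hτfix := hfix _ hτP hτne
  have e₁' : ρ ⟨τ, hτA⟩ = ρ g' * ρ b₁ * (ρ g')⁻¹ := by rw [e₁, map_mul, map_mul, map_inv]
  have e₂' : ρ (⟨α, hα⟩ * ⟨τ, hτA⟩ * ⟨α, hα⟩⁻¹) = ρ g' * ρ b₂ * (ρ g')⁻¹ := by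
    rw [e₂, map_mul, map_mul, map_inv]
  have e₃ : ρ (⟨α, hα⟩ * ⟨τ, hτA⟩ * ⟨α, hα⟩⁻¹) = ρ ⟨α, hα⟩ * ρ ⟨τ, hτA⟩ * (ρ ⟨α, hα⟩)⁻¹ := by
    rw [map_mul, map_mul, map_inv]
  have hb₁ne : ρ b₁ ≠ 1 := by
    intro h1
    apply hτne
    rw [e₁', h1, mul_one, mul_inv_cancel]
  have hyne : ρ (⟨α, hα⟩ * ⟨τ, hτA⟩ * ⟨α, hα⟩⁻¹) ≠ 1 := by
    intro h1
    apply hτne
    rw [e₃] at h1
    have h2 : ρ ⟨τ, hτA⟩ = (ρ ⟨α, hα⟩)⁻¹ * (ρ ⟨α, hα⟩ * ρ ⟨τ, hτA⟩ * (ρ ⟨α, hα⟩)⁻¹) * ρ ⟨α, hα⟩ := by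
      group
    rw [h2, h1]
    group
  have hb₂ne : ρ b₂ ≠ 1 := by
    intro h1
    apply hyne
    rw [e₂', h1, mul_one, mul_inv_cancel]
  have hfix₁ := hfix b₁ hb₁ hb₁ne
  have hfix₂ := hfix b₂ hb₂ hb₂ne
  -- the centre is invariant under `α`
  have hinv : ∀ e : omegaCenter R, ((e : R) : Ω) ∈ zen S ↔
      ((((ρ ⟨α, hα⟩)⁻¹ e : omegaCenter R) : R) : Ω) ∈ zen S := by
    intro e
    rw [← hτfix e, ← hτfix ((ρ ⟨α, hα⟩)⁻¹ e), ← conj_fix_iff, ← e₃, e₂', conj_fix_iff, hfix₂,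
      e₁', conj_fix_iff, hfix₁]
  have h5 := (hinv (ρ ⟨α, hα⟩ uE)).1 (by
    rw [hρ]
    have : ((uE : R)) = ⟨u, huR⟩ := Subtype.ext huE
    rw [this]
    exact hαu)
  rw [MulAut.inv_apply_self, huE] at h5
  exact huZ h5

end Main

/-- The predicate on maps used with Alperin's theorem: involutions whose centralizer in the source
has order at least `m` are central in `S` iff their images are. -/
def GoodC (S : Subgroup Ω) (m : ℕ) (P : Subgroup Ω) (f : Ω → Ω) : Prop :=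
  ∀ u ∈ P, u * u = 1 → m ≤ Nat.card (cenE P u) → (u ∈ zen S ↔ f u ∈ zen S)

theorem card_cenE_le [Finite S] {F : FusionSystem S} {P Q : Subgroup Ω} {f : Ω → Ω}
    (hf : Mor F P f) (hQ : Q ≤ S) (hmaps : ∀ x ∈ P, f x ∈ Q) {u : Ω} (hu : u ∈ P) :
    Nat.card (cenE P u) ≤ Nat.card (cenE Q (f u)) := by
  have hres : Mor F (cenE P u) f := hf.restrict (cenE_le P u)
  rw [← hres.card_imgS]
  have : Finite (cenE Q (f u)) := finite_of_le ((cenE_le Q _).trans hQ)
  apply Subgroup.card_le_of_le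
  intro y hy
  obtain ⟨x, hx, rfl⟩ := hres.mem_imgS.1 hy
  obtain ⟨hxP, hxu⟩ := mem_cenE.1 hx
  refine mem_cenE.2 ⟨hmaps x hxP, ?_⟩
  rw [← hf.map_mul hu hxP, ← hf.map_mul hxP hu, hxu]

theorem GoodC.congr {m : ℕ} {P : Subgroup Ω} {f g : Ω → Ω} (hfg : ∀ x ∈ P, f x = g x)
    (hC : GoodC S m P f) : GoodC S m P g := fun u hu hu2 hm => by
  rw [← hfg u hu]; exact hC u hu hu2 hm

theorem GoodC.conj {m : ℕ} {P : Subgroup Ω} {g : Ω} (hg : g ∈ S) :
    GoodC S m P (fun x => g * x * g⁻¹) := by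
  intro u _ _ _
  constructor
  · intro hz
    have : g * u * g⁻¹ = u := by rw [(mem_zen.1 hz).2 g hg, mul_inv_cancel_right]
    show g * u * g⁻¹ ∈ zen S
    rw [this]; exact hz
  · intro hz
    have h1 : g⁻¹ * (g * u * g⁻¹) * g = g * u * g⁻¹ := by
      rw [(mem_zen.1 hz).2 g⁻¹ (S.inv_mem hg), inv_mul_cancel_right]
    have h2 : g⁻¹ * (g * u * g⁻¹) * g = u := by group
    rw [← h2, h1]; exact hz

theorem GoodC.comp [Finite S] {F : FusionSystem S} {m : ℕ} {P R : Subgroup Ω} {f g : Ω → Ω}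
    (hf : Mor F P f) (hg : Mor F R g) (hfR : ∀ x ∈ P, f x ∈ R) (hC : GoodC S m P f)
    (hC' : GoodC S m R g) : GoodC S m P (g ∘ f) := by
  intro u hu hu2 hm
  refine (hC u hu hu2 hm).trans (hC' (f u) (hfR u hu) ?_ (hm.trans (card_cenE_le hf hg.le hfR hu)))
  rw [← hf.map_mul hu hu, hu2, hf.map_one]

theorem GoodC.inv [Finite S] {F : FusionSystem S} {m : ℕ} {P : Subgroup Ω} {f : Ω → Ω}
    (hf : Mor F P f) (hC : GoodC S m P f) : GoodC S m (imgS P f) (invOn P f) := by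
  intro u' hu' hu'2 hm
  obtain ⟨u, hu, rfl⟩ := hf.mem_imgS.1 hu'
  have hu2 : u * u = 1 := by
    apply hf.injOn (P.mul_mem hu hu) P.one_mem
    rw [hf.map_mul hu hu, hu'2, hf.map_one]
  have h1 := card_cenE_le hf.inv hf.le (fun y hy => hf.invOn_mem hy) hu'
  rw [invOn_apply hf.injOn hu] at h1 ⊢
  exact (hC u hu hu2 (hm.trans h1)).symm

/-- **Camina–Herzog for fusion systems.** A saturated fusion system over a finite `2`-group `S` in
which every element of `S` is conjugate to an element of `Z(S)` has `S` abelian. -/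
theorem abelian_of_conj_into_center [Finite S] (hS : IsPGroup 2 S) {F : FusionSystem S}
    (hF : F.IsSaturated 2) (h : ∀ x ∈ S, ∃ z ∈ zen S, F.IsConjElt x z) :
    ∀ x ∈ S, ∀ y ∈ S, x * y = y * x := by
  by_contra hne
  push Not at hne
  obtain ⟨x, hx, y, hy, hxy⟩ := hne
  have hxZ : x ∉ zen S := fun hz => hxy ((mem_zen.1 hz).2 y hy).symm
  -- a non-central involution
  obtain ⟨k, hk⟩ := hS ⟨x, hx⟩
  have hk' : x ^ 2 ^ k ∈ zen S := by
    have h1 : x ^ 2 ^ k = 1 := by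
      have := congrArg Subtype.val hk
      simpa using this
    rw [h1]; exact (zen S).one_mem
  obtain ⟨j, hy0, hy0sq⟩ := exists_sq_mem_not_mem (zen S) hxZ hk'
  obtain ⟨y0, hy0def⟩ : ∃ y0, y0 = x ^ 2 ^ j := ⟨_, rfl⟩
  rw [← hy0def] at hy0 hy0sq
  have hy0S : y0 ∈ S := by rw [hy0def]; exact pow_mem hx _
  obtain ⟨w, hw, hyw⟩ := exists_pow_eq_of_pow_mem hS hF h hy0S 2 (by rw [pow_two]; exact hy0sq)
  have hu1S : y0 * w⁻¹ ∈ S := S.mul_mem hy0S (S.inv_mem (zen_le S hw))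
  have hu1sq : (y0 * w⁻¹) * (y0 * w⁻¹) = 1 := by
    have hc : Commute y0 w⁻¹ := (mem_zen.1 (inv_mem hw)).2 y0 hy0S
    rw [← pow_two, hc.mul_pow, hyw, inv_pow, mul_inv_cancel]
  have hu1Z : y0 * w⁻¹ ∉ zen S := fun hz => hy0 (by
    have := mul_mem hz hw
    simpa using this)
  -- a non-central involution with centralizer of maximal order
  have hfin : {u : Ω | u ∈ S ∧ u ∉ zen S ∧ u * u = 1}.Finite :=
    (Set.toFinite (S : Set Ω)).subset (fun u hu => hu.1)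
  obtain ⟨u, ⟨huS, huZ, hu2⟩, humax⟩ := Set.exists_max_image _ (fun u => Nat.card (cenE S u)) hfin
    ⟨_, hu1S, hu1Z, hu1sq⟩
  obtain ⟨m, hmdef⟩ : ∃ m, m = Nat.card (cenE S u) := ⟨_, rfl⟩
  have hmax : ∀ u' ∈ S, u' ∉ zen S → u' * u' = 1 → Nat.card (cenE S u') ≤ m :=
    fun u' h1 h2 h3 => hmdef ▸ humax u' ⟨h1, h2, h3⟩
  -- the subsystem of the maps satisfying `GoodC`
  obtain ⟨E, hEdef⟩ : ∃ E : FusionSystem S, E = Cfsg.Agent.H88.subSys F (GoodC S m)
      (fun _ _ _ _ hfg hC => GoodC.congr hfg hC) (fun _ _ _ hg => GoodC.conj hg)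
      (fun _ _ _ _ hf hg hfR hC hC' => GoodC.comp hf hg hfR hC hC')
      (fun _ _ hf hC => GoodC.inv hf hC) := ⟨_, rfl⟩
  have hEiff : ∀ (P : Subgroup Ω) (f : Ω → Ω), Mor E P f ↔ Mor F P f ∧ GoodC S m P f := by
    intro P f; rw [hEdef]; exact Cfsg.Agent.H88.mor_subSys_iff
  have hE : ∀ P : Subgroup Ω, (P = S ∨ F.IsEssential 2 P) → F.autGroup P ≤ E.autGroup P := by
    intro P hP α hα
    have hPS : P ≤ S := by
      rcases hP with rfl | hess
      · exact le_rfl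
      · exact hess.1.1
    have hαM := (mem_autGroup_iff hPS α).1 hα
    rw [mem_autGroup_iff hPS, hEiff]
    refine ⟨hαM, ?_⟩
    have key : ∀ β ∈ F.autGroup P, ∀ u' ∈ P, u' * u' = 1 → m ≤ Nat.card (cenE P u') →
        u' ∉ zen S → autFun P β u' ∉ zen S := by
      intro β hβ u' hu' hu'2 hm hu'Z hβZ
      have hβM := (mem_autGroup_iff hPS β).1 hβ
      rcases hP with rfl | hess
      · exact hu'Z ((zen_aut hβM hu').1 hβZ)
      · have hfa := (saturated_fullyNormalized hS hF hess.2.1).2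
        have h1 : Nat.card (cenE S u') ≤ m := hmax u' (hPS hu') hu'Z hu'2
        have h2 : cenE P u' ≤ cenE S u' :=
          fun g hg => mem_cenE.2 ⟨hPS (mem_cenE.1 hg).1, (mem_cenE.1 hg).2⟩
        have hfinC : Finite (cenE S u') := finite_of_le (cenE_le S u')
        have h3 : cenE P u' = cenE S u' := Subgroup.eq_of_le_of_card_ge h2 (h1.trans hm)
        have h4 : cenE S u' ≤ P := h3 ▸ cenE_le P u'
        have h5 : ∀ x ∈ P, x * u' = u' * x := by
          intro x hx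
          apply hβM.injOn (P.mul_mem hx hu') (P.mul_mem hu' hx)
          rw [hβM.map_mul hx hu', hβM.map_mul hu' hx]
          exact (mem_zen.1 hβZ).2 _ (hβM.mem hx)
        have hRdef : ∀ g, g ∈ P ↔ g ∈ S ∧ u' * g = g * u' :=
          fun g => ⟨fun hg => ⟨hPS hg, (h5 g hg).symm⟩, fun hg => h4 (mem_cenE.2 hg)⟩
        have hfinP : Finite P := finite_of_le hPS
        have hcardP : m ≤ Nat.card P := hm.trans (Subgroup.card_le_of_le (cenE_le P u'))
        have hmax' : ∀ u'' ∈ S, u'' ∉ zen S → u'' * u'' = 1 →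
            Nat.card (cenE S u'') ≤ Nat.card P := fun a b c d => (hmax a b c d).trans hcardP
        have hβZ' : ((β ⟨u', hu'⟩ : P) : Ω) ∈ zen S := by
          rw [← autFun_of_mem β hu']; exact hβZ
        exact no_central_image hS hF h (hPS hu') hu'2 hu'Z hRdef hmax' hfa hβ hu' hβZ'
    intro u' hu' hu'2 hm
    constructor
    · intro hz
      by_contra hne
      have h1 : autFun P α u' ∈ P := autFun_mem α hu'
      have h2 : autFun P α u' * autFun P α u' = 1 := by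
        rw [← hαM.map_mul hu' hu', hu'2, hαM.map_one]
      have h3 : m ≤ Nat.card (cenE P (autFun P α u')) :=
        hm.trans (card_cenE_le hαM hPS (fun x hx => autFun_mem α hx) hu')
      have h4 := key α⁻¹ (inv_mem hα) _ h1 h2 h3 hne
      rw [autFun_inv_apply α hu'] at h4
      exact h4 hz
    · intro hz
      by_contra hne
      exact key α hα u' hu' hu'2 hm hne hz
  have hall := alperin hS hF E hE
  obtain ⟨f, hf, hfu⟩ := exists_mor_cen hS hF h huS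
  have hfE := (hEiff _ _).1 (hall _ f hf)
  have huC : u ∈ cenE S u := mem_cenE.2 ⟨huS, rfl⟩
  have hm : m ≤ Nat.card (cenE (cenE S u) u) := by
    have : cenE (cenE S u) u = cenE S u :=
      le_antisymm (cenE_le _ _) (fun g hg => mem_cenE.2 ⟨hg, (mem_cenE.1 hg).2⟩)
    rw [this, hmdef]
  exact huZ ((hfE.2 u huC hu2 hm).2 hfu)

end Cfsg.Agent.H67
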