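import Mathlib
import Cfsg.Prelude.Def_Local
import Cfsg.Agent.H27.Comp
import Cfsg.Agent.H38.PiCore
import Cfsg.Agent.H67.PrimeGraph
import Cfsg.Agent.H67.AbelianIndexP

/-!
helper67: groups with a cyclic Sylow `p`-subgroup and trivial `p'`-core.
-/

set_option autoImplicit false
set_option linter.style.haveILetI false

namespace Cfsg.Agent.H67

open Cfsg
open scoped commutatorElement

universe u

/-- Every `p`-subgroup is cyclic. -/
def AllPCyclic (p : ℕ) (L : Type*) [Group L] : Prop :=
  ∀ Q : Subgroup L, IsPGroup p Q → IsCyclic Q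

theorem allPCyclic_of_sylow {L : Type u} [Group L] [Finite L] {p : ℕ} [Fact p.Prime]
    (P : Sylow p L) (hP : IsCyclic ↥(P : Subgroup L)) : AllPCyclic p L := by
  intro Q hQ
  obtain ⟨R, hR⟩ := hQ.exists_le_sylow
  obtain ⟨g, hg⟩ := MulAction.exists_smul_eq L P R
  haveI : IsCyclic ↥(R : Subgroup L) := by
    rw [← hg]
    exact isCyclic_of_surjective (P.equivSMul g) (P.equivSMul g).surjective
  exact Subgroup.isCyclic_of_le hR

theorem AllPCyclic.subgroup {L : Type u} [Group L] {p : ℕ} (h : AllPCyclic p L) (H : Subgroup L) :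
    AllPCyclic p ↥H := by
  intro Q hQ
  haveI : IsCyclic ↥(Q.map H.subtype) := h _ (hQ.map _)
  exact isCyclic_of_injective (Q.equivMapOfInjective H.subtype H.subtype_injective).toMonoidHom
    (Q.equivMapOfInjective H.subtype H.subtype_injective).injective

/-- In a finite cyclic group, the solutions of `y ^ n = 1` lie in the subgroup generated by any
element of order `n`. -/
theorem mem_zpowers_of_orderOf_eq_of_isCyclic {C : Type*} [Group C] [Finite C] [IsCyclic C] {n : ℕ}
    (hn : 0 < n) {x y : C} (hx : orderOf x = n) (hy : y ^ n = 1) : y ∈ Subgroup.zpowers x := by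
  classical
  haveI := Fintype.ofFinite C
  have h1 : (Finset.univ.filter fun a : C => a ^ n = 1).card ≤ n := by
    convert IsCyclic.card_pow_eq_one_le (α := C) hn
  have hsub : (Finset.univ.filter fun a : C => a ∈ Subgroup.zpowers x) ⊆
      (Finset.univ.filter fun a : C => a ^ n = 1) := by
    intro a ha
    simp only [Finset.mem_filter, Finset.mem_univ, true_and] at ha ⊢
    obtain ⟨k, rfl⟩ := ha
    rw [← zpow_natCast, ← zpow_mul, mul_comm, zpow_mul, zpow_natCast, ← hx, pow_orderOf_eq_one,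
      one_zpow]
  have hc : (Finset.univ.filter fun a : C => a ∈ Subgroup.zpowers x).card = n := by
    rw [← hx, ← Nat.card_zpowers, Nat.card_eq_fintype_card, Fintype.card_subtype]
  have hEq := Finset.eq_of_subset_of_card_le hsub (by rw [hc]; exact h1)
  have hy' : y ∈ (Finset.univ.filter fun a : C => a ^ n = 1) := by simp [hy]
  rw [← hEq] at hy'
  simpa using hy'

/-- If all `p`-subgroups are cyclic, any two elements of order `p` generate conjugate subgroups. -/
theorem exists_conj_mem_zpowers {L : Type u} [Group L] [Finite L] {p : ℕ} [Fact p.Prime]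
    (h : AllPCyclic p L) {x y : L} (hx : orderOf x = p) (hy : orderOf y = p) :
    ∃ g : L, y ∈ Subgroup.zpowers (g * x * g⁻¹) := by
  have hp := (Fact.out : p.Prime)
  have hyp : IsPGroup p (Subgroup.zpowers y) :=
    IsPGroup.of_card (n := 1) (by rw [Nat.card_zpowers, hy, pow_one])
  have hxp : IsPGroup p (Subgroup.zpowers x) :=
    IsPGroup.of_card (n := 1) (by rw [Nat.card_zpowers, hx, pow_one])
  obtain ⟨Q, hQ⟩ := hyp.exists_le_sylow
  obtain ⟨Q', hQ'⟩ := hxp.exists_le_sylow
  obtain ⟨g, hg⟩ := MulAction.exists_smul_eq L Q' Q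
  refine ⟨g, ?_⟩
  have hx' : g * x * g⁻¹ ∈ (Q : Subgroup L) := by
    rw [← hg]
    have := Subgroup.smul_mem_pointwise_smul x (MulAut.conj g) (Q' : Subgroup L)
      (hQ' (Subgroup.mem_zpowers x))
    have h3 : MulAut.conj g • x = g * x * g⁻¹ := by simp [MulAut.smul_def]
    rw [h3] at this
    exact this
  haveI : IsCyclic ↥(Q : Subgroup L) := h _ Q.2
  have key := mem_zpowers_of_orderOf_eq_of_isCyclic (C := ↥(Q : Subgroup L)) hp.pos
    (x := ⟨g * x * g⁻¹, hx'⟩) (y := ⟨y, hQ (Subgroup.mem_zpowers y)⟩) ?_ ?_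
  · obtain ⟨k, hk⟩ := key
    exact ⟨k, by simpa using congrArg Subtype.val hk⟩
  · rw [Subgroup.orderOf_mk]
    have := orderOf_injective (MulAut.conj g).toMonoidHom (MulAut.conj g).injective x
    simpa using this.trans hx
  · ext
    simp [← hy, pow_orderOf_eq_one]

/-- Relative version. -/
theorem exists_conj_mem_zpowers_of_mem {L : Type u} [Group L] [Finite L] {p : ℕ} [Fact p.Prime]
    (h : AllPCyclic p L) (H : Subgroup L) {x y : L} (hxH : x ∈ H) (hyH : y ∈ H)
    (hx : orderOf x = p) (hy : orderOf y = p) :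
    ∃ g ∈ H, y ∈ Subgroup.zpowers (g * x * g⁻¹) := by
  obtain ⟨g, hg⟩ := exists_conj_mem_zpowers (h.subgroup H) (x := ⟨x, hxH⟩) (y := ⟨y, hyH⟩)
    (by rw [Subgroup.orderOf_mk]; exact hx) (by rw [Subgroup.orderOf_mk]; exact hy)
  refine ⟨g, g.2, ?_⟩
  obtain ⟨k, hk⟩ := hg
  exact ⟨k, by simpa using congrArg Subtype.val hk⟩

/-- A central element of an abelian Sylow `p`-subgroup that lies in the commutator subgroup is
trivial (transfer). -/
theorem eq_one_of_mem_sylow_center_commutator {G : Type u} [Group G] [Finite G] {p : ℕ}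
    [Fact p.Prime] (P : Sylow p G)
    (hP : ∀ a ∈ (P : Subgroup G), ∀ b ∈ (P : Subgroup G), a * b = b * a)
    {z : G} (hzP : z ∈ (P : Subgroup G)) (hzZ : z ∈ Subgroup.center G)
    (hzC : z ∈ commutator G) : z = 1 := by
  have hp := (Fact.out : p.Prime)
  letI : CommGroup ↥(P : Subgroup G) :=
    { (inferInstance : Group ↥(P : Subgroup G)) with
      mul_comm := fun a b => Subtype.ext (hP a a.2 b b.2) }
  have key : ∀ (k : ℕ) (g₀ : G), g₀⁻¹ * z ^ k * g₀ ∈ (P : Subgroup G) →
      g₀⁻¹ * z ^ k * g₀ = z ^ k := by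
    intro k g₀ _
    have hc : z ^ k ∈ Subgroup.center G := Subgroup.pow_mem _ hzZ k
    rw [Subgroup.mem_center_iff] at hc
    rw [mul_assoc, ← hc g₀, inv_mul_cancel_left]
  have h1 := MonoidHom.transfer_eq_pow (MonoidHom.id ↥(P : Subgroup G)) z key
  have h2 : MonoidHom.transfer (MonoidHom.id ↥(P : Subgroup G)) z = 1 :=
    Abelianization.commutator_subset_ker _ hzC
  rw [h2] at h1
  have h3 : z ^ (P : Subgroup G).index = 1 := by
    have := congrArg Subtype.val h1
    simpa using this.symm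
  obtain ⟨k, hk⟩ := P.2 ⟨z, hzP⟩
  have hk' : z ^ p ^ k = 1 := by simpa using congrArg Subtype.val hk
  have hcop : (p ^ k).Coprime (P : Subgroup G).index :=
    ((Nat.Prime.coprime_iff_not_dvd hp).2 P.not_dvd_index).pow_left k
  have hd := Nat.dvd_gcd (orderOf_dvd_of_pow_eq_one hk') (orderOf_dvd_of_pow_eq_one h3)
  rw [hcop.gcd_eq_one] at hd
  exact orderOf_eq_one_iff.mp (Nat.dvd_one.mp hd)

/-- A normal `p`-subgroup lies in every Sylow `p`-subgroup. -/
theorem normal_pgroup_le_sylow {L : Type u} [Group L] [Finite L] {p : ℕ} [Fact p.Prime]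
    (P : Sylow p L) (N : Subgroup L) [hNn : N.Normal] (hN : IsPGroup p N) :
    N ≤ (P : Subgroup L) := by
  obtain ⟨Q, hQ⟩ := hN.exists_le_sylow
  obtain ⟨g, hg⟩ := MulAction.exists_smul_eq L Q P
  intro n hn
  have h1 : g⁻¹ * n * g ∈ N := by simpa using hNn.conj_mem n hn g⁻¹
  have h2 := Subgroup.smul_mem_pointwise_smul _ (MulAut.conj g) (Q : Subgroup L) (hQ h1)
  rw [← hg]
  have h3 : MulAut.conj g • (g⁻¹ * n * g) = n := by simp [MulAut.smul_def, mul_assoc]
  rw [h3] at h2
  exact h2

/-- In a normal subgroup whose index is prime to `p`, every `p`-element lies. -/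
theorem mem_of_pow_prime_pow_eq_one_of_not_dvd_index {L : Type u} [Group L] {p : ℕ} [Fact p.Prime]
    (H : Subgroup L) [H.Normal] (hi : ¬ p ∣ H.index) {x : L} {k : ℕ} (hx : x ^ p ^ k = 1) :
    x ∈ H := by
  have hp := (Fact.out : p.Prime)
  have hcop : (H.index).Coprime (orderOf x) := by
    have h1 : orderOf x ∣ p ^ k := orderOf_dvd_of_pow_eq_one hx
    have h2 : (H.index).Coprime (p ^ k) :=
      (((Nat.Prime.coprime_iff_not_dvd hp).2 hi).pow_left k).symm
    exact Nat.Coprime.coprime_dvd_right h1 h2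
  obtain ⟨m, hm⟩ := exists_pow_eq_self_of_coprime hcop
  rw [← hm]
  exact H.pow_mem (H.pow_index_mem x) m

/-- If a normal cyclic Sylow `p`-subgroup `P` is self-centralizing, then `K ⧸ P` embeds in the
units of `ZMod p`. -/
theorem exists_injective_quotient_to_units {K : Type u} [Group K] [Finite K] {p : ℕ}
    [Fact p.Prime] (P : Sylow p K) [hn : (P : Subgroup K).Normal]
    (hP : IsCyclic ↥(P : Subgroup K))
    (hC : Subgroup.centralizer ((P : Subgroup K) : Set K) = (P : Subgroup K))
    (hp : p ∣ Nat.card K) :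
    ∃ f : K ⧸ (P : Subgroup K) →* (ZMod p)ˣ, Function.Injective f := by
  have hpp := (Fact.out : p.Prime)
  obtain ⟨φ, hφ⟩ : ∃ φ : K →* MulAut ↥(P : Subgroup K), φ = MulAut.conjNormal := ⟨_, rfl⟩
  have hker : ∀ k : K, φ k = 1 ↔ k ∈ (P : Subgroup K) := by
    intro k
    have hC' : k ∈ (P : Subgroup K) ↔ ∀ h ∈ (P : Subgroup K), h * k = k * h := by
      conv_lhs => rw [← hC]
      exact Subgroup.mem_centralizer_iff
    rw [hC']
    constructor
    · intro hk h hh
      have := congrArg (fun a : MulAut ↥(P : Subgroup K) => ((a ⟨h, hh⟩ : ↥(P : Subgroup K)) : K)) hk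
      simp only [hφ, MulAut.conjNormal_apply, MulAut.one_apply] at this
      calc h * k = (k * h * k⁻¹) * k := by rw [this]
        _ = k * h := by group
    · intro hk
      ext ⟨h, hh⟩
      simp only [hφ, MulAut.conjNormal_apply, MulAut.one_apply]
      rw [← hk h hh]
      group
  obtain ⟨ψ, hψ⟩ : ∃ ψ : K ⧸ (P : Subgroup K) →* MulAut ↥(P : Subgroup K),
      ∀ k : K, ψ (QuotientGroup.mk k) = φ k :=
    ⟨QuotientGroup.lift (P : Subgroup K) φ (fun k hk => (hker k).2 hk), fun k => rfl⟩
  have hψinj : Function.Injective ψ := by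
    refine (injective_iff_map_eq_one ψ).2 fun x hx => ?_
    induction x using QuotientGroup.induction_on with
    | H k =>
      rw [hψ] at hx
      exact (QuotientGroup.eq_one_iff k).2 ((hker k).1 hx)
  haveI : NeZero (Nat.card ↥(P : Subgroup K)) := ⟨Nat.card_pos.ne'⟩
  have hd : p ∣ Nat.card ↥(P : Subgroup K) := P.dvd_card_of_dvd_card hp
  obtain ⟨e, -⟩ : ∃ e : MulAut ↥(P : Subgroup K) ≃* (ZMod (Nat.card ↥(P : Subgroup K)))ˣ, e = e :=
    ⟨IsCyclic.mulAutMulEquiv ↥(P : Subgroup K), rfl⟩
  obtain ⟨r, hr⟩ : ∃ r : (ZMod (Nat.card ↥(P : Subgroup K)))ˣ →* (ZMod p)ˣ,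
      Function.Surjective r := ⟨ZMod.unitsMap hd, ZMod.unitsMap_surjective hd⟩
  have hkercard : ∃ m, Nat.card r.ker = p ^ m := by
    obtain ⟨n, hn⟩ := IsPGroup.iff_card.mp P.2
    have hn0 : n ≠ 0 := by
      rintro rfl
      rw [pow_zero] at hn
      rw [hn] at hd
      exact hpp.one_lt.ne' (Nat.dvd_one.mp hd)
    have h3 : Nat.card r.ker * Nat.card (ZMod p)ˣ =
        Nat.card (ZMod (Nat.card ↥(P : Subgroup K)))ˣ := by
      have := Subgroup.card_mul_index r.ker
      rw [Subgroup.index_ker, MonoidHom.range_eq_top.mpr hr, Subgroup.card_top] at this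
      exact this
    have h4 : (Nat.card ↥(P : Subgroup K)).totient = p ^ (n - 1) * (p - 1) := by
      rw [hn, Nat.totient_prime_pow hpp (Nat.pos_of_ne_zero hn0)]
    rw [Nat.card_eq_fintype_card (α := (ZMod p)ˣ),
      Nat.card_eq_fintype_card (α := (ZMod (Nat.card ↥(P : Subgroup K)))ˣ), ZMod.card_units,
      ZMod.card_units_eq_totient, h4] at h3
    exact ⟨n - 1, Nat.eq_of_mul_eq_mul_right (Nat.sub_pos_of_lt hpp.one_lt) h3⟩
  obtain ⟨m, hm⟩ := hkercard
  refine ⟨r.comp (e.toMonoidHom.comp ψ), (injective_iff_map_eq_one _).2 fun x hx => ?_⟩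
  have hu : e (ψ x) ∈ r.ker := hx
  have ho : orderOf (e (ψ x)) = orderOf x :=
    orderOf_injective (e.toMonoidHom.comp ψ) (e.injective.comp hψinj) x
  have h1 : orderOf x ∣ (P : Subgroup K).index := by
    rw [Subgroup.index_eq_card]
    exact orderOf_dvd_natCard x
  have h2 : orderOf (e (ψ x)) ∣ Nat.card r.ker := by
    have := orderOf_dvd_natCard (⟨e (ψ x), hu⟩ : r.ker)
    rwa [Subgroup.orderOf_mk] at this
  have hcop : (p ^ m).Coprime (P : Subgroup K).index :=
    ((Nat.Prime.coprime_iff_not_dvd hpp).2 P.not_dvd_index).pow_left m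
  rw [ho, hm] at h2
  have hd1 := Nat.dvd_gcd h2 h1
  rw [hcop.gcd_eq_one] at hd1
  exact orderOf_eq_one_iff.mp (Nat.dvd_one.mp hd1)

theorem sylow_comm_of_isCyclic {K : Type u} [Group K] {p : ℕ} (P : Sylow p K)
    (hP : IsCyclic ↥(P : Subgroup K)) :
    ∀ a ∈ (P : Subgroup K), ∀ b ∈ (P : Subgroup K), a * b = b * a := by
  intro a ha b hb
  obtain ⟨g, hg⟩ := IsCyclic.exists_generator (α := ↥(P : Subgroup K))
  obtain ⟨i, hi⟩ := hg ⟨a, ha⟩
  obtain ⟨j, hj⟩ := hg ⟨b, hb⟩
  have := zpow_mul_comm g i j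
  have hi' : g ^ i = ⟨a, ha⟩ := hi
  have hj' : g ^ j = ⟨b, hb⟩ := hj
  rw [hi', hj'] at this
  exact congrArg Subtype.val this

/-- Case A: a nontrivial normal `p`-subgroup forces `P` to be normal and self-centralizing. -/
theorem sylow_eq_centralizer_of_normal_pgroup {K : Type u} [Group K] [Finite K] (p : ℕ)
    [Fact p.Prime] (hO : Cfsg.pPrimeCore p K = ⊥)
    (P : Sylow p K) (hP : IsCyclic ↥(P : Subgroup K))
    (N : Subgroup K) [hNn : N.Normal] (hNne : N ≠ ⊥) (hNp : IsPGroup p N) :
    (P : Subgroup K) = Subgroup.centralizer (N : Set K) := by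
  have hpp := (Fact.out : p.Prime)
  have hcyc : AllPCyclic p K := allPCyclic_of_sylow P hP
  have hPab := sylow_comm_of_isCyclic P hP
  have hsub : ∀ T : Subgroup K, T.Normal → T ≠ ⊥ → p ∣ Nat.card T := by
    intro T hT hne
    by_contra hnd
    have h1 : T ≤ Cfsg.pPrimeCore p K :=
      le_sSup ⟨hT, (Nat.coprime_comm.mp ((Nat.Prime.coprime_iff_not_dvd hpp).2 hnd))⟩
    rw [hO] at h1
    exact hne (le_bot_iff.mp h1)
  have hNP : N ≤ (P : Subgroup K) := normal_pgroup_le_sylow P N hNp
  obtain ⟨C, hCdef⟩ : ∃ C : Subgroup K, C = Subgroup.centralizer (N : Set K) := ⟨_, rfl⟩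
  haveI hCn : C.Normal := by rw [hCdef]; infer_instance
  have hPC : (P : Subgroup K) ≤ C := by
    rw [hCdef]
    intro x hx
    rw [Subgroup.mem_centralizer_iff]
    intro n hn
    exact hPab n (hNP hn) x hx
  rw [← hCdef]
  refine le_antisymm hPC ?_
  obtain ⟨Q, hQ⟩ : ∃ Q : Sylow p ↥C, (Q : Subgroup ↥C) = (P : Subgroup K).subgroupOf C :=
    ⟨P.subtype hPC, rfl⟩
  have hQab : ∀ a ∈ (Q : Subgroup ↥C), ∀ b ∈ (Q : Subgroup ↥C), a * b = b * a := by
    intro a ha b hb
    rw [hQ, Subgroup.mem_subgroupOf] at ha hb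
    exact Subtype.ext (hPab a ha b hb)
  haveI hQc : IsCyclic ↥(Q : Subgroup ↥C) := (hcyc.subgroup C) _ Q.2
  rcases Sylow.not_dvd_card_commutator_or_not_dvd_index_commutator Q with h | h
  · have hcomm : ⁅C, C⁆ = ⊥ := by
      by_contra hne
      have hn : (⁅C, C⁆ : Subgroup K).Normal := Subgroup.commutator_normal C C
      have h2 := hsub _ hn hne
      rw [← Subgroup.map_subtype_commutator,
        Subgroup.card_map_of_injective C.subtype_injective] at h2
      exact h h2
    have hCab : ∀ a ∈ C, ∀ b ∈ C, a * b = b * a := by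
      have h2 := Subgroup.commutator_eq_bot_iff_le_centralizer.mp hcomm
      intro a ha b hb
      exact (Subgroup.mem_centralizer_iff.mp (h2 ha) b hb).symm
    have hCp : IsPGroup p C := by
      have hprime : ∀ {q : ℕ}, q.Prime → q ∣ Nat.card C → q = p := by
        intro q hq hqC
        by_contra hqp
        haveI := Fact.mk hq
        obtain ⟨c, hc⟩ := exists_prime_orderOf_dvd_card' (G := ↥C) q hqC
        let T : Subgroup K :=
          { carrier := {x | x ∈ C ∧ x ^ q = 1}
            mul_mem' := fun {a b} ha hb => ⟨C.mul_mem ha.1 hb.1, by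
              rw [(show Commute a b from hCab a ha.1 b hb.1).mul_pow, ha.2, hb.2, one_mul]⟩
            one_mem' := ⟨C.one_mem, one_pow q⟩
            inv_mem' := fun {a} ha => ⟨C.inv_mem ha.1, by rw [inv_pow, ha.2, inv_one]⟩ }
        have hTn : T.Normal :=
          ⟨fun x hx g => ⟨hCn.conj_mem x hx.1 g, by rw [conj_pow, hx.2]; group⟩⟩
        have hcq : (c : K) ^ q = 1 := by
          rw [← hc, ← Subgroup.orderOf_coe, pow_orderOf_eq_one]
        have hTne : T ≠ ⊥ := by
          intro hT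
          have hcT : (c : K) ∈ T := ⟨c.2, hcq⟩
          rw [hT, Subgroup.mem_bot] at hcT
          have : c = 1 := Subtype.ext hcT
          rw [this, orderOf_one] at hc
          exact hq.one_lt.ne hc
        have hTq : IsPGroup q T := fun ⟨x, hx⟩ => ⟨1, Subtype.ext (by simpa using hx.2)⟩
        have hpT := hsub T hTn hTne
        obtain ⟨m, hm⟩ := IsPGroup.iff_card.mp hTq
        rw [hm] at hpT
        exact hqp ((Nat.prime_dvd_prime_iff_eq hpp hq).mp (hpp.dvd_of_dvd_pow hpT)).symm
      exact IsPGroup.of_card (Nat.eq_prime_pow_of_unique_prime_dvd Nat.card_pos.ne' hprime)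
    exact normal_pgroup_le_sylow P C hCp
  · exfalso
    obtain ⟨z, hzN, hz1⟩ : ∃ z ∈ N, z ≠ 1 := by
      by_contra hcon
      push Not at hcon
      exact hNne ((Subgroup.eq_bot_iff_forall N).2 hcon)
    have hzC : z ∈ C := hPC (hNP hzN)
    have hzQ : (⟨z, hzC⟩ : ↥C) ∈ (Q : Subgroup ↥C) := by
      rw [hQ, Subgroup.mem_subgroupOf]
      exact hNP hzN
    have hzZ : (⟨z, hzC⟩ : ↥C) ∈ Subgroup.center ↥C := by
      rw [Subgroup.mem_center_iff]
      intro c
      have hc : (c : K) ∈ Subgroup.centralizer (N : Set K) := hCdef ▸ c.2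
      exact Subtype.ext ((Subgroup.mem_centralizer_iff.mp hc z hzN).symm)
    obtain ⟨k, hk⟩ := hNp ⟨z, hzN⟩
    have hk' : (⟨z, hzC⟩ : ↥C) ^ p ^ k = 1 := by
      ext
      simpa using congrArg Subtype.val hk
    have hzcomm : (⟨z, hzC⟩ : ↥C) ∈ commutator ↥C :=
      mem_of_pow_prime_pow_eq_one_of_not_dvd_index (commutator ↥C) h hk'
    have := eq_one_of_mem_sylow_center_commutator Q hQab hzQ hzZ hzcomm
    exact hz1 (congrArg Subtype.val this)

/-- Case B: no nontrivial normal `p`-subgroup. -/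
theorem simple_genFitting_of_no_normal_pgroup {K : Type u} [Group K] [Finite K] (p : ℕ)
    [Fact p.Prime] (hp : p ∣ Nat.card K) (hO : Cfsg.pPrimeCore p K = ⊥)
    (P : Sylow p K) (hP : IsCyclic ↥(P : Subgroup K))
    (hA : ∀ N : Subgroup K, N.Normal → N ≠ ⊥ → ¬ IsPGroup p N) :
    IsSimpleGroup ↥(Cfsg.generalizedFittingSubgroup K) ∧
      ¬ IsMulCommutative ↥(Cfsg.generalizedFittingSubgroup K) ∧
      ¬ p ∣ (Cfsg.generalizedFittingSubgroup K).index := by
  have hpp := (Fact.out : p.Prime)
  have hcyc : AllPCyclic p K := allPCyclic_of_sylow P hP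
  have hPab := sylow_comm_of_isCyclic P hP
  have hsub : ∀ T : Subgroup K, T.IsSubnormal → T ≠ ⊥ → p ∣ Nat.card T := by
    intro T hT hne
    by_contra hnd
    have h1 : T ≤ piCore {q | q ≠ p} K :=
      H38.le_piCore_of_isSubnormal _ hT ((H38.piNat_compl_singleton_iff hpp).2 hnd)
    rw [← H38.pPrimeCore_eq_piCore hpp, hO] at h1
    exact hne (le_bot_iff.mp h1)
  have htop : (⊤ : Subgroup K) ≠ ⊥ := by
    intro h
    have h1 : Nat.card K = 1 := by
      rw [← Subgroup.card_top (G := K), h, Subgroup.card_bot]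
    rw [h1] at hp
    exact hpp.one_lt.ne' (Nat.dvd_one.mp hp)
  obtain ⟨M, hMn, hMne, -, hMmin⟩ := exists_minimal_normal_le (⊤ : Subgroup K) htop
  haveI := hMn
  have hMsn : M.IsSubnormal := hMn.isSubnormal
  have hsn : ∀ T : Subgroup K, T ≤ M → M ≤ Subgroup.normalizer (T : Set K) → T.IsSubnormal :=
    fun T hTM hTn => Subgroup.IsSubnormal.step T M hTM hMsn
      ((Subgroup.normal_subgroupOf_iff_le_normalizer hTM).2 hTn)
  -- `M`-invariant subgroups of `M` are trivial or `M`
  have hMs : ∀ T : Subgroup K, T ≤ M → M ≤ Subgroup.normalizer (T : Set K) → T ≠ ⊥ → T = M := by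
    classical
    have hne : ∃ n, ∃ T : Subgroup K, T ≤ M ∧ M ≤ Subgroup.normalizer (T : Set K) ∧ T ≠ ⊥ ∧
        Nat.card T = n := ⟨Nat.card M, M, le_rfl, Subgroup.le_normalizer, hMne, rfl⟩
    obtain ⟨T, hTM, hTn, hTne, hTc⟩ := Nat.find_spec hne
    have hTmin : ∀ D : Subgroup K, D ≤ M → M ≤ Subgroup.normalizer (D : Set K) → D ≠ ⊥ →
        Nat.card T ≤ Nat.card D := by
      intro D h1 h2 h3
      rw [hTc]
      exact Nat.find_min' hne ⟨D, h1, h2, h3, rfl⟩
    have hTconj : ∀ m ∈ M, ∀ t ∈ T, m * t * m⁻¹ ∈ T := fun m hm t ht =>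
      (Subgroup.mem_normalizer_iff.mp (hTn hm) t).mp ht
    have hpT : p ∣ Nat.card T := hsub T (hsn T hTM hTn) hTne
    obtain ⟨x, hx⟩ := exists_prime_orderOf_dvd_card' (G := ↥T) p hpT
    have hxo : orderOf (x : K) = p := by rw [Subgroup.orderOf_coe]; exact hx
    have hkey : ∀ g : K, T ≤ T.map (MulAut.conj g).toMonoidHom := by
      intro g
      obtain ⟨T', hT'⟩ : ∃ T' : Subgroup K, T' = T.map (MulAut.conj g).toMonoidHom := ⟨_, rfl⟩
      have hmemT' : ∀ y, y ∈ T' ↔ ∃ t ∈ T, g * t * g⁻¹ = y := by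
        intro y
        rw [hT', Subgroup.mem_map]
        simp
      have hT'M : T' ≤ M := by
        intro y hy
        obtain ⟨t, ht, rfl⟩ := (hmemT' y).1 hy
        exact hMn.conj_mem t (hTM ht) g
      have hT'conj : ∀ m ∈ M, ∀ y ∈ T', m * y * m⁻¹ ∈ T' := by
        intro m hm y hy
        obtain ⟨t, ht, rfl⟩ := (hmemT' y).1 hy
        refine (hmemT' _).2 ⟨(g⁻¹ * m * g) * t * (g⁻¹ * m * g)⁻¹, hTconj _ ?_ t ht, by group⟩
        have := hMn.conj_mem m hm g⁻¹
        simpa using this
      obtain ⟨D, hD⟩ : ∃ D : Subgroup K, D = T ⊓ T' := ⟨_, rfl⟩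
      have hDM : D ≤ M := by rw [hD]; exact inf_le_left.trans hTM
      have hDn : M ≤ Subgroup.normalizer (D : Set K) := by
        intro m hm
        apply mem_normalizer_of_forall_conj_mem
        intro d hd
        rw [hD, Subgroup.mem_inf] at hd ⊢
        exact ⟨hTconj m hm d hd.1, hT'conj m hm d hd.2⟩
      have hDne : D ≠ ⊥ := by
        have hy : orderOf (g * (x : K) * g⁻¹) = p := by
          have := orderOf_injective (MulAut.conj g).toMonoidHom (MulAut.conj g).injective (x : K)
          simpa using this.trans hxo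
        have hyT' : g * (x : K) * g⁻¹ ∈ T' := (hmemT' _).2 ⟨x, x.2, rfl⟩
        obtain ⟨m, hm, hmem⟩ := exists_conj_mem_zpowers_of_mem hcyc M (hTM x.2) (hT'M hyT') hxo hy
        have h1 : g * (x : K) * g⁻¹ ∈ T := by
          have h2 : Subgroup.zpowers (m * (x : K) * m⁻¹) ≤ T :=
            (Subgroup.zpowers_le).2 (hTconj m hm x x.2)
          exact h2 hmem
        intro hbot
        have h3 : g * (x : K) * g⁻¹ ∈ D := by rw [hD]; exact ⟨h1, hyT'⟩
        rw [hbot, Subgroup.mem_bot] at h3
        rw [h3, orderOf_one] at hy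
        exact hpp.one_lt.ne hy
      have hDT : D = T :=
        Subgroup.eq_of_le_of_card_ge (by rw [hD]; exact inf_le_left) (hTmin D hDM hDn hDne)
      rw [← hT']
      calc T = D := hDT.symm
        _ ≤ T' := by rw [hD]; exact inf_le_right
    have hTnorm : T.Normal := by
      refine ⟨fun t ht g => ?_⟩
      obtain ⟨t', ht', h⟩ := hkey g⁻¹ ht
      have h' : g⁻¹ * t' * g = t := by simpa using h
      rw [← h']
      have : g * (g⁻¹ * t' * g) * g⁻¹ = t' := by group
      rw [this]
      exact ht'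
    have hTeq : T = M := (hMmin T hTnorm hTM).resolve_left hTne
    intro T₂ h1 h2 h3
    have := hTmin T₂ h1 h2 h3
    rw [hTeq] at this
    exact Subgroup.eq_of_le_of_card_ge h1 this
  -- `M` is nonabelian
  have hpM : p ∣ Nat.card M := hsub M hMsn hMne
  obtain ⟨x, hx⟩ := exists_prime_orderOf_dvd_card' (G := ↥M) p hpM
  have hxo : orderOf (x : K) = p := by rw [Subgroup.orderOf_coe]; exact hx
  have hMnab : ¬ ∀ a ∈ M, ∀ b ∈ M, a * b = b * a := by
    intro hab
    have hZ : Subgroup.zpowers (x : K) = M := by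
      apply hMs
      · exact (Subgroup.zpowers_le).2 x.2
      · intro m hm
        apply mem_normalizer_of_forall_conj_mem
        intro r hr
        have hrM : r ∈ M := (Subgroup.zpowers_le.2 x.2) hr
        have : m * r * m⁻¹ = r := by rw [hab m hm r hrM, mul_inv_cancel_right]
        rw [this]
        exact hr
      · intro h
        have : (x : K) ∈ (⊥ : Subgroup K) := h ▸ Subgroup.mem_zpowers _
        rw [Subgroup.mem_bot] at this
        rw [this, orderOf_one] at hxo
        exact hpp.one_lt.ne hxo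
    have hMp : IsPGroup p M := by
      rw [← hZ]
      exact IsPGroup.of_card (n := 1) (by rw [Nat.card_zpowers, hxo, pow_one])
    exact hA M hMn hMne hMp
  -- the centralizer of `M` is trivial
  have hCM : Subgroup.centralizer (M : Set K) = ⊥ := by
    by_contra hne
    have hCn : (Subgroup.centralizer (M : Set K)).Normal := inferInstance
    have hpC := hsub _ hCn.isSubnormal hne
    obtain ⟨y, hy⟩ :=
      exists_prime_orderOf_dvd_card' (G := ↥(Subgroup.centralizer (M : Set K))) p hpC
    have hyo : orderOf (y : K) = p := by rw [Subgroup.orderOf_coe]; exact hy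
    obtain ⟨g, hg⟩ := exists_conj_mem_zpowers hcyc hxo hyo
    have hyM : (y : K) ∈ M := (Subgroup.zpowers_le.2 (hMn.conj_mem x x.2 g)) hg
    have hZ : Subgroup.zpowers (y : K) = M := by
      apply hMs
      · exact (Subgroup.zpowers_le).2 hyM
      · intro m hm
        apply mem_normalizer_of_forall_conj_mem
        intro r hr
        have hrC : r ∈ Subgroup.centralizer (M : Set K) := (Subgroup.zpowers_le.2 y.2) hr
        have : m * r * m⁻¹ = r := by
          rw [Subgroup.mem_centralizer_iff.mp hrC m hm, mul_inv_cancel_right]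
        rw [this]
        exact hr
      · intro h
        have : (y : K) ∈ (⊥ : Subgroup K) := h ▸ Subgroup.mem_zpowers _
        rw [Subgroup.mem_bot] at this
        rw [this, orderOf_one] at hyo
        exact hpp.one_lt.ne hyo
    apply hMnab
    intro a ha b hb
    rw [← hZ] at ha hb
    obtain ⟨i, rfl⟩ := ha
    obtain ⟨j, rfl⟩ := hb
    exact zpow_mul_comm _ i j
  -- `M` is simple
  haveI hMnt : Nontrivial ↥M := (Subgroup.nontrivial_iff_ne_bot M).mpr hMne
  have hMsimple : IsSimpleGroup ↥M := by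
    refine { toNontrivial := hMnt, eq_bot_or_eq_top_of_normal := fun H hH => ?_ }
    by_cases hb : H = ⊥
    · exact Or.inl hb
    · right
      have h1 : H.map M.subtype = M := by
        apply hMs
        · exact Subgroup.map_subtype_le H
        · intro m hm
          apply mem_normalizer_of_forall_conj_mem
          rintro _ ⟨h, hh, rfl⟩
          exact ⟨⟨m, hm⟩ * h * ⟨m, hm⟩⁻¹, hH.conj_mem h hh ⟨m, hm⟩, rfl⟩
        · intro h
          exact hb ((Subgroup.map_eq_bot_iff_of_injective H M.subtype_injective).mp h)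
      rw [eq_top_iff]
      intro y _
      have h2 : (y : K) ∈ H.map M.subtype := by rw [h1]; exact y.2
      obtain ⟨h, hh, hy⟩ := h2
      have h3 : h = y := Subtype.ext hy
      exact h3 ▸ hh
  have hMnc : ¬ IsMulCommutative ↥M :=
    fun h => hMnab (fun a ha b hb => mul_comm_of_isMulCommutative h ha hb)
  have hperf : ⁅M, M⁆ = M := by
    apply hMs
    · exact Subgroup.commutator_le_right M M
    · intro m hm
      apply mem_normalizer_of_forall_conj_mem
      intro r hr
      exact (Subgroup.commutator_normal M M).conj_mem r hr m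
    · intro h
      apply hMnab
      have h2 := Subgroup.commutator_eq_bot_iff_le_centralizer.mp h
      intro a ha b hb
      exact (Subgroup.mem_centralizer_iff.mp (h2 ha) b hb).symm
  -- `F*(K) = M`
  have hF : Cfsg.generalizedFittingSubgroup K = M := by
    unfold Cfsg.generalizedFittingSubgroup
    apply le_antisymm
    · apply sup_le
      · unfold Cfsg.layer
        apply sSup_le
        intro L hL
        rcases H27.component_normal_le_or_comm L M hL with h | h
        · exact h
        · have h2 := Subgroup.commutator_eq_bot_iff_le_centralizer.mp h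
          rw [hCM] at h2
          exact h2.trans bot_le
      · unfold Cfsg.fittingSubgroup
        apply sSup_le
        rintro N ⟨hNn, hNnil⟩
        haveI := hNn
        have h1 : N ⊓ M = ⊥ := by
          by_contra hne
          have h2 : N ⊓ M = M := hMs (N ⊓ M) inf_le_right (by
            intro m hm
            apply mem_normalizer_of_forall_conj_mem
            intro r hr
            exact (inferInstance : (N ⊓ M).Normal).conj_mem r hr m) hne
          have hMN : M ≤ N := by rw [← h2]; exact inf_le_left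
          haveI := hNnil
          haveI : Group.IsSolvable ↥N := inferInstance
          haveI : Group.IsSolvable ↥M :=
            Group.isSolvable_of_isSolvable_injective (Subgroup.inclusion_injective hMN)
          haveI := hMsimple
          have h3 := IsSimpleGroup.comm_iff_isSolvable.mpr (inferInstance : Group.IsSolvable ↥M)
          exact hMnab (fun a ha b hb => congrArg Subtype.val (h3 ⟨a, ha⟩ ⟨b, hb⟩))
        have h3 : ⁅N, M⁆ = ⊥ := le_bot_iff.mp (h1 ▸ Subgroup.commutator_le_inf N M)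
        have h4 := Subgroup.commutator_eq_bot_iff_le_centralizer.mp h3
        rw [hCM] at h4
        exact h4.trans bot_le
    · apply le_sup_of_le_left
      unfold Cfsg.layer
      apply le_sSup
      refine ⟨hMsn, ?_, ?_⟩
      · rw [Subgroup.isPerfect_iff]
        exact hperf
      · have hc : Subgroup.center ↥M = ⊥ := by
          rcases hMsimple.eq_bot_or_eq_top_of_normal (Subgroup.center ↥M) inferInstance with h | h
          · exact h
          · exfalso
            apply hMnab
            intro a ha b hb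
            have h2 : (⟨a, ha⟩ : ↥M) ∈ Subgroup.center ↥M := h ▸ Subgroup.mem_top _
            rw [Subgroup.mem_center_iff] at h2
            exact (congrArg Subtype.val (h2 ⟨b, hb⟩)).symm
        have e : ↥M ⧸ Subgroup.center ↥M ≃* ↥M :=
          (QuotientGroup.quotientMulEquivOfEq hc).trans QuotientGroup.quotientBot
        haveI : Nontrivial (↥M ⧸ Subgroup.center ↥M) := e.toEquiv.nontrivial
        haveI := hMsimple
        exact IsSimpleGroup.isSimpleGroup_of_surjective e.symm.toMonoidHom e.symm.surjective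
  rw [hF]
  refine ⟨hMsimple, hMnc, ?_⟩
  intro hpi
  obtain ⟨K₀, hK₀⟩ : ∃ K₀ : Subgroup K, K₀ = M ⊔ (P : Subgroup K) := ⟨_, rfl⟩
  have hMK₀ : M ≤ K₀ := hK₀ ▸ le_sup_left
  have hPK₀ : (P : Subgroup K) ≤ K₀ := hK₀ ▸ le_sup_right
  obtain ⟨Q, hQ⟩ : ∃ Q : Sylow p ↥K₀, (Q : Subgroup ↥K₀) = (P : Subgroup K).subgroupOf K₀ :=
    ⟨P.subtype hPK₀, rfl⟩
  haveI hQc : IsCyclic ↥(Q : Subgroup ↥K₀) := (hcyc.subgroup K₀) _ Q.2
  have hcommle : ⁅K₀, K₀⁆ ≤ M := by
    rw [Subgroup.commutator_le]
    intro g₁ hg₁ g₂ hg₂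
    rw [hK₀] at hg₁ hg₂
    obtain ⟨m₁, hm₁, a₁, ha₁, rfl⟩ := Subgroup.mem_sup_of_normal_left.mp hg₁
    obtain ⟨m₂, hm₂, a₂, ha₂, rfl⟩ := Subgroup.mem_sup_of_normal_left.mp hg₂
    rw [← QuotientGroup.eq_one_iff]
    have e1 : ((m₁ * a₁ : K) : K ⧸ M) = (a₁ : K ⧸ M) := by
      rw [QuotientGroup.mk_mul, (QuotientGroup.eq_one_iff m₁).2 hm₁, one_mul]
    have e2 : ((m₂ * a₂ : K) : K ⧸ M) = (a₂ : K ⧸ M) := by
      rw [QuotientGroup.mk_mul, (QuotientGroup.eq_one_iff m₂).2 hm₂, one_mul]
    have e3 : ⁅a₁, a₂⁆ = 1 := by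
      rw [commutatorElement_eq_one_iff_mul_comm]
      exact hPab a₁ ha₁ a₂ ha₂
    calc ((⁅m₁ * a₁, m₂ * a₂⁆ : K) : K ⧸ M)
        = ⁅((m₁ * a₁ : K) : K ⧸ M), ((m₂ * a₂ : K) : K ⧸ M)⁆ := by
          simp [commutatorElement_def]
      _ = ⁅(a₁ : K ⧸ M), (a₂ : K ⧸ M)⁆ := by rw [e1, e2]
      _ = ((⁅a₁, a₂⁆ : K) : K ⧸ M) := by simp [commutatorElement_def]
      _ = 1 := by rw [e3]; rfl
  rcases Sylow.not_dvd_card_commutator_or_not_dvd_index_commutator Q with h | h
  · apply h
    have h1 : M ≤ ⁅K₀, K₀⁆ := by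
      calc M = ⁅M, M⁆ := hperf.symm
        _ ≤ ⁅K₀, K₀⁆ := Subgroup.commutator_mono hMK₀ hMK₀
    have h2 := hpM.trans (Subgroup.card_dvd_of_le h1)
    rwa [← Subgroup.map_subtype_commutator,
      Subgroup.card_map_of_injective K₀.subtype_injective] at h2
  · have hPM : (P : Subgroup K) ≤ M := by
      intro a ha
      obtain ⟨k, hk⟩ := P.2 ⟨a, ha⟩
      have hk' : (⟨a, hPK₀ ha⟩ : ↥K₀) ^ p ^ k = 1 := by
        ext
        simpa using congrArg Subtype.val hk
      have h1 := mem_of_pow_prime_pow_eq_one_of_not_dvd_index (commutator ↥K₀) h hk'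
      have h2 : a ∈ (commutator ↥K₀).map K₀.subtype := ⟨_, h1, rfl⟩
      rw [Subgroup.map_subtype_commutator] at h2
      exact hcommle h2
    exact P.not_dvd_index (hpi.trans (Subgroup.index_dvd_of_le hPM))

/-- **Groups with a cyclic Sylow `p`-subgroup and trivial `p'`-core.** -/
theorem cyclic_sylow_structure {K : Type u} [Group K] [Finite K] (p : ℕ) [Fact p.Prime]
    (hp : p ∣ Nat.card K) (hO : Cfsg.pPrimeCore p K = ⊥)
    (P : Sylow p K) (hP : IsCyclic ↥(P : Subgroup K)) :
    ((P : Subgroup K).Normal ∧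
      Subgroup.centralizer ((P : Subgroup K) : Set K) = (P : Subgroup K) ∧
      (∀ (_ : (P : Subgroup K).Normal), IsCyclic (K ⧸ (P : Subgroup K))) ∧
      (P : Subgroup K).index ∣ p - 1) ∨
    (IsSimpleGroup ↥(Cfsg.generalizedFittingSubgroup K) ∧
      ¬ IsMulCommutative ↥(Cfsg.generalizedFittingSubgroup K) ∧
      ¬ p ∣ (Cfsg.generalizedFittingSubgroup K).index) := by
  by_cases hA : ∃ N : Subgroup K, N.Normal ∧ N ≠ ⊥ ∧ IsPGroup p N
  · left
    obtain ⟨N, hNn, hNne, hNp⟩ := hA
    haveI := hNn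
    have hPeq := sylow_eq_centralizer_of_normal_pgroup p hO P hP N hNne hNp
    have hNP : N ≤ (P : Subgroup K) := normal_pgroup_le_sylow P N hNp
    have hPn : (P : Subgroup K).Normal := by rw [hPeq]; infer_instance
    have hcent : Subgroup.centralizer ((P : Subgroup K) : Set K) = (P : Subgroup K) := by
      apply le_antisymm
      · calc Subgroup.centralizer ((P : Subgroup K) : Set K)
            ≤ Subgroup.centralizer (N : Set K) := Subgroup.centralizer_le (by exact_mod_cast hNP)
          _ = P := hPeq.symm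
      · intro x hx
        rw [Subgroup.mem_centralizer_iff]
        intro h hh
        exact sylow_comm_of_isCyclic P hP h hh x hx
    haveI := hPn
    obtain ⟨f, hf⟩ := exists_injective_quotient_to_units P hP hcent hp
    refine ⟨hPn, hcent, fun _ => isCyclic_of_injective f hf, ?_⟩
    have := Subgroup.card_dvd_of_injective f hf
    rwa [← Subgroup.index_eq_card, Nat.card_eq_fintype_card, ZMod.card_units] at this
  · right
    push Not at hA
    exact simple_genFitting_of_no_normal_pgroup p hp hO P hP hA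

end Cfsg.Agent.H67
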