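import Mathlib
import Cfsg.Agent.H74.DihDefs

/-!
# Piece RCb of helper74's S3572 project (core, with the BASIC/FROB facts as hypotheses)

If all non-identity elements are related in the rational closure of a primitive Schur ring over a
dihedral group, then the Schur ring itself is trivial.
-/

set_option autoImplicit false

namespace Cfsg.Agent.H67.Dih

open DihedralGroup Cfsg.Agent.H74.Dih

variable {n : ℕ} [NeZero n]

/-- Rotations and reflections. -/
def dihSumEquiv (n : ℕ) : ZMod n ⊕ ZMod n ≃ DihedralGroup n where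
  toFun x := match x with
    | Sum.inl i => r i
    | Sum.inr i => sr i
  invFun x := match x with
    | r i => Sum.inl i
    | sr i => Sum.inr i
  left_inv := by rintro (i | i) <;> rfl
  right_inv := by rintro (i | i) <;> rfl

/-- A subset of the dihedral group is counted by its rotations and its reflections. -/
theorem ncard_dih (S : Set (DihedralGroup n)) :
    S.ncard = {i : ZMod n | r i ∈ S}.ncard + {i : ZMod n | sr i ∈ S}.ncard := by
  have h1 : S = r '' {i : ZMod n | r i ∈ S} ∪ sr '' {i : ZMod n | sr i ∈ S} := by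
    ext x
    constructor
    · intro hx
      rcases x with i | i
      · left; exact ⟨i, hx, rfl⟩
      · right; exact ⟨i, hx, rfl⟩
    · rintro (⟨i, hi, rfl⟩ | ⟨i, hi, rfl⟩) <;> exact hi
  have h2 : Disjoint (r '' {i : ZMod n | r i ∈ S}) (sr '' {i : ZMod n | sr i ∈ S}) := by
    rw [Set.disjoint_left]
    rintro x ⟨i, -, rfl⟩ ⟨j, -, hj⟩
    cases hj
  conv_lhs => rw [h1]
  rw [Set.ncard_union_eq h2 (Set.toFinite _) (Set.toFinite _),
    Set.ncard_image_of_injective _ (fun a b h => by injection h),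
    Set.ncard_image_of_injective _ (fun a b h => by injection h)]

/-- The cardinality of a set as a sum of indicators. -/
theorem ncard_eq_sum_int {α : Type*} [Fintype α] (S : Set α) [DecidablePred (· ∈ S)] :
    (S.ncard : ℤ) = ∑ x : α, if x ∈ S then (1 : ℤ) else 0 := by
  rw [Finset.sum_boole]
  congr 1
  rw [← Set.ncard_coe_finset]
  congr 1
  ext x
  simp

theorem ncard_eq_sum_nat {α : Type*} [Fintype α] (S : Set α) [DecidablePred (· ∈ S)] :
    S.ncard = ∑ x : α, if x ∈ S then 1 else 0 := by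
  rw [Finset.sum_boole]
  simp only [Nat.cast_id]
  rw [← Set.ncard_coe_finset]
  congr 1
  ext x
  simp

/-- Multiplication by a number prime to `n` is a bijection of `ZMod n`. -/
theorem nsmul_bijective (q : ℕ) (hcop : q.Coprime n) :
    Function.Bijective (fun y : ZMod n => q • y) := by
  have hinj : Function.Injective (fun y : ZMod n => q • y) := by
    intro a b hab
    simp only [nsmul_eq_mul] at hab
    have hu : IsUnit ((q : ℕ) : ZMod n) := by
      rw [← ZMod.coe_unitOfCoprime q hcop]; exact Units.isUnit _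
    exact hu.mul_left_cancel hab
  exact ⟨hinj, Finite.surjective_of_injective hinj⟩

/-- Two generators of the same subgroup of `ZMod n` differ by a multiplier prime to `n`. -/
theorem exists_coprime_nsmul (i j : ZMod n)
    (h : AddSubgroup.zmultiples i = AddSubgroup.zmultiples j) :
    ∃ m : ℕ, m.Coprime n ∧ j = m • i := by
  have key : ∀ a b : ZMod n, b ∈ AddSubgroup.zmultiples a → ∃ k : ℕ, b = k • a := by
    intro a b hb
    obtain ⟨k, hk⟩ := AddSubgroup.mem_zmultiples_iff.mp hb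
    refine ⟨((k : ZMod n)).val, ?_⟩
    rw [nsmul_eq_mul, ZMod.natCast_zmod_val, ← hk, zsmul_eq_mul]
  obtain ⟨k, hk⟩ := key i j (by rw [h]; exact AddSubgroup.mem_zmultiples j)
  obtain ⟨l, hl⟩ := key j i (by rw [← h]; exact AddSubgroup.mem_zmultiples i)
  obtain ⟨d, hddef⟩ : ∃ d, d = addOrderOf i := ⟨_, rfl⟩
  have hd : d ∣ n := by
    have h1 := addOrderOf_dvd_natCard i
    rw [Nat.card_eq_fintype_card, ZMod.card] at h1
    rw [hddef]; exact h1
  have hkl : k * l ≡ 1 [MOD d] := by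
    rw [hddef, ← nsmul_eq_nsmul_iff_modEq (x := i), one_nsmul, mul_nsmul, ← hk, ← hl]
  have hkd : k.Coprime d := Nat.coprime_of_mul_modEq_one l hkl
  obtain ⟨u, hu⟩ := ZMod.unitsMap_surjective hd (ZMod.unitOfCoprime k hkd)
  refine ⟨(u : ZMod n).val, ZMod.val_coe_unit_coprime u, ?_⟩
  rw [hk, nsmul_eq_nsmul_iff_modEq, ← hddef, ← ZMod.natCast_eq_natCast_iff]
  have h2 := congrArg (fun v : (ZMod d)ˣ => (v : ZMod d)) hu
  simp only [ZMod.unitsMap_val, ZMod.coe_unitOfCoprime] at h2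
  rw [← h2, ZMod.natCast_val]

/-- The set `T_q` attached to the class of `h0` and a prime `q > 2n`. -/
theorem tq_facts (P : PSR n)
    (hr : ∀ h : DihedralGroup n, h ≠ 1 → ∃ i : ZMod n, i ≠ 0 ∧ P.rel h (r i))
    (hcp : ∀ f : DihedralGroup n → ℤ, Resp P.rel f → ∀ k : ℕ, Resp P.rel (cpow f k))
    (hsum : ∀ (f : DihedralGroup n → ℤ) (k : ℕ), ∑ h, cpow f k h = (∑ h, f h) ^ k)
    (hfrob : ∀ p : ℕ, p.Prime → p ≠ 2 → ∀ f : DihedralGroup n → ℤ, Resp P.rel f →
      ∀ k : ZMod n, (p : ℤ) ∣ cpow f p (r k) -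
        ∑ i ∈ Finset.univ.filter (fun i : ZMod n => p • i = k), f (r i))
    (h0 : DihedralGroup n) (hh0 : h0 ≠ 1) (q : ℕ) (hq : q.Prime) (hqn : 2 * n < q) :
    ∃ Tq : Set (DihedralGroup n),
      (∀ x x', P.rel x x' → x ∈ Tq → x' ∈ Tq) ∧ (1 : DihedralGroup n) ∉ Tq ∧
      (∀ y : ZMod n, r (q • y) ∈ Tq ↔ P.rel h0 (r y)) ∧
      Tq.ncard = {x | P.rel h0 x}.ncard := by
  classical
  have hn0 : 0 < n := Nat.pos_of_ne_zero (NeZero.ne n)
  have hq2 : q ≠ 2 := by omega
  have hcop : q.Coprime n :=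
    (Nat.Prime.coprime_iff_not_dvd hq).mpr (Nat.not_dvd_of_pos_of_lt hn0 (by omega))
  obtain ⟨hinj, hsurj⟩ := nsmul_bijective (n := n) q hcop
  obtain ⟨f, hf⟩ : ∃ f : DihedralGroup n → ℤ, f = fun x => if P.rel h0 x then 1 else 0 :=
    ⟨_, rfl⟩
  have hf1 : ∀ x, P.rel h0 x → f x = 1 := by
    intro x hx; rw [hf]; simp [hx]
  have hf0 : ∀ x, ¬ P.rel h0 x → f x = 0 := by
    intro x hx; rw [hf]; simp [hx]
  have hfR : Resp P.rel f := by
    intro x x' hxx'
    by_cases hx : P.rel h0 x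
    · rw [hf1 x hx, hf1 x' (P.equiv.trans hx hxx')]
    · rw [hf0 x hx, hf0 x' (fun h => hx (P.equiv.trans h (P.equiv.symm hxx')))]
  obtain ⟨g, hg⟩ : ∃ g, g = cpow f q := ⟨_, rfl⟩
  have hgR : Resp P.rel g := by rw [hg]; exact hcp f hfR q
  have hF : ∀ y : ZMod n, (q : ℤ) ∣ g (r (q • y)) - f (r y) := by
    intro y
    have h1 := hfrob q hq hq2 f hfR (q • y)
    rw [Finset.sum_eq_single_of_mem y (by simp)
      (fun b hb hne => absurd (hinj (Finset.mem_filter.mp hb).2) hne)] at h1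
    rw [hg]; exact h1
  have hrot : ∀ k : ZMod n, (q : ℤ) ∣ g (r k) ∨ (q : ℤ) ∣ g (r k) - 1 := by
    intro k
    obtain ⟨y, rfl⟩ := hsurj k
    have h1 := hF y
    by_cases hy : P.rel h0 (r y)
    · right; rwa [hf1 _ hy] at h1
    · left; rwa [hf0 _ hy, sub_zero] at h1
  have h01 : ∀ x, (q : ℤ) ∣ g x ∨ (q : ℤ) ∣ g x - 1 := by
    intro x
    by_cases hx : x = 1
    · rw [hx, DihedralGroup.one_def]; exact hrot 0
    · obtain ⟨i, -, hi⟩ := hr x hx
      rw [hgR x (r i) hi]; exact hrot i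
  have hnot : ∀ x, ¬ ((q : ℤ) ∣ g x ∧ (q : ℤ) ∣ g x - 1) := by
    rintro x ⟨h1, h2⟩
    have h3 : (q : ℤ) ∣ 1 := by
      have := dvd_sub h1 h2
      simpa using this
    have h4 := Int.le_of_dvd one_pos h3
    have h5 : (2 : ℤ) ≤ q := by exact_mod_cast hq.two_le
    omega
  have h1not : ¬ P.rel h0 (r 0) := by
    intro hrel
    rw [← DihedralGroup.one_def] at hrel
    exact hh0 (P.one_class h0 hrel)
  refine ⟨{x | (q : ℤ) ∣ g x - 1}, ?_, ?_, ?_, ?_⟩
  · intro x x' hxx' hx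
    show (q : ℤ) ∣ g x' - 1
    rw [← hgR x x' hxx']; exact hx
  · intro h1
    have h1' : (q : ℤ) ∣ g (r (q • (0 : ZMod n))) - 1 := by
      rw [smul_zero, ← DihedralGroup.one_def]; exact h1
    have h2 := hF 0
    rw [hf0 _ h1not, sub_zero] at h2
    exact hnot _ ⟨h2, h1'⟩
  · intro y
    show (q : ℤ) ∣ g (r (q • y)) - 1 ↔ P.rel h0 (r y)
    have h2 := hF y
    constructor
    · intro h1
      by_contra hrel
      rw [hf0 _ hrel, sub_zero] at h2
      exact hnot _ ⟨h2, h1⟩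
    · intro hrel
      rwa [hf1 _ hrel] at h2
  · obtain ⟨Tq, hTq⟩ : ∃ Tq : Set (DihedralGroup n), Tq = {x | (q : ℤ) ∣ g x - 1} := ⟨_, rfl⟩
    obtain ⟨T, hT⟩ : ∃ T : Set (DihedralGroup n), T = {x | P.rel h0 x} := ⟨_, rfl⟩
    rw [← hTq, ← hT]
    have e1 : (Tq.ncard : ℤ) = ∑ x, if x ∈ Tq then (1 : ℤ) else 0 := ncard_eq_sum_int Tq
    have e2 : (T.ncard : ℤ) = ∑ x, f x := by
      rw [ncard_eq_sum_int T]
      apply Finset.sum_congr rfl
      intro x _
      rw [hf, hT]
      rfl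
    have d1 : (q : ℤ) ∣ ∑ x, g x - (Tq.ncard : ℤ) := by
      rw [e1, ← Finset.sum_sub_distrib]
      apply Finset.dvd_sum
      intro x _
      by_cases hx : x ∈ Tq
      · rw [if_pos hx]
        rw [hTq] at hx; exact hx
      · rw [if_neg hx, sub_zero]
        rw [hTq] at hx
        exact (h01 x).resolve_right hx
    have d2 : (q : ℤ) ∣ (T.ncard : ℤ) ^ q - (T.ncard : ℤ) := by
      have := Fact.mk hq
      rw [← ZMod.intCast_zmod_eq_zero_iff_dvd]
      push_cast
      rw [ZMod.pow_card, sub_self]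
    have d3 : (q : ℤ) ∣ (T.ncard : ℤ) - (Tq.ncard : ℤ) := by
      have h1 : ∑ x, g x = (T.ncard : ℤ) ^ q := by rw [hg, hsum, ← e2]
      rw [h1] at d1
      have h2 := dvd_sub d1 d2
      have h3 : (T.ncard : ℤ) ^ q - (Tq.ncard : ℤ) - ((T.ncard : ℤ) ^ q - (T.ncard : ℤ))
          = (T.ncard : ℤ) - (Tq.ncard : ℤ) := by ring
      rwa [h3] at h2
    have b1 : Tq.ncard ≤ 2 * n := by
      have := Set.ncard_le_card Tq
      rwa [DihedralGroup.nat_card] at this
    have b2 : T.ncard ≤ 2 * n := by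
      have := Set.ncard_le_card T
      rwa [DihedralGroup.nat_card] at this
    have h5 := Int.eq_zero_of_abs_lt_dvd d3 (by rw [abs_lt]; constructor <;> omega)
    omega

/-- Monotonicity of the numbers of rotations and reflections in the classes. -/
theorem counts_le (P : PSR n)
    (hr : ∀ h : DihedralGroup n, h ≠ 1 → ∃ i : ZMod n, i ≠ 0 ∧ P.rel h (r i))
    (hcp : ∀ f : DihedralGroup n → ℤ, Resp P.rel f → ∀ k : ℕ, Resp P.rel (cpow f k))
    (hsum : ∀ (f : DihedralGroup n → ℤ) (k : ℕ), ∑ h, cpow f k h = (∑ h, f h) ^ k)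
    (hfrob : ∀ p : ℕ, p.Prime → p ≠ 2 → ∀ f : DihedralGroup n → ℤ, Resp P.rel f →
      ∀ k : ZMod n, (p : ℤ) ∣ cpow f p (r k) -
        ∑ i ∈ Finset.univ.filter (fun i : ZMod n => p • i = k), f (r i))
    (h : ∀ h h' : DihedralGroup n, h ≠ 1 → h' ≠ 1 → ratRel P h h')
    (h0 h1 : DihedralGroup n) (hh0 : h0 ≠ 1) (hh1 : h1 ≠ 1) :
    {i : ZMod n | P.rel h1 (r i)}.ncard ≤ {i : ZMod n | P.rel h0 (r i)}.ncard ∧
    {i : ZMod n | P.rel h1 (sr i)}.ncard ≤ {i : ZMod n | P.rel h0 (sr i)}.ncard := by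
  classical
  have hn0 : 0 < n := Nat.pos_of_ne_zero (NeZero.ne n)
  have hcopq : ∀ q : ℕ, q.Prime → 2 * n < q → q.Coprime n := fun q hq hqn =>
    (Nat.Prime.coprime_iff_not_dvd hq).mpr (Nat.not_dvd_of_pos_of_lt hn0 (by omega))
  -- the union of the `T_q`
  obtain ⟨U, hU⟩ : ∃ U : Set (DihedralGroup n), U = {x | ∃ (q : ℕ) (Tq : Set (DihedralGroup n)),
      q.Prime ∧ 2 * n < q ∧ (∀ x x', P.rel x x' → x ∈ Tq → x' ∈ Tq) ∧
      (1 : DihedralGroup n) ∉ Tq ∧ (∀ y : ZMod n, r (q • y) ∈ Tq ↔ P.rel h0 (r y)) ∧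
      Tq.ncard = {x | P.rel h0 x}.ncard ∧ x ∈ Tq} := ⟨_, rfl⟩
  have hUcl : ∀ x x', P.rel x x' → x ∈ U → x' ∈ U := by
    intro x x' hxx' hx
    rw [hU] at hx ⊢
    obtain ⟨q, Tq, hq, hqn, hcl, h1, h3, h4, hxT⟩ := hx
    exact ⟨q, Tq, hq, hqn, hcl, h1, h3, h4, hcl x x' hxx' hxT⟩
  have hU1 : (1 : DihedralGroup n) ∉ U := by
    intro hx
    rw [hU] at hx
    obtain ⟨q, Tq, hq, hqn, hcl, h1, h3, h4, hxT⟩ := hx
    exact h1 hxT
  have hUne : ∃ x, x ∈ U := by
    obtain ⟨q, hqn, hq⟩ := Nat.exists_infinite_primes (2 * n + 1)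
    obtain ⟨Tq, hcl, h1, h3, h4⟩ := tq_facts P hr hcp hsum hfrob h0 hh0 q hq (by omega)
    have hpos : 0 < Tq.ncard := by
      rw [h4, Set.ncard_pos (Set.toFinite _)]
      exact ⟨h0, P.equiv.refl h0⟩
    obtain ⟨x, hx⟩ := (Set.ncard_pos (Set.toFinite _)).mp hpos
    exact ⟨x, by rw [hU]; exact ⟨q, Tq, hq, by omega, hcl, h1, h3, h4, hx⟩⟩
  have hUrat : ∀ i j : ZMod n, AddSubgroup.zmultiples i = AddSubgroup.zmultiples j →
      r i ∈ U → r j ∈ U := by
    intro i j hij hi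
    rw [hU] at hi
    obtain ⟨q, Tq, hq, hqn, hcl, h1, h3, h4, hxT⟩ := hi
    obtain ⟨y, hy⟩ := (nsmul_bijective (n := n) q (hcopq q hq hqn)).2 i
    have hy' : q • y = i := hy
    rw [← hy'] at hxT
    have hrel : P.rel h0 (r y) := (h3 y).mp hxT
    obtain ⟨m, hm, hj⟩ := exists_coprime_nsmul i j hij
    obtain ⟨q', hq'n, hq', hq'm⟩ := Nat.forall_exists_prime_gt_and_modEq (2 * n) (NeZero.ne n)
      (Nat.Coprime.mul_left hm (hcopq q hq hqn))
    obtain ⟨Tq', hcl', h1', h3', h4'⟩ := tq_facts P hr hcp hsum hfrob h0 hh0 q' hq' hq'n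
    have hj' : j = q' • y := by
      rw [hj, ← hy', ← mul_nsmul', nsmul_eq_mul, nsmul_eq_mul]
      congr 1
      exact ((ZMod.natCast_eq_natCast_iff _ _ _).mpr hq'm).symm
    rw [hU]
    exact ⟨q', Tq', hq', hq'n, hcl', h1', h3', h4', by rw [hj']; exact (h3' y).mpr hrel⟩
  -- `h1 ∈ U`
  have hh1U : h1 ∈ U := by
    obtain ⟨x, hx⟩ := hUne
    have hx1 : x ≠ 1 := fun h' => hU1 (h' ▸ hx)
    have hrat := h x h1 hx1 hh1 (fun z => if z ∈ U then 1 else 0)
      (by
        intro z z' hzz'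
        by_cases hz : z ∈ U
        · simp [hz, hUcl z z' hzz' hz]
        · have : z' ∉ U := fun h' => hz (hUcl z' z (P.equiv.symm hzz') h')
          simp [hz, this])
      (by
        intro i j hij
        by_cases hi : r i ∈ U
        · simp [hi, hUrat i j hij hi]
        · have : r j ∉ U := fun h' => hi (hUrat j i hij.symm h')
          simp [hi, this])
    by_contra hcon
    simp [hx, hcon] at hrat
  rw [hU] at hh1U
  obtain ⟨q, Tq, hq, hqn, hcl, hT1, h3, h4, hxT⟩ := hh1U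
  obtain ⟨hinj, hsurj⟩ := nsmul_bijective (n := n) q (hcopq q hq hqn)
  have eA : {k : ZMod n | r k ∈ Tq}.ncard = {y : ZMod n | P.rel h0 (r y)}.ncard := by
    have : {k : ZMod n | r k ∈ Tq} = (fun y : ZMod n => q • y) '' {y : ZMod n | P.rel h0 (r y)} := by
      ext k
      constructor
      · intro hk
        obtain ⟨y, hy⟩ := hsurj k
        have hy' : q • y = k := hy
        refine ⟨y, ?_, hy⟩
        rw [← hy'] at hk
        exact (h3 y).mp hk
      · rintro ⟨y, hy, rfl⟩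
        exact (h3 y).mpr hy
    rw [this, Set.ncard_image_of_injective _ hinj]
  have eB : {k : ZMod n | sr k ∈ Tq}.ncard = {y : ZMod n | P.rel h0 (sr y)}.ncard := by
    have e1 := ncard_dih Tq
    have e2 := ncard_dih {x | P.rel h0 x}
    rw [h4, e2, eA] at e1
    have e3 : {i : ZMod n | r i ∈ {x | P.rel h0 x}} = {y : ZMod n | P.rel h0 (r y)} := rfl
    have e4 : {i : ZMod n | sr i ∈ {x | P.rel h0 x}} = {y : ZMod n | P.rel h0 (sr y)} := rfl
    rw [e3, e4] at e1
    omega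
  constructor
  · rw [← eA]
    apply Set.ncard_le_ncard _ (Set.toFinite _)
    intro i hi
    exact hcl h1 (r i) hi hxT
  · rw [← eB]
    apply Set.ncard_le_ncard _ (Set.toFinite _)
    intro i hi
    exact hcl h1 (sr i) hi hxT

/-- Arithmetic of the double count. -/
theorem dvd_of_double_count (n a b : ℕ) (hn : 0 < n) (h : (n - 1) * b = n * a) : n ∣ b := by
  have h1 : ((n : ℤ) - 1) * b = n * a := by
    have := congrArg (fun t : ℕ => (t : ℤ)) h
    simp only [Nat.cast_mul] at this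
    rw [Nat.cast_sub hn] at this
    simpa using this
  have h2 : (n : ℤ) ∣ (b : ℤ) := ⟨(b : ℤ) - a, by linear_combination (-1 : ℤ) * h1⟩
  exact Int.natCast_dvd_natCast.mp h2

/-- **Piece RCb, core**: triviality descends from the rational closure (with the BASIC and FROB
facts as hypotheses). -/
theorem triv_core (P : PSR n)
    (hr : ∀ h : DihedralGroup n, h ≠ 1 → ∃ i : ZMod n, i ≠ 0 ∧ P.rel h (r i))
    (hcp : ∀ f : DihedralGroup n → ℤ, Resp P.rel f → ∀ k : ℕ, Resp P.rel (cpow f k))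
    (hsum : ∀ (f : DihedralGroup n → ℤ) (k : ℕ), ∑ h, cpow f k h = (∑ h, f h) ^ k)
    (hfrob : ∀ p : ℕ, p.Prime → p ≠ 2 → ∀ f : DihedralGroup n → ℤ, Resp P.rel f →
      ∀ k : ZMod n, (p : ℤ) ∣ cpow f p (r k) -
        ∑ i ∈ Finset.univ.filter (fun i : ZMod n => p • i = k), f (r i))
    (h : ∀ h h' : DihedralGroup n, h ≠ 1 → h' ≠ 1 → ratRel P h h') : P.Triv := by
  classical
  have hn0 : 0 < n := Nat.pos_of_ne_zero (NeZero.ne n)
  have hle := counts_le P hr hcp hsum hfrob h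
  have hsr1 : ∀ j : ZMod n, (sr j : DihedralGroup n) ≠ 1 := by
    intro j hj
    rw [DihedralGroup.one_def] at hj
    cases hj
  have hr1 : ∀ i : ZMod n, i ≠ 0 → (r i : DihedralGroup n) ≠ 1 := by
    intro i hi hj
    rw [DihedralGroup.one_def] at hj
    injection hj with hj
    exact hi hj
  obtain ⟨a, ha⟩ : ∃ a, a = {i : ZMod n | P.rel (sr 0) (r i)}.ncard := ⟨_, rfl⟩
  obtain ⟨b, hb⟩ : ∃ b, b = {i : ZMod n | P.rel (sr 0) (sr i)}.ncard := ⟨_, rfl⟩
  have hA : ∀ y : DihedralGroup n, y ≠ 1 → {i : ZMod n | P.rel y (r i)}.ncard = a := by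
    intro y hy
    rw [ha]
    exact le_antisymm (hle (sr 0) y (hsr1 0) hy).1 (hle y (sr 0) hy (hsr1 0)).1
  have hB : ∀ y : DihedralGroup n, y ≠ 1 → {i : ZMod n | P.rel y (sr i)}.ncard = b := by
    intro y hy
    rw [hb]
    exact le_antisymm (hle (sr 0) y (hsr1 0) hy).2 (hle y (sr 0) hy (hsr1 0)).2
  have hdc : (n - 1) * b = n * a := by
    have s1 : ∑ i : ZMod n, ∑ j : ZMod n, (if i ≠ 0 ∧ P.rel (r i) (sr j) then 1 else 0)
        = (n - 1) * b := by
      have e : ∀ i : ZMod n, ∑ j : ZMod n, (if i ≠ 0 ∧ P.rel (r i) (sr j) then 1 else 0)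
          = if i = 0 then 0 else b := by
        intro i
        by_cases hi : i = 0
        · simp [hi]
        · rw [if_neg hi, ← hB (r i) (hr1 i hi), ncard_eq_sum_nat]
          apply Finset.sum_congr rfl
          intro j _
          simp [hi]
      simp_rw [e]
      rw [Finset.sum_ite, Finset.sum_const_zero, zero_add, Finset.sum_const, smul_eq_mul]
      congr 1
      rw [Finset.filter_not, Finset.card_sdiff_of_subset (Finset.subset_univ _),
        Finset.card_univ, ZMod.card, Finset.filter_eq', if_pos (Finset.mem_univ _),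
        Finset.card_singleton]
    have s2 : ∑ j : ZMod n, ∑ i : ZMod n, (if i ≠ 0 ∧ P.rel (r i) (sr j) then 1 else 0)
        = n * a := by
      have e : ∀ j : ZMod n, ∑ i : ZMod n, (if i ≠ 0 ∧ P.rel (r i) (sr j) then 1 else 0)
          = a := by
        intro j
        rw [← hA (sr j) (hsr1 j), ncard_eq_sum_nat]
        apply Finset.sum_congr rfl
        intro i _
        have hiff : (i ≠ 0 ∧ P.rel (r i) (sr j)) ↔ i ∈ {i : ZMod n | P.rel (sr j) (r i)} := by
          constructor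
          · rintro ⟨-, h'⟩; exact P.equiv.symm h'
          · intro h'
            refine ⟨?_, P.equiv.symm h'⟩
            rintro rfl
            have h'' : P.rel (sr j) (r 0) := h'
            rw [← DihedralGroup.one_def] at h''
            exact hsr1 j (P.one_class _ h'')
        simp only [hiff]
      simp_rw [e]
      rw [Finset.sum_const, smul_eq_mul, Finset.card_univ, ZMod.card]
    rw [← s1, ← s2, Finset.sum_comm]
  have hb_pos : 0 < b := by
    rw [hb, Set.ncard_pos (Set.toFinite _)]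
    exact ⟨0, P.equiv.refl _⟩
  have hb_le : b ≤ n := by
    have := Set.ncard_le_card {i : ZMod n | P.rel (sr 0) (sr i)}
    rw [Nat.card_eq_fintype_card, ZMod.card] at this
    rw [hb]; exact this
  have hbn : b = n :=
    le_antisymm hb_le (Nat.le_of_dvd hb_pos (dvd_of_double_count n a b hn0 hdc))
  have hall : ∀ y : DihedralGroup n, y ≠ 1 → P.rel y (sr 0) := by
    intro y hy
    have h1 : {j : ZMod n | P.rel y (sr j)}.ncard = Nat.card (ZMod n) := by
      rw [hB y hy, hbn, Nat.card_eq_fintype_card, ZMod.card]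
    have h2 := (Set.eq_univ_iff_ncard _).mpr h1
    have h3 : (0 : ZMod n) ∈ {j : ZMod n | P.rel y (sr j)} := by rw [h2]; trivial
    exact h3
  intro x x' hx hx'
  exact P.equiv.trans (hall x hx) (P.equiv.symm (hall x' hx'))

end Cfsg.Agent.H67.Dih
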