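import Mathlib

set_option autoImplicit false

namespace Cfsg.Agent.H67

/-- A fixed-point-free involutory endomorphism of a finite group inverts every element. -/
theorem fpf_involution_eq_inv {K : Type*} [Group K] [Finite K] (τ : K →* K)
    (hτ2 : ∀ k, τ (τ k) = k) (hfpf : ∀ k, τ k = k → k = 1) : ∀ k, τ k = k⁻¹ := by
  have hinj : Function.Injective (fun k : K => k⁻¹ * τ k) := by
    intro k l hkl
    have hkl' : k⁻¹ * τ k = l⁻¹ * τ l := hkl
    have h1 : τ (l * k⁻¹) = l * k⁻¹ := by
      rw [map_mul, map_inv]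
      have : τ l = l * (k⁻¹ * τ k) := by rw [hkl']; group
      rw [this]; group
    have h2 := hfpf _ h1
    rw [mul_inv_eq_one] at h2
    exact h2.symm
  have hsurj : Function.Surjective (fun k : K => k⁻¹ * τ k) :=
    Finite.injective_iff_surjective.1 hinj
  intro g
  obtain ⟨k, rfl⟩ := hsurj g
  simp only [map_mul, map_inv, hτ2, mul_inv_rev, inv_inv]

/-- A finite group with a fixed-point-free involutory endomorphism is abelian. -/
theorem fpf_involution_comm {K : Type*} [Group K] [Finite K] (τ : K →* K)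
    (hτ2 : ∀ k, τ (τ k) = k) (hfpf : ∀ k, τ k = k → k = 1) (a b : K) : a * b = b * a := by
  have hinv := fpf_involution_eq_inv τ hτ2 hfpf
  have h1 : τ (a⁻¹ * b⁻¹) = τ a⁻¹ * τ b⁻¹ := map_mul τ _ _
  rw [hinv, hinv, hinv] at h1
  have h2 : b * a = a * b := by simpa using h1
  exact h2.symm

/-- A finite group with a fixed-point-free involutory endomorphism has odd order. -/
theorem fpf_involution_odd_card {K : Type*} [Group K] [Finite K] (τ : K →* K)
    (hτ2 : ∀ k, τ (τ k) = k) (hfpf : ∀ k, τ k = k → k = 1) : ¬ 2 ∣ Nat.card K := by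
  have hinv := fpf_involution_eq_inv τ hτ2 hfpf
  intro h
  have : Fact (Nat.Prime 2) := ⟨Nat.prime_two⟩
  obtain ⟨k, hk⟩ := exists_prime_orderOf_dvd_card' 2 h
  have hk2 : k ^ 2 = 1 := by rw [← hk]; exact pow_orderOf_eq_one k
  have hk1 : τ k = k := by
    rw [hinv, inv_eq_iff_mul_eq_one, ← sq, hk2]
  have := hfpf k hk1
  rw [this, orderOf_one] at hk
  norm_num at hk

end Cfsg.Agent.H67
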