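import Mathlib
import Cfsg.Agent.H72.ZasDefs

/-!
# Piece LU of helper72's S0690 project (Zassenhaus)

A subgroup with cyclic Sylow subgroups, in a group whose subgroups of order `pq` are cyclic, has at
most one subgroup of each prime order.
-/

set_option autoImplicit false
set_option linter.style.haveILetI false

namespace Cfsg.Agent.H67.Zas

open Cfsg.Agent.H72.Zas

universe u

section Aux

variable {G : Type*} [Group G]

/-- In a finite cyclic group, an element killed by `p` lies in the subgroup generated by any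
element of order `p`. -/
theorem mem_zpowers_of_cyclic [Finite G] [IsCyclic G] {p : ℕ} (hp : 0 < p) {x y : G}
    (hx : orderOf x = p) (hy : y ^ p = 1) : y ∈ Subgroup.zpowers x := by
  classical
  haveI := Fintype.ofFinite G
  have h1 : (Finset.univ.filter (fun a : G => a ^ p = 1)).card ≤ p :=
    IsCyclic.card_pow_eq_one_le hp
  have h2 : Finset.image (fun i : ℕ => x ^ i) (Finset.range p) ⊆
      Finset.univ.filter (fun a : G => a ^ p = 1) := by
    intro a ha
    obtain ⟨i, -, rfl⟩ := Finset.mem_image.1 ha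
    rw [Finset.mem_filter]
    refine ⟨Finset.mem_univ _, ?_⟩
    rw [← pow_mul, mul_comm, pow_mul, ← hx, pow_orderOf_eq_one, one_pow]
  have h3 : (Finset.image (fun i : ℕ => x ^ i) (Finset.range p)).card = p := by
    rw [Finset.card_image_of_injOn, Finset.card_range]
    rw [Finset.coe_range, ← hx]
    exact pow_injOn_Iio_orderOf
  have h4 := Finset.eq_of_subset_of_card_le h2 (by rw [h3]; exact h1)
  have h5 : y ∈ Finset.image (fun i : ℕ => x ^ i) (Finset.range p) := by
    rw [h4, Finset.mem_filter]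
    exact ⟨Finset.mem_univ _, hy⟩
  obtain ⟨i, -, rfl⟩ := Finset.mem_image.1 h5
  exact Subgroup.pow_mem _ (Subgroup.mem_zpowers x) i

/-- In a finite group, `g H g⁻¹ ≤ H` implies `g ∈ N(H)`. -/
theorem mem_normalizer_of_conj_mem [Finite G] (H : Subgroup G) (g : G)
    (h : ∀ x ∈ H, g * x * g⁻¹ ∈ H) : g ∈ Subgroup.normalizer (H : Set G) := by
  have hinj : Function.Injective (fun x : H => (⟨g * x * g⁻¹, h x x.2⟩ : H)) := by
    intro x y hxy
    have h1 : g * (x : G) * g⁻¹ = g * (y : G) * g⁻¹ := congrArg Subtype.val hxy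
    apply Subtype.ext
    exact mul_left_cancel (mul_right_cancel h1)
  have hsurj := Finite.surjective_of_injective hinj
  rw [Subgroup.mem_normalizer_iff]
  intro x
  refine ⟨h x, fun hx => ?_⟩
  obtain ⟨y, hy⟩ := hsurj ⟨_, hx⟩
  have h1 : g * (y : G) * g⁻¹ = g * x * g⁻¹ := congrArg Subtype.val hy
  have h2 : (y : G) = x := mul_left_cancel (mul_right_cancel h1)
  rw [← h2]; exact y.2

theorem card_sup_of_normalizes [Finite G] (A D : Subgroup G)
    (hAD : A ≤ Subgroup.normalizer (D : Set G)) (h : A ⊓ D = ⊥) :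
    Nat.card (A ⊔ D : Subgroup G) = Nat.card A * Nat.card D := by
  have h0 : D.relIndex (A ⊔ D) = D.relIndex A := by
    have h1 := Subgroup.normal_subgroupOf_of_le_normalizer hAD
    have h2 := Subgroup.normal_subgroupOf_sup_of_le_normalizer hAD
    exact Nat.card_congr (QuotientGroup.quotientInfEquivProdNormalizerQuotient A D hAD).toEquiv.symm
  have h1 : D.relIndex (A ⊔ D) = Nat.card A := by
    rw [h0, ← Subgroup.inf_relIndex_right, inf_comm, h, Subgroup.relIndex_bot_left]
  have h2 := Subgroup.card_mul_index (D.subgroupOf (A ⊔ D))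
  have h3 : Nat.card (D.subgroupOf (A ⊔ D)) = Nat.card D :=
    Nat.card_congr (Subgroup.subgroupOfEquivOfLe le_sup_right).toEquiv
  rw [h3] at h2
  rw [← h2, ← h1, mul_comm]
  rfl

/-- An element `x` of prime order `p` normalizing a cyclic group `⟨y⟩` of order prime to `p`
centralizes it, if all subgroups of order `p * q` are cyclic. -/
theorem comm_of_normalizes_zpowers [Finite G]
    (hpq : ∀ (A : Subgroup G) (p q : ℕ), p.Prime → q.Prime → Nat.card A = p * q → IsCyclic A)
    {p : ℕ} (hp : p.Prime) {x : G} (hx : orderOf x = p) :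
    ∀ (m : ℕ) (y : G), orderOf y = m → m.Coprime p → x * y * x⁻¹ ∈ Subgroup.zpowers y →
      x * y = y * x := by
  intro m
  induction m using Nat.strong_induction_on with
  | _ m ih =>
    intro y hy hcop hnorm
    by_cases hm1 : m = 1
    · rw [hm1, orderOf_eq_one_iff] at hy
      rw [hy, mul_one, one_mul]
    have hm0 : m ≠ 0 := by
      rw [← hy]; exact (orderOf_pos y).ne'
    obtain ⟨j, hj⟩ := Subgroup.mem_zpowers_iff.1 hnorm
    obtain ⟨q, hqdef⟩ : ∃ q : ℕ, q = m.minFac := ⟨_, rfl⟩
    have hqp : q.Prime := hqdef ▸ Nat.minFac_prime hm1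
    have hqm : q ∣ m := hqdef ▸ Nat.minFac_dvd m
    have hqne : q ≠ p := by
      intro h
      rw [h] at hqm
      have h1 : p ∣ Nat.gcd m p := Nat.dvd_gcd hqm dvd_rfl
      rw [hcop, Nat.dvd_one] at h1
      exact hp.one_lt.ne' h1
    have hyq : orderOf (y ^ q) = m / q := by
      rw [orderOf_pow_of_dvd hqp.ne_zero (hy ▸ hqm), hy]
    have hlt : m / q < m := Nat.div_lt_self (Nat.pos_of_ne_zero hm0) hqp.one_lt
    have hcop' : (m / q).Coprime p :=
      Nat.Coprime.coprime_dvd_left (Nat.div_dvd_of_dvd hqm) hcop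
    have hconjq : x * y ^ q * x⁻¹ = (y ^ q) ^ j := by
      rw [← conj_pow, ← hj, ← zpow_natCast, ← zpow_natCast, ← zpow_mul, ← zpow_mul, mul_comm]
    have hnorm' : x * y ^ q * x⁻¹ ∈ Subgroup.zpowers (y ^ q) := by
      rw [Subgroup.mem_zpowers_iff]
      exact ⟨j, hconjq.symm⟩
    have hcomm := ih (m / q) hlt (y ^ q) hyq hcop' hnorm'
    obtain ⟨w, hw⟩ : ∃ w : G, w = y ^ (j - 1) := ⟨_, rfl⟩
    have hwy : x * y * x⁻¹ = w * y := by
      rw [hw, ← hj, ← zpow_add_one, sub_add_cancel]
    have hwq : w ^ q = 1 := by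
      have h1 : (y ^ q) ^ j = y ^ q := by
        rw [← hconjq, hcomm, mul_inv_cancel_right]
      rw [hw, ← zpow_natCast, ← zpow_mul, sub_mul, one_mul, zpow_sub, mul_comm j, zpow_mul,
        zpow_natCast, h1, mul_inv_cancel]
    by_cases hw1 : w = 1
    · rw [hw1, one_mul] at hwy
      calc x * y = x * y * x⁻¹ * x := by group
        _ = y * x := by rw [hwy]
    exfalso
    have hwo : orderOf w = q := by
      haveI : Fact q.Prime := ⟨hqp⟩
      exact orderOf_eq_prime hwq hw1
    have hxw : x * w * x⁻¹ = w ^ j := by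
      rw [hw, ← conj_zpow, ← hj, ← zpow_mul, ← zpow_mul, mul_comm]
    have hN : Subgroup.zpowers x ≤ Subgroup.normalizer ((Subgroup.zpowers w : Subgroup G) : Set G) := by
      rw [Subgroup.zpowers_le]
      apply mem_normalizer_of_conj_mem
      intro k hk
      obtain ⟨i, rfl⟩ := Subgroup.mem_zpowers_iff.1 hk
      rw [← conj_zpow, hxw]
      exact Subgroup.zpow_mem _ (Subgroup.zpow_mem _ (Subgroup.mem_zpowers w) j) i
    have hcopc : (Nat.card (Subgroup.zpowers x)).Coprime (Nat.card (Subgroup.zpowers w)) := by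
      rw [Nat.card_zpowers, Nat.card_zpowers, hx, hwo]
      exact (Nat.coprime_primes hp hqp).2 (Ne.symm hqne)
    have hdisj : Subgroup.zpowers x ⊓ Subgroup.zpowers w = ⊥ :=
      (Subgroup.disjoint_of_coprime_natCard hcopc).eq_bot
    have hcard : Nat.card (Subgroup.zpowers x ⊔ Subgroup.zpowers w : Subgroup G) = p * q := by
      rw [card_sup_of_normalizes _ _ hN hdisj, Nat.card_zpowers, Nat.card_zpowers, hx, hwo]
    haveI : IsCyclic (Subgroup.zpowers x ⊔ Subgroup.zpowers w : Subgroup G) :=
      hpq _ p q hp hqp hcard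
    have hxA : x ∈ Subgroup.zpowers x ⊔ Subgroup.zpowers w :=
      Subgroup.mem_sup_left (Subgroup.mem_zpowers x)
    have hwA : w ∈ Subgroup.zpowers x ⊔ Subgroup.zpowers w :=
      Subgroup.mem_sup_right (Subgroup.mem_zpowers w)
    have hxwc : x * w = w * x := by
      have h1 := mul_comm' (⟨x, hxA⟩ : (Subgroup.zpowers x ⊔ Subgroup.zpowers w : Subgroup G))
        ⟨w, hwA⟩
      exact congrArg Subtype.val h1
    have hpow : ∀ n : ℕ, x ^ n * y * (x ^ n)⁻¹ = w ^ n * y := by
      intro n
      induction n with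
      | zero => simp
      | succ n ihn =>
        have h1 : x * w ^ n * x⁻¹ = w ^ n := by
          have hc : Commute x (w ^ n) := (Commute.pow_right hxwc n)
          rw [hc.eq, mul_inv_cancel_right]
        calc x ^ (n + 1) * y * (x ^ (n + 1))⁻¹ = x * (x ^ n * y * (x ^ n)⁻¹) * x⁻¹ := by
              rw [pow_succ']; group
          _ = x * (w ^ n * y) * x⁻¹ := by rw [ihn]
          _ = (x * w ^ n * x⁻¹) * (x * y * x⁻¹) := by group
          _ = w ^ n * (w * y) := by rw [h1, hwy]
          _ = w ^ (n + 1) * y := by rw [pow_succ, mul_assoc]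
    have h1 := hpow p
    rw [← hx, pow_orderOf_eq_one, inv_one, one_mul, mul_one, hx] at h1
    have h2 : w ^ p = 1 := by
      have h3 : w ^ p * y = 1 * y := by rw [one_mul]; exact h1.symm
      exact mul_right_cancel h3
    have h3 : q ∣ p := by
      rw [← hwo]; exact orderOf_dvd_of_pow_eq_one h2
    exact hqne ((Nat.prime_dvd_prime_iff_eq hqp hp).1 h3)

end Aux

/-- **Piece LU of S0690.** -/
theorem zas_lu : StLu.{u} := by
  intro G _ _ hpq C hC p hp x y hxC hyC hx hy
  haveI : IsZGroup C := ⟨fun q hq P => @hC q ⟨hq⟩ P⟩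
  haveI : IsCyclic (commutator C) := IsZGroup.isCyclic_commutator C
  have hcop := IsZGroup.coprime_commutator_index C
  have hx' : orderOf (⟨x, hxC⟩ : C) = p := by rw [Subgroup.orderOf_mk]; exact hx
  have hy' : orderOf (⟨y, hyC⟩ : C) = p := by rw [Subgroup.orderOf_mk]; exact hy
  by_cases hpN : p ∣ Nat.card (commutator C)
  · -- `p` divides the order of the (cyclic, Hall) commutator subgroup
    have hpi : ¬ p ∣ (commutator C).index := by
      intro h
      have h1 : p ∣ Nat.gcd (Nat.card (commutator C)) (commutator C).index := Nat.dvd_gcd hpN h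
      rw [hcop, Nat.dvd_one] at h1
      exact hp.one_lt.ne' h1
    have hmem : ∀ z : C, orderOf z = p → z ∈ commutator C := by
      intro z hz
      rw [← QuotientGroup.eq_one_iff]
      have h1 : orderOf (QuotientGroup.mk' (commutator C) z) ∣ p := by
        rw [← hz]; exact orderOf_map_dvd (QuotientGroup.mk' (commutator C)) z
      have h2 : orderOf (QuotientGroup.mk' (commutator C) z) ∣ (commutator C).index := by
        rw [Subgroup.index]; exact orderOf_dvd_natCard _
      rcases (Nat.dvd_prime hp).1 h1 with h | h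
      · exact orderOf_eq_one_iff.1 h
      · rw [h] at h2; exact absurd h2 hpi
    have h1 := mem_zpowers_of_cyclic (G := commutator C) hp.pos
      (x := ⟨⟨x, hxC⟩, hmem _ hx'⟩) (y := ⟨⟨y, hyC⟩, hmem _ hy'⟩)
      (by rw [Subgroup.orderOf_mk]; exact hx')
      (by
        apply Subtype.ext
        apply Subtype.ext
        show y ^ p = 1
        rw [← hy, pow_orderOf_eq_one])
    obtain ⟨k, hk⟩ := Subgroup.mem_zpowers_iff.1 h1
    rw [Subgroup.mem_zpowers_iff]
    refine ⟨k, ?_⟩
    have h2 := congrArg (fun z : commutator C => ((z : C) : G)) hk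
    simpa using h2
  · -- `p` is prime to the order of the commutator subgroup
    have hcopN : (Nat.card (commutator C)).Coprime p :=
      ((Nat.Prime.coprime_iff_not_dvd hp).2 hpN).symm
    obtain ⟨n₀, hn₀⟩ := IsCyclic.exists_generator (α := commutator C)
    have hcen : ∀ z : C, orderOf z = p → ∀ n ∈ commutator C, z * n = n * z := by
      intro z hz n hn
      have hord : (orderOf (((n₀ : commutator C) : C) : G)).Coprime p := by
        rw [Subgroup.orderOf_coe, Subgroup.orderOf_coe]
        exact Nat.Coprime.coprime_dvd_left (orderOf_dvd_natCard n₀) hcopN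
      have hnorm : (z : G) * (((n₀ : commutator C) : C) : G) * (z : G)⁻¹ ∈
          Subgroup.zpowers ((((n₀ : commutator C) : C) : G)) := by
        have h1 : z * (n₀ : C) * z⁻¹ ∈ commutator C :=
          (inferInstance : (commutator C).Normal).conj_mem _ n₀.2 z
        obtain ⟨k, hk⟩ := Subgroup.mem_zpowers_iff.1 (hn₀ ⟨_, h1⟩)
        rw [Subgroup.mem_zpowers_iff]
        refine ⟨k, ?_⟩
        have h2 := congrArg (fun w : commutator C => ((w : C) : G)) hk
        simpa using h2
      have hc := comm_of_normalizes_zpowers hpq hp (x := (z : G))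
        (by rw [Subgroup.orderOf_coe]; exact hz) _ _ rfl hord hnorm
      obtain ⟨k, hk⟩ := Subgroup.mem_zpowers_iff.1 (hn₀ ⟨n, hn⟩)
      have hk' : (n₀ : C) ^ k = n := congrArg Subtype.val hk
      have hc' : Commute z (n₀ : C) := by
        apply Subtype.ext
        exact hc
      rw [← hk']
      exact (hc'.zpow_right k).eq
    -- the images in the cyclic quotient
    haveI : IsCyclic (C ⧸ commutator C) := (inferInstance : IsCyclic (Abelianization C))
    have hxbar : orderOf (QuotientGroup.mk' (commutator C) ⟨x, hxC⟩) = p := by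
      have h1 : orderOf (QuotientGroup.mk' (commutator C) ⟨x, hxC⟩) ∣ p := by
        rw [← hx']; exact orderOf_map_dvd (QuotientGroup.mk' (commutator C)) _
      rcases (Nat.dvd_prime hp).1 h1 with h | h
      · exfalso
        have h2 : (⟨x, hxC⟩ : C) ∈ commutator C :=
          (QuotientGroup.eq_one_iff _).1 (orderOf_eq_one_iff.1 h)
        have h3 : orderOf (⟨⟨x, hxC⟩, h2⟩ : commutator C) ∣ Nat.card (commutator C) :=
          orderOf_dvd_natCard _
        rw [Subgroup.orderOf_mk, hx'] at h3
        exact hpN h3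
      · exact h
    have hybar : (QuotientGroup.mk' (commutator C) ⟨y, hyC⟩) ^ p = 1 := by
      rw [← map_pow, ← hy', pow_orderOf_eq_one, map_one]
    have h1 := mem_zpowers_of_cyclic (G := C ⧸ commutator C) hp.pos hxbar hybar
    obtain ⟨k, hk⟩ := Subgroup.mem_zpowers_iff.1 h1
    -- `y = x ^ k * n` with `n` in the commutator subgroup
    have hn : ((⟨x, hxC⟩ : C) ^ k)⁻¹ * ⟨y, hyC⟩ ∈ commutator C := by
      rw [← QuotientGroup.eq_one_iff, QuotientGroup.mk_mul, QuotientGroup.mk_inv,
        QuotientGroup.mk_zpow]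
      have hk2 : (QuotientGroup.mk (⟨x, hxC⟩ : C) : C ⧸ commutator C) ^ k =
          QuotientGroup.mk (⟨y, hyC⟩ : C) := hk
      rw [hk2, inv_mul_cancel]
    obtain ⟨n, hndef⟩ : ∃ n : C, n = ((⟨x, hxC⟩ : C) ^ k)⁻¹ * ⟨y, hyC⟩ := ⟨_, rfl⟩
    rw [← hndef] at hn
    have hyn : (⟨y, hyC⟩ : C) = (⟨x, hxC⟩ : C) ^ k * n := by
      rw [hndef, mul_inv_cancel_left]
    have hcomm : Commute ((⟨x, hxC⟩ : C) ^ k) n :=
      Commute.zpow_left (hcen _ hx' n hn) k
    have hnp : n ^ p = 1 := by
      have h2 : (⟨y, hyC⟩ : C) ^ p = 1 := by rw [← hy', pow_orderOf_eq_one]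
      have hxp : (⟨x, hxC⟩ : C) ^ p = 1 := by rw [← hx', pow_orderOf_eq_one]
      rw [hyn, hcomm.mul_pow, ← zpow_natCast ((⟨x, hxC⟩ : C) ^ k) p, ← zpow_mul, mul_comm k,
        zpow_mul, zpow_natCast, hxp, one_zpow, one_mul] at h2
      exact h2
    have hn1 : n = 1 := by
      have h2 : orderOf n ∣ p := orderOf_dvd_of_pow_eq_one hnp
      have h3 : orderOf n ∣ Nat.card (commutator C) := by
        have h4 : orderOf (⟨n, hn⟩ : commutator C) ∣ Nat.card (commutator C) :=
          orderOf_dvd_natCard _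
        rwa [Subgroup.orderOf_mk] at h4
      have h4 : orderOf n ∣ Nat.gcd (Nat.card (commutator C)) p := Nat.dvd_gcd h3 h2
      rw [hcopN, Nat.dvd_one] at h4
      exact orderOf_eq_one_iff.1 h4
    rw [hn1, mul_one] at hyn
    rw [Subgroup.mem_zpowers_iff]
    refine ⟨k, ?_⟩
    have h2 := congrArg (fun z : C => (z : G)) hyn
    simpa using h2.symm

end Cfsg.Agent.H67.Zas
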