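import Cfsg.Agent.H72.Fg8Defs
import Cfsg.Agent.H67.ZasLu
import Cfsg.Agent.H67.SylowAux

/-!
# S4151-R4 (helper67, for helper72): a complement `Q` of `H` in `N_G(H)` (`H` Hall in `N_G(H)`)
has order prime to `|H|` and normalizes `H`.
-/

set_option autoImplicit false

namespace Cfsg.Agent.H67.Zas

universe u

theorem stR4 : Cfsg.Agent.H72.Zas.StR4.{u} := by
  intro G _ _ H Q hHall hQN hQH hsup
  have hnorm : ∀ q ∈ Q, ∀ h ∈ H, q * h * q⁻¹ ∈ H := by
    intro q hq h hh
    exact (Subgroup.mem_normalizer_iff.1 (hQN hq) h).1 hh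
  refine ⟨?_, hnorm⟩
  have hcard : Nat.card (Q ⊔ H : Subgroup G) = Nat.card Q * Nat.card H :=
    card_sup_of_normalizes Q H hQN hQH
  rw [hsup] at hcard
  have h1 := Cfsg.Agent.H67.card_mul_relIndex_of_le (Subgroup.le_normalizer (H := H))
  have h2 : H.relIndex (Subgroup.normalizer (H : Set G)) = Nat.card Q := by
    have : Nat.card H * H.relIndex (Subgroup.normalizer (H : Set G)) =
        Nat.card H * Nat.card Q := by
      rw [h1, hcard, mul_comm]
    exact Nat.eq_of_mul_eq_mul_left Nat.card_pos this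
  have h3 : (Nat.card H).Coprime (Nat.card Q) := by
    rw [← h2]
    exact hHall
  exact h3.symm

end Cfsg.Agent.H67.Zas
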