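import Cfsg.Agent.H72.Fg8Defs
import Cfsg.Agent.H67.ZasLu
import Cfsg.Agent.H67.SylowAux
import Cfsg.Agent.H67.Conj
import Cfsg.Agent.H67.Fg8R4

/-!
# S4151-R3 (helper67, for helper72): the normal complement `O ⊔ W ⊔ Q` of `C_H(Q)`.
-/

set_option autoImplicit false
set_option linter.style.haveILetI false

namespace Cfsg.Agent.H67.Zas

universe u

theorem card_sup_dvd_of_normalizes {G : Type*} [Group G] [Finite G] (A D : Subgroup G)
    (hAD : A ≤ Subgroup.normalizer (D : Set G)) :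
    Nat.card (A ⊔ D : Subgroup G) ∣ Nat.card A * Nat.card D := by
  have h0 : D.relIndex (A ⊔ D) = D.relIndex A := by
    have h1 := Subgroup.normal_subgroupOf_of_le_normalizer hAD
    have h2 := Subgroup.normal_subgroupOf_sup_of_le_normalizer hAD
    exact Nat.card_congr (QuotientGroup.quotientInfEquivProdNormalizerQuotient A D hAD).toEquiv.symm
  have h1 : D.relIndex A ∣ Nat.card A := by
    rw [← Subgroup.inf_relIndex_right]
    exact Dvd.intro_left _ (Cfsg.Agent.H67.card_mul_relIndex_of_le inf_le_right)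
  have h2 := Cfsg.Agent.H67.card_mul_relIndex_of_le (le_sup_right : D ≤ A ⊔ D)
  rw [← h2, h0, mul_comm]
  exact Nat.mul_dvd_mul h1 dvd_rfl

theorem map_conj_eq_of_forall_mem {G : Type*} [Group G] [Finite G] {K : Subgroup G} {c : G}
    (h : ∀ k ∈ K, c * k * c⁻¹ ∈ K) : K.map (MulAut.conj c).toMonoidHom = K := by
  have hle : K.map (MulAut.conj c).toMonoidHom ≤ K := by
    rintro _ ⟨k, hk, rfl⟩
    exact h k hk
  exact Subgroup.eq_of_le_of_card_ge hle (Cfsg.Agent.H67.card_map_conj K c).ge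

theorem stR3 : Cfsg.Agent.H72.Zas.StR3.{u} := by
  intro G _ _ H O Q W hHall hHidx hO hOH hON hQN hQH hQsup hWH hWnH hWnQ hWC hCW hcard
  haveI := hO
  obtain ⟨hQcop, hQnorm⟩ := stR4 G H Q hHall hQN hQH hQsup
  obtain ⟨C, hC⟩ : ∃ C : Subgroup G, C = H ⊓ Subgroup.centralizer (Q : Set G) := ⟨_, rfl⟩
  rw [← hC] at hWC hCW hcard ⊢
  have hCH : C ≤ H := hC ▸ inf_le_left
  have hCQ : ∀ c ∈ C, ∀ q ∈ Q, c * q * c⁻¹ = q := by
    intro c hc q hq
    rw [hC, Subgroup.mem_inf, Subgroup.mem_centralizer_iff] at hc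
    rw [← hc.2 q hq, mul_inv_cancel_right]
  have hCdvd : Nat.card C ∣ Nat.card H := Subgroup.card_dvd_of_le hCH
  have hrel : C.relIndex H = Nat.card W := by
    have h1 := Cfsg.Agent.H67.card_mul_relIndex_of_le hCH
    rw [← hcard, mul_comm (Nat.card W)] at h1
    exact Nat.eq_of_mul_eq_mul_left Nat.card_pos h1
  have hidx : C.index = Nat.card W * H.index := by
    rw [← hrel]
    exact (Subgroup.relIndex_mul_index hCH).symm
  refine ⟨?_, ?_⟩
  · rw [hidx]
    exact Nat.Coprime.mul_right hCW (Nat.Coprime.coprime_dvd_left hCdvd hHidx)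
  · -- the normal complement
    have hOle : O ≤ O ⊔ W ⊔ Q := le_sup_of_le_left le_sup_left
    have hWle : W ≤ O ⊔ W ⊔ Q := le_sup_of_le_left le_sup_right
    have hQle : Q ≤ O ⊔ W ⊔ Q := le_sup_right
    have htop : O ⊔ W ⊔ Q ⊔ C = ⊤ := by
      rw [eq_top_iff, ← hON, ← hQsup, ← hWC]
      refine sup_le (le_sup_of_le_left hOle) (sup_le (le_sup_of_le_left hQle)
        (sup_le (le_sup_of_le_left hWle) le_sup_right))
    have hCnorm : C ≤ Subgroup.normalizer ((O ⊔ W ⊔ Q : Subgroup G) : Set G) := by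
      intro c hc
      rw [Cfsg.Agent.H67.mem_normalizer_iff_map_conj, Subgroup.map_sup, Subgroup.map_sup,
        Cfsg.Agent.H67.map_conj_of_normal O c,
        map_conj_eq_of_forall_mem (fun w hw => hWnH c (hCH hc) w hw),
        map_conj_eq_of_forall_mem (fun q hq => by rw [hCQ c hc q hq]; exact hq)]
    have hN0 : (O ⊔ W ⊔ Q : Subgroup G).Normal := by
      rw [← Subgroup.normalizer_eq_top_iff, eq_top_iff, ← htop]
      exact sup_le Subgroup.le_normalizer hCnorm
    have hQOW : Q ≤ Subgroup.normalizer ((O ⊔ W : Subgroup G) : Set G) := by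
      intro q hq
      rw [Cfsg.Agent.H67.mem_normalizer_iff_map_conj, Subgroup.map_sup,
        Cfsg.Agent.H67.map_conj_of_normal O q,
        map_conj_eq_of_forall_mem (fun w hw => hWnQ q hq w hw)]
    have hd1 : Nat.card (O ⊔ W : Subgroup G) ∣ Nat.card W * Nat.card O := by
      rw [sup_comm]
      apply card_sup_dvd_of_normalizes
      rw [Subgroup.normalizer_eq_top]
      exact le_top
    have hd2 : Nat.card (O ⊔ W ⊔ Q : Subgroup G) ∣ Nat.card Q * (Nat.card W * Nat.card O) := by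
      rw [sup_comm]
      exact (card_sup_dvd_of_normalizes Q (O ⊔ W) hQOW).trans (Nat.mul_dvd_mul dvd_rfl hd1)
    have hcop : (Nat.card (O ⊔ W ⊔ Q : Subgroup G)).Coprime (Nat.card C) := by
      apply Nat.Coprime.symm
      apply Nat.Coprime.coprime_dvd_right hd2
      refine Nat.Coprime.mul_right ?_ (Nat.Coprime.mul_right hCW ?_)
      · exact Nat.Coprime.coprime_dvd_left hCdvd hQcop.symm
      · exact Nat.Coprime.coprime_dvd_left hCdvd hOH.symm
    refine ⟨O ⊔ W ⊔ Q, hN0, ?_⟩
    haveI := hN0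
    apply Subgroup.isComplement'_of_disjoint_and_mul_eq_univ
    · exact Subgroup.disjoint_of_coprime_natCard hcop
    · rw [← Subgroup.normal_mul, htop]
      rfl

end Cfsg.Agent.H67.Zas
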