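import Cfsg.Agent.H59.GagDefs

/-!
# S4840 piece CENT (helper67, for helper59)

In the situation `Dat G p N`: `O_p(G) = C_G(N)`.
-/

set_option autoImplicit false
set_option linter.unusedSectionVars false
set_option linter.unusedVariables false
set_option linter.style.haveILetI false

namespace Cfsg.Agent.H67.Gag

open Cfsg Cfsg.Agent.H59.Gag

universe u

/-- A nontrivial normal subgroup of a finite `p`-group meets the centre nontrivially. -/
theorem exists_mem_center_ne_one {Q : Type u} [Group Q] [Finite Q] {p : ℕ} [Fact p.Prime]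
    (hQ : IsPGroup p Q) (N : Subgroup Q) [N.Normal] (hN : N ≠ ⊥) :
    ∃ z ∈ N, z ∈ Subgroup.center Q ∧ z ≠ 1 := by
  have hact :=
    (hQ.of_equiv ConjAct.toConjAct).exists_fixed_point_of_prime_dvd_card_of_fixed_point N
  have dvd : p ∣ Nat.card N := by
    have hNp : IsPGroup p N := hQ.to_subgroup N
    have : Nontrivial N := (Subgroup.nontrivial_iff_ne_bot N).mpr hN
    obtain ⟨n, hn0, hn⟩ := hNp.nontrivial_iff_card.mp inferInstance
    exact hn.symm ▸ dvd_pow_self _ (ne_of_gt hn0)
  have h1 : (1 : N) ∈ MulAction.fixedPoints (ConjAct Q) N := by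
    intro g; exact smul_one g
  obtain ⟨b, hb, hne⟩ := hact dvd h1
  refine ⟨b, b.2, ?_, ?_⟩
  · rw [Subgroup.mem_center_iff]
    intro g
    have h2 := hb (ConjAct.toConjAct g)
    have h3 := congrArg Subtype.val h2
    rw [ConjAct.Subgroup.val_conj_smul, ConjAct.toConjAct_smul] at h3
    calc g * (b : Q) = g * (b : Q) * g⁻¹ * g := by group
      _ = (b : Q) * g := by rw [h3]
  · intro h
    apply hne
    apply Subtype.ext
    simp [h]

/-- **S4840 piece CENT.** -/
theorem cent : CentStmt.{u} := by
  intro G _ _ p _ N hD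
  classical
  have hp : p.Prime := Fact.out
  haveI := hD.normal
  have hNp : IsPGroup p N := by
    intro a
    refine ⟨1, ?_⟩
    apply Subtype.ext
    simpa using hD.elem.2 a a.2
  have hOp : IsPGroup p (pCore p G) :=
    Sylow.sSup_of_normal _ (fun _ h => h.2) (fun _ h => h.1)
  have hNO : N ≤ pCore p G := le_sSup ⟨hD.normal, hNp⟩
  apply le_antisymm
  · have hne : N.subgroupOf (pCore p G) ≠ ⊥ := by
      intro h
      rw [Subgroup.subgroupOf_eq_bot] at h
      exact hD.ne_bot (by rw [← inf_eq_left.mpr hNO]; exact h.eq_bot)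
    obtain ⟨z, hzN, hzc, hz1⟩ := exists_mem_center_ne_one hOp (N.subgroupOf (pCore p G)) hne
    have hK : (N ⊓ Subgroup.centralizer (pCore p G : Set G)).Normal := inferInstance
    have hKne : N ⊓ Subgroup.centralizer (pCore p G : Set G) ≠ ⊥ := by
      intro h
      have hz : (z : G) ∈ N ⊓ Subgroup.centralizer (pCore p G : Set G) := by
        refine Subgroup.mem_inf.mpr ⟨Subgroup.mem_subgroupOf.mp hzN, ?_⟩
        rw [Subgroup.mem_centralizer_iff]
        intro o ho
        have h1 := Subgroup.mem_center_iff.mp hzc ⟨o, ho⟩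
        exact congrArg Subtype.val h1
      rw [h, Subgroup.mem_bot] at hz
      exact hz1 (Subtype.ext hz)
    have hle := hD.minimal _ hK hKne
    intro o ho
    rw [Subgroup.mem_centralizer_iff]
    intro n hn
    have h1 := (Subgroup.mem_inf.mp (hle hn)).2
    exact ((Subgroup.mem_centralizer_iff.mp h1) o ho).symm
  · obtain ⟨⟨x, hxN⟩, hx1⟩ := Subgroup.ne_bot_iff_exists_ne_one.mp hD.ne_bot
    have hx1' : x ≠ 1 := fun h => hx1 (Subtype.ext h)
    obtain ⟨P, hP⟩ := hD.cent x hxN hx1'
    have hle : Subgroup.centralizer (N : Set G) ≤ Subgroup.centralizer ({x} : Set G) :=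
      Subgroup.centralizer_le (Set.singleton_subset_iff.mpr hxN)
    have hCp : IsPGroup p (Subgroup.centralizer (N : Set G)) :=
      P.isPGroup'.to_le (hP ▸ hle)
    exact le_sSup ⟨inferInstance, hCp⟩

end Cfsg.Agent.H67.Gag
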