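import Cfsg.Agent.H59.GagDefs

/-!
# S4840 piece LIN0 (helper67, for helper59)

In the situation `Dat G p N`: the conjugation action of `G` on `N`, as a linear representation
over `𝔽_p` on `V = Additive N`.
-/

set_option autoImplicit false
set_option linter.unusedSectionVars false
set_option linter.unusedVariables false
set_option linter.style.haveILetI false

namespace Cfsg.Agent.H67.Gag

open Cfsg Cfsg.Agent.H59.Gag

universe u

/-- a group acting by automorphisms on a commutative group `A` of exponent `p`, as a linear
representation on `Additive A` -/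
def linRep {G : Type u} [Group G] {A : Type u} [CommGroup A] (p : ℕ)
    [Module (ZMod p) (Additive A)] (φ : G →* MulAut A) :
    G →* (Additive A ≃ₗ[ZMod p] Additive A) where
  toFun g :=
    { toFun := fun v => Additive.ofMul (φ g (Additive.toMul v))
      invFun := fun v => Additive.ofMul (φ g⁻¹ (Additive.toMul v))
      map_add' := fun v w => by
        show Additive.ofMul (φ g (Additive.toMul v * Additive.toMul w)) = _
        rw [map_mul]; rfl
      map_smul' := fun c v => by
        have h1 := ZMod.map_smul (MulEquiv.toAdditive (φ g) : Additive A ≃+ Additive A) c v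
        exact h1
      left_inv := fun v => by
        show Additive.ofMul (φ g⁻¹ (φ g (Additive.toMul v))) = v
        rw [← MulAut.mul_apply, ← map_mul, inv_mul_cancel, map_one]; rfl
      right_inv := fun v => by
        show Additive.ofMul (φ g (φ g⁻¹ (Additive.toMul v))) = v
        rw [← MulAut.mul_apply, ← map_mul, mul_inv_cancel, map_one]; rfl }
  map_one' := by
    apply LinearEquiv.ext
    intro v
    show Additive.ofMul (φ 1 (Additive.toMul v)) = v
    rw [map_one]; rfl
  map_mul' := fun g h => by
    apply LinearEquiv.ext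
    intro v
    show Additive.ofMul (φ (g * h) (Additive.toMul v)) =
      Additive.ofMul (φ g (Additive.toMul (Additive.ofMul (φ h (Additive.toMul v)))))
    rw [map_mul]; rfl

theorem linRep_apply {G : Type u} [Group G] {A : Type u} [CommGroup A] (p : ℕ)
    [Module (ZMod p) (Additive A)] (φ : G →* MulAut A) (g : G) (v : Additive A) :
    linRep p φ g v = Additive.ofMul (φ g (Additive.toMul v)) := rfl

/-- the linear representation on `Additive A`, abstractly -/
theorem lin0_aux {G : Type u} [Group G] (p : ℕ) [Fact p.Prime] {A : Type u} [CommGroup A]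
    [Finite A] [Nontrivial A] (hA : ∀ a : A, a ^ p = 1) (φ : G →* MulAut A) :
    ∃ (V : Type u) (_ : AddCommGroup V) (_ : Module (ZMod p) V) (_ : Finite V) (_ : Nontrivial V)
      (ρ₀ : G →* (V ≃ₗ[ZMod p] V)) (e : A ≃ V), e 1 = 0 ∧ ∀ g a, ρ₀ g (e a) = e (φ g a) := by
  have h : ∀ x : Additive A, p • x = 0 := fun x =>
    congrArg Additive.ofMul (hA (Additive.toMul x))
  exact ⟨Additive A, inferInstance, AddCommGroup.zmodModule h, inferInstance, inferInstance,
    @linRep G _ A _ p (AddCommGroup.zmodModule h) φ, Additive.ofMul, rfl, fun g a => rfl⟩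

open scoped IsMulCommutative in
/-- **S4840 piece LIN0.** -/
theorem lin0 : Lin0Stmt.{u} := by
  intro G _ _ p _ N hD
  classical
  have hp : p.Prime := Fact.out
  haveI := hD.normal
  haveI := hD.elem.1
  have hpow : ∀ a : N, a ^ p = 1 := fun a => Subtype.ext (by simpa using hD.elem.2 a a.2)
  haveI : Nontrivial N := (Subgroup.nontrivial_iff_ne_bot N).mpr hD.ne_bot
  obtain ⟨V, i1, i2, i3, i4, ρ₀, e, he1, he⟩ :=
    lin0_aux p (A := N) hpow (MulAut.conjNormal (H := N))
  have hne : ∀ v : V, v ≠ 0 → ((e.symm v : N) : G) ≠ 1 := by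
    intro v hv h
    apply hv
    have h1 : e.symm v = 1 := Subtype.ext h
    rw [← e.apply_symm_apply v, h1, he1]
  have hconj : ∀ (g : G) (a : N), ((MulAut.conjNormal g a : N) : G) = g * a * g⁻¹ := by
    intro g a
    simp
  refine ⟨V, i1, i2, i3, i4, ρ₀, ?_, ?_, ?_⟩
  · intro g
    constructor
    · intro h
      rw [Subgroup.mem_centralizer_iff]
      intro n hn
      have h1 : ρ₀ g (e ⟨n, hn⟩) = e ⟨n, hn⟩ := by rw [h]; rfl
      rw [he] at h1
      have h2 := congrArg Subtype.val (e.injective h1)
      rw [hconj] at h2
      have h3 : g * n * g⁻¹ = n := h2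
      calc n * g = g * n * g⁻¹ * g := by rw [h3]
        _ = g * n := by group
    · intro h
      apply LinearEquiv.ext
      intro v
      have h1 : (MulAut.conjNormal g (e.symm v) : N) = e.symm v := by
        apply Subtype.ext
        rw [hconj]
        have h2 := (Subgroup.mem_centralizer_iff.mp h) (e.symm v : N) (e.symm v).2
        rw [← h2]; group
      have h3 := he g (e.symm v)
      rw [h1, e.apply_symm_apply] at h3
      rw [h3]; rfl
  · intro v w hv hw
    obtain ⟨g, hg⟩ := hD.trans _ (e.symm v).2 _ (e.symm w).2 (hne v hv) (hne w hw)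
    refine ⟨g, ?_⟩
    have h1 : (MulAut.conjNormal g (e.symm v) : N) = e.symm w := by
      apply Subtype.ext
      rw [hconj]
      exact hg
    have h3 := he g (e.symm v)
    rw [h1, e.apply_symm_apply, e.apply_symm_apply] at h3
    exact h3
  · intro v hv g hg
    obtain ⟨P, hP⟩ := hD.cent _ (e.symm v).2 (hne v hv)
    have h3 := he g (e.symm v)
    rw [e.apply_symm_apply, hg] at h3
    have h4 : (MulAut.conjNormal g (e.symm v) : N) = e.symm v := by
      apply e.injective
      rw [← h3, e.apply_symm_apply]
    have h5 : g * ((e.symm v : N) : G) * g⁻¹ = ((e.symm v : N) : G) := by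
      have h6 := congrArg Subtype.val h4
      rw [hconj] at h6
      exact h6
    have hgP : g ∈ (P : Subgroup G) := by
      rw [← hP, Subgroup.mem_centralizer_singleton_iff]
      calc g * ((e.symm v : N) : G) = g * ((e.symm v : N) : G) * g⁻¹ * g := by group
        _ = ((e.symm v : N) : G) * g := by rw [h5]
    obtain ⟨k, hk⟩ := P.isPGroup' ⟨g, hgP⟩
    exact ⟨k, congrArg Subtype.val hk⟩

end Cfsg.Agent.H67.Gag
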