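import Cfsg.Agent.H59.GagDefs
import Cfsg.Agent.H67.PNilp

/-!
# S4840 piece NPC (helper67, for helper59)

A normal `p'`-subgroup `A` of `X` with `X/A` abelian gives a normal `p`-complement and abelian
Sylow `p`-subgroups.
-/

set_option autoImplicit false
set_option linter.unusedSectionVars false
set_option linter.unusedVariables false
set_option linter.style.haveILetI false

namespace Cfsg.Agent.H67.Gag

open Cfsg Cfsg.Agent.H59.Gag

universe u

/-- the elements whose `n`-th power lies in `A`, for `X/A` abelian -/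
def powIn {X : Type u} [Group X] (A : Subgroup X) [A.Normal]
    (hcomm : ∀ g h : X, g * h * g⁻¹ * h⁻¹ ∈ A) (n : ℕ) : Subgroup X where
  carrier := {x | x ^ n ∈ A}
  mul_mem' := by
    intro x y hx hy
    show (x * y) ^ n ∈ A
    have hx' : x ^ n ∈ A := hx
    have hy' : y ^ n ∈ A := hy
    have hc : Commute (x : X ⧸ A) (y : X ⧸ A) := by
      show (x : X ⧸ A) * (y : X ⧸ A) = (y : X ⧸ A) * (x : X ⧸ A)
      rw [← QuotientGroup.mk_mul, ← QuotientGroup.mk_mul]
      apply QuotientGroup.eq.mpr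
      have h1 := hcomm y⁻¹ x⁻¹
      have h2 : (x * y)⁻¹ * (y * x) = y⁻¹ * x⁻¹ * y⁻¹⁻¹ * x⁻¹⁻¹ := by group
      rw [h2]
      exact h1
    rw [← QuotientGroup.eq_one_iff] at hx' hy' ⊢
    rw [QuotientGroup.mk_pow] at hx' hy' ⊢
    rw [QuotientGroup.mk_mul, hc.mul_pow, hx', hy', one_mul]
  one_mem' := by
    show (1 : X) ^ n ∈ A
    rw [one_pow]; exact one_mem A
  inv_mem' := by
    intro x hx
    show (x⁻¹) ^ n ∈ A
    rw [inv_pow]; exact inv_mem hx

theorem mem_powIn {X : Type u} [Group X] (A : Subgroup X) [A.Normal]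
    (hcomm : ∀ g h : X, g * h * g⁻¹ * h⁻¹ ∈ A) (n : ℕ) (x : X) :
    x ∈ powIn A hcomm n ↔ x ^ n ∈ A := Iff.rfl

/-- **S4840 piece NPC.** -/
theorem npc : NpcStmt.{u} := by
  intro X _ _ p _ A hA hcop hcomm
  classical
  haveI := hA
  have hp : p.Prime := Fact.out
  refine ⟨?_, ?_⟩
  · obtain ⟨k, n, hn, hXc⟩ : ∃ k n, ¬ p ∣ n ∧ Nat.card X = p ^ k * n :=
      Nat.exists_eq_pow_mul_and_not_dvd (Nat.card_pos.ne') p hp.ne_one
    have hnp : Nat.Coprime p n := (Nat.Prime.coprime_iff_not_dvd hp).mpr hn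
    refine Cfsg.Agent.H67.hnpc_iff.mpr ⟨powIn A hcomm n, ?_, ?_, ?_⟩
    · refine ⟨fun x hx g => ?_⟩
      rw [mem_powIn] at hx ⊢
      rw [conj_pow]
      exact hA.conj_mem _ hx g
    · rw [Nat.coprime_comm, Nat.Prime.coprime_iff_not_dvd hp]
      intro hdvd
      obtain ⟨x, hx⟩ := exists_prime_orderOf_dvd_card' (G := powIn A hcomm n) p hdvd
      have hx1 : orderOf (x : X) = p := by rw [Subgroup.orderOf_coe]; exact hx
      have hxA : (x : X) ^ n ∈ A := (mem_powIn A hcomm n x).mp x.2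
      have h1 : orderOf ((x : X) ^ n) = p := by
        rw [Nat.Coprime.orderOf_pow (by rw [hx1]; exact hnp), hx1]
      have h2 : orderOf (⟨(x : X) ^ n, hxA⟩ : A) = p := by
        rw [← Subgroup.orderOf_coe]; exact h1
      have h3 : p ∣ Nat.card A := by
        rw [← h2]; exact orderOf_dvd_natCard _
      exact (Nat.Prime.coprime_iff_not_dvd hp).mp hcop.symm h3
    · intro g
      refine ⟨k, ?_⟩
      rw [mem_powIn, ← pow_mul, ← hXc, pow_card_eq_one']
      exact one_mem A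
  · intro Q
    have hinf : A ⊓ (Q : Subgroup X) = ⊥ := by
      apply Disjoint.eq_bot
      apply Subgroup.disjoint_of_coprime_natCard
      obtain ⟨m, hm⟩ := IsPGroup.iff_card.mp Q.isPGroup'
      rw [hm]
      exact Nat.Coprime.pow_right m hcop
    refine ⟨⟨fun a b => ?_⟩⟩
    have h1 : (a : X) * b * (a : X)⁻¹ * (b : X)⁻¹ ∈ A ⊓ (Q : Subgroup X) :=
      Subgroup.mem_inf.mpr ⟨hcomm a b, mul_mem (mul_mem (mul_mem a.2 b.2) (inv_mem a.2)) (inv_mem b.2)⟩
    rw [hinf, Subgroup.mem_bot] at h1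
    apply Subtype.ext
    show (a : X) * b = b * a
    have h2 : (a : X) * b = ((a : X) * b * (a : X)⁻¹ * (b : X)⁻¹) * (b * a) := by group
    rw [h2, h1, one_mul]

end Cfsg.Agent.H67.Gag
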