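import Mathlib
import Cfsg.Agent.Lib.Helper96.LSDefs

/-!
# Piece FS of helper96's S5286 project: finite subgroups are conjugate into the base

A finite subgroup of the HNN-type group `D.G ≤ FreeGroup X ⋊ Q` is conjugate (inside `D.G`) into the
base subgroup `inr S₀`: centre of a bounded orbit in the Cayley tree of the free group.
-/

set_option autoImplicit false

namespace Cfsg.Agent.H67.LS

open Cfsg.Agent.Lib.Helper96.LS

universe u

section Word

variable {α : Type*} [DecidableEq α]

/-- Mapping the letters does not increase the norm. -/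
theorem norm_map_le' {β : Type*} [DecidableEq β] (f : α → β) (w : FreeGroup α) :
    (FreeGroup.map f w).norm ≤ w.norm := by
  conv_lhs => rw [← FreeGroup.mk_toWord (x := w)]
  rw [FreeGroup.map.mk]
  refine le_trans FreeGroup.norm_mk_le ?_
  simp [FreeGroup.norm]

/-- The word lemma: multiplying by the first letter of `v` gets closer than the worse of `c`
and `c * v`, as soon as `v` has at least two letters. -/
theorem norm_lt_max_aux (c v m : FreeGroup α) (y : α × Bool) (L : List (α × Bool))
    (hv : v.toWord = y :: L) (hL : L ≠ []) (hm : m.toWord = [y]) :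
    (c * m).norm < max c.norm (c * v).norm := by
  by_cases h : c.toWord.getLast? = some (y.1, !y.2)
  · -- cancellation
    have hC : c.toWord.dropLast ++ [(y.1, !y.2)] = c.toWord :=
      List.dropLast_append_getLast? _ h
    have hc : c = FreeGroup.mk c.toWord.dropLast * (FreeGroup.mk [y])⁻¹ := by
      conv_lhs => rw [← FreeGroup.mk_toWord (x := c), ← hC]
      rw [← FreeGroup.mul_mk, FreeGroup.inv_mk]
      rfl
    have hm' : m = FreeGroup.mk [y] := by rw [← hm, FreeGroup.mk_toWord]
    have hcm : c * m = FreeGroup.mk c.toWord.dropLast := by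
      rw [hm']; nth_rewrite 1 [hc]; group
    have h1 : (c * m).norm ≤ c.toWord.dropLast.length := by
      rw [hcm]; exact FreeGroup.norm_mk_le
    have h2 : c.toWord.dropLast.length + 1 = c.norm := by
      have h3 := congrArg List.length hC
      rw [List.length_append] at h3
      exact h3
    exact lt_of_lt_of_le (by omega) (le_max_left _ _)
  · have hred : FreeGroup.IsReduced (c.toWord ++ v.toWord) := by
      unfold FreeGroup.IsReduced
      rw [List.isChain_append]
      refine ⟨FreeGroup.isReduced_toWord, FreeGroup.isReduced_toWord, ?_⟩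
      intro x hx z hz hxz
      rw [hv] at hz
      have hzy : z = y := by simpa using hz.symm
      subst hzy
      by_contra hne
      apply h
      have hx' : c.toWord.getLast? = some x := by simpa using hx
      rw [hx']
      congr 1
      apply Prod.ext
      · exact hxz
      · cases hx2 : x.2 <;> cases hz2 : z.2 <;> simp_all
    have h1 : (c * v).norm = c.norm + v.norm := by
      unfold FreeGroup.norm
      rw [FreeGroup.toWord_mul, hred.reduce_eq, List.length_append]
    have h2 : v.norm = L.length + 1 := by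
      unfold FreeGroup.norm; rw [hv]; rfl
    have h3 : 0 < L.length := List.length_pos_iff.mpr hL
    have h4 : (c * m).norm ≤ c.norm + m.norm := FreeGroup.norm_mul_le c m
    have h5 : m.norm = 1 := by
      unfold FreeGroup.norm; rw [hm]; rfl
    exact lt_of_lt_of_le (by omega) (le_max_right _ _)

end Word

/-- A nonempty predicate on `ℕ` has a least witness. -/
theorem exists_least (P : ℕ → Prop) (h : ∃ r, P r) : ∃ r, P r ∧ ∀ r' < r, ¬ P r' := by
  classical
  exact ⟨Nat.find h, Nat.find_spec h, fun r' hr' => Nat.find_min h hr'⟩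

variable {Q : Type u} [Group Q] {I : Type u}

/-- The action preserves the norm. -/
theorem norm_act (D : Dat Q I) (q : Q) (w : FreeGroup D.X) : (D.act q w).norm = w.norm := by
  apply le_antisymm
  · rw [D.act_apply]; exact norm_map_le' _ w
  · have h : D.act q⁻¹ (D.act q w) = w := by
      rw [← MulAut.mul_apply, ← map_mul, inv_mul_cancel, map_one, MulAut.one_apply]
    conv_lhs => rw [← h]
    rw [D.act_apply]; exact norm_map_le' _ _

theorem left_inv_mul (D : Dat Q I) (γ g : D.Lam) :
    (γ⁻¹ * g).left = D.act γ.right⁻¹ (γ.left⁻¹ * g.left) := by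
  rw [SemidirectProduct.mul_left, SemidirectProduct.inv_left, SemidirectProduct.inv_right, map_mul]

theorem norm_inv_mul (D : Dat Q I) (γ g : D.Lam) :
    (γ⁻¹ * g).left.norm = (γ.left⁻¹ * g.left).norm := by
  rw [left_inv_mul, norm_act]

/-- The exponent sum on the free group. -/
noncomputable def degF (D : Dat Q I) : FreeGroup D.X →* Multiplicative ℤ :=
  FreeGroup.lift (fun _ => Multiplicative.ofAdd 1)

theorem degF_act (D : Dat Q I) (q : Q) :
    (degF D).comp (D.act q).toMonoidHom = degF D := by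
  apply FreeGroup.ext_hom
  intro x
  simp [degF]

/-- The exponent sum on the semidirect product. -/
noncomputable def deg (D : Dat Q I) : D.Lam →* Multiplicative ℤ :=
  SemidirectProduct.lift (degF D) 1 (by
    intro q
    rw [degF_act]
    apply FreeGroup.ext_hom
    intro x
    simp)

theorem deg_eq (D : Dat Q I) (k : D.Lam) : deg D k = degF D k.left := by
  conv_lhs => rw [← SemidirectProduct.inl_left_mul_inr_right k]
  rw [map_mul]
  unfold deg
  rw [SemidirectProduct.lift_inl, SemidirectProduct.lift_inr]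
  simp

/-- An element whose free part is a single letter has infinite order. -/
theorem pow_ne_one_of_letter (D : Dat Q I) (k : D.Lam) (y : D.X × Bool)
    (hk : k.left.toWord = [y]) (m : ℕ) (hm : 0 < m) : k ^ m ≠ 1 := by
  intro h
  have h1 : (deg D k) ^ m = 1 := by rw [← map_pow, h, map_one]
  have h2 : deg D k = cond y.2 (Multiplicative.ofAdd (1 : ℤ)) (Multiplicative.ofAdd (1 : ℤ))⁻¹ := by
    rw [deg_eq]
    have : k.left = FreeGroup.mk [y] := by rw [← hk, FreeGroup.mk_toWord]
    rw [this]
    unfold degF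
    rw [FreeGroup.lift_mk]
    simp
  rw [h2] at h1
  have h3 := congrArg Multiplicative.toAdd h1
  cases hy : y.2
  · rw [hy] at h3
    simp at h3
    omega
  · rw [hy] at h3
    simp at h3
    omega

/-- **Piece FS.** Finite subgroups of `D.G` are conjugate into the base. -/
theorem finite_conj (D : Dat Q I)
    (hP1 : ∀ g ∈ D.G, g.left = 1 → ∃ s ∈ D.S₀, g = SemidirectProduct.inr s)
    (hPC : ∀ g ∈ D.G, ∀ (y : D.X × Bool) (L : List (D.X × Bool)), g.left.toWord = y :: L →
      ∃ g1 ∈ D.G, g1.left.toWord = [y])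
    (H : Subgroup D.Lam) (hH : H ≤ D.G) (hfin : (H : Set D.Lam).Finite) :
    ∃ g ∈ D.G, ∀ h ∈ H, ∃ s ∈ D.S₀, g * h * g⁻¹ = SemidirectProduct.inr s := by
  have hex : ∃ r : ℕ, ∃ g ∈ D.G, ∀ h ∈ H, (h⁻¹ * g).left.norm ≤ r := by
    obtain ⟨r, hr⟩ := (hfin.image (fun h : D.Lam => (h⁻¹ * 1).left.norm)).bddAbove
    exact ⟨r, 1, D.G.one_mem, fun h hh => hr (Set.mem_image_of_mem _ hh)⟩
  obtain ⟨r₀, ⟨g₀, hg₀, hr₀⟩, hmin⟩ := exists_least _ hex
  refine ⟨g₀⁻¹, D.G.inv_mem hg₀, ?_⟩
  intro h hh
  rw [inv_inv]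
  obtain ⟨k, hkdef⟩ : ∃ k, k = g₀⁻¹ * h * g₀ := ⟨_, rfl⟩
  rw [← hkdef]
  have hkG : k ∈ D.G := by
    rw [hkdef]
    exact D.G.mul_mem (D.G.mul_mem (D.G.inv_mem hg₀) (hH hh)) hg₀
  apply hP1 k hkG
  by_contra hk1
  have hne : k.left.toWord ≠ [] := fun h0 => hk1 (FreeGroup.toWord_eq_nil_iff.mp h0)
  obtain ⟨y, L, hyL⟩ := List.exists_cons_of_ne_nil hne
  by_cases hL : L = []
  · subst hL
    have hfinH : Finite H := hfin.to_subtype
    obtain ⟨m, hm0, hm⟩ := isOfFinOrder_iff_pow_eq_one.mp (isOfFinOrder_of_finite (⟨h, hh⟩ : H))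
    have hm' : h ^ m = 1 := by
      have := congrArg (fun x : H => (x : D.Lam)) hm
      simpa using this
    have hkm : k ^ m = 1 := by
      have e : k = g₀⁻¹ * h * g₀⁻¹⁻¹ := by rw [hkdef, inv_inv]
      rw [e, conj_pow, hm']
      group
    exact pow_ne_one_of_letter D k y hyL m hm0 hkm
  · obtain ⟨g₁, hg₁G, hg₁⟩ := hPC k hkG y L hyL
    have key : ∀ h' ∈ H, (h'⁻¹ * (g₀ * g₁)).left.norm < r₀ := by
      intro h' hh'
      obtain ⟨c, hcdef⟩ : ∃ c, c = ((g₀⁻¹ * h').left)⁻¹ := ⟨_, rfl⟩
      have e1 : (h'⁻¹ * (g₀ * g₁)).left.norm = (c * g₁.left).norm := by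
        have e : h'⁻¹ * (g₀ * g₁) = (g₀⁻¹ * h')⁻¹ * g₁ := by group
        rw [e, norm_inv_mul, hcdef]
      have e2 : c.norm ≤ r₀ := by
        have h1 := hr₀ h' hh'
        have e : h'⁻¹ * g₀ = (g₀⁻¹ * h')⁻¹ * 1 := by group
        rw [e, norm_inv_mul, SemidirectProduct.one_left, mul_one, ← hcdef] at h1
        exact h1
      have e3 : (c * k.left).norm ≤ r₀ := by
        have h1 := hr₀ (h⁻¹ * h') (H.mul_mem (H.inv_mem hh) hh')
        have e : (h⁻¹ * h')⁻¹ * g₀ = (g₀⁻¹ * h')⁻¹ * k := by rw [hkdef]; group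
        rw [e, norm_inv_mul, ← hcdef] at h1
        exact h1
      have e4 := norm_lt_max_aux c k.left g₁.left y L hyL hL hg₁
      rw [e1]
      exact lt_of_lt_of_le e4 (max_le e2 e3)
    have hpos : 0 < r₀ := lt_of_le_of_lt (Nat.zero_le _) (key 1 H.one_mem)
    apply hmin (r₀ - 1) (by omega)
    exact ⟨g₀ * g₁, D.G.mul_mem hg₀ hg₁G, fun h' hh' => by have := key h' hh'; omega⟩

end Cfsg.Agent.H67.LS
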