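import Mathlib
import Cfsg.Agent.H85.McLDefs

/-!
# Piece SLA of helper85's S5075 project (McLaughlin over `ZMod p`)

`full_extend`: extending a full pair by a new center/axis.
`exists_full_three`: a center with two independent axes gives a full pair of dimension `≥ 3`.
-/

set_option autoImplicit false

namespace Cfsg.Agent.H67.McL

open Module Cfsg.Agent.H85.McL

variable {p : ℕ} [Fact p.Prime] {V : Type*} [AddCommGroup V] [Module (ZMod p) V]

theorem full_extend {G : Subgroup (V ≃ₗ[ZMod p] V)} {X : Submodule (ZMod p) V}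
    {Y : Submodule (ZMod p) (Dual (ZMod p) V)} (h : Full G X Y) {c' : V}
    {χ' : Dual (ZMod p) V} (hc : ∀ y ∈ Y, y c' = 0) (hχ : ∀ x ∈ X, χ' x = 0) (hne : χ' c' ≠ 0)
    (hα : ∀ x ∈ X, x ≠ 0 → Root G x χ') (hβ : ∀ y ∈ Y, y ≠ 0 → Root G c' y) :
    Full G (X ⊔ Submodule.span (ZMod p) {c'}) (Y ⊔ Submodule.span (ZMod p) {χ'}) := by
  obtain ⟨hL, hR, hroot⟩ := h
  refine ⟨?_, ?_, ?_⟩
  · intro c hcmem hall
    obtain ⟨x, hx, z, hz, rfl⟩ := Submodule.mem_sup.1 hcmem
    obtain ⟨α, rfl⟩ := Submodule.mem_span_singleton.1 hz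
    have hx0 : x = 0 := by
      apply hL x hx
      intro y hy
      have h1 := hall y (Submodule.mem_sup_left hy)
      rw [map_add, map_smul, hc y hy, smul_zero, add_zero] at h1
      exact h1
    have hα0 : α = 0 := by
      have h1 := hall χ' (Submodule.mem_sup_right (Submodule.mem_span_singleton_self χ'))
      rw [map_add, map_smul, hχ x hx, zero_add, smul_eq_mul] at h1
      exact (mul_eq_zero.1 h1).resolve_right hne
    rw [hx0, hα0, zero_smul, add_zero]
  · intro χ hχmem hall
    obtain ⟨y, hy, z, hz, rfl⟩ := Submodule.mem_sup.1 hχmem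
    obtain ⟨β, rfl⟩ := Submodule.mem_span_singleton.1 hz
    have hy0 : y = 0 := by
      apply hR y hy
      intro x hx
      have h1 := hall x (Submodule.mem_sup_left hx)
      rw [LinearMap.add_apply, LinearMap.smul_apply, hχ x hx, smul_zero, add_zero] at h1
      exact h1
    have hβ0 : β = 0 := by
      have h1 := hall c' (Submodule.mem_sup_right (Submodule.mem_span_singleton_self c'))
      rw [LinearMap.add_apply, LinearMap.smul_apply, hc y hy, zero_add, smul_eq_mul] at h1
      exact (mul_eq_zero.1 h1).resolve_right hne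
    rw [hy0, hβ0, zero_smul, add_zero]
  · intro c hcmem χ hχmem hc0 hχ0 hinc
    obtain ⟨x, hx, z, hz, rfl⟩ := Submodule.mem_sup.1 hcmem
    obtain ⟨α, rfl⟩ := Submodule.mem_span_singleton.1 hz
    obtain ⟨y, hy, z', hz', rfl⟩ := Submodule.mem_sup.1 hχmem
    obtain ⟨β, rfl⟩ := Submodule.mem_span_singleton.1 hz'
    have hrel : y x + α * β * χ' c' = 0 := by
      have h1 := hinc
      simp only [LinearMap.add_apply, LinearMap.smul_apply, map_add, map_smul, smul_eq_mul,
        hc y hy, hχ x hx] at h1
      linear_combination h1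
    by_cases hα0 : α = 0
    · subst hα0
      rw [zero_smul, add_zero] at hc0 ⊢
      have hyx : y x = 0 := by simpa using hrel
      by_cases hβ0 : β = 0
      · subst hβ0
        rw [zero_smul, add_zero] at hχ0 ⊢
        exact hroot x hx y hy hc0 hχ0 hyx
      · have h1 : Root G x (β • χ') := (hα x hx hc0).smul_right hβ0
        by_cases hy0 : y = 0
        · subst hy0
          rw [zero_add]
          exact h1
        · exact (hroot x hx y hy hc0 hy0 hyx).add_right h1 hχ0
    · by_cases hβ0 : β = 0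
      · subst hβ0
        rw [zero_smul, add_zero] at hχ0 ⊢
        have hyx : y x = 0 := by simpa using hrel
        have h1 : Root G (α • c') y := (hβ y hy hχ0).smul_left hα0
        by_cases hx0 : x = 0
        · subst hx0
          rw [zero_add]
          exact h1
        · exact (hroot x hx y hy hx0 hχ0 hyx).add_left h1 hc0
      · have hyx : y x ≠ 0 := by
          intro h0
          rw [h0, zero_add] at hrel
          exact hne ((mul_eq_zero.1 hrel).resolve_left (mul_ne_zero hα0 hβ0))
        have hx0 : x ≠ 0 := by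
          rintro rfl
          exact hyx (map_zero y)
        have hy₁ : (α / y x) • y ∈ Y := Y.smul_mem _ hy
        have hy₁0 : (α / y x) • y ≠ 0 := by
          intro h0
          have h1 := congrArg (fun f : Dual (ZMod p) V => f x) h0
          simp only [LinearMap.smul_apply, smul_eq_mul, LinearMap.zero_apply] at h1
          rw [div_mul_cancel₀ _ hyx] at h1
          exact hα0 h1
        have h1 : Root G x (β • χ') := (hα x hx hx0).smul_right hβ0
        have h2 : Root G c' ((α / y x) • y) := hβ _ hy₁ hy₁0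
        have h3 := h1.conj h2
        have e1 : x + ((α / y x) • y) x • c' = x + α • c' := by
          rw [LinearMap.smul_apply, smul_eq_mul, div_mul_cancel₀ _ hyx]
        have e2 : β • χ' - (β • χ') c' • ((α / y x) • y) = y + β • χ' := by
          have hk : (β • χ') c' * (α / y x) = -1 := by
            rw [LinearMap.smul_apply, smul_eq_mul]
            have h4 : β * χ' c' * α = -(y x) := by linear_combination hrel
            rw [← mul_div_assoc, h4, neg_div, div_self hyx]
          rw [smul_smul, hk]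
          module
        rw [e1, e2] at h3
        exact h3

/-- LEMMA B: two opposite roots span a full pair. -/
theorem full_pair {G : Subgroup (V ≃ₗ[ZMod p] V)} {a b : V} {φ ψ : Dual (ZMod p) V}
    (h : Root G a φ) (h' : Root G b ψ) (h1 : φ b ≠ 0) (h2 : ψ a ≠ 0) :
    Full G (Submodule.span (ZMod p) {a, b}) (Submodule.span (ZMod p) {φ, ψ}) := by
  have ha0 : φ a = 0 := h.2.2.1
  have hb0 : ψ b = 0 := h'.2.2.1
  refine ⟨?_, ?_, ?_⟩
  · intro x hx hall
    obtain ⟨l, m, rfl⟩ := Submodule.mem_span_pair.1 hx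
    have e1 := hall φ (Submodule.subset_span (by simp))
    have e2 := hall ψ (Submodule.subset_span (by simp))
    simp only [map_add, map_smul, smul_eq_mul, ha0, hb0, mul_zero, zero_add, add_zero] at e1 e2
    have hm : m = 0 := (mul_eq_zero.1 e1).resolve_right h1
    have hl : l = 0 := (mul_eq_zero.1 e2).resolve_right h2
    rw [hm, hl, zero_smul, zero_smul, add_zero]
  · intro y hy hall
    obtain ⟨l, m, rfl⟩ := Submodule.mem_span_pair.1 hy
    have e1 := hall a (Submodule.subset_span (by simp))
    have e2 := hall b (Submodule.subset_span (by simp))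
    simp only [LinearMap.add_apply, LinearMap.smul_apply, smul_eq_mul, ha0, hb0, mul_zero,
      zero_add, add_zero] at e1 e2
    have hm : m = 0 := (mul_eq_zero.1 e1).resolve_right h2
    have hl : l = 0 := (mul_eq_zero.1 e2).resolve_right h1
    rw [hm, hl, zero_smul, zero_smul, add_zero]
  · intro x hx y hy hx0 hy0 hinc
    obtain ⟨l, m, rfl⟩ := Submodule.mem_span_pair.1 hx
    obtain ⟨l', m', rfl⟩ := Submodule.mem_span_pair.1 hy
    have hrel : l' * m * φ b + m' * l * ψ a = 0 := by
      simp only [LinearMap.add_apply, LinearMap.smul_apply, map_add, map_smul, smul_eq_mul,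
        ha0, hb0] at hinc
      linear_combination hinc
    by_cases hl : l = 0
    · subst hl
      rw [zero_smul, zero_add] at hx0 ⊢
      have hm : m ≠ 0 := by rintro rfl; exact hx0 (zero_smul _ _)
      have hl' : l' = 0 := by
        have h3 : l' * (m * φ b) = 0 := by linear_combination hrel
        exact (mul_eq_zero.1 h3).resolve_right (mul_ne_zero hm h1)
      subst hl'
      rw [zero_smul, zero_add] at hy0 ⊢
      have hm' : m' ≠ 0 := by rintro rfl; exact hy0 (zero_smul _ _)
      exact h'.smul_smul hm hm'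
    · by_cases hm : m = 0
      · subst hm
        rw [zero_smul, add_zero] at hx0 ⊢
        have hm' : m' = 0 := by
          have h3 : m' * (l * ψ a) = 0 := by linear_combination hrel
          exact (mul_eq_zero.1 h3).resolve_right (mul_ne_zero hl h2)
        subst hm'
        rw [zero_smul, add_zero] at hy0 ⊢
        have hl' : l' ≠ 0 := by rintro rfl; exact hy0 (zero_smul _ _)
        exact h.smul_smul hl hl'
      · have hl' : l' ≠ 0 := by
          rintro rfl
          have h3 : m' * (l * ψ a) = 0 := by linear_combination hrel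
          have hm' : m' = 0 := (mul_eq_zero.1 h3).resolve_right (mul_ne_zero hl h2)
          apply hy0
          rw [hm', zero_smul, zero_smul, add_zero]
        have hk : m / (l * ψ a) ≠ 0 := div_ne_zero hm (mul_ne_zero hl h2)
        have h3 := (h.conj (h'.smul_right hk)).smul_smul hl hl'
        have e1 : l • (a + ((m / (l * ψ a)) • ψ) a • b) = l • a + m • b := by
          rw [LinearMap.smul_apply, smul_eq_mul]
          match_scalars
          · ring
          · field_simp
        have e2 : l' • (φ - φ b • ((m / (l * ψ a)) • ψ)) = l' • φ + m' • ψ := by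
          have hm'eq : m' = -(l' * m * φ b) / (l * ψ a) := by
            field_simp
            linear_combination hrel
          rw [hm'eq]
          match_scalars
          · ring
          · field_simp
        rw [e1, e2] at h3
        exact h3

theorem exists_full_three [Finite V] {G : Subgroup (V ≃ₗ[ZMod p] V)} (hopp : HasOpp G)
    (h2 : ∃ a φ₁ φ₂, Root G a φ₁ ∧ Root G a φ₂ ∧ ∀ k : ZMod p, φ₂ ≠ k • φ₁) :
    ∃ (X : Submodule (ZMod p) V) (Y : Submodule (ZMod p) (Dual (ZMod p) V)),
      Full G X Y ∧ 3 ≤ Module.finrank (ZMod p) ↥X := by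
  obtain ⟨a, φ₁, φ₂', hr1, hr2', hnp⟩ := h2
  obtain ⟨b, ψ, hrb, hψa, hφ₁b⟩ := hopp a φ₁ hr1
  have ha1 : φ₁ a = 0 := hr1.2.2.1
  have hb0 : ψ b = 0 := hrb.2.2.1
  -- normalise the second axis so that it kills `b`
  obtain ⟨φ₂, hr2, hφ₂b⟩ : ∃ φ₂, Root G a φ₂ ∧ φ₂ b = 0 := by
    by_cases hz : φ₂' b = 0
    · exact ⟨φ₂', hr2', hz⟩
    · have hk : -(φ₂' b / φ₁ b) ≠ 0 := neg_ne_zero.2 (div_ne_zero hz hφ₁b)
      have hne : φ₂' + (-(φ₂' b / φ₁ b)) • φ₁ ≠ 0 := by
        intro h0
        apply hnp (φ₂' b / φ₁ b)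
        have h3 : φ₂' - (φ₂' b / φ₁ b) • φ₁ = 0 := by
          rw [← h0]; module
        exact sub_eq_zero.1 h3
      refine ⟨φ₂' + (-(φ₂' b / φ₁ b)) • φ₁, hr2'.add_right (hr1.smul_right hk) hne, ?_⟩
      rw [LinearMap.add_apply, LinearMap.smul_apply, smul_eq_mul]
      field_simp
      ring
  have ha2 : φ₂ a = 0 := hr2.2.2.1
  have hrb2 : Root G b φ₂ := hrb.swap_axis hr2 hψa hφ₂b
  have hfull₂ := full_pair hr1 hrb hφ₁b hψa
  have hα : ∀ x ∈ Submodule.span (ZMod p) {a, b}, x ≠ 0 → Root G x φ₂ := by
    intro x hx hx0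
    obtain ⟨l, m, rfl⟩ := Submodule.mem_span_pair.1 hx
    by_cases hl : l = 0
    · subst hl
      rw [zero_smul, zero_add] at hx0 ⊢
      have hm : m ≠ 0 := by rintro rfl; exact hx0 (zero_smul _ _)
      exact hrb2.smul_left hm
    · by_cases hm : m = 0
      · subst hm
        rw [zero_smul, add_zero] at hx0 ⊢
        exact hr2.smul_left hl
      · exact (hr2.smul_left hl).add_left (hrb2.smul_left hm) hx0
  have hχ : ∀ x ∈ Submodule.span (ZMod p) {a, b}, φ₂ x = 0 := by
    intro x hx
    obtain ⟨l, m, rfl⟩ := Submodule.mem_span_pair.1 hx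
    rw [map_add, map_smul, map_smul, ha2, hφ₂b, smul_zero, smul_zero, add_zero]
  -- an opposite of `(a, φ₂)`, projected
  obtain ⟨d, θ, hrd, hθa, hφ₂d⟩ := hopp a φ₂ hr2
  obtain ⟨d', hd'def⟩ : ∃ d' : V, d' = d - (ψ d / ψ a) • a - (φ₁ d / φ₁ b) • b := ⟨_, rfl⟩
  have hd'1 : φ₁ d' = 0 := by
    rw [hd'def]
    simp only [map_sub, map_smul, smul_eq_mul, ha1]
    field_simp
    ring
  have hd'ψ : ψ d' = 0 := by
    rw [hd'def]
    simp only [map_sub, map_smul, smul_eq_mul, hb0]
    field_simp
    ring
  have hd'2 : φ₂ d' = φ₂ d := by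
    rw [hd'def]
    simp only [map_sub, map_smul, smul_eq_mul, ha2, hφ₂b]
    ring
  have hd'ne : φ₂ d' ≠ 0 := by rw [hd'2]; exact hφ₂d
  obtain ⟨θ', hrd', hθ'a⟩ : ∃ θ', Root G d' θ' ∧ θ' a ≠ 0 := by
    by_cases hx0 : d' - d = 0
    · refine ⟨θ, ?_, hθa⟩
      rw [sub_eq_zero.1 hx0]; exact hrd
    · have hxX : d' - d ∈ Submodule.span (ZMod p) {a, b} := by
        rw [Submodule.mem_span_pair]
        refine ⟨-(ψ d / ψ a), -(φ₁ d / φ₁ b), ?_⟩
        rw [hd'def]; module
      have hk : (φ₂ d)⁻¹ ≠ 0 := inv_ne_zero hφ₂d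
      have h3 := hrd.conj ((hα _ hxX hx0).smul_right hk)
      have e1 : d + ((φ₂ d)⁻¹ • φ₂) d • (d' - d) = d' := by
        rw [LinearMap.smul_apply, smul_eq_mul, inv_mul_cancel₀ hφ₂d, one_smul]; abel
      rw [e1] at h3
      refine ⟨_, h3, ?_⟩
      rw [LinearMap.sub_apply, LinearMap.smul_apply, LinearMap.smul_apply, ha2]
      simpa using hθa
  have hrd'1 : Root G d' φ₁ := hrd'.swap_axis hr1 hθ'a hd'1
  have hrd'ψ : Root G d' ψ := hrd'1.swap_axis hrb hφ₁b hd'ψ
  have hβ : ∀ y ∈ Submodule.span (ZMod p) {φ₁, ψ}, y ≠ 0 → Root G d' y := by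
    intro y hy hy0
    obtain ⟨l, m, rfl⟩ := Submodule.mem_span_pair.1 hy
    by_cases hl : l = 0
    · subst hl
      rw [zero_smul, zero_add] at hy0 ⊢
      have hm : m ≠ 0 := by rintro rfl; exact hy0 (zero_smul _ _)
      exact hrd'ψ.smul_right hm
    · by_cases hm : m = 0
      · subst hm
        rw [zero_smul, add_zero] at hy0 ⊢
        exact hrd'1.smul_right hl
      · exact (hrd'1.smul_right hl).add_right (hrd'ψ.smul_right hm) hy0
  have hc : ∀ y ∈ Submodule.span (ZMod p) {φ₁, ψ}, y d' = 0 := by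
    intro y hy
    obtain ⟨l, m, rfl⟩ := Submodule.mem_span_pair.1 hy
    rw [LinearMap.add_apply, LinearMap.smul_apply, LinearMap.smul_apply, hd'1, hd'ψ, smul_zero,
      smul_zero, add_zero]
  refine ⟨_, _, full_extend hfull₂ hc hχ hd'ne hα hβ, ?_⟩
  -- the dimension
  have hli : LinearIndependent (ZMod p) ![a, b, d'] := by
    rw [Fintype.linearIndependent_iff]
    intro g hg
    rw [Fin.sum_univ_three] at hg
    have hg' : g 0 • a + g 1 • b + g 2 • d' = 0 := hg
    have e0 := congrArg ψ hg'
    have e1 := congrArg φ₁ hg'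
    have e2 := congrArg φ₂ hg'
    simp only [map_add, map_smul, smul_eq_mul, map_zero, hb0, hd'ψ, ha1, hd'1, ha2, hφ₂b,
      mul_zero, add_zero, zero_add] at e0 e1 e2
    intro i
    fin_cases i
    · exact (mul_eq_zero.1 e0).resolve_right hψa
    · exact (mul_eq_zero.1 e1).resolve_right hφ₁b
    · exact (mul_eq_zero.1 e2).resolve_right hd'ne
  have hcard : finrank (ZMod p) ↥(Submodule.span (ZMod p) (Set.range ![a, b, d'])) = 3 := by
    rw [finrank_span_eq_card hli, Fintype.card_fin]
  rw [← hcard]
  apply Submodule.finrank_mono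
  rw [Submodule.span_le]
  rintro _ ⟨i, rfl⟩
  fin_cases i
  · exact Submodule.mem_sup_left (Submodule.subset_span (by simp))
  · exact Submodule.mem_sup_left (Submodule.subset_span (by simp))
  · exact Submodule.mem_sup_right (Submodule.mem_span_singleton_self d')

end Cfsg.Agent.H67.McL
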