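import Mathlib
import Cfsg.Agent.H1.SZConj
import Cfsg.Agent.H67.SylowAux

set_option autoImplicit false

open scoped commutatorElement Pointwise

namespace Cfsg.Agent.H67

universe u

/-- A normal subgroup `Q` of `H` inside a Sylow `p`-subgroup `P`, consisting of non-generators
of `P`, such that `N_H(P)` acts trivially on `P/Q`: then `H` has a normal `p`-complement. -/
theorem exists_normal_complement_of_nongenerating {H : Type u} [Group H] [Finite H] {p : ℕ}
    [Fact p.Prime] (P : Sylow p H) (Q : Subgroup H) [hQn : Q.Normal]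
    (hQP : Q ≤ (P : Subgroup H))
    (hfrat : ∀ R : Subgroup H, R ≤ (P : Subgroup H) → (P : Subgroup H) ≤ R ⊔ Q →
      (P : Subgroup H) ≤ R)
    (hcent : ∀ n : H, (∀ u ∈ (P : Subgroup H), n * u * n⁻¹ ∈ (P : Subgroup H)) →
      ∀ u ∈ (P : Subgroup H), ⁅n, u⁆ ∈ Q) :
    ∃ M : Subgroup H, M.Normal ∧ M.IsComplement' (P : Subgroup H) := by
  classical
  have hp : p.Prime := Fact.out
  set π : H →* H ⧸ Q := QuotientGroup.mk' Q with hπ
  have hπs : Function.Surjective π := QuotientGroup.mk'_surjective Q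
  set Pb : Sylow p (H ⧸ Q) := P.mapSurjective hπs with hPb
  have hPbcoe : (Pb : Subgroup (H ⧸ Q)) = (P : Subgroup H).map π := rfl
  have hmemPb : ∀ h : H, π h ∈ (Pb : Subgroup (H ⧸ Q)) ↔ h ∈ (P : Subgroup H) := by
    intro h
    rw [hPbcoe]
    constructor
    · rintro ⟨u, hu, huh⟩
      have h1 : u⁻¹ * h ∈ Q := QuotientGroup.eq.mp huh
      have h2 : h = u * (u⁻¹ * h) := by group
      rw [h2]
      exact mul_mem hu (hQP h1)
    · intro hh
      exact Subgroup.mem_map_of_mem _ hh
  have hNC : Subgroup.normalizer ((Pb : Subgroup (H ⧸ Q)) : Set (H ⧸ Q)) ≤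
      Subgroup.centralizer (Pb : Set (H ⧸ Q)) := by
    intro xb hxb
    obtain ⟨x, rfl⟩ := hπs xb
    rw [Subgroup.mem_normalizer_iff] at hxb
    have hx : ∀ u ∈ (P : Subgroup H), x * u * x⁻¹ ∈ (P : Subgroup H) := by
      intro u hu
      rw [← hmemPb, map_mul, map_mul, map_inv]
      exact (hxb (π u)).mp ((hmemPb u).mpr hu)
    rw [Subgroup.mem_centralizer_iff]
    intro ub hub
    obtain ⟨u, rfl⟩ := hπs ub
    have hu : u ∈ (P : Subgroup H) := (hmemPb u).mp hub
    have hc := hcent x hx u hu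
    have h1 : π ⁅x, u⁆ = 1 := (QuotientGroup.eq_one_iff _).mpr hc
    rw [map_commutatorElement, commutatorElement_eq_one_iff_mul_comm] at h1
    exact h1.symm
  have hcompl := MonoidHom.ker_transferSylow_isComplement' Pb hNC
  have hpLb := MonoidHom.not_dvd_card_ker_transferSylow Pb hNC
  set Lb : Subgroup (H ⧸ Q) := (MonoidHom.transferSylow Pb hNC).ker with hLb
  have hLbn : Lb.Normal := MonoidHom.normal_ker _
  set L : Subgroup H := Lb.comap π with hL
  have hLn : L.Normal := hLbn.comap π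
  have hQL : Q ≤ L := by
    intro q hq
    rw [hL, Subgroup.mem_comap]
    have h1 : π q = 1 := (QuotientGroup.eq_one_iff _).mpr hq
    rw [h1]; exact one_mem _
  -- cardinalities
  have hLidx : L.index = Nat.card Pb := by
    rw [hL, Subgroup.index_comap_of_surjective _ hπs]
    exact hcompl.symm.index_eq_card
  have hQidx : Q.index = Nat.card Lb * Nat.card Pb := by
    rw [hcompl.card_mul_card, Subgroup.index_eq_card]
  have hrel : Q.relIndex L = Nat.card Lb := by
    have h1 := Subgroup.relIndex_mul_index hQL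
    rw [hLidx, hQidx] at h1
    exact Nat.eq_of_mul_eq_mul_right Nat.card_pos h1
  have hPidx : (P : Subgroup H).index = Nat.card Lb := by
    have h1 : (Pb : Subgroup (H ⧸ Q)).index = Nat.card Lb := hcompl.index_eq_card
    rw [← h1, hPbcoe, Subgroup.index_map, QuotientGroup.ker_mk', sup_eq_left.mpr hQP,
      MonoidHom.range_eq_top.mpr hπs, Subgroup.index_top, mul_one]
  have hQp : IsPGroup p Q := P.isPGroup'.to_le hQP
  obtain ⟨k, hk⟩ := IsPGroup.iff_card.mp hQp
  have hQLn : (Q.subgroupOf L).Normal := inferInstance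
  have hcop : Nat.Coprime (Nat.card (Q.subgroupOf L)) (Q.subgroupOf L).index := by
    rw [card_subgroupOf_of_le hQL, hk]
    have h1 : (Q.subgroupOf L).index = Nat.card Lb := hrel
    rw [h1]
    exact Nat.Coprime.pow_left k ((Nat.Prime.coprime_iff_not_dvd hp).mpr hpLb)
  obtain ⟨M₀, hM₀⟩ := Subgroup.exists_right_complement'_of_coprime hcop
  have hM₀card : Nat.card M₀ = (Q.subgroupOf L).index := hM₀.symm.index_eq_card.symm
  set M : Subgroup H := M₀.map L.subtype with hM
  have hML : M ≤ L := Subgroup.map_subtype_le M₀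
  have hMcard : Nat.card M = Nat.card Lb := by
    rw [hM, Subgroup.card_map_of_injective L.subtype_injective, hM₀card]
    exact hrel
  -- L = Q * M
  have hLQM : ∀ l ∈ L, ∃ q ∈ Q, ∃ m ∈ M, l = q * m := by
    intro l hl
    obtain ⟨⟨⟨q, hq⟩, ⟨m, hm⟩⟩, hqm, -⟩ :=
      (Subgroup.isComplement_iff_existsUnique.mp hM₀) ⟨l, hl⟩
    refine ⟨q, hq, m, Subgroup.mem_map_of_mem _ hm, ?_⟩
    have := congrArg Subtype.val hqm
    simpa using this.symm
  have hQsolv : Group.IsSolvable (Q.subgroupOf L) := by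
    have h1 : IsPGroup p (Q.subgroupOf L) := hQp.comap_subtype
    have := h1.isNilpotent
    exact IsNilpotent.to_isSolvable
  -- Frattini argument
  have hfratt : ∀ h : H, ∃ l ∈ L, l⁻¹ * h ∈ Subgroup.normalizer (M : Set H) := by
    intro h
    have h1 : MulAut.conj h • M ≤ L := by
      intro y hy
      rw [H1.mem_conj_smul_iff] at hy
      have h2 := hLn.conj_mem _ (hML hy) h
      have h3 : h * (h⁻¹ * y * h) * h⁻¹ = y := by group
      rwa [h3] at h2
    have h2 : Nat.card ((MulAut.conj h • M).subgroupOf L) = (Q.subgroupOf L).index := by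
      rw [card_subgroupOf_of_le h1, H1.card_conj_smul, hMcard]
      exact hrel.symm
    obtain ⟨l, hl⟩ := H1.sz_conj_card (Q.subgroupOf L) M₀ ((MulAut.conj h • M).subgroupOf L)
      hcop (Or.inl hQsolv) hM₀card h2
    have h3 := congrArg (Subgroup.map L.subtype) hl
    rw [H1.map_conj_smul, Subgroup.map_subgroupOf_eq_of_le h1] at h3
    refine ⟨l, l.2, ?_⟩
    rw [H1.mem_normalizer_iff_conj_smul, H1.conj_mul_smul]
    have h4 : MulAut.conj (L.subtype l) • M = MulAut.conj h • M := h3
    rw [← h4]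
    exact H1.conj_inv_smul_conj_smul _ _
  -- P normalizes M
  have hPN : (P : Subgroup H) ≤ Subgroup.normalizer (M : Set H) := by
    have h1 : (P : Subgroup H) ≤ ((P : Subgroup H) ⊓ Subgroup.normalizer (M : Set H)) ⊔ Q := by
      intro u hu
      obtain ⟨l, hl, hn⟩ := hfratt u
      obtain ⟨q, hq, m, hm, rfl⟩ := hLQM l hl
      have hmn : m ∈ Subgroup.normalizer (M : Set H) := Subgroup.le_normalizer hm
      have h2 : q⁻¹ * u ∈ Subgroup.normalizer (M : Set H) := by
        have h3 : q⁻¹ * u = m * ((q * m)⁻¹ * u) := by group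
        rw [h3]
        exact mul_mem hmn hn
      have h4 : q⁻¹ * u ∈ (P : Subgroup H) := mul_mem (inv_mem (hQP hq)) hu
      have h5 : u = q * (q⁻¹ * u) := by group
      rw [h5]
      exact mul_mem (Subgroup.mem_sup_right hq) (Subgroup.mem_sup_left ⟨h4, h2⟩)
    exact (hfrat _ inf_le_left h1).trans inf_le_right
  have hMn : M.Normal := by
    rw [← Subgroup.normalizer_eq_top_iff, eq_top_iff]
    intro h _
    obtain ⟨l, hl, hn⟩ := hfratt h
    obtain ⟨q, hq, m, hm, rfl⟩ := hLQM l hl
    have hmn : m ∈ Subgroup.normalizer (M : Set H) := Subgroup.le_normalizer hm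
    have hqn : q ∈ Subgroup.normalizer (M : Set H) := hPN (hQP hq)
    have h3 : h = (q * m) * ((q * m)⁻¹ * h) := by group
    rw [h3]
    exact mul_mem (mul_mem hqn hmn) hn
  refine ⟨M, hMn, ?_⟩
  apply Subgroup.isComplement'_of_coprime
  · rw [hMcard, ← hPidx, mul_comm]
    exact Subgroup.card_mul_index _
  · rw [hMcard]
    obtain ⟨j, hj⟩ := IsPGroup.iff_card.mp P.isPGroup'
    rw [hj]
    exact Nat.Coprime.pow_right j (Nat.Coprime.symm ((Nat.Prime.coprime_iff_not_dvd hp).mpr hpLb))

end Cfsg.Agent.H67
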