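import Cfsg.Agent.H86.FusSat
import Cfsg.Agent.H86.FusAlperin
import Cfsg.Agent.H87.CentricExt

set_option autoImplicit false

/-!
# Piece EXT of helper87's S5140 project

An automorphism `a` of `S` in a saturated system `F` that is a map of a saturated subsystem `D` on
some `F`-centric subgroup is a map of `D` on `S`.
-/

namespace Cfsg.Agent.H67.PIdx

open Cfsg Cfsg.FusionSystem Cfsg.Agent.H86

variable {Ω : Type*} [Group Ω] {S : Subgroup Ω}

/-- A map of a subsystem is a map of the system. -/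
lemma mor_sub {F D : FusionSystem S} (hDF : D.IsSubsystemOf F) {P : Subgroup Ω} {f : Ω → Ω}
    (h : Mor D P f) : Mor F P f := by
  obtain ⟨φ, hφ, hφf⟩ := h
  exact ⟨φ, hDF P hφ, hφf⟩

/-- Conjugacy in a subsystem implies conjugacy in the system. -/
lemma isConj_sub {F D : FusionSystem S} (hDF : D.IsSubsystemOf F) {P Q : Subgroup Ω}
    (h : D.IsConj P Q) : F.IsConj P Q := by
  obtain ⟨f, hf, himg⟩ := isConj_iff.1 h
  exact isConj_iff.2 ⟨f, mor_sub hDF hf, himg⟩

/-- One step: from a centric subgroup `P` to its normalizer. -/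
lemma mor_normalizer_of_mor_centric [Finite S] {p : ℕ} [Fact p.Prime] (hS : IsPGroup p S)
    {F D : FusionSystem S} (hF : F.IsSaturated p) (hD : D.IsSaturated p) (hDF : D.IsSubsystemOf F)
    {a : Ω → Ω} (ha : Mor F S a) {P : Subgroup Ω} (hP : F.IsCentric P) (haP : Mor D P a) :
    Mor D (normalizerIn S P) a := by
  have hPS : P ≤ S := hP.1
  have hPR : P ≤ normalizerIn S P := Cfsg.Agent.H86.le_normalizerIn hPS
  have hRS : normalizerIn S P ≤ S := inf_le_left
  have haR : Mor F (normalizerIn S P) a := ha.restrict hRS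
  -- a fully normalized conjugate `Q` of `P` in `D`
  obtain ⟨Q, hPQ, hQfn⟩ := exists_fullyNormalized_conj D hPS
  obtain ⟨hQfc, hQfa⟩ := saturated_fullyNormalized hS hD hQfn
  have hQrc := saturated_receptive_of_fullyCentralized hS hD hQfc
  have hQS : Q ≤ S := hQfn.1
  obtain ⟨χ, hχ, hχmaps, hχP⟩ := exists_normalizer_map hS hQfa hQrc hPQ
  have hP'Q : D.IsConj (imgS P a) Q :=
    isConj_trans (isConj_symm (isConj_iff.2 ⟨a, haP, rfl⟩)) hPQ
  obtain ⟨χ', hχ', hχ'maps, hχ'P⟩ := exists_normalizer_map hS hQfa hQrc hP'Q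
  have haN : ∀ x ∈ normalizerIn S P, a x ∈ normalizerIn S (imgS P a) := by
    intro x hx
    exact mem_normalizerIn_iff.2 ⟨haR.mem hx,
      haR.mem_normalizer_imgS hPR (fun g hg => (mem_normalizerIn_iff.1 hg).2) hx⟩
  have hχinv : Mor D (imgS (normalizerIn S P) χ) (invOn (normalizerIn S P) χ) := hχ.inv
  have hinvmem : ∀ y ∈ imgS (normalizerIn S P) χ,
      invOn (normalizerIn S P) χ y ∈ normalizerIn S P := fun y hy => hχ.invOn_mem hy
  -- `β = χ' a χ⁻¹` on `R₂ = χ(N_S(P))`
  have hβF : Mor F (imgS (normalizerIn S P) χ) (χ' ∘ (a ∘ invOn (normalizerIn S P) χ)) :=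
    ((mor_sub hDF hχinv).comp haR hinvmem).comp (mor_sub hDF hχ')
      (fun y hy => haN _ (hinvmem y hy))
  have hQR₂ : Q ≤ imgS (normalizerIn S P) χ := by
    rw [← hχP]
    exact hχ.imgS_mono hPR
  have hinvQ : ∀ y ∈ Q, invOn (normalizerIn S P) χ y ∈ P := by
    intro y hy
    rw [← hχP] at hy
    obtain ⟨x, hx, rfl⟩ := (hχ.restrict hPR).mem_imgS.1 hy
    rw [invOn_apply hχ.injOn (hPR hx)]
    exact hx
  have hP'le : imgS P a ≤ normalizerIn S (imgS P a) :=
    Cfsg.Agent.H86.le_normalizerIn haP.imgS_le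
  have hβD : Mor D Q (χ' ∘ (a ∘ invOn (normalizerIn S P) χ)) :=
    ((hχinv.restrict hQR₂).comp haP hinvQ).comp (hχ'.restrict hP'le)
      (fun y hy => haP.mem_imgS_of_mem (hinvQ y hy))
  have hβimg : imgS Q (χ' ∘ (a ∘ invOn (normalizerIn S P) χ)) = Q := by
    have : Finite Q := finite_of_le hQS
    refine imgS_eq_of_maps hβD (fun y hy => ?_)
    rw [← hχ'P]
    exact (hχ'.restrict hP'le).mem_imgS_of_mem (haP.mem_imgS_of_mem (hinvQ y hy))
  -- extend `β|Q` to `R₂` inside `D`
  obtain ⟨β', hβ', hβ'β⟩ := receptive_extend hQrc hβD hβimg hQR₂ (fun g hg => by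
    obtain ⟨x, hx, rfl⟩ := hχ.mem_imgS.1 hg
    have hχx := hχmaps x hx
    refine ⟨(mem_normalizerIn_iff.1 hχx).1, (mem_normalizerIn_iff.1 hχx).2, _, hβF.mem hg,
      fun y hy => ?_⟩
    rw [hβF.map_mul (Subgroup.mul_mem _ hg (hQR₂ hy)) (Subgroup.inv_mem _ hg),
      hβF.map_mul hg (hQR₂ hy), hβF.map_inv hg])
  -- `β` and `β'` differ by an inner automorphism
  have hQc : F.IsCentric Q := Cfsg.Agent.H87.isCentric_of_isConj hP (isConj_sub hDF hPQ)
  obtain ⟨z, hz, -, hzβ⟩ := Cfsg.Agent.H87.eq_comp_conj_of_agree_centric hS hF hQR₂ hQc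
    (mor_sub hDF hβ') hβF (fun x hx => hβ'β x hx)
  have hR₂S : imgS (normalizerIn S P) χ ≤ S := hχ.imgS_le
  have hβD₂ : Mor D (imgS (normalizerIn S P) χ) (χ' ∘ (a ∘ invOn (normalizerIn S P) χ)) := by
    have hc : Mor D (imgS (normalizerIn S P) χ) (fun y => z * y * z⁻¹) :=
      Mor.conj D hR₂S (hQS hz)
    refine (hc.comp hβ' (fun y hy => ?_)).congr (fun y hy => (hzβ y hy).symm)
    exact Subgroup.mul_mem _ (Subgroup.mul_mem _ (hQR₂ hz) hy) (Subgroup.inv_mem _ (hQR₂ hz))
  -- `a = χ'⁻¹ β χ` on `N_S(P)`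
  have h1 : Mor D (normalizerIn S P) ((χ' ∘ (a ∘ invOn (normalizerIn S P) χ)) ∘ χ) :=
    hχ.comp hβD₂ (fun x hx => hχ.mem_imgS_of_mem hx)
  have h2 : Mor D (normalizerIn S P) (invOn (normalizerIn S (imgS P a)) χ' ∘
      ((χ' ∘ (a ∘ invOn (normalizerIn S P) χ)) ∘ χ)) := by
    refine h1.comp hχ'.inv (fun x hx => ?_)
    show χ' (a (invOn (normalizerIn S P) χ (χ x))) ∈ _
    rw [invOn_apply hχ.injOn hx]
    exact hχ'.mem_imgS_of_mem (haN x hx)
  refine h2.congr (fun x hx => ?_)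
  show invOn (normalizerIn S (imgS P a)) χ' (χ' (a (invOn (normalizerIn S P) χ (χ x)))) = a x
  rw [invOn_apply hχ.injOn hx, invOn_apply hχ'.injOn (haN x hx)]

/-- **Piece EXT of S5140.** -/
theorem mor_top_of_mor_centric [Finite S] {p : ℕ} [Fact p.Prime] (hS : IsPGroup p S)
    {F D : FusionSystem S} (hF : F.IsSaturated p) (hD : D.IsSaturated p) (hDF : D.IsSubsystemOf F)
    {a : Ω → Ω} (ha : Mor F S a) (haS : imgS S a = S) {P : Subgroup Ω} (hP : F.IsCentric P)
    (haP : Mor D P a) : Mor D S a := by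
  have key : ∀ (n : ℕ) (P : Subgroup Ω), F.IsCentric P → Mor D P a →
      Nat.card S - Nat.card P ≤ n → Mor D S a := by
    intro n
    induction n with
    | zero =>
      intro P hP haP hn
      have hle : Nat.card P ≤ Nat.card S := Subgroup.card_le_of_le hP.1
      have hPS : P = S := Subgroup.eq_of_le_of_card_ge hP.1 (by omega)
      rw [hPS] at haP
      exact haP
    | succ n ih =>
      intro P hP haP hn
      by_cases hPS : P = S
      · rw [hPS] at haP
        exact haP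
      · have hlt : P < S := lt_of_le_of_ne hP.1 hPS
        have hR := lt_normalizerIn hS hlt
        have hRS : normalizerIn S P ≤ S := inf_le_left
        have : Finite (normalizerIn S P) := finite_of_le hRS
        have hc := card_lt_card_of_lt hR
        have hc2 : Nat.card (normalizerIn S P) ≤ Nat.card S := Subgroup.card_le_of_le hRS
        exact ih _ (Cfsg.Agent.H87.isCentric_of_le hP hR.le hRS)
          (mor_normalizer_of_mor_centric hS hF hD hDF ha hP haP) (by omega)
  exact key _ P hP haP le_rfl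

end Cfsg.Agent.H67.PIdx
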