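import Cfsg.Agent.H86.FusSat
import Cfsg.Agent.H87.CentricExt
import Cfsg.Agent.H87.Syl
import Cfsg.Agent.H67.PIdxExt

set_option autoImplicit false

/-!
# Piece SAT of helper87's S5140 project

The class of an `F`-centric subgroup in a "Frattini" subsystem `E` of a saturated system `F` contains a
fully automized receptive member.
-/

namespace Cfsg.Agent.H67.PIdx

open Cfsg Cfsg.FusionSystem Cfsg.Agent.H86

variable {Ω : Type*} [Group Ω] {S : Subgroup Ω}

/-- **Piece SAT of S5140.** -/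
theorem satClass_of_frattini [Finite S] {p : ℕ} [Fact p.Prime] (hS : IsPGroup p S)
    {F E : FusionSystem S} (hF : F.IsSaturated p) (hEF : E.IsSubsystemOf F)
    (hfr : ∀ (P : Subgroup Ω) (f : Ω → Ω), Mor F P f →
      ∃ a f₀, Mor F S a ∧ imgS S a = S ∧ Mor E P f₀ ∧ ∀ x ∈ P, f x = a (f₀ x))
    (hcl : ∀ (a : Ω → Ω) (P : Subgroup Ω), Mor F S a → imgS S a = S → F.IsCentric P → Mor E P a →
      Mor E S a)
    {P : Subgroup Ω} (hP : F.IsCentric P) :
    ∃ Q, E.IsConj P Q ∧ E.IsFullyAutomized p Q ∧ E.IsReceptive Q := by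
  classical
  have hPS : P ≤ S := hP.1
  obtain ⟨Q₁, hPQ₁, hQ₁fn⟩ := exists_fullyNormalized_conj F hPS
  have hQ₁S : Q₁ ≤ S := hQ₁fn.1
  obtain ⟨f, hf, hfimg⟩ := isConj_iff.1 hPQ₁
  obtain ⟨a, f₀, ha, haS, hf₀, hfa⟩ := hfr P f hf
  have hf₀F : Mor F P f₀ := mor_sub hEF hf₀
  have hQS : imgS P f₀ ≤ S := hf₀.imgS_le
  have hPQ : E.IsConj P (imgS P f₀) := isConj_iff.2 ⟨f₀, hf₀, rfl⟩
  have haQ : Mor F (imgS P f₀) a := ha.restrict hQS
  have haQimg : imgS (imgS P f₀) a = Q₁ := by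
    rw [← hf₀F.imgS_comp ha (fun x hx => hf₀.mem hx), ← hfimg]
    exact (Mor.imgS_congr hf (fun x hx => hfa x hx)).symm
  have hQQ₁ : F.IsConj (imgS P f₀) Q₁ := isConj_iff.2 ⟨a, haQ, haQimg⟩
  -- the inverse of `a`
  have hb : Mor F S (invOn S a) := by
    have := ha.inv
    rwa [haS] at this
  have hbQ : ∀ y ∈ Q₁, invOn S a y ∈ imgS P f₀ := by
    intro y hy
    rw [← haQimg] at hy
    obtain ⟨x, hx, rfl⟩ := haQ.mem_imgS.1 hy
    rw [invOn_apply ha.injOn (hQS hx)]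
    exact hx
  have key : ∀ g ∈ normalizerIn S Q₁, ∀ y ∈ imgS P f₀,
      invOn S a g * y * (invOn S a g)⁻¹ ∈ imgS P f₀ := by
    intro g hg y hy
    obtain ⟨hgS, hgN⟩ := mem_normalizerIn_iff.1 hg
    have hay : a y ∈ Q₁ := by
      rw [← haQimg]
      exact haQ.mem_imgS_of_mem hy
    have h1 : g * a y * g⁻¹ ∈ Q₁ := conj_mem_of_mem_normalizer hgN hay
    have h2 := hbQ _ h1
    rw [hb.map_mul (Subgroup.mul_mem _ hgS (hQ₁S hay)) (Subgroup.inv_mem _ hgS),
      hb.map_mul hgS (hQ₁S hay), hb.map_inv hgS, invOn_apply ha.injOn (hQS hy)] at h2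
    exact h2
  have hbN : ∀ g ∈ normalizerIn S Q₁, invOn S a g ∈ normalizerIn S (imgS P f₀) := by
    intro g hg
    obtain ⟨hgS, hgN⟩ := mem_normalizerIn_iff.1 hg
    refine mem_normalizerIn_iff.2 ⟨hb.mem hgS, ?_⟩
    refine mem_normalizer_of_forall_conj_mem (key g hg) (fun y hy => ?_)
    have := key g⁻¹ (Subgroup.inv_mem _ hg) y hy
    rwa [hb.map_inv hgS, inv_inv] at this
  have hQfn : F.IsFullyNormalized (imgS P f₀) := by
    refine ⟨hQS, fun Q' hQ' => ?_⟩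
    have h1 : Nat.card (normalizerIn S Q') ≤ Nat.card (normalizerIn S Q₁) :=
      hQ₁fn.2 Q' (isConj_trans (isConj_symm hQQ₁) hQ')
    have h2 : Nat.card (normalizerIn S Q₁) ≤ Nat.card (normalizerIn S (imgS P f₀)) := by
      have : Finite (normalizerIn S (imgS P f₀)) := finite_of_le (S := S) inf_le_left
      refine Nat.card_le_card_of_injective
        (fun c : normalizerIn S Q₁ => (⟨invOn S a c, hbN c c.2⟩ : normalizerIn S (imgS P f₀))) ?_
      intro c d hcd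
      exact Subtype.ext (hb.injOn (mem_normalizerIn_iff.1 c.2).1 (mem_normalizerIn_iff.1 d.2).1
        (congrArg Subtype.val hcd))
    exact h1.trans h2
  obtain ⟨hQfc, hQfa⟩ := saturated_fullyNormalized hS hF hQfn
  have hQrc := saturated_receptive_of_fullyCentralized hS hF hQfc
  have hQfin : Finite (imgS P f₀) := finite_of_le hQS
  refine ⟨imgS P f₀, hPQ, ⟨hQS, ?_⟩, ?_⟩
  · -- fully automized in `E`
    have hsyl : Cfsg.Agent.H87.IsSylIn p (autInducedBy S (imgS P f₀)) (F.autGroup (imgS P f₀)) :=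
      hQfa.2
    exact hsyl.mono (autInducedBy_le_autGroup E hQS) (fun α hα => by
      rw [mem_autGroup_iff hQS] at hα ⊢
      exact mor_sub hEF hα)
  · -- receptive in `E`
    refine receptive_of hQS (fun R φ hφ himg N' hN' => ?_)
    have hφF : Mor F R φ := mor_sub hEF hφ
    have hN'eq : N' = extSub S R φ := by
      ext g
      rw [hN' g, mem_extSub_iff hφF]
    rw [hN'eq]
    obtain ⟨ψ, hψ, hψφ⟩ := receptive_extend' hQrc hφF himg
    obtain ⟨a', g₀, ha', ha'S, hg₀, hψa⟩ := hfr _ ψ hψ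
    have hRN : R ≤ extSub S R φ := le_extSub hφF
    have hg₀R : Mor E R g₀ := hg₀.restrict hRN
    have hR₀c : F.IsCentric (imgS R g₀) := by
      refine Cfsg.Agent.H87.isCentric_of_isConj hP (isConj_sub hEF ?_)
      exact isConj_trans hPQ (isConj_trans (isConj_symm (isConj_iff.2 ⟨φ, hφ, himg⟩))
        (isConj_iff.2 ⟨g₀, hg₀R, rfl⟩))
    have ha'R₀ : Mor E (imgS R g₀) a' := by
      have h1 : Mor E (imgS R g₀) (φ ∘ invOn R g₀) :=
        hg₀R.inv.comp hφ (fun y hy => hg₀R.invOn_mem hy)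
      refine h1.congr (fun y hy => ?_)
      obtain ⟨x, hx, rfl⟩ := hg₀R.mem_imgS.1 hy
      show φ (invOn R g₀ (g₀ x)) = a' (g₀ x)
      rw [invOn_apply hg₀R.injOn hx, ← hψa x (hRN hx), hψφ x hx]
    have ha'E : Mor E S a' := hcl a' _ ha' ha'S hR₀c ha'R₀
    refine ⟨a' ∘ g₀, hg₀.comp ha'E (fun x hx => hg₀.mem hx), fun x hx => ?_⟩
    show a' (g₀ x) = φ x
    rw [← hψa x (hRN hx), hψφ x hx]

end Cfsg.Agent.H67.PIdx
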