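import Mathlib

/-!
# S3641-ACT (helper67, for helper21's S3641)

If a finite group has exactly `p + 1` Sylow `p`-subgroups, then its image in the symmetric
group on them has order `(p + 1) * p * d` with `d ∣ p - 1`.
-/

set_option autoImplicit false
set_option linter.unusedVariables false
set_option linter.style.haveILetI false

namespace Cfsg.Agent.H67.SN

open MulAction Subgroup

theorem sylow_action_card {G : Type*} [Group G] [Finite G] (p : ℕ) [Fact p.Prime]
    (hn : Nat.card (Sylow p G) = p + 1) :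
    ∃ d : ℕ, d ∣ p - 1 ∧
      Nat.card (MulAction.toPermHom G (Sylow p G)).range = (p + 1) * p * d := by
  classical
  have hp : p.Prime := Fact.out
  set φ : G →* Equiv.Perm (Sylow p G) := MulAction.toPermHom G (Sylow p G) with hφ
  have hφa : ∀ (g : G) (R : Sylow p G), φ g R = g • R := fun g R => rfl
  obtain ⟨P⟩ : Nonempty (Sylow p G) := inferInstance
  have hnt : Nontrivial (Sylow p G) := by
    apply Finite.one_lt_card_iff_nontrivial.mp
    rw [hn]
    have := hp.two_le
    omega
  obtain ⟨Q, hQP⟩ := exists_ne P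
  set N : Subgroup G := Subgroup.normalizer ((P : Subgroup G) : Set G) with hN
  set NQ : Subgroup G := N ⊓ Subgroup.normalizer ((Q : Subgroup G) : Set G) with hNQ
  set K : Subgroup G := φ.ker with hK
  have hKfix : ∀ k ∈ K, ∀ R : Sylow p G, k • R = R := by
    intro k hk R
    have h1 : φ k = 1 := hk
    rw [← hφa, h1]
    rfl
  have hKNQ : K ≤ NQ := by
    intro k hk
    exact Subgroup.mem_inf.mpr ⟨Sylow.smul_eq_iff_mem_normalizer.mp (hKfix k hk P),
      Sylow.smul_eq_iff_mem_normalizer.mp (hKfix k hk Q)⟩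
  have hNQN : NQ ≤ N := inf_le_left
  have hPN : (P : Subgroup G) ≤ N := Subgroup.le_normalizer
  have hPfix : ∀ R : Sylow p G, (∀ x ∈ (P : Subgroup G), x • R = R) → R = P := by
    intro R hR
    have h1 : R ∈ fixedPoints (P : Subgroup G) (Sylow p G) := by
      intro x
      exact hR x.1 x.2
    have h2 : (P : Subgroup G) ≤ R := (P.2.sylow_mem_fixedPoints_iff).mp h1
    exact Sylow.ext (P.is_maximal' R.2 h2)
  have hcompl : ({P}ᶜ : Set (Sylow p G)).ncard = p := by
    rw [Set.ncard_compl, Set.ncard_singleton, hn]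
    simp
  have horb : MulAction.orbit (P : Subgroup G) Q = {P}ᶜ := by
    have hsub : MulAction.orbit (P : Subgroup G) Q ⊆ ({P}ᶜ : Set (Sylow p G)) := by
      rintro R ⟨x, rfl⟩ hxP
      apply hQP
      have h0 : (x : G) • Q = P := hxP
      have h3 : Q = (x : G)⁻¹ • P := (inv_smul_eq_iff.mpr h0.symm).symm
      rw [h3]
      exact Sylow.smul_eq_iff_mem_normalizer.mpr (hPN (inv_mem x.2))
    obtain ⟨n, hn'⟩ := P.2.card_orbit Q
    have hn0 : n ≠ 0 := by
      rintro rfl
      rw [pow_zero] at hn'
      apply hQP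
      apply hPfix
      intro x hx
      have hmem : (⟨x, hx⟩ : (P : Subgroup G)) • Q ∈ MulAction.orbit (P : Subgroup G) Q :=
        ⟨_, rfl⟩
      have hQm : Q ∈ MulAction.orbit (P : Subgroup G) Q := MulAction.mem_orbit_self Q
      have hss : Subsingleton (MulAction.orbit (P : Subgroup G) Q) :=
        (Nat.card_eq_one_iff_unique.mp hn').1
      have h4 := Subsingleton.elim
        (⟨_, hmem⟩ : MulAction.orbit (P : Subgroup G) Q) ⟨_, hQm⟩
      exact congrArg Subtype.val h4
    apply Set.eq_of_subset_of_ncard_le hsub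
    rw [hcompl, ← Nat.card_coe_set_eq, hn']
    exact Nat.le_self_pow hn0 p
  have h5 : NQ.relIndex N = p := by
    have e1 : NQ.relIndex N = (MulAction.stabilizer N Q).index := by
      rw [hNQ, Subgroup.inf_relIndex_left, Subgroup.relIndex]
      congr 1
      ext x
      simp [Subgroup.mem_subgroupOf, MulAction.mem_stabilizer_iff,
        ← Sylow.smul_eq_iff_mem_normalizer, Subgroup.smul_def]
    rw [e1, MulAction.index_stabilizer]
    have h0 : MulAction.orbit N Q = {P}ᶜ := by
      apply Set.Subset.antisymm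
      · rintro R ⟨x, rfl⟩ hxP
        apply hQP
        have h0 : (x : G) • Q = P := hxP
        have h3 : Q = (x : G)⁻¹ • P := (inv_smul_eq_iff.mpr h0.symm).symm
        rw [h3]
        exact Sylow.smul_eq_iff_mem_normalizer.mpr (inv_mem x.2)
      · rw [← horb]
        rintro R ⟨x, rfl⟩
        exact ⟨⟨x.1, hPN x.2⟩, rfl⟩
    rw [h0, hcompl]
  set Pb : Subgroup (Equiv.Perm (Sylow p G)) := (P : Subgroup G).map φ with hPb
  set S : Subgroup (Equiv.Perm (Sylow p G)) := NQ.map φ with hS
  have hScard : K.relIndex NQ = Nat.card S := Subgroup.relIndex_ker NQ φ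
  have hSle : S ≤ Subgroup.normalizer (Pb : Set (Equiv.Perm (Sylow p G))) := by
    refine le_trans (Subgroup.map_mono hNQN) ?_
    exact Subgroup.le_normalizer_map φ
  have htrans : ∀ R : Sylow p G, R ≠ P → ∃ x ∈ (P : Subgroup G), x • Q = R := by
    intro R hR
    have h0 : R ∈ MulAction.orbit (P : Subgroup G) Q := by
      rw [horb]
      exact hR
    obtain ⟨x, rfl⟩ := h0
    exact ⟨x.1, x.2, rfl⟩
  have hPbcard : Nat.card Pb = p := by
    have hpg : IsPGroup p Pb := P.2.map φ
    obtain ⟨k, hk⟩ := IsPGroup.iff_card.mp hpg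
    have hdvd : Nat.card Pb ∣ (p + 1).factorial := by
      have h0 := Subgroup.card_subgroup_dvd_card Pb
      rwa [Nat.card_perm, hn] at h0
    have hk1 : k ≤ 1 := by
      by_contra hk2
      push Not at hk2
      have h2 : p ^ 2 ∣ (p + 1).factorial := by
        refine dvd_trans ?_ hdvd
        rw [hk]
        exact pow_dvd_pow p hk2
      obtain ⟨q, rfl⟩ : ∃ q, p = q + 1 := ⟨p - 1, by have := hp.one_lt; omega⟩
      rw [Nat.factorial_succ, Nat.factorial_succ, pow_two] at h2
      have h3 : (q + 1) * (q + 1) ∣ (q + 1) * ((q + 1 + 1) * q.factorial) := by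
        convert h2 using 1
        ring
      have h4 : (q + 1) ∣ (q + 1 + 1) * q.factorial :=
        (Nat.mul_dvd_mul_iff_left (by omega)).mp h3
      rcases (Nat.Prime.dvd_mul hp).mp h4 with h | h
      · have h6 : (q + 1) ∣ 1 := (Nat.dvd_add_right (dvd_refl _)).mp h
        have h7 := Nat.le_of_dvd one_pos h6
        have h8 := hp.one_lt
        omega
      · have h6 := (hp.dvd_factorial).mp h
        omega
    have hk0 : k ≠ 0 := by
      rintro rfl
      rw [pow_zero] at hk
      apply hQP
      apply hPfix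
      intro x hx
      have hmem : φ x ∈ Pb := Subgroup.mem_map_of_mem φ hx
      have hbot : Pb = ⊥ := Subgroup.card_eq_one.mp hk
      rw [hbot, Subgroup.mem_bot] at hmem
      rw [← hφa, hmem]
      rfl
    have hk' : k = 1 := by omega
    rw [hk, hk', pow_one]
  have h6 : K.relIndex NQ ∣ p - 1 := by
    rw [hScard]
    let ψ : S →* MulAut Pb := (Subgroup.normalizerMonoidHom Pb).comp (Subgroup.inclusion hSle)
    have hinj : Function.Injective ψ := by
      rw [injective_iff_map_eq_one]
      rintro ⟨s, hs⟩ hψ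
      obtain ⟨n, hnNQ, rfl⟩ := Subgroup.mem_map.mp hs
      have hnP : n • P = P := Sylow.smul_eq_iff_mem_normalizer.mpr (Subgroup.mem_inf.mp hnNQ).1
      have hnQ : n • Q = Q := Sylow.smul_eq_iff_mem_normalizer.mpr (Subgroup.mem_inf.mp hnNQ).2
      have hcomm : ∀ x ∈ (P : Subgroup G), φ n * φ x * (φ n)⁻¹ = φ x := by
        intro x hx
        have h0 := congrArg (fun f : MulAut Pb =>
          ((f ⟨φ x, Subgroup.mem_map_of_mem φ hx⟩ : Pb) : Equiv.Perm (Sylow p G))) hψ
        simpa [ψ] using h0
      apply Subtype.ext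
      show φ n = 1
      refine Equiv.ext fun R => ?_
      by_cases hR : R = P
      · rw [hR, hφa, hnP]
        rfl
      · obtain ⟨x, hx, rfl⟩ := htrans R hR
        have h1 : φ n * φ x = φ x * φ n := mul_inv_eq_iff_eq_mul.mp (hcomm x hx)
        have h2 : φ n (x • Q) = (φ n * φ x) Q := rfl
        rw [h2, h1]
        show φ x (φ n Q) = x • Q
        rw [hφa n Q, hnQ]
        rfl
    have hdvd := Subgroup.card_dvd_of_injective ψ hinj
    haveI : IsCyclic Pb := isCyclic_of_prime_card hPbcard
    rw [IsCyclic.card_mulAut, hPbcard, Nat.totient_prime hp] at hdvd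
    exact hdvd
  refine ⟨K.relIndex NQ, h6, ?_⟩
  have h1 : Nat.card φ.range = K.index := (Subgroup.index_ker φ).symm
  have h2 : K.relIndex N * N.index = K.index := Subgroup.relIndex_mul_index (hKNQ.trans hNQN)
  have h3 : N.index = p + 1 := by
    rw [← hn]
    exact (Sylow.card_eq_index_normalizer P).symm
  have h4 : K.relIndex NQ * NQ.relIndex N = K.relIndex N :=
    Subgroup.relIndex_mul_relIndex _ _ _ hKNQ hNQN
  rw [h1, ← h2, ← h4, h5, h3]
  ring

example {G : Type*} [Group G] [Finite G] (p : ℕ) [Fact p.Prime]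
    (hn : Nat.card (Sylow p G) = p + 1) :
    ∃ d : ℕ, d ∣ p - 1 ∧
      Nat.card (MulAction.toPermHom G (Sylow p G)).range = (p + 1) * p * d :=
  sylow_action_card p hn

end Cfsg.Agent.H67.SN
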