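import Mathlib
import Cfsg.Agent.H44.SpODefs

/-!
# SPO-COUNT1 (helper67, for helper44's S2347 part A)

One square class gives `(q-1)/2 · q^m` characters with nonzero central value.
-/

set_option autoImplicit false
set_option linter.unusedVariables false
set_option linter.unusedSectionVars false
set_option linter.style.haveILetI false

namespace Cfsg.Agent.H67.SpO

open Matrix Module Cfsg.Agent.H17 Cfsg.Agent.H44.SpL Cfsg.Agent.H44.SpO

universe u

/-- counting characters with prescribed central value and first row. -/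
theorem count_aux {F : Type u} [Field F] [Fintype F] (m : ℕ)
    (X : Set (Fin (m + 1) × Fin (m + 1) → F)) (Cs : Set F)
    (h : ∀ c ∈ Cs, c ≠ 0 ∧ ∀ μ : Fin m → F, ∃ p' ∈ X, p' (0, 0) = c ∧
      ∀ j : Fin m, p' (0, j.succ) = μ j) :
    Nat.card Cs * Fintype.card F ^ m ≤ Set.ncard {p' | p' ∈ X ∧ p' (0, 0) ≠ 0} := by
  classical
  have hch : ∀ x : Cs × (Fin m → F), ∃ p' ∈ X, p' (0, 0) = x.1.1 ∧
      ∀ j : Fin m, p' (0, j.succ) = x.2 j := fun x => (h x.1.1 x.1.2).2 x.2
  choose Φ hΦX hΦ0 hΦr using hch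
  have hmem : ∀ x, Φ x ∈ {p' | p' ∈ X ∧ p' (0, 0) ≠ 0} := fun x =>
    ⟨hΦX x, by rw [hΦ0 x]; exact (h x.1.1 x.1.2).1⟩
  have hinj : Function.Injective
      (fun x => (⟨Φ x, hmem x⟩ : {p' | p' ∈ X ∧ p' (0, 0) ≠ 0})) := by
    intro x y hxy
    have e : Φ x = Φ y := congrArg Subtype.val hxy
    apply Prod.ext
    · apply Subtype.ext
      rw [← hΦ0 x, ← hΦ0 y, e]
    · funext j
      rw [← hΦr x j, ← hΦr y j, e]
  have hcard := Nat.card_le_card_of_injective _ hinj
  calc Nat.card Cs * Fintype.card F ^ m = Nat.card (Cs × (Fin m → F)) := by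
        rw [Nat.card_prod, Nat.card_eq_fintype_card (α := Fin m → F), Fintype.card_fun,
          Fintype.card_fin]
    _ ≤ Nat.card {p' | p' ∈ X ∧ p' (0, 0) ≠ 0} := hcard
    _ = Set.ncard {p' | p' ∈ X ∧ p' (0, 0) ≠ 0} := Nat.card_coe_set_eq _

theorem count1 (hR : StRow.{u}) : StCount1.{u} := by
  intro F _ _ m h2 X hX p hp hs
  classical
  have hge : (Fintype.card F - 1) / 2 ≤
      Nat.card {c : F | ∃ t : F, t ≠ 0 ∧ c = t ^ 2 * p (0, 0)} := by
    have hU : (Finset.univ.filter (fun t : F => t ≠ 0)).card = Fintype.card F - 1 := by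
      rw [Finset.filter_ne', Finset.card_erase_of_mem (Finset.mem_univ 0), Finset.card_univ]
    have hfib : ∀ a ∈ (Finset.univ.filter (fun t : F => t ≠ 0)).image
        (fun t => t ^ 2 * p (0, 0)),
        ((Finset.univ.filter (fun t : F => t ≠ 0)).filter
          (fun x => x ^ 2 * p (0, 0) = a)).card ≤ 2 := by
      intro a ha
      obtain ⟨t₀, -, rfl⟩ := Finset.mem_image.mp ha
      calc ((Finset.univ.filter (fun t : F => t ≠ 0)).filter
            (fun x => x ^ 2 * p (0, 0) = t₀ ^ 2 * p (0, 0))).card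
          ≤ ({t₀, -t₀} : Finset F).card := by
            apply Finset.card_le_card
            intro x hx
            rw [Finset.mem_filter] at hx
            have h1 : x ^ 2 = t₀ ^ 2 := mul_right_cancel₀ hs hx.2
            rcases sq_eq_sq_iff_eq_or_eq_neg.mp h1 with h | h
            · simp [h]
            · simp [h]
        _ ≤ 2 := Finset.card_le_two
    have h1 := Finset.card_le_mul_card_image (Finset.univ.filter (fun t : F => t ≠ 0)) 2 hfib
    rw [hU] at h1
    have h3 : ((Finset.univ.filter (fun t : F => t ≠ 0)).image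
        (fun t => t ^ 2 * p (0, 0))).card ≤
        Nat.card {c : F | ∃ t : F, t ≠ 0 ∧ c = t ^ 2 * p (0, 0)} := by
      rw [Nat.card_coe_set_eq, ← Set.ncard_coe_finset]
      apply Set.ncard_le_ncard _ (Set.toFinite _)
      intro c hc
      obtain ⟨t, ht, rfl⟩ := Finset.mem_image.mp (Finset.mem_coe.mp hc)
      exact ⟨t, (Finset.mem_filter.mp ht).2, rfl⟩
    omega
  have haux := count_aux m X {c : F | ∃ t : F, t ≠ 0 ∧ c = t ^ 2 * p (0, 0)} (by
    rintro c ⟨t, ht, rfl⟩
    exact ⟨mul_ne_zero (pow_ne_zero 2 ht) hs, fun μ => hR m X hX p hp hs t ht μ⟩)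
  exact le_trans (Nat.mul_le_mul_right _ hge) haux

example (hR : StRow.{u}) : StCount1.{u} := count1 hR

end Cfsg.Agent.H67.SpO
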