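import Mathlib
import Cfsg.Agent.H44.SpODefs
import Cfsg.Agent.H67.SpOCount1

/-!
# SPO-COUNT2 (helper67, for helper44's S2347 part A)

Two square classes give `(q-1) · q^m` characters with nonzero central value.
-/

set_option autoImplicit false
set_option linter.unusedVariables false
set_option linter.unusedSectionVars false
set_option linter.style.haveILetI false

namespace Cfsg.Agent.H67.SpO

open Matrix Module Cfsg.Agent.H17 Cfsg.Agent.H44.SpL Cfsg.Agent.H44.SpO

universe u

theorem count2 (hR : StRow.{u}) : StCount2.{u} := by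
  intro F _ _ m h2 X hX p hp p' hp' hs hs' hns
  classical
  have hcard : Nat.card {c : F | c ≠ 0} = Fintype.card F - 1 := by
    have e : Nat.card {c : F | c ≠ 0} = Nat.card Fˣ := Nat.card_congr unitsEquivNeZero.symm
    rw [e, Nat.card_units, Nat.card_eq_fintype_card]
  have key : ∀ (s : F) (r : Fin (m + 1) × Fin (m + 1) → F), r ∈ X → r (0, 0) = s → s ≠ 0 →
      ∀ c : F, c ≠ 0 → IsSquare (c / s) → ∀ μ : Fin m → F, ∃ p'' ∈ X, p'' (0, 0) = c ∧
        ∀ j : Fin m, p'' (0, j.succ) = μ j := by
    intro s r hr hrs hs0 c hc hsq μ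
    obtain ⟨t, ht⟩ := hsq
    have ht0 : t ≠ 0 := by
      rintro rfl
      rw [mul_zero] at ht
      exact div_ne_zero hc hs0 ht
    obtain ⟨p'', hp''X, h0, hrow⟩ := hR m X hX r hr (by rw [hrs]; exact hs0) t ht0 μ
    refine ⟨p'', hp''X, ?_, hrow⟩
    rw [h0, hrs, pow_two, ← ht]
    field_simp
  have haux := Cfsg.Agent.H67.SpO.count_aux m X {c : F | c ≠ 0} (by
    intro c hc
    have hc0 : c ≠ 0 := hc
    refine ⟨hc0, fun μ => ?_⟩
    by_cases hsq : IsSquare (c / p (0, 0))
    · exact key (p (0, 0)) p hp rfl hs c hc0 hsq μ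
    · have hsq' : IsSquare (c / p' (0, 0)) := by
        have h1 : quadraticChar F (c / p (0, 0)) = -1 :=
          quadraticChar_neg_one_iff_not_isSquare.mpr hsq
        have h2' : quadraticChar F (p' (0, 0) / p (0, 0)) = -1 :=
          quadraticChar_neg_one_iff_not_isSquare.mpr hns
        have h3 : c / p (0, 0) = (c / p' (0, 0)) * (p' (0, 0) / p (0, 0)) := by field_simp
        rw [h3, map_mul, h2'] at h1
        have h4 : quadraticChar F (c / p' (0, 0)) = 1 := by linarith
        exact (quadraticChar_one_iff_isSquare (div_ne_zero hc0 hs')).mp h4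
      exact key (p' (0, 0)) p' hp' rfl hs' c hc0 hsq' μ)
  rw [hcard] at haux
  exact haux

example (hR : StRow.{u}) : StCount2.{u} := count2 hR

end Cfsg.Agent.H67.SpO
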