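import Mathlib
import Cfsg.Prelude.Def_SolvableStructure
import Cfsg.Agent.H1.MinNormal
import Cfsg.Agent.H12.Supersolvable

/-!
# Squarefree class sizes: the common line lemma and supersolvability (part P1 of S4130)

`SQ G` : every conjugacy class of `G` has squarefree size.

* `comRange N hN y` : the subgroup `[N, y] = {n * (y * n⁻¹ * y⁻¹)}` of an abelian normal subgroup.
* `common_line` (CLL).
* `supersolvable` : `SQ G → IsSolvable G → Cfsg.IsSupersolvable G`.
-/

set_option autoImplicit false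

namespace Cfsg.Agent.H67.Sqf

universe u

variable {G : Type u} [Group G]

/-- `|N : C_N(x)|` divides `|G : C|` for `N` normal. -/
theorem relIndex_dvd_index_right [Finite G] (C N : Subgroup G) [N.Normal] :
    C.relIndex N ∣ C.index := by
  have key : C.relIndex (C ⊔ N) = C.relIndex N := by
    have h1 : Nat.card N * N.relIndex (C ⊔ N) = Nat.card (C ⊔ N : Subgroup G) := by
      rw [← Subgroup.relIndex_bot_left, Subgroup.relIndex_mul_relIndex _ _ _ bot_le le_sup_right,
        Subgroup.relIndex_bot_left]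
    have h2 : Nat.card C * C.relIndex (C ⊔ N) = Nat.card (C ⊔ N : Subgroup G) := by
      rw [← Subgroup.relIndex_bot_left, Subgroup.relIndex_mul_relIndex _ _ _ bot_le le_sup_left,
        Subgroup.relIndex_bot_left]
    have h3 : Nat.card (C ⊓ N : Subgroup G) * N.relIndex C = Nat.card C := by
      rw [← Subgroup.inf_relIndex_left C N, ← Subgroup.relIndex_bot_left,
        Subgroup.relIndex_mul_relIndex _ _ _ bot_le inf_le_left, Subgroup.relIndex_bot_left]
    have h4 : Nat.card (C ⊓ N : Subgroup G) * C.relIndex N = Nat.card N := by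
      rw [← Subgroup.inf_relIndex_right C N, ← Subgroup.relIndex_bot_left,
        Subgroup.relIndex_mul_relIndex _ _ _ bot_le inf_le_right, Subgroup.relIndex_bot_left]
    rw [Subgroup.relIndex_sup_right] at h1
    have hpos : 0 < Nat.card C := Nat.card_pos
    apply Nat.eq_of_mul_eq_mul_left hpos
    rw [h2, ← h1, ← h4, ← h3]
    ring
  rw [← key]
  exact Subgroup.relIndex_dvd_index_of_le le_sup_left

/-- The endomorphism `n ↦ n * (y * n⁻¹ * y⁻¹)` of an abelian normal subgroup. -/
def commHom (N : Subgroup G) [hNn : N.Normal] (hN : ∀ a ∈ N, ∀ b ∈ N, a * b = b * a) (y : G) :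
    N →* N where
  toFun n := ⟨(n : G) * (y * (n : G)⁻¹ * y⁻¹),
    N.mul_mem n.2 (hNn.conj_mem _ (N.inv_mem n.2) y)⟩
  map_one' := by ext; simp
  map_mul' a b := by
    ext
    simp only [Subgroup.coe_mul, mul_inv_rev]
    have h1 : (y * (a : G)⁻¹ * y⁻¹) * ((b : G) * (y * (b : G)⁻¹ * y⁻¹)) =
        ((b : G) * (y * (b : G)⁻¹ * y⁻¹)) * (y * (a : G)⁻¹ * y⁻¹) :=
      hN _ (hNn.conj_mem _ (N.inv_mem a.2) y) _
        (N.mul_mem b.2 (hNn.conj_mem _ (N.inv_mem b.2) y))
    calc (a : G) * (b : G) * (y * ((b : G)⁻¹ * (a : G)⁻¹) * y⁻¹)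
        = (a : G) * (((b : G) * (y * (b : G)⁻¹ * y⁻¹)) * (y * (a : G)⁻¹ * y⁻¹)) := by group
      _ = (a : G) * ((y * (a : G)⁻¹ * y⁻¹) * ((b : G) * (y * (b : G)⁻¹ * y⁻¹))) := by rw [h1]
      _ = (a : G) * (y * (a : G)⁻¹ * y⁻¹) * ((b : G) * (y * (b : G)⁻¹ * y⁻¹)) := by group

theorem commHom_coe (N : Subgroup G) [N.Normal] (hN : ∀ a ∈ N, ∀ b ∈ N, a * b = b * a) (y : G)
    (n : N) : ((commHom N hN y n : N) : G) = (n : G) * (y * (n : G)⁻¹ * y⁻¹) := rfl

/-- `[N, y]` as a subgroup of `G`. -/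
def comRange (N : Subgroup G) [N.Normal] (hN : ∀ a ∈ N, ∀ b ∈ N, a * b = b * a) (y : G) :
    Subgroup G := (commHom N hN y).range.map N.subtype

theorem mem_comRange (N : Subgroup G) [N.Normal] (hN : ∀ a ∈ N, ∀ b ∈ N, a * b = b * a) (y : G)
    (x : G) : x ∈ comRange N hN y ↔ ∃ n ∈ N, x = n * (y * n⁻¹ * y⁻¹) := by
  unfold comRange
  constructor
  · rintro ⟨_, ⟨n, rfl⟩, rfl⟩
    exact ⟨n, n.2, rfl⟩
  · rintro ⟨n, hn, rfl⟩
    exact ⟨commHom N hN y ⟨n, hn⟩, ⟨⟨n, hn⟩, rfl⟩, rfl⟩

theorem comRange_le (N : Subgroup G) [N.Normal] (hN : ∀ a ∈ N, ∀ b ∈ N, a * b = b * a) (y : G) :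
    comRange N hN y ≤ N := by
  intro x hx
  obtain ⟨n, hn, rfl⟩ := (mem_comRange N hN y x).mp hx
  exact N.mul_mem hn (Subgroup.Normal.conj_mem inferInstance _ (N.inv_mem hn) y)

theorem commHom_ker (N : Subgroup G) [N.Normal] (hN : ∀ a ∈ N, ∀ b ∈ N, a * b = b * a) (y : G) :
    (commHom N hN y).ker = (Subgroup.centralizer ({y} : Set G)).subgroupOf N := by
  ext n
  rw [MonoidHom.mem_ker, Subgroup.mem_subgroupOf, Subgroup.mem_centralizer_iff]
  constructor
  · intro h
    have h1 : (n : G) * (y * (n : G)⁻¹ * y⁻¹) = 1 := by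
      have := congrArg Subtype.val h
      simpa [commHom_coe] using this
    intro z hz
    rw [Set.mem_singleton_iff] at hz
    subst hz
    have : z * (n : G) = ((n : G) * (z * (n : G)⁻¹ * z⁻¹)) * (z * (n : G)) := by rw [h1, one_mul]
    rw [this]; group
  · intro h
    have h2 := h y rfl
    apply Subtype.ext
    rw [commHom_coe]
    have : y * (n : G)⁻¹ * y⁻¹ = (n : G)⁻¹ := by
      have : y * (n : G)⁻¹ = (n : G)⁻¹ * y := by
        calc y * (n : G)⁻¹ = (n : G)⁻¹ * ((n : G) * y) * (n : G)⁻¹ := by group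
          _ = (n : G)⁻¹ * (y * (n : G)) * (n : G)⁻¹ := by rw [h2]
          _ = (n : G)⁻¹ * y := by group
      rw [this]; group
    rw [this]; simp

theorem commHom_eq_one_iff (N : Subgroup G) [N.Normal] (hN : ∀ a ∈ N, ∀ b ∈ N, a * b = b * a)
    (y : G) (n : N) : commHom N hN y n = 1 ↔ y * (n : G) = (n : G) * y := by
  rw [← MonoidHom.mem_ker, commHom_ker, Subgroup.mem_subgroupOf, Subgroup.mem_centralizer_iff]
  constructor
  · intro h; exact h y rfl
  · intro h z hz
    rw [Set.mem_singleton_iff] at hz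
    subst hz; exact h

theorem card_comRange [Finite G] (N : Subgroup G) [N.Normal]
    (hN : ∀ a ∈ N, ∀ b ∈ N, a * b = b * a) (y : G) :
    Nat.card (comRange N hN y) = (Subgroup.centralizer ({y} : Set G)).relIndex N := by
  unfold comRange
  rw [Subgroup.card_map_of_injective N.subtype_injective, ← Subgroup.index_ker, commHom_ker]
  rfl

theorem comRange_conj (N : Subgroup G) [hNn : N.Normal] (hN : ∀ a ∈ N, ∀ b ∈ N, a * b = b * a)
    (y g x : G) (hx : x ∈ comRange N hN y) :
    g * x * g⁻¹ ∈ comRange N hN (g * y * g⁻¹) := by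
  obtain ⟨n, hn, rfl⟩ := (mem_comRange N hN y x).mp hx
  rw [mem_comRange]
  refine ⟨g * n * g⁻¹, hNn.conj_mem _ hn g, ?_⟩
  group

theorem comRange_congr (N : Subgroup G) [hNn : N.Normal] (hN : ∀ a ∈ N, ∀ b ∈ N, a * b = b * a)
    (y y' : G) (h : ∀ n ∈ N, y' * n * y'⁻¹ = y * n * y⁻¹) :
    comRange N hN y' = comRange N hN y := by
  ext x
  rw [mem_comRange, mem_comRange]
  constructor
  · rintro ⟨n, hn, rfl⟩
    exact ⟨n, hn, by rw [h _ (N.inv_mem hn)]⟩
  · rintro ⟨n, hn, rfl⟩
    exact ⟨n, hn, by rw [h _ (N.inv_mem hn)]⟩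

/-- `[N, y] ∩ C_N(y) = 1` if some power `y ^ k`, `k` prime to `p`, centralizes the `p`-group `N`. -/
theorem comRange_inf_centralizer (N : Subgroup G) [hNn : N.Normal]
    (hN : ∀ a ∈ N, ∀ b ∈ N, a * b = b * a) {p : ℕ} (hNp : IsPGroup p N) (y : G) (k : ℕ)
    (hk : k.Coprime p) (hyk : ∀ n ∈ N, y ^ k * n = n * y ^ k)
    (x : G) (hx : x ∈ comRange N hN y) (hxy : y * x = x * y) : x = 1 := by
  have hxN : x ∈ N := comRange_le N hN y hx
  obtain ⟨n, hn, hxn⟩ := (mem_comRange N hN y x).mp hx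
  have h1 : y * n⁻¹ * y⁻¹ = n⁻¹ * x := by rw [hxn]; group
  have h2 : ∀ j : ℕ, y ^ j * n⁻¹ * (y ^ j)⁻¹ = n⁻¹ * x ^ j := by
    intro j
    induction j with
    | zero => simp
    | succ j ih =>
      have hc : y * x ^ j * y⁻¹ = x ^ j := by
        have : Commute y (x ^ j) := (show Commute y x from hxy).pow_right j
        rw [this.eq]; group
      calc y ^ (j + 1) * n⁻¹ * (y ^ (j + 1))⁻¹
          = y * (y ^ j * n⁻¹ * (y ^ j)⁻¹) * y⁻¹ := by rw [pow_succ']; group
        _ = (y * n⁻¹ * y⁻¹) * (y * x ^ j * y⁻¹) := by rw [ih]; group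
        _ = n⁻¹ * x ^ (j + 1) := by rw [h1, hc, pow_succ']; group
  have h3 : x ^ k = 1 := by
    have h4 := h2 k
    have h5 : y ^ k * n⁻¹ * (y ^ k)⁻¹ = n⁻¹ := by
      rw [hyk _ (N.inv_mem hn)]; group
    rw [h5] at h4
    exact (left_eq_mul.mp h4)
  obtain ⟨a, ha⟩ := hNp ⟨x, hxN⟩
  have h6 : x ^ (p ^ a) = 1 := by
    have := congrArg Subtype.val ha
    simpa using this
  have h7 : orderOf x ∣ Nat.gcd k (p ^ a) := Nat.dvd_gcd (orderOf_dvd_of_pow_eq_one h3)
    (orderOf_dvd_of_pow_eq_one h6)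
  have h8 : Nat.gcd k (p ^ a) = 1 := Nat.Coprime.pow_right a hk
  rw [h8, Nat.dvd_one, orderOf_eq_one_iff] at h7
  exact h7

theorem card_comRange_eq_prime [Finite G] (N : Subgroup G) [N.Normal]
    (hN : ∀ a ∈ N, ∀ b ∈ N, a * b = b * a) {p : ℕ} (hp : p.Prime) (hNp : IsPGroup p N) (y : G)
    (hy : (Subgroup.centralizer ({y} : Set G)).relIndex N ≤ p)
    (hy' : ∃ n ∈ N, y * n ≠ n * y) : Nat.card (comRange N hN y) = p := by
  have : Fact p.Prime := ⟨hp⟩
  rw [card_comRange]
  have h1 : (Subgroup.centralizer ({y} : Set G)).relIndex N ∣ Nat.card N :=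
    Subgroup.relIndex_dvd_card _ _
  obtain ⟨a, ha⟩ := IsPGroup.iff_card.mp hNp
  rw [ha] at h1
  obtain ⟨b, hb, hb'⟩ := (Nat.dvd_prime_pow hp).mp h1
  rw [hb'] at hy ⊢
  have hb0 : b ≠ 0 := by
    rintro rfl
    have hle : N ≤ Subgroup.centralizer ({y} : Set G) :=
      Subgroup.relIndex_eq_one.mp (by simpa using hb')
    obtain ⟨n, hn, hne⟩ := hy'
    exact hne ((Subgroup.mem_centralizer_iff.mp (hle hn)) y rfl)
  have hb1 : b ≤ 1 := by
    by_contra hcon
    push Not at hcon
    have h2 : p ^ 2 ≤ p ^ b := Nat.pow_le_pow_right hp.pos hcon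
    nlinarith [hp.two_le]
  have : b = 1 := by omega
  subst this
  simp

/-- **Common line lemma.** -/
theorem common_line [Finite G] (N : Subgroup G) [hNn : N.Normal]
    (hN : ∀ a ∈ N, ∀ b ∈ N, a * b = b * a) {p : ℕ} (hp : p.Prime) (hNp : IsPGroup p N)
    (y z : G) (k : ℕ) (hk : k.Coprime p)
    (hyk : ∀ n ∈ N, y ^ k * n = n * y ^ k) (hzk : ∀ n ∈ N, z ^ k * n = n * z ^ k)
    (hyz : ∀ n ∈ N, (y * z * y⁻¹ * z⁻¹) * n = n * (y * z * y⁻¹ * z⁻¹))
    (hy : (Subgroup.centralizer ({y} : Set G)).relIndex N ≤ p)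
    (hz : (Subgroup.centralizer ({z} : Set G)).relIndex N ≤ p)
    (hyz' : (Subgroup.centralizer ({y * z} : Set G)).relIndex N ≤ p)
    (hy' : ∃ n ∈ N, y * n ≠ n * y) (hz' : ∃ n ∈ N, z * n ≠ n * z) :
    comRange N hN y = comRange N hN z := by
  by_contra hne
  have hcy := card_comRange_eq_prime N hN hp hNp y hy hy'
  have hcz := card_comRange_eq_prime N hN hp hNp z hz hz'
  have hcyz : Nat.card (comRange N hN (y * z)) ≤ p := by rw [card_comRange]; exact hyz'
  -- the two lines meet trivially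
  have hinf : ∀ x, x ∈ comRange N hN y → x ∈ comRange N hN z → x = 1 := by
    have hd : Nat.card (comRange N hN y ⊓ comRange N hN z : Subgroup G) ∣ p := by
      rw [← hcy]; exact Subgroup.card_dvd_of_le inf_le_left
    rcases (Nat.dvd_prime hp).mp hd with h1 | h1
    · intro x hx1 hx2
      have : comRange N hN y ⊓ comRange N hN z = ⊥ := Subgroup.card_eq_one.mp h1
      have hx : x ∈ comRange N hN y ⊓ comRange N hN z := ⟨hx1, hx2⟩
      rw [this, Subgroup.mem_bot] at hx
      exact hx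
    · exfalso
      have e1 : comRange N hN y ⊓ comRange N hN z = comRange N hN y :=
        Subgroup.eq_of_le_of_card_ge inf_le_left (by rw [h1, hcy])
      have e2 : comRange N hN y ≤ comRange N hN z := by rw [← e1]; exact inf_le_right
      exact hne (Subgroup.eq_of_le_of_card_ge e2 (by rw [hcy, hcz]))
  -- invariance
  have hinvy : ∀ x ∈ comRange N hN y, z * x * z⁻¹ ∈ comRange N hN y := by
    intro x hx
    have h1 := comRange_conj N hN y z x hx
    have h2 : comRange N hN (z * y * z⁻¹) = comRange N hN y := by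
      apply comRange_congr
      intro n hn
      have hm : y * n * y⁻¹ ∈ N := hNn.conj_mem _ hn y
      have hc := hyz _ hm
      have e : z * y * z⁻¹ = (y * z * y⁻¹ * z⁻¹)⁻¹ * y := by group
      rw [e]
      calc (y * z * y⁻¹ * z⁻¹)⁻¹ * y * n * ((y * z * y⁻¹ * z⁻¹)⁻¹ * y)⁻¹
          = (y * z * y⁻¹ * z⁻¹)⁻¹ * ((y * n * y⁻¹) * (y * z * y⁻¹ * z⁻¹)) := by group
        _ = (y * z * y⁻¹ * z⁻¹)⁻¹ * ((y * z * y⁻¹ * z⁻¹) * (y * n * y⁻¹)) := by rw [hc]
        _ = y * n * y⁻¹ := by group
    rwa [h2] at h1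
  have hinvz : ∀ x ∈ comRange N hN z, y * x * y⁻¹ ∈ comRange N hN z := by
    intro x hx
    have h1 := comRange_conj N hN z y x hx
    have h2 : comRange N hN (y * z * y⁻¹) = comRange N hN z := by
      apply comRange_congr
      intro n hn
      have hm : z * n * z⁻¹ ∈ N := hNn.conj_mem _ hn z
      have hc := hyz _ hm
      have e : y * z * y⁻¹ = (y * z * y⁻¹ * z⁻¹) * z := by group
      rw [e]
      calc (y * z * y⁻¹ * z⁻¹) * z * n * ((y * z * y⁻¹ * z⁻¹) * z)⁻¹
          = ((y * z * y⁻¹ * z⁻¹) * (z * n * z⁻¹)) * (y * z * y⁻¹ * z⁻¹)⁻¹ := by group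
        _ = ((z * n * z⁻¹) * (y * z * y⁻¹ * z⁻¹)) * (y * z * y⁻¹ * z⁻¹)⁻¹ := by rw [hc]
        _ = z * n * z⁻¹ := by group
    rwa [h2] at h1
  -- z centralizes L_y, y centralizes L_z
  have hzc : ∀ a ∈ comRange N hN y, z * a = a * z := by
    intro a ha
    have haN : a ∈ N := comRange_le N hN y ha
    have h1 : a * (z * a⁻¹ * z⁻¹) ∈ comRange N hN z := (mem_comRange N hN z _).mpr ⟨a, haN, rfl⟩
    have h2 : a * (z * a⁻¹ * z⁻¹) ∈ comRange N hN y :=
      (comRange N hN y).mul_mem ha (hinvy _ ((comRange N hN y).inv_mem ha))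
    have h3 := hinf _ h2 h1
    calc z * a = ((a * (z * a⁻¹ * z⁻¹))⁻¹ * a) * z := by group
      _ = a * z := by rw [h3]; group
  have hyc : ∀ b ∈ comRange N hN z, y * b = b * y := by
    intro b hb
    have hbN : b ∈ N := comRange_le N hN z hb
    have h1 : b * (y * b⁻¹ * y⁻¹) ∈ comRange N hN y := (mem_comRange N hN y _).mpr ⟨b, hbN, rfl⟩
    have h2 : b * (y * b⁻¹ * y⁻¹) ∈ comRange N hN z :=
      (comRange N hN z).mul_mem hb (hinvz _ ((comRange N hN z).inv_mem hb))
    have h3 := hinf _ h1 h2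
    calc y * b = ((b * (y * b⁻¹ * y⁻¹))⁻¹ * b) * y := by group
      _ = b * y := by rw [h3]; group
  have hcommN : ∀ s t : N, s * t = t * s := fun s t => Subtype.ext (hN _ s.2 _ t.2)
  have hzz : ∀ x ∈ comRange N hN z, z * x * z⁻¹ ∈ comRange N hN z := by
    intro x hx
    have h1 := comRange_conj N hN z z x hx
    rwa [mul_inv_cancel_right] at h1
  have hyy : ∀ x ∈ comRange N hN y, y * x * y⁻¹ ∈ comRange N hN y := by
    intro x hx
    have h1 := comRange_conj N hN y y x hx
    rwa [mul_inv_cancel_right] at h1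
  -- key identity
  have hK : ∀ a b : N, (a : G) ∈ comRange N hN y → (b : G) ∈ comRange N hN z →
      commHom N hN (y * z) (a * b) = commHom N hN y a * commHom N hN z b := by
    intro a b ha hb
    apply Subtype.ext
    rw [Subgroup.coe_mul, commHom_coe, commHom_coe, commHom_coe, Subgroup.coe_mul]
    have e1 : z * (a : G)⁻¹ * z⁻¹ = (a : G)⁻¹ := by
      have := hzc _ ((comRange N hN y).inv_mem ha)
      rw [this]; group
    have e2 : y * (z * (b : G)⁻¹ * z⁻¹) * y⁻¹ = z * (b : G)⁻¹ * z⁻¹ := by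
      have := hyc _ (hzz _ ((comRange N hN z).inv_mem hb))
      rw [this]; group
    have e3 : ((b : G) * (z * (b : G)⁻¹ * z⁻¹)) * (y * (a : G)⁻¹ * y⁻¹) =
        (y * (a : G)⁻¹ * y⁻¹) * ((b : G) * (z * (b : G)⁻¹ * z⁻¹)) :=
      hN _ (N.mul_mem b.2 (hNn.conj_mem _ (N.inv_mem b.2) z)) _
        (hNn.conj_mem _ (N.inv_mem a.2) y)
    calc (a : G) * (b : G) * (y * z * ((a : G) * (b : G))⁻¹ * (y * z)⁻¹)
        = (a : G) * (b : G) * ((y * (z * (b : G)⁻¹ * z⁻¹) * y⁻¹) *
            (y * (z * (a : G)⁻¹ * z⁻¹) * y⁻¹)) := by group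
      _ = (a : G) * (((b : G) * (z * (b : G)⁻¹ * z⁻¹)) * (y * (a : G)⁻¹ * y⁻¹)) := by
          rw [e1, e2]; group
      _ = (a : G) * (y * (a : G)⁻¹ * y⁻¹) * ((b : G) * (z * (b : G)⁻¹ * z⁻¹)) := by
          rw [e3]; group
  -- counting
  let f : (comRange N hN y) × (comRange N hN z) → (commHom N hN (y * z)).range := fun ab =>
    ⟨commHom N hN (y * z) (⟨ab.1.1, comRange_le N hN y ab.1.2⟩ * ⟨ab.2.1, comRange_le N hN z ab.2.2⟩),
      ⟨_, rfl⟩⟩
  have hf : Function.Injective f := by
    rintro ⟨⟨a, ha⟩, ⟨b, hb⟩⟩ ⟨⟨a', ha'⟩, ⟨b', hb'⟩⟩ hab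
    have E0 : commHom N hN (y * z) (⟨a, comRange_le N hN y ha⟩ * ⟨b, comRange_le N hN z hb⟩) =
        commHom N hN (y * z) (⟨a', comRange_le N hN y ha'⟩ * ⟨b', comRange_le N hN z hb'⟩) :=
      congrArg Subtype.val hab
    rw [hK _ _ ha hb, hK _ _ ha' hb'] at E0
    obtain ⟨A, hA⟩ : ∃ A : N, A = ⟨a, comRange_le N hN y ha⟩ := ⟨_, rfl⟩
    obtain ⟨A', hA'⟩ : ∃ A' : N, A' = ⟨a', comRange_le N hN y ha'⟩ := ⟨_, rfl⟩
    obtain ⟨B, hB⟩ : ∃ B : N, B = ⟨b, comRange_le N hN z hb⟩ := ⟨_, rfl⟩
    obtain ⟨B', hB'⟩ : ∃ B' : N, B' = ⟨b', comRange_le N hN z hb'⟩ := ⟨_, rfl⟩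
    rw [← hA, ← hA', ← hB, ← hB'] at E0
    have hu : commHom N hN y (A * A'⁻¹) = commHom N hN z (B' * B⁻¹) := by
      rw [map_mul, map_inv, map_mul, map_inv]
      calc commHom N hN y A * (commHom N hN y A')⁻¹
          = (commHom N hN y A')⁻¹ * commHom N hN y A := hcommN _ _
        _ = (commHom N hN y A')⁻¹ * (commHom N hN y A * commHom N hN z B) *
              (commHom N hN z B)⁻¹ := by group
        _ = (commHom N hN y A')⁻¹ * (commHom N hN y A' * commHom N hN z B') *
              (commHom N hN z B)⁻¹ := by rw [E0]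
        _ = commHom N hN z B' * (commHom N hN z B)⁻¹ := by group
    have hu1 : ((commHom N hN y (A * A'⁻¹) : N) : G) ∈ comRange N hN y :=
      (mem_comRange N hN y _).mpr ⟨_, (A * A'⁻¹).2, commHom_coe N hN y _⟩
    have hu2 : ((commHom N hN y (A * A'⁻¹) : N) : G) ∈ comRange N hN z := by
      rw [hu]
      exact (mem_comRange N hN z _).mpr ⟨_, (B' * B⁻¹).2, commHom_coe N hN z _⟩
    have hu3 : commHom N hN y (A * A'⁻¹) = 1 := Subtype.ext (hinf _ hu1 hu2)
    have hu4 : commHom N hN z (B' * B⁻¹) = 1 := by rw [← hu]; exact hu3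
    rw [commHom_eq_one_iff] at hu3 hu4
    have hAA : ((A * A'⁻¹ : N) : G) = 1 := by
      apply comRange_inf_centralizer N hN hNp y k hk hyk _ _ hu3
      rw [hA, hA']
      exact (comRange N hN y).mul_mem ha ((comRange N hN y).inv_mem ha')
    have hBB : ((B' * B⁻¹ : N) : G) = 1 := by
      apply comRange_inf_centralizer N hN hNp z k hk hzk _ _ hu4
      rw [hB, hB']
      exact (comRange N hN z).mul_mem hb' ((comRange N hN z).inv_mem hb)
    rw [hA, hA'] at hAA
    rw [hB, hB'] at hBB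
    have e1 : a = a' := by
      have : a * a'⁻¹ = 1 := hAA
      exact mul_inv_eq_one.mp this
    have e2 : b' = b := by
      have : b' * b⁻¹ = 1 := hBB
      exact mul_inv_eq_one.mp this
    subst e1 e2
    rfl
  have hle := Nat.card_le_card_of_injective f hf
  rw [Nat.card_prod, hcy, hcz] at hle
  have hr : Nat.card (commHom N hN (y * z)).range = Nat.card (comRange N hN (y * z)) := by
    unfold comRange
    rw [Subgroup.card_map_of_injective N.subtype_injective]
  rw [hr] at hle
  nlinarith [hp.two_le]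

/-- Squarefree class sizes pass to quotients. -/
theorem sq_quotient [Finite G]
    (h : ∀ x : G, Squarefree (Subgroup.centralizer ({x} : Set G)).index)
    (N : Subgroup G) [N.Normal] :
    ∀ x : G ⧸ N, Squarefree (Subgroup.centralizer ({x} : Set (G ⧸ N))).index := by
  intro x
  obtain ⟨x, rfl⟩ := QuotientGroup.mk_surjective x
  have h1 : Subgroup.centralizer ({x} : Set G) ≤
      (Subgroup.centralizer ({(x : G ⧸ N)} : Set (G ⧸ N))).comap (QuotientGroup.mk' N) := by
    intro g hg
    rw [Subgroup.mem_comap, Subgroup.mem_centralizer_iff]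
    intro t ht
    rw [Set.mem_singleton_iff] at ht
    subst ht
    have := Subgroup.mem_centralizer_iff.mp hg x rfl
    show (x : G ⧸ N) * (g : G ⧸ N) = (g : G ⧸ N) * (x : G ⧸ N)
    rw [← QuotientGroup.mk_mul, this, QuotientGroup.mk_mul]
  have h2 := Subgroup.index_dvd_of_le h1
  rw [Subgroup.index_comap_of_surjective _ (QuotientGroup.mk'_surjective N)] at h2
  exact (h x).squarefree_of_dvd h2

/-- With squarefree class sizes, every element centralizes a subgroup of index `≤ p` in a normal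
`p`-subgroup. -/
theorem relIndex_le_of_sq [Finite G]
    (h : ∀ x : G, Squarefree (Subgroup.centralizer ({x} : Set G)).index)
    (N : Subgroup G) [N.Normal] {p : ℕ} (hp : p.Prime) (hNp : IsPGroup p N) (x : G) :
    (Subgroup.centralizer ({x} : Set G)).relIndex N ≤ p := by
  have : Fact p.Prime := ⟨hp⟩
  have h1 := relIndex_dvd_index_right (Subgroup.centralizer ({x} : Set G)) N
  have h2 : Squarefree ((Subgroup.centralizer ({x} : Set G)).relIndex N) :=
    (h x).squarefree_of_dvd h1
  have h3 : (Subgroup.centralizer ({x} : Set G)).relIndex N ∣ Nat.card N :=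
    Subgroup.relIndex_dvd_card _ _
  obtain ⟨a, ha⟩ := IsPGroup.iff_card.mp hNp
  rw [ha] at h3
  by_cases ha0 : a = 0
  · subst ha0
    rw [pow_zero, Nat.dvd_one] at h3
    rw [h3]; exact hp.one_le
  · have := (h2.dvd_pow_iff_dvd ha0).mp h3
    exact Nat.le_of_dvd hp.pos this

/-- A `p`-group of automorphisms (given through a quotient `G ⧸ C`, `C = C_G(N)`) of a nontrivial
normal `p`-subgroup `N` has a nontrivial fixed point: if `Mb ≤ G ⧸ C_G(N)` is a `p`-group, then
some `1 ≠ n ∈ N` commutes with every `m` whose image lies in `Mb`. -/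
theorem exists_fixed_of_pgroup [Finite G] (N : Subgroup G) [hNn : N.Normal] {p : ℕ} (hp : p.Prime)
    (hNp : IsPGroup p N) (hNb : N ≠ ⊥)
    (Mb : Subgroup (G ⧸ Subgroup.centralizer (N : Set G))) (hMp : IsPGroup p Mb) :
    ∃ n ∈ N, n ≠ 1 ∧ ∀ m : G, (m : G ⧸ Subgroup.centralizer (N : Set G)) ∈ Mb → m * n = n * m := by
  have : Fact p.Prime := ⟨hp⟩
  by_contra hcon
  push Not at hcon
  have hker : Subgroup.centralizer (N : Set G) ≤ (MulAut.conjNormal (H := N)).ker := by
    intro c hc
    rw [MonoidHom.mem_ker]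
    ext n
    rw [MulAut.conjNormal_apply, MulAut.one_apply]
    have := Subgroup.mem_centralizer_iff.mp hc n n.2
    rw [← this]; group
  let φ' : G ⧸ Subgroup.centralizer (N : Set G) →* MulAut N :=
    QuotientGroup.lift _ (MulAut.conjNormal (H := N)) hker
  let _ : MulAction Mb N := MulAction.compHom N (φ'.comp Mb.subtype)
  have hmod := hMp.card_modEq_card_fixedPoints N
  have hfix : Nat.card (MulAction.fixedPoints Mb N) = 1 := by
    rw [Nat.card_eq_one_iff_unique]
    constructor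
    · constructor
      rintro ⟨a, ha⟩ ⟨b, hb⟩
      have key : ∀ n : N, n ∈ MulAction.fixedPoints Mb N → n = 1 := by
        intro n hn
        by_contra hn1
        obtain ⟨m, hm, hne⟩ := hcon n n.2 (fun h => hn1 (Subtype.ext h))
        have h1 := hn ⟨(m : G ⧸ Subgroup.centralizer (N : Set G)), hm⟩
        have h2 : (MulAut.conjNormal (H := N) m) n = n := h1
        have h3 := congrArg Subtype.val h2
        rw [MulAut.conjNormal_apply] at h3
        apply hne
        calc m * (n : G) = (m * (n : G) * m⁻¹) * m := by group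
          _ = (n : G) * m := by rw [h3]
      rw [Subtype.mk.injEq, key a ha, key b hb]
    · refine ⟨⟨1, ?_⟩⟩
      intro m
      show (φ' m) 1 = 1
      exact map_one _
  rw [hfix] at hmod
  obtain ⟨a, ha⟩ := IsPGroup.iff_card.mp hNp
  have ha0 : a ≠ 0 := by
    rintro rfl
    rw [pow_zero] at ha
    exact hNb (Subgroup.card_eq_one.mp ha)
  have hdvd : p ∣ Nat.card N := by rw [ha]; exact dvd_pow_self p ha0
  have h0 : Nat.card N % p = 0 := Nat.mod_eq_zero_of_dvd hdvd
  have h1 : (1 : ℕ) % p = 1 := Nat.mod_eq_of_lt hp.one_lt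
  unfold Nat.ModEq at hmod
  omega

theorem supersolvable_aux (n : ℕ) : ∀ (G : Type u) [Group G] [Finite G], Nat.card G ≤ n →
    (∀ x : G, Squarefree (Subgroup.centralizer ({x} : Set G)).index) → Group.IsSolvable G →
    Cfsg.IsSupersolvable G := by
  induction n with
  | zero =>
    intro G _ _ hc
    have := Nat.card_pos (α := G)
    omega
  | succ n ih =>
    intro G _ _ hc h hs
    rcases subsingleton_or_nontrivial G with hsub | hnt
    · exact H12.isSupersolvable_of_subsingleton
    obtain ⟨N, hNn, hNb, hmin⟩ := H1.exists_minimal_normal (G := G)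
    obtain ⟨hNc, p, hp, hNexp⟩ := H1.minimal_normal_elementary_abelian N hNb hmin
    have : Fact p.Prime := ⟨hp⟩
    have hNp : IsPGroup p N := fun x => ⟨1, by
      rw [pow_one]; exact Subtype.ext (by simpa using hNexp x x.2)⟩
    have hN : ∀ a ∈ N, ∀ b ∈ N, a * b = b * a := by
      intro a ha b hb
      have := hNc.is_comm.comm (⟨a, ha⟩ : N) ⟨b, hb⟩
      exact congrArg Subtype.val this
    -- the quotient is supersolvable
    have hq : Cfsg.IsSupersolvable (G ⧸ N) := by
      apply ih (G ⧸ N) _ (sq_quotient h N) inferInstance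
      have h1 : Nat.card N * Nat.card (G ⧸ N) = Nat.card G := by
        rw [← Subgroup.index_eq_card]; exact Subgroup.card_mul_index N
      have h2 : 1 < Nat.card N := (Subgroup.one_lt_card_iff_ne_bot N).mpr hNb
      have h3 : 0 < Nat.card (G ⧸ N) := Nat.card_pos
      nlinarith
    suffices hcyc : IsCyclic N from H12.isSupersolvable_of_quotient_cyclic N hq
    suffices hL : ∃ L : Subgroup G, L.Normal ∧ L ≤ N ∧ L ≠ ⊥ ∧ IsCyclic L by
      obtain ⟨L, hLn, hLN, hLb, hLc⟩ := hL
      rcases hmin L hLn hLN with h1 | h1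
      · exact absurd h1 hLb
      · rw [← h1]; exact hLc
    by_cases hC : ∀ g : G, ∀ n ∈ N, g * n = n * g
    · -- `N` central
      obtain ⟨x, hxN, hx1⟩ : ∃ x ∈ N, x ≠ 1 := by
        by_contra hcon
        push Not at hcon
        exact hNb ((Subgroup.eq_bot_iff_forall N).mpr hcon)
      refine ⟨Subgroup.zpowers x, ?_, ?_, ?_, inferInstance⟩
      · constructor
        intro t ht g
        obtain ⟨j, rfl⟩ := Subgroup.mem_zpowers_iff.mp ht
        have : g * x ^ j * g⁻¹ = x ^ j := by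
          have hc : Commute g x := hC g x hxN
          rw [(hc.zpow_right j).eq]; group
        rw [this]; exact Subgroup.zpow_mem_zpowers x j
      · exact (Subgroup.zpowers_le).mpr hxN
      · intro hbot
        exact hx1 (Subgroup.zpowers_eq_bot.mp hbot)
    · -- `N` not central
      push Not at hC
      obtain ⟨g₀, n₀, hn₀, hne₀⟩ := hC
      have hg₀ : (g₀ : G ⧸ Subgroup.centralizer (N : Set G)) ≠ 1 := by
        intro h1
        rw [QuotientGroup.eq_one_iff] at h1
        exact hne₀ ((Subgroup.mem_centralizer_iff.mp h1 n₀ hn₀).symm)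
      have hnt' : Nontrivial (G ⧸ Subgroup.centralizer (N : Set G)) := ⟨⟨_, 1, hg₀⟩⟩
      obtain ⟨Mb, hMn, hMb, hMmin⟩ :=
        H1.exists_minimal_normal (G := G ⧸ Subgroup.centralizer (N : Set G))
      obtain ⟨hMc, q, hq', hMexp⟩ := H1.minimal_normal_elementary_abelian Mb hMb hMmin
      -- membership in the centralizer of N
      have hcen : ∀ c : G, (c : G ⧸ Subgroup.centralizer (N : Set G)) = 1 →
          ∀ n ∈ N, c * n = n * c := by
        intro c hc n hn
        rw [QuotientGroup.eq_one_iff] at hc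
        exact (Subgroup.mem_centralizer_iff.mp hc n hn).symm
      have hqp : q.Coprime p := by
        rw [Nat.coprime_primes hq' hp]
        rintro rfl
        have hMp : IsPGroup q Mb := fun x => ⟨1, by
          rw [pow_one]; exact Subtype.ext (by simpa using hMexp x x.2)⟩
        obtain ⟨n, hn, hn1, hfix⟩ := exists_fixed_of_pgroup N hp hNp hNb Mb hMp
        -- K = fixed points of M in N is normal
        have hKn : (N ⊓ Subgroup.centralizer
            ((Mb.comap (QuotientGroup.mk' (Subgroup.centralizer (N : Set G))) : Subgroup G) :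
              Set G)).Normal := inferInstance
        have hnK : n ∈ N ⊓ Subgroup.centralizer
            ((Mb.comap (QuotientGroup.mk' (Subgroup.centralizer (N : Set G))) : Subgroup G) :
              Set G) := by
          refine Subgroup.mem_inf.mpr ⟨hn, ?_⟩
          rw [Subgroup.mem_centralizer_iff]
          intro m hm
          exact hfix m hm
        rcases hmin _ hKn inf_le_left with h1 | h1
        · rw [h1, Subgroup.mem_bot] at hnK
          exact hn1 hnK
        · apply hMb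
          rw [Subgroup.eq_bot_iff_forall]
          intro mb hmb
          obtain ⟨m, rfl⟩ := QuotientGroup.mk_surjective mb
          rw [QuotientGroup.eq_one_iff, Subgroup.mem_centralizer_iff]
          intro x hx
          have hx' : x ∈ N ⊓ Subgroup.centralizer
            ((Mb.comap (QuotientGroup.mk' (Subgroup.centralizer (N : Set G))) : Subgroup G) :
              Set G) := by rw [h1]; exact hx
          exact (Subgroup.mem_centralizer_iff.mp (Subgroup.mem_inf.mp hx').2 m hmb).symm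
      obtain ⟨yb, hyb, hyb1⟩ : ∃ yb ∈ Mb, yb ≠ 1 := by
        by_contra hcon
        push Not at hcon
        exact hMb ((Subgroup.eq_bot_iff_forall Mb).mpr hcon)
      obtain ⟨y₀, rfl⟩ := QuotientGroup.mk_surjective yb
      have hpow : ∀ y : G, (y : G ⧸ Subgroup.centralizer (N : Set G)) ∈ Mb →
          ∀ n ∈ N, y ^ q * n = n * y ^ q := by
        intro y hy
        apply hcen
        rw [QuotientGroup.mk_pow]
        exact hMexp _ hy
      have hcomm : ∀ y z : G, (y : G ⧸ Subgroup.centralizer (N : Set G)) ∈ Mb →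
          (z : G ⧸ Subgroup.centralizer (N : Set G)) ∈ Mb →
          ∀ n ∈ N, (y * z * y⁻¹ * z⁻¹) * n = n * (y * z * y⁻¹ * z⁻¹) := by
        intro y z hy hz
        apply hcen
        have h1 := hMc.is_comm.comm (⟨_, hy⟩ : Mb) ⟨_, hz⟩
        have h2 : (y : G ⧸ Subgroup.centralizer (N : Set G)) * (z : G ⧸ _) =
            (z : G ⧸ _) * (y : G ⧸ _) := congrArg Subtype.val h1
        rw [QuotientGroup.mk_mul, QuotientGroup.mk_mul, QuotientGroup.mk_mul, QuotientGroup.mk_inv,
          QuotientGroup.mk_inv, h2]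
        group
      have hnc : ∀ y : G, (y : G ⧸ Subgroup.centralizer (N : Set G)) ≠ 1 →
          ∃ n ∈ N, y * n ≠ n * y := by
        intro y hy
        by_contra hcon
        push Not at hcon
        apply hy
        rw [QuotientGroup.eq_one_iff, Subgroup.mem_centralizer_iff]
        intro x hx
        exact (hcon x hx).symm
      have hconj : ∀ g : G, ((g * y₀ * g⁻¹ : G) : G ⧸ Subgroup.centralizer (N : Set G)) ∈ Mb := by
        intro g
        rw [QuotientGroup.mk_mul, QuotientGroup.mk_mul, QuotientGroup.mk_inv]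
        exact hMn.conj_mem _ hyb _
      have hconj1 : ∀ g : G, ((g * y₀ * g⁻¹ : G) : G ⧸ Subgroup.centralizer (N : Set G)) ≠ 1 := by
        intro g h1
        rw [QuotientGroup.mk_mul, QuotientGroup.mk_mul, QuotientGroup.mk_inv] at h1
        apply hyb1
        have : (y₀ : G ⧸ Subgroup.centralizer (N : Set G)) =
            (g : G ⧸ _)⁻¹ * ((g : G ⧸ _) * (y₀ : G ⧸ _) * (g : G ⧸ _)⁻¹) * (g : G ⧸ _) := by group
        rw [this, h1]; group
      have hcardL : Nat.card (comRange N hN y₀) = p :=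
        card_comRange_eq_prime N hN hp hNp y₀ (relIndex_le_of_sq h N hp hNp _) (hnc _ hyb1)
      refine ⟨comRange N hN y₀, ?_, comRange_le N hN y₀, ?_, isCyclic_of_prime_card hcardL⟩
      · constructor
        intro x hx g
        have h1 := comRange_conj N hN y₀ g x hx
        have h2 : comRange N hN (g * y₀ * g⁻¹) = comRange N hN y₀ :=
          common_line N hN hp hNp (g * y₀ * g⁻¹) y₀ q hqp (hpow _ (hconj g)) (hpow _ hyb)
            (hcomm _ _ (hconj g) hyb) (relIndex_le_of_sq h N hp hNp _)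
            (relIndex_le_of_sq h N hp hNp _) (relIndex_le_of_sq h N hp hNp _)
            (hnc _ (hconj1 g)) (hnc _ hyb1)
        rwa [h2] at h1
      · intro hbot
        rw [hbot, Subgroup.card_bot] at hcardL
        exact hp.one_lt.ne hcardL

/-- **P1 of S4130.** A finite solvable group all of whose conjugacy class sizes are squarefree is
supersolvable. -/
theorem supersolvable {G : Type u} [Group G] [Finite G]
    (h : ∀ x : G, Squarefree (Subgroup.centralizer ({x} : Set G)).index)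
    (hs : Group.IsSolvable G) : Cfsg.IsSupersolvable G :=
  supersolvable_aux (Nat.card G) G le_rfl h hs

end Cfsg.Agent.H67.Sqf
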