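import Mathlib
import Cfsg.Agent.H97.SuLDefs

/-!
# SuL-ZCHAR (helper67, for helper97's S2334/S2335)

A root group acting nontrivially on a stable subspace `C` has a joint eigenvector in `C` with a
nontrivial character.
-/

set_option autoImplicit false
set_option linter.unusedVariables false
set_option linter.unusedSectionVars false
set_option linter.style.haveILetI false

namespace Cfsg.Agent.H67.SuL

open Module Cfsg.Agent.H17 Cfsg.Agent.H97.SuL

universe u

theorem zChar (hR : StRNt.{u}) (hE : StEMul.{u}) : StZChar.{u} := by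
  intro F _ _ q n hF e he V _ _ _ ρ C hstab hnt
  classical
  have hScomm : ∀ x ∈ {g : ↥(Cfsg.SU n F q) | ∃ c : F, c ^ q = -c ∧ IsE e 0 c g},
      ∀ y ∈ {g : ↥(Cfsg.SU n F q) | ∃ c : F, c ^ q = -c ∧ IsE e 0 c g}, x * y = y * x := by
    rintro x ⟨c, hc, hx⟩ y ⟨d, hd, hy⟩
    have h0 : Cfsg.hermForm n F q (0 : Fin n → F) e = 0 := hermForm_zero_left n e
    have h1 := hE hF e 0 0 c d x y he h0 h0 hx hy
    have h2 := hE hF e 0 0 d c y x he h0 h0 hy hx
    apply su_ext
    intro z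
    rw [h1 z, h2 z, add_comm c d]
  have hAcomm : ∀ a ∈ Subgroup.closure {g : ↥(Cfsg.SU n F q) | ∃ c : F, c ^ q = -c ∧ IsE e 0 c g},
      ∀ b ∈ Subgroup.closure {g : ↥(Cfsg.SU n F q) | ∃ c : F, c ^ q = -c ∧ IsE e 0 c g},
      a * b = b * a := by
    haveI := Subgroup.isMulCommutative_closure hScomm
    intro a ha b hb
    have h := mul_comm' (⟨a, ha⟩ : Subgroup.closure
      {g : ↥(Cfsg.SU n F q) | ∃ c : F, c ^ q = -c ∧ IsE e 0 c g}) ⟨b, hb⟩
    exact congrArg Subtype.val h
  have hAstab : ∀ a ∈ Subgroup.closure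
      {g : ↥(Cfsg.SU n F q) | ∃ c : F, c ^ q = -c ∧ IsE e 0 c g}, ∀ x ∈ C, ρ a x ∈ C := by
    intro a ha
    induction ha using Subgroup.closure_induction with
    | mem g hg =>
      obtain ⟨c, hc, hgE⟩ := hg
      exact hstab c g hc hgE
    | one =>
      intro x hx
      rw [map_one]
      exact hx
    | mul a b _ _ iha ihb =>
      intro x hx
      rw [map_mul]
      exact iha _ (ihb x hx)
    | inv a ha iha =>
      intro x hx
      have hpow : ∀ k : ℕ, ∀ y ∈ C, ρ (a ^ k) y ∈ C := by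
        intro k
        induction k with
        | zero =>
          intro y hy
          rw [pow_zero, map_one]
          exact hy
        | succ k ihk =>
          intro y hy
          rw [pow_succ, map_mul]
          exact ihk _ (iha y hy)
      have hinv : a⁻¹ = a ^ (orderOf a - 1) := by
        have hpos : 0 < orderOf a := orderOf_pos a
        apply inv_eq_of_mul_eq_one_right
        rw [← pow_succ', Nat.sub_add_cancel hpos, pow_orderOf_eq_one]
      rw [hinv]
      exact hpow _ x hx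
  have hAnt : ∃ a ∈ Subgroup.closure
      {g : ↥(Cfsg.SU n F q) | ∃ c : F, c ^ q = -c ∧ IsE e 0 c g}, ∃ x ∈ C, ρ a x ≠ x := by
    obtain ⟨c, g, hc, hg, x, hx, hne⟩ := hnt
    exact ⟨g, Subgroup.subset_closure ⟨c, hc, hg⟩, x, hx, hne⟩
  obtain ⟨v, hvC, hv0, χ, hχ, a, ha, hχa⟩ := hR ρ (Subgroup.closure
    {g : ↥(Cfsg.SU n F q) | ∃ c : F, c ^ q = -c ∧ IsE e 0 c g}) hAcomm C hAstab hAnt
  have hgen : ∃ g ∈ {g : ↥(Cfsg.SU n F q) | ∃ c : F, c ^ q = -c ∧ IsE e 0 c g}, χ g ≠ 1 := by
    by_contra hcon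
    push Not at hcon
    have hfix : ∀ b ∈ Subgroup.closure
        {g : ↥(Cfsg.SU n F q) | ∃ c : F, c ^ q = -c ∧ IsE e 0 c g}, ρ b v = v := by
      intro b hb
      induction hb using Subgroup.closure_induction with
      | mem g hg => rw [hχ g (Subgroup.subset_closure hg), hcon g hg, one_smul]
      | one => rw [map_one]; rfl
      | mul x y _ _ ihx ihy => rw [map_mul, Module.End.mul_apply, ihy, ihx]
      | inv x _ ihx =>
        have h3 : ρ x⁻¹ (ρ x v) = v := by
          rw [← Module.End.mul_apply, ← map_mul, inv_mul_cancel, map_one]; rfl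
        rw [ihx] at h3
        exact h3
    have h1 := hχ a ha
    rw [hfix a ha] at h1
    have h2 : (χ a - 1) • v = 0 := by rw [sub_smul, one_smul, ← h1, sub_self]
    rcases smul_eq_zero.mp h2 with h | h
    · exact hχa (sub_eq_zero.mp h)
    · exact hv0 h
  obtain ⟨g₀, ⟨c₀, hc₀, hg₀⟩, hχg₀⟩ := hgen
  have hlam : ∀ (c : F) (g : ↥(Cfsg.SU n F q)), c ^ q = -c → IsE e 0 c g →
      (if h : ∃ g : ↥(Cfsg.SU n F q), c ^ q = -c ∧ IsE e 0 c g then χ (Classical.choose h)
        else 1) = χ g := by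
    intro c g hc hg
    have h : ∃ g : ↥(Cfsg.SU n F q), c ^ q = -c ∧ IsE e 0 c g := ⟨g, hc, hg⟩
    have hch := Classical.choose_spec h
    have heq : Classical.choose h = g := by
      apply su_ext
      intro z
      rw [hch.2 z, hg z]
    rw [dif_pos h, heq]
  refine ⟨fun c => if h : ∃ g : ↥(Cfsg.SU n F q), c ^ q = -c ∧ IsE e 0 c g then
    χ (Classical.choose h) else 1, v, hv0, hvC, ?_, c₀, hc₀, ?_⟩
  · intro c g hc hg
    show ρ g v = (if h : ∃ g : ↥(Cfsg.SU n F q), c ^ q = -c ∧ IsE e 0 c g then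
      χ (Classical.choose h) else 1) • v
    rw [hlam c g hc hg]
    exact hχ g (Subgroup.subset_closure ⟨c, hc, hg⟩)
  · show (if h : ∃ g : ↥(Cfsg.SU n F q), c₀ ^ q = -c₀ ∧ IsE e 0 c₀ g then
      χ (Classical.choose h) else 1) ≠ 1
    rw [hlam c₀ g₀ hc₀ hg₀]
    exact hχg₀

example (hR : StRNt.{u}) (hE : StEMul.{u}) : StZChar.{u} := zChar hR hE

end Cfsg.Agent.H67.SuL
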