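import Mathlib
import Cfsg.Agent.H97.SuLDefs
import Cfsg.Agent.H67.SuLZChar

/-!
# SuL-JOINT (helper67, for helper97's S2334/S2335)

A joint eigenvector of the three commuting groups `{E(e₂,0,c)}`, `{E(e₂,γ e₁,0)}`, `{E(e₁,0,d)}`
on which the root group of `e₂` acts by a nontrivial character.
-/

set_option autoImplicit false
set_option linter.unusedVariables false
set_option linter.unusedSectionVars false
set_option linter.style.haveILetI false

namespace Cfsg.Agent.H67.SuL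

open Module Cfsg.Agent.H17 Cfsg.Agent.H97.SuL

universe u

section aux

variable {F : Type u} [Field F] [Fintype F] {q n : ℕ}

/-- the identity is `E(e, 0, 0)`. -/
theorem isE_one (hF : Fintype.card F = q ^ 2) (e : Fin n → F) :
    IsE e 0 0 (1 : ↥(Cfsg.SU n F q)) := by
  intro z
  rw [suAct_one, hermForm_zero_right n hF]
  simp

/-- a root element of `e` fixes every vector orthogonal to `e`. -/
theorem isE_fix (hF : Fintype.card F = q ^ 2) (e x : Fin n → F) (d : F)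
    (τ : ↥(Cfsg.SU n F q)) (hτ : IsE e 0 d τ) (hx : Cfsg.hermForm n F q x e = 0) :
    suAct τ x = x := by
  rw [hτ x, hx, hermForm_zero_right n hF]
  simp

/-- two Heisenberg elements of `e` with `h(a,b) = h(b,a)` commute. -/
theorem heis_comm (hAM : StAMove.{u}) (hF : Fintype.card F = q ^ 2) (e a b : Fin n → F)
    (c d : F) (g g' : ↥(Cfsg.SU n F q)) (he : Cfsg.hermForm n F q e e = 0)
    (ha : Cfsg.hermForm n F q a e = 0) (hb : Cfsg.hermForm n F q b e = 0)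
    (hab : Cfsg.hermForm n F q a b = Cfsg.hermForm n F q b a)
    (hg : IsE e a c g) (hg' : IsE e b d g') : g * g' = g' * g := by
  have z1 : IsE e 0 (Cfsg.hermForm n F q a b - Cfsg.hermForm n F q b a)
      (1 : ↥(Cfsg.SU n F q)) := by
    rw [hab, sub_self]; exact isE_one hF e
  have h := hAM hF e a b c d g g' 1 he ha hb hg hg' z1
  rw [mul_one] at h
  exact h

/-- a root element of `e₁` commutes with a Heisenberg element `E(e₂, a, c)` when `e₂` and `a` are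
orthogonal to `e₁`. -/
theorem root_comm_heis (hEC : StEConj.{u}) (hF : Fintype.card F = q ^ 2) (e₁ e₂ a : Fin n → F)
    (c d : F) (τ g : ↥(Cfsg.SU n F q)) (hτ : IsE e₁ 0 d τ) (hg : IsE e₂ a c g)
    (h1 : Cfsg.hermForm n F q e₂ e₁ = 0) (h2 : Cfsg.hermForm n F q a e₁ = 0) :
    τ * g = g * τ := by
  have h := hEC hF τ g e₂ a c hg
  rw [isE_fix hF e₁ e₂ d τ hτ h1, isE_fix hF e₁ a d τ hτ h2] at h
  have heq : τ * g * τ⁻¹ = g := by
    apply su_ext
    intro z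
    rw [h z, hg z]
  calc τ * g = τ * g * τ⁻¹ * τ := by group
    _ = g * τ := by rw [heq]

end aux

theorem joint (hR : StRNt.{u}) (hRE : StREig.{u}) (hE : StEMul.{u}) (hAM : StAMove.{u})
    (hEC : StEConj.{u}) : StJoint.{u} := by
  intro F _ _ q n hF e₁ e₂ he₁ he₂ h12 V _ _ _ ρ hnt
  classical
  have hq : q ≠ 0 := by
    have := two_le_of_card_sq hF
    omega
  have h21 : Cfsg.hermForm n F q e₂ e₁ = 0 := by
    rw [← hermForm_conj n hF e₁ e₂, h12, zero_pow hq]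
  have hγ2 : ∀ γ : F, Cfsg.hermForm n F q (γ • e₁) e₂ = 0 := by
    intro γ; rw [hermForm_smul_left, h12, mul_zero]
  have hγ1 : ∀ γ : F, Cfsg.hermForm n F q (γ • e₁) e₁ = 0 := by
    intro γ; rw [hermForm_smul_left, he₁, mul_zero]
  have hγγ : ∀ γ γ' : F, Cfsg.hermForm n F q (γ • e₁) (γ' • e₁) = 0 := by
    intro γ γ'; rw [hermForm_smul_left, hermForm_smul_right, he₁, mul_zero, mul_zero]
  -- the generators commute
  have hScomm : ∀ x ∈ {g : ↥(Cfsg.SU n F q) | (∃ (γ c : F), IsE e₂ (γ • e₁) c g) ∨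
        ∃ d : F, IsE e₁ 0 d g},
      ∀ y ∈ {g : ↥(Cfsg.SU n F q) | (∃ (γ c : F), IsE e₂ (γ • e₁) c g) ∨
        ∃ d : F, IsE e₁ 0 d g}, x * y = y * x := by
    rintro x (⟨γ, c, hx⟩ | ⟨d, hx⟩) y (⟨γ', c', hy⟩ | ⟨d', hy⟩)
    · exact heis_comm hAM hF e₂ _ _ c c' x y he₂ (hγ2 γ) (hγ2 γ')
        (by rw [hγγ, hγγ]) hx hy
    · exact (root_comm_heis hEC hF e₁ e₂ _ c d' y x hy hx h21 (hγ1 γ)).symm
    · exact root_comm_heis hEC hF e₁ e₂ _ c' d x y hx hy h21 (hγ1 γ')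
    · exact heis_comm hAM hF e₁ 0 0 d d' x y he₁ (hermForm_zero_left n e₁)
        (hermForm_zero_left n e₁) rfl hx hy
  have hBcomm : ∀ a ∈ Subgroup.closure {g : ↥(Cfsg.SU n F q) |
        (∃ (γ c : F), IsE e₂ (γ • e₁) c g) ∨ ∃ d : F, IsE e₁ 0 d g},
      ∀ b ∈ Subgroup.closure {g : ↥(Cfsg.SU n F q) |
        (∃ (γ c : F), IsE e₂ (γ • e₁) c g) ∨ ∃ d : F, IsE e₁ 0 d g}, a * b = b * a := by
    haveI := Subgroup.isMulCommutative_closure hScomm
    intro a ha b hb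
    have h := mul_comm' (⟨a, ha⟩ : Subgroup.closure {g : ↥(Cfsg.SU n F q) |
        (∃ (γ c : F), IsE e₂ (γ • e₁) c g) ∨ ∃ d : F, IsE e₁ 0 d g}) ⟨b, hb⟩
    exact congrArg Subtype.val h
  -- membership of the three families
  have hm1 : ∀ (c : F) (g : ↥(Cfsg.SU n F q)), IsE e₂ 0 c g →
      g ∈ Subgroup.closure {g : ↥(Cfsg.SU n F q) |
        (∃ (γ c : F), IsE e₂ (γ • e₁) c g) ∨ ∃ d : F, IsE e₁ 0 d g} := by
    intro c g hg
    apply Subgroup.subset_closure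
    left
    refine ⟨0, c, ?_⟩
    rw [zero_smul]; exact hg
  have hm2 : ∀ (γ : F) (g : ↥(Cfsg.SU n F q)), IsE e₂ (γ • e₁) 0 g →
      g ∈ Subgroup.closure {g : ↥(Cfsg.SU n F q) |
        (∃ (γ c : F), IsE e₂ (γ • e₁) c g) ∨ ∃ d : F, IsE e₁ 0 d g} :=
    fun γ g hg => Subgroup.subset_closure (Or.inl ⟨γ, 0, hg⟩)
  have hm3 : ∀ (d : F) (g : ↥(Cfsg.SU n F q)), IsE e₁ 0 d g →
      g ∈ Subgroup.closure {g : ↥(Cfsg.SU n F q) |
        (∃ (γ c : F), IsE e₂ (γ • e₁) c g) ∨ ∃ d : F, IsE e₁ 0 d g} :=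
    fun d g hg => Subgroup.subset_closure (Or.inr ⟨d, hg⟩)
  -- a nontrivial character of the root group of `e₂`
  have hnt' : ∃ (c : F) (g : ↥(Cfsg.SU n F q)), c ^ q = -c ∧ IsE e₂ 0 c g ∧
      ∃ x ∈ (⊤ : Submodule ℂ V), ρ g x ≠ x := by
    obtain ⟨c, g, hc, hg, hne⟩ := hnt
    refine ⟨c, g, hc, hg, ?_⟩
    by_contra hcon
    push Not at hcon
    apply hne
    apply LinearMap.ext
    intro x
    exact hcon x Submodule.mem_top
  obtain ⟨lam, v₀, hv₀, -, hv₀U, c₀, hc₀, hlamc₀⟩ :=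
    zChar hR hE hF e₂ he₂ ρ ⊤ (fun _ _ _ _ _ _ => Submodule.mem_top) hnt'
  -- the eigenspace is stable
  have hU0 : zEig ρ e₂ lam ≠ ⊥ := by
    intro h
    rw [h] at hv₀U
    exact hv₀ ((Submodule.mem_bot ℂ).mp hv₀U)
  have hBstab : ∀ b ∈ Subgroup.closure {g : ↥(Cfsg.SU n F q) |
        (∃ (γ c : F), IsE e₂ (γ • e₁) c g) ∨ ∃ d : F, IsE e₁ 0 d g},
      ∀ x ∈ zEig ρ e₂ lam, ρ b x ∈ zEig ρ e₂ lam := by
    intro b hb x hx c g hc hg
    have hgb : g * b = b * g := hBcomm g (hm1 c g hg) b hb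
    calc ρ g (ρ b x) = ρ (g * b) x := by rw [map_mul]; rfl
      _ = ρ (b * g) x := by rw [hgb]
      _ = ρ b (ρ g x) := by rw [map_mul]; rfl
      _ = lam c • ρ b x := by rw [hx c g hc hg, map_smul]
  obtain ⟨v, hvU, hv0, χ, hχ⟩ := hRE ρ _ hBcomm (zEig ρ e₂ lam) hU0 hBstab
  -- the characters `mu` and `al`
  have hmu : ∀ (d : F) (g : ↥(Cfsg.SU n F q)), d ^ q = -d → IsE e₁ 0 d g →
      (if h : ∃ g : ↥(Cfsg.SU n F q), d ^ q = -d ∧ IsE e₁ 0 d g then χ (Classical.choose h)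
        else 1) = χ g := by
    intro d g hd hg
    have h : ∃ g : ↥(Cfsg.SU n F q), d ^ q = -d ∧ IsE e₁ 0 d g := ⟨g, hd, hg⟩
    have hch := Classical.choose_spec h
    have heq : Classical.choose h = g := by
      apply su_ext
      intro z
      rw [hch.2 z, hg z]
    rw [dif_pos h, heq]
  have hal : ∀ (γ : F) (g : ↥(Cfsg.SU n F q)), IsE e₂ (γ • e₁) 0 g →
      (if h : ∃ g : ↥(Cfsg.SU n F q), IsE e₂ (γ • e₁) 0 g then χ (Classical.choose h)
        else 1) = χ g := by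
    intro γ g hg
    have h : ∃ g : ↥(Cfsg.SU n F q), IsE e₂ (γ • e₁) 0 g := ⟨g, hg⟩
    have hch := Classical.choose_spec h
    have heq : Classical.choose h = g := by
      apply su_ext
      intro z
      rw [hch z, hg z]
    rw [dif_pos h, heq]
  refine ⟨v, lam, fun d => if h : ∃ g : ↥(Cfsg.SU n F q), d ^ q = -d ∧ IsE e₁ 0 d g then
      χ (Classical.choose h) else 1,
    fun γ => if h : ∃ g : ↥(Cfsg.SU n F q), IsE e₂ (γ • e₁) 0 g then χ (Classical.choose h)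
      else 1, hv0, hvU, ?_, ?_, c₀, hc₀, hlamc₀⟩
  · intro d g hd hg
    show ρ g v = (if h : ∃ g : ↥(Cfsg.SU n F q), d ^ q = -d ∧ IsE e₁ 0 d g then
      χ (Classical.choose h) else 1) • v
    rw [hmu d g hd hg]
    exact hχ g (hm3 d g hg)
  · intro γ a ha
    show ρ a v = (if h : ∃ g : ↥(Cfsg.SU n F q), IsE e₂ (γ • e₁) 0 g then
      χ (Classical.choose h) else 1) • v
    rw [hal γ a ha]
    exact hχ a (hm2 γ a ha)

example (hR : StRNt.{u}) (hRE : StREig.{u}) (hE : StEMul.{u}) (hAM : StAMove.{u})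
    (hEC : StEConj.{u}) : StJoint.{u} := joint hR hRE hE hAM hEC

end Cfsg.Agent.H67.SuL
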