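import Mathlib
import Cfsg.Agent.H97.SuRDefs
import Cfsg.Agent.S0801
import Cfsg.Agent.H44.SpRLevi

/-!
# S2282-LEVI2 (helper67, for helper97): `SL_2(F)`, `F` finite of odd characteristic, is generated
by `J = [[1,1],[0,1]]` and a `GL_2`-conjugate of `J` (Dickson, via S0801).
-/

set_option autoImplicit false
set_option linter.unusedVariables false
set_option linter.unusedSimpArgs false

namespace Cfsg.Agent.H67.SuR
open Matrix Cfsg.Agent.H45.U Cfsg.Agent.H97.SuR
variable {F : Type*} [Field F]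

theorem levi_two_odd [Fintype F] (h2 : (2 : F) ≠ 0) :
    ∃ (M M' : Matrix (Fin 2) (Fin 2) F) (J₂ : Matrix.SpecialLinearGroup (Fin 2) F),
      M * M' = 1 ∧ M' * M = 1 ∧
      (J₂ : Matrix (Fin 2) (Fin 2) F) = M * Cfsg.Agent.H97.SpR.uniM 2 (1 : F) * M' ∧
      Subgroup.closure ({Cfsg.Agent.H97.SpR.uniSL 2 (1 : F), J₂} :
        Set (Matrix.SpecialLinearGroup (Fin 2) F)) = ⊤ := by
  classical
  obtain ⟨u, hu⟩ := IsCyclic.exists_generator (α := Fˣ)
  have hlam : (u : F) ≠ 0 := u.ne_zero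
  have hgen : Subfield.closure ({(u : F)} : Set F) = ⊤ := by
    rw [eq_top_iff]
    intro x _
    by_cases hx : x = 0
    · rw [hx]; exact Subfield.zero_mem _
    · obtain ⟨n, hn⟩ := Subgroup.mem_zpowers_iff.mp (hu (Units.mk0 x hx))
      have hxe : x = (u : F) ^ n := by
        have h := congrArg (fun v : Fˣ => (v : F)) hn
        simp only [Units.val_zpow_eq_zpow_val, Units.val_mk0] at h
        exact h.symm
      rw [hxe]
      exact Subfield.zpow_mem _ (Subfield.subset_closure (Set.mem_singleton _)) n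
  have hord : orderOf u = Fintype.card Fˣ := by
    rw [orderOf_eq_card_of_forall_mem_zpowers hu, Nat.card_eq_fintype_card]
  rcases Cfsg.Agent.S0801.result h2 (u : F) hlam hgen with ⟨hcl, -⟩ | ⟨h9, hsq, -⟩
  · -- the matrices
    have hM1 : (!![0, 1; (u : F), 0] : Matrix (Fin 2) (Fin 2) F) * !![0, (u : F)⁻¹; 1, 0] = 1 := by
      ext i j; fin_cases i <;> fin_cases j <;> simp [Matrix.mul_apply, Fin.sum_univ_two, hlam]
    have hM2 : (!![0, (u : F)⁻¹; 1, 0] : Matrix (Fin 2) (Fin 2) F) * !![0, 1; (u : F), 0] = 1 := by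
      ext i j; fin_cases i <;> fin_cases j <;> simp [Matrix.mul_apply, Fin.sum_univ_two, hlam]
    have hD1 : (!![1, 0; 0, (u : F)] : Matrix (Fin 2) (Fin 2) F) * !![1, 0; 0, (u : F)⁻¹] = 1 := by
      ext i j; fin_cases i <;> fin_cases j <;> simp [Matrix.mul_apply, Fin.sum_univ_two, hlam]
    have hD2 : (!![1, 0; 0, (u : F)⁻¹] : Matrix (Fin 2) (Fin 2) F) * !![1, 0; 0, (u : F)] = 1 := by
      ext i j; fin_cases i <;> fin_cases j <;> simp [Matrix.mul_apply, Fin.sum_univ_two, hlam]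
    have hJ : Cfsg.Agent.H97.SpR.uniM 2 (1 : F) = !![1, 1; 0, 1] := by
      ext i j; fin_cases i <;> fin_cases j <;> simp [Cfsg.Agent.H97.SpR.uniM_apply]
    let A : Matrix.SpecialLinearGroup (Fin 2) F :=
      ⟨!![1, 0; 1, 1], by simp [Matrix.det_fin_two]⟩
    let B : Matrix.SpecialLinearGroup (Fin 2) F :=
      ⟨!![1, (u : F); 0, 1], by simp [Matrix.det_fin_two]⟩
    have hset : {g : Matrix.SpecialLinearGroup (Fin 2) F |
        (g : Matrix (Fin 2) (Fin 2) F) = !![1, 0; 1, 1] ∨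
        (g : Matrix (Fin 2) (Fin 2) F) = !![1, (u : F); 0, 1]} = {A, B} := by
      ext g
      simp only [Set.mem_ofPred_eq, Set.mem_insert_iff, Set.mem_singleton_iff]
      constructor
      · rintro (h | h)
        · left; exact Subtype.ext h
        · right; exact Subtype.ext h
      · rintro (h | h)
        · left; rw [h]
        · right; rw [h]
    rw [hset] at hcl
    let φ := Cfsg.Agent.H44.SpR.conjSL (!![1, 0; 0, (u : F)] : Matrix (Fin 2) (Fin 2) F)
      !![1, 0; 0, (u : F)⁻¹] hD1 hD2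
    let J₂ : Matrix.SpecialLinearGroup (Fin 2) F :=
      Cfsg.Agent.H44.SpR.conjSL (!![0, 1; (u : F), 0] : Matrix (Fin 2) (Fin 2) F)
        !![0, (u : F)⁻¹; 1, 0] hM1 hM2 (Cfsg.Agent.H97.SpR.uniSL 2 (1 : F))
    have hJ₂ : (J₂ : Matrix (Fin 2) (Fin 2) F) =
        !![0, 1; (u : F), 0] * Cfsg.Agent.H97.SpR.uniM 2 (1 : F) * !![0, (u : F)⁻¹; 1, 0] := by
      show ((Cfsg.Agent.H44.SpR.conjSL _ _ hM1 hM2 (Cfsg.Agent.H97.SpR.uniSL 2 (1 : F)) :
        Matrix.SpecialLinearGroup (Fin 2) F) : Matrix (Fin 2) (Fin 2) F) = _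
      rw [Cfsg.Agent.H44.SpR.conjSL_coe, Cfsg.Agent.H97.SpR.uniSL_coe]
    have hφA : φ A = J₂ := by
      apply Subtype.ext
      rw [hJ₂, hJ]
      show ((Cfsg.Agent.H44.SpR.conjSL _ _ hD1 hD2 A :
        Matrix.SpecialLinearGroup (Fin 2) F) : Matrix (Fin 2) (Fin 2) F) = _
      rw [Cfsg.Agent.H44.SpR.conjSL_coe]
      show (!![1, 0; 0, (u : F)] : Matrix (Fin 2) (Fin 2) F) * !![1, 0; 1, 1] *
        !![1, 0; 0, (u : F)⁻¹] = _
      ext i j; fin_cases i <;> fin_cases j <;> simp [Matrix.mul_apply, Fin.sum_univ_two, hlam]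
    have hφB : φ B = Cfsg.Agent.H97.SpR.uniSL 2 (1 : F) := by
      apply Subtype.ext
      rw [Cfsg.Agent.H97.SpR.uniSL_coe, hJ]
      show ((Cfsg.Agent.H44.SpR.conjSL _ _ hD1 hD2 B :
        Matrix.SpecialLinearGroup (Fin 2) F) : Matrix (Fin 2) (Fin 2) F) = _
      rw [Cfsg.Agent.H44.SpR.conjSL_coe]
      show (!![1, 0; 0, (u : F)] : Matrix (Fin 2) (Fin 2) F) * !![1, (u : F); 0, 1] *
        !![1, 0; 0, (u : F)⁻¹] = _
      ext i j; fin_cases i <;> fin_cases j <;> simp [Matrix.mul_apply, Fin.sum_univ_two, hlam]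
    refine ⟨!![0, 1; (u : F), 0], !![0, (u : F)⁻¹; 1, 0], J₂, hM1, hM2, hJ₂, ?_⟩
    have himg : ({Cfsg.Agent.H97.SpR.uniSL 2 (1 : F), J₂} :
        Set (Matrix.SpecialLinearGroup (Fin 2) F)) = φ '' {A, B} := by
      rw [Set.image_pair, hφA, hφB, Set.pair_comm]
    rw [himg, ← MonoidHom.map_closure, hcl]
    apply Subgroup.map_top_of_surjective
    intro g
    exact ⟨Cfsg.Agent.H44.SpR.conjSL _ _ hD2 hD1 g, Cfsg.Agent.H44.SpR.conjSL_conjSL _ _ hD1 hD2 g⟩
  · exfalso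
    have hc : Fintype.card Fˣ = 8 := by rw [Fintype.card_units, h9]
    have h4 : u ^ 4 = 1 := by
      apply Units.ext
      rw [Units.val_pow_eq_pow_val, Units.val_one]
      have h : (u : F) ^ 4 = ((u : F) ^ 2) ^ 2 := by ring
      rw [h, hsq]; ring
    have hd := orderOf_dvd_of_pow_eq_one h4
    rw [hord, hc] at hd
    omega

end Cfsg.Agent.H67.SuR
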