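import Mathlib
import Cfsg.Prelude.Def_Solvable
import Cfsg.Prelude.Def_Characters
import Cfsg.Agent.H4.Chars
import Cfsg.Agent.H4.PaQb
import Cfsg.Agent.H75.FrobeniusThm
import Cfsg.Agent.H82.Irr

set_option autoImplicit false
set_option linter.style.haveILetI false
set_option linter.unusedSectionVars false

/-!
# A generalisation of Frobenius' theorem (Wielandt)

Let `K ≤ M ≤ G` with `K` normal in `M`, and assume that `M \ K` is a "TI-set": whenever
`m ∈ M`, `g ∉ M` and `g⁻¹ m g ∈ M`, then `m ∈ K`.  Then there is a normal subgroup `N` of `G`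
with `N ⊓ M = K`, consisting exactly of the elements no conjugate of which lies in `M \ K`.

The proof is the character-theoretic proof of Frobenius' theorem: every irreducible character of
`M / K` extends to an irreducible character of `G`.
-/

namespace Cfsg.Agent.H67

open Cfsg.Agent.H4 Cfsg.Agent.H75
open scoped ComplexConjugate

universe u

section TIInd

variable {G : Type u} [Group G] [Fintype G]

/-- induction from `M` of a class function vanishing on `K` restricts to the same function -/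
theorem indFun_tiPair {M K : Subgroup G}
    (_hKn : ∀ m ∈ M, ∀ k ∈ K, m * k * m⁻¹ ∈ K)
    (hTI : ∀ g : G, g ∉ M → ∀ m ∈ M, g⁻¹ * m * g ∈ M → m ∈ K)
    (θ : M → ℂ) (hθ : IsClassFunction M θ) (hK : ∀ m : M, (m : G) ∈ K → θ m = 0) (m : M) :
    indFun M θ (m : G) = θ m := by
  classical
  have hN : (Nat.card M : ℂ) ≠ 0 := (neZero_card_complex M).out
  have claim : ∀ x : G, extendByZero M θ (x⁻¹ * (m : G) * x) = if x ∈ M then θ m else 0 := by
    intro x
    split_ifs with hx
    · have hmem : x⁻¹ * (m : G) * x ∈ M := M.mul_mem (M.mul_mem (M.inv_mem hx) m.2) hx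
      rw [extendByZero_of_mem _ _ hmem]
      have := hθ m (⟨x, hx⟩ : M)⁻¹
      rw [inv_inv] at this
      rw [← this]
      rfl
    · by_cases hmem : x⁻¹ * (m : G) * x ∈ M
      · rw [extendByZero_of_mem _ _ hmem]
        apply hK
        have hx' : x⁻¹ ∉ M := fun h => hx (by simpa using M.inv_mem h)
        apply hTI x⁻¹ hx' _ hmem
        have : x⁻¹⁻¹ * (x⁻¹ * (m : G) * x) * x⁻¹ = m := by group
        rw [this]; exact m.2
      · exact extendByZero_of_not_mem _ _ hmem
  rw [indFun_apply]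
  simp only [claim]
  rw [Finset.sum_ite, Finset.sum_const_zero, add_zero, Finset.sum_const, nsmul_eq_mul,
    ← Fintype.card_subtype, ← Nat.card_eq_fintype_card]
  change (Nat.card M : ℂ)⁻¹ * ((Nat.card M : ℂ) * θ m) = θ m
  rw [← mul_assoc, inv_mul_cancel₀ hN, one_mul]

theorem tiExt_coe {M K : Subgroup G}
    (hKn : ∀ m ∈ M, ∀ k ∈ K, m * k * m⁻¹ ∈ K)
    (hTI : ∀ g : G, g ∉ M → ∀ m ∈ M, g⁻¹ * m * g ∈ M → m ∈ K)
    (θ : M → ℂ) (hθ : IsClassFunction M θ) (hK : ∀ m : M, (m : G) ∈ K → θ m = θ 1) (m : M) :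
    frobExt M θ (m : G) = θ m := by
  unfold frobExt
  rw [indFun_tiPair hKn hTI (fun h => θ h - θ 1) (fun a b => by simp only [hθ a b])
    (fun m hm => by rw [hK m hm, sub_self]) m]
  ring

theorem tiExt_one {M K : Subgroup G}
    (hKn : ∀ m ∈ M, ∀ k ∈ K, m * k * m⁻¹ ∈ K)
    (hTI : ∀ g : G, g ∉ M → ∀ m ∈ M, g⁻¹ * m * g ∈ M → m ∈ K)
    (θ : M → ℂ) (hθ : IsClassFunction M θ) (hK : ∀ m : M, (m : G) ∈ K → θ m = θ 1) :
    frobExt M θ 1 = θ 1 :=
  tiExt_coe hKn hTI θ hθ hK 1

theorem tiExt_of_forall {M K : Subgroup G} (θ : M → ℂ)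
    (hK : ∀ m : M, (m : G) ∈ K → θ m = θ 1) {g : G}
    (hg : ∀ x : G, x⁻¹ * g * x ∈ M → x⁻¹ * g * x ∈ K) : frobExt M θ g = θ 1 := by
  unfold frobExt
  rw [indFun_apply, Finset.sum_eq_zero, mul_zero, zero_add]
  intro x _
  by_cases hmem : x⁻¹ * g * x ∈ M
  · rw [extendByZero_of_mem _ _ hmem, hK ⟨_, hmem⟩ (hg x hmem), sub_self]
  · exact extendByZero_of_not_mem _ _ hmem

/-- the extension map is an isometry -/
theorem classInner_tiExt {M K : Subgroup G} [Fintype M]
    (hKn : ∀ m ∈ M, ∀ k ∈ K, m * k * m⁻¹ ∈ K)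
    (hTI : ∀ g : G, g ∉ M → ∀ m ∈ M, g⁻¹ * m * g ∈ M → m ∈ K)
    (θ η : M → ℂ) (_hθ : IsClassFunction M θ) (hη : IsClassFunction M η)
    (hηK : ∀ m : M, (m : G) ∈ K → η m = η 1) :
    classInner (frobExt M θ) (frobExt M η) = classInner θ η := by
  have hη₀c : IsClassFunction M (fun h => η h - η 1) := fun a b => by simp only [hη a b]
  have e1 : frobExt M θ = indFun M (fun h => θ h - θ 1) + (fun _ : G => θ 1) := rfl
  have e2 : frobExt M η = indFun M (fun h => η h - η 1) + (fun _ : G => η 1) := rfl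
  have e3 : θ = (fun h => θ h - θ 1) + (fun _ : M => θ 1) := by ext h; simp
  have e4 : η = (fun h => η h - η 1) + (fun _ : M => η 1) := by ext h; simp
  have hcG : ∀ c : ℂ, IsClassFunction G (fun _ : G => c) := fun c _ _ => rfl
  have r1 : classInner (indFun M (fun h => θ h - θ 1)) (indFun M (fun h => η h - η 1))
      = classInner (fun h => θ h - θ 1) (fun h => η h - η 1) := by
    rw [frobenius_reciprocity M _ _ (indFun_isClassFunction M _)]
    congr 1
    ext h
    exact indFun_tiPair hKn hTI _ hη₀c (fun m hm => by rw [hηK m hm, sub_self]) h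
  have r2 : classInner (indFun M (fun h => θ h - θ 1)) (fun _ : G => η 1)
      = classInner (fun h => θ h - θ 1) (fun _ : M => η 1) :=
    frobenius_reciprocity M _ _ (hcG _)
  have r3 : classInner (fun _ : G => θ 1) (indFun M (fun h => η h - η 1))
      = classInner (fun _ : M => θ 1) (fun h => η h - η 1) := by
    rw [← classInner_conj_symm, frobenius_reciprocity M _ _ (hcG _), classInner_conj_symm]
  have r4 : classInner (fun _ : G => θ 1) (fun _ : G => η 1)
      = classInner (fun _ : M => θ 1) (fun _ : M => η 1) := by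
    rw [classInner_const, classInner_const]
  calc classInner (frobExt M θ) (frobExt M η)
      = classInner (fun h => θ h - θ 1) (fun h => η h - η 1)
        + classInner (fun h => θ h - θ 1) (fun _ : M => η 1)
        + (classInner (fun _ : M => θ 1) (fun h => η h - η 1)
        + classInner (fun _ : M => θ 1) (fun _ : M => η 1)) := by
        rw [e1, e2]
        simp only [classInner_add_left, classInner_add_right, r1, r2, r3, r4]
        ring
    _ = classInner ((fun h => θ h - θ 1) + (fun _ : M => θ 1))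
          ((fun h => η h - η 1) + (fun _ : M => η 1)) := by
        simp only [classInner_add_left, classInner_add_right]
        ring
    _ = classInner θ η := by rw [← e3, ← e4]

end TIInd

/-- **Wielandt's generalisation of Frobenius' theorem** (the case needed here): if `K ≤ M` is
normal in `M` and `M \ K` is a TI-set with normaliser `M`, there is a normal subgroup `N` of `G`
meeting `M` in `K` and consisting of the elements with no conjugate in `M \ K`. -/
theorem exists_normal_of_tiPair {G : Type u} [Group G] [Finite G] (M K : Subgroup G)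
    (hKM : K ≤ M) (hKn : ∀ m ∈ M, ∀ k ∈ K, m * k * m⁻¹ ∈ K)
    (hTI : ∀ g : G, g ∉ M → ∀ m ∈ M, g⁻¹ * m * g ∈ M → m ∈ K) :
    ∃ N : Subgroup G, N.Normal ∧ N ⊓ M = K ∧
      ∀ g : G, g ∈ N ↔ ∀ x : G, x⁻¹ * g * x ∈ M → x⁻¹ * g * x ∈ K := by
  classical
  haveI := Fintype.ofFinite G
  haveI : Fintype M := Fintype.ofFinite M
  haveI hKnorm : (K.subgroupOf M).Normal := by
    constructor
    intro k hk m
    rw [Subgroup.mem_subgroupOf] at hk ⊢
    exact hKn m m.2 k hk
  -- the characters of `M` inflated from `M ⧸ K`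
  let infl : IrrCharacter (M ⧸ K.subgroupOf M) → IrrCharacter M :=
    fun ψ => Cfsg.Agent.H82.inflate (K.subgroupOf M) ψ
  have hinflK : ∀ (ψ : IrrCharacter (M ⧸ K.subgroupOf M)) (m : M), (m : G) ∈ K →
      (infl ψ).1 m = (infl ψ).1 1 := by
    intro ψ m hm
    exact Cfsg.Agent.H82.inflate_mem (K.subgroupOf M) ψ m (Subgroup.mem_subgroupOf.mpr hm)
  have hext : ∀ ψ : IrrCharacter (M ⧸ K.subgroupOf M),
      IsIrrCharacter G (frobExt M (infl ψ).1) := by
    intro ψ
    obtain ⟨n, hn0, hn⟩ := irr_one_eq_natCast (infl ψ)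
    obtain ⟨X, Y, hX, hY, hXY⟩ :=
      frobExt_generalized (G := G) (infl ψ).1 (isCharacter_of_isIrrCharacter (infl ψ).2) n hn
    rw [hXY]
    apply isIrrCharacter_of_sub_norm_one hX hY _ n hn0
    · rw [← hXY, tiExt_one hKn hTI _ (irr_isClassFunction (infl ψ)) (hinflK ψ), hn]
    · rw [← hXY, classInner_tiExt hKn hTI _ _ (irr_isClassFunction (infl ψ))
        (irr_isClassFunction (infl ψ)) (hinflK ψ), irr_inner_self]
  choose L hLn hLmem using fun ψ : IrrCharacter (M ⧸ K.subgroupOf M) =>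
    exists_normal_ker_of_isCharacter (isCharacter_of_isIrrCharacter (hext ψ))
  let N : Subgroup G := ⨅ ψ, L ψ
  have hNn : N.Normal := Subgroup.normal_iInf_normal hLn
  have hNmem : ∀ g, g ∈ N ↔ ∀ ψ : IrrCharacter (M ⧸ K.subgroupOf M),
      frobExt M (infl ψ).1 g = frobExt M (infl ψ).1 1 := by
    intro g
    simp only [N, Subgroup.mem_iInf, hLmem]
  have hone : ∀ ψ : IrrCharacter (M ⧸ K.subgroupOf M),
      frobExt M (infl ψ).1 1 = (infl ψ).1 1 := fun ψ =>
    tiExt_one hKn hTI _ (irr_isClassFunction (infl ψ)) (hinflK ψ)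
  have hNM : N ⊓ M = K := by
    apply le_antisymm
    · intro x hx
      obtain ⟨hxN, hxM⟩ := Subgroup.mem_inf.mp hx
      rw [hNmem] at hxN
      have h1 : IsConj (QuotientGroup.mk (⟨x, hxM⟩ : M) : M ⧸ K.subgroupOf M) 1 := by
        rw [isConj_iff_irr]
        intro ψ
        have h2 := tiExt_coe hKn hTI _ (irr_isClassFunction (infl ψ)) (hinflK ψ) ⟨x, hxM⟩
        have h3 := hxN ψ
        rw [hone ψ] at h3
        have h4 : (infl ψ).1 ⟨x, hxM⟩ = (infl ψ).1 1 := by rw [← h2]; exact h3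
        have h5 : (infl ψ).1 ⟨x, hxM⟩ = ψ.1 (QuotientGroup.mk (⟨x, hxM⟩ : M)) := rfl
        have h6 : (infl ψ).1 1 = ψ.1 1 := by
          change ψ.1 (QuotientGroup.mk (1 : M)) = ψ.1 1
          rw [QuotientGroup.mk_one]
        rw [← h5, h4, h6]
      have h7 : (QuotientGroup.mk (⟨x, hxM⟩ : M) : M ⧸ K.subgroupOf M) = 1 :=
        isConj_one_left.mp h1
      have h8 := (QuotientGroup.eq_one_iff (⟨x, hxM⟩ : M)).mp h7
      exact Subgroup.mem_subgroupOf.mp h8
    · intro x hx
      refine Subgroup.mem_inf.mpr ⟨?_, hKM hx⟩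
      rw [hNmem]
      intro ψ
      have h2 := tiExt_coe hKn hTI _ (irr_isClassFunction (infl ψ)) (hinflK ψ) ⟨x, hKM hx⟩
      have h3 : frobExt M (infl ψ).1 x = (infl ψ).1 ⟨x, hKM hx⟩ := h2
      rw [h3, hone ψ]
      exact hinflK ψ ⟨x, hKM hx⟩ hx
  refine ⟨N, hNn, hNM, fun g => ⟨fun hg x hx => ?_, fun hg => ?_⟩⟩
  · have h1 : x⁻¹ * g * x ∈ N := by
      have := hNn.conj_mem g hg x⁻¹
      simpa using this
    have h2 : x⁻¹ * g * x ∈ N ⊓ M := Subgroup.mem_inf.mpr ⟨h1, hx⟩
    rwa [hNM] at h2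
  · rw [hNmem]
    intro ψ
    rw [tiExt_of_forall (K := K) _ (hinflK ψ) hg, hone ψ]

end Cfsg.Agent.H67
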