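import Mathlib
import Cfsg.Prelude.Def_Solvable
import Cfsg.Agent.H67.TIExt

set_option autoImplicit false
set_option linter.style.haveILetI false
set_option linter.unusedSectionVars false

/-!
# TI subgroups that are direct factors of their normalisers

Let `H ≤ G` be a TI-subgroup (`H ∩ H^g = 1` for `g ∉ N_G(H)`) and suppose
`N_G(H) = K₀ × H` with `|K₀|` prime to `|H|`.  Then `H` has a normal complement `N` in `G`
(`exists_normal_complement`), complements of `N` are conjugate to `H`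
(`TIHallData.exists_conj_le`), and if `H` is not normal it is isomorphic to a Frobenius
complement (`exists_frobenius_complement`).
-/

namespace Cfsg.Agent.H67

universe u

section Basic

variable {G : Type u} [Group G]

theorem commute_of_normalizes {A B : Subgroup G} (hAB : A ⊓ B = ⊥)
    {a b : G} (ha : a ∈ A) (hb : b ∈ B) (h1 : b * a * b⁻¹ ∈ A) (h2 : a * b * a⁻¹ ∈ B) :
    a * b = b * a := by
  have h3 : a * b * a⁻¹ * b⁻¹ ∈ A ⊓ B := by
    refine Subgroup.mem_inf.mpr ⟨?_, ?_⟩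
    · have : a * b * a⁻¹ * b⁻¹ = a * (b * a * b⁻¹)⁻¹ := by group
      rw [this]; exact A.mul_mem ha (A.inv_mem h1)
    · exact B.mul_mem h2 (B.inv_mem hb)
  rw [hAB, Subgroup.mem_bot] at h3
  calc a * b = (a * b * a⁻¹ * b⁻¹) * (b * a) := by group
    _ = b * a := by rw [h3, one_mul]

theorem inv_mul_mul_pow (g m : G) (n : ℕ) : (g⁻¹ * m * g) ^ n = g⁻¹ * m ^ n * g := by
  have := conj_pow (a := g⁻¹) (b := m) (i := n)
  simpa only [inv_inv] using this

/-- the data: `H` is a TI-subgroup whose normaliser is `K₀ × H` with coprime orders -/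
structure TIHallData (H K₀ : Subgroup G) : Prop where
  ti : ∀ g : G, g ∉ Subgroup.normalizer (H : Set G) → ∀ x ∈ H, g⁻¹ * x * g ∈ H → x = 1
  le : K₀ ≤ Subgroup.normalizer (H : Set G)
  norm : ∀ m ∈ Subgroup.normalizer (H : Set G), ∀ k ∈ K₀, m * k * m⁻¹ ∈ K₀
  disj : K₀ ⊓ H = ⊥
  prod : ∀ m ∈ Subgroup.normalizer (H : Set G), ∃ k ∈ K₀, ∃ h ∈ H, m = k * h
  cop : (Nat.card K₀).Coprime (Nat.card H)

namespace TIHallData

variable {H K₀ : Subgroup G}

theorem le_normalizer : H ≤ Subgroup.normalizer (H : Set G) := Subgroup.le_normalizer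

theorem commute (d : TIHallData H K₀) {k h : G} (hk : k ∈ K₀) (hh : h ∈ H) : k * h = h * k := by
  apply commute_of_normalizes d.disj hk hh
  · exact d.norm h (le_normalizer hh) k hk
  · have := (Subgroup.mem_normalizer_iff.mp (d.le hk) h).mp hh
    exact this

theorem eq_one_of_mem_of_mem (d : TIHallData H K₀) {x : G} (hk : x ∈ K₀) (hh : x ∈ H) : x = 1 := by
  have : x ∈ K₀ ⊓ H := Subgroup.mem_inf.mpr ⟨hk, hh⟩
  rwa [d.disj, Subgroup.mem_bot] at this

theorem pow_card_K [Finite G] {k : G} (hk : k ∈ K₀) : k ^ Nat.card K₀ = 1 := by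
  have : (⟨k, hk⟩ : K₀) ^ Nat.card K₀ = 1 := pow_card_eq_one'
  exact congrArg Subtype.val this

theorem pow_card_H [Finite G] {h : G} (hh : h ∈ H) : h ^ Nat.card H = 1 := by
  have : (⟨h, hh⟩ : H) ^ Nat.card H = 1 := pow_card_eq_one'
  exact congrArg Subtype.val this

/-- an element of `N_G(H)` of order prime to `|K₀|` lies in `H` -/
theorem mem_of_pow_eq_one [Finite G] (d : TIHallData H K₀) {m : G}
    (hm : m ∈ Subgroup.normalizer (H : Set G)) {n : ℕ} (hn : n.Coprime (Nat.card K₀))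
    (hmn : m ^ n = 1) : m ∈ H := by
  obtain ⟨k, hk, h, hh, rfl⟩ := d.prod m hm
  have hc : Commute k h := d.commute hk hh
  rw [hc.mul_pow] at hmn
  have h1 : k ^ n ∈ H := by
    have : k ^ n = (h ^ n)⁻¹ := eq_inv_of_mul_eq_one_left hmn
    rw [this]; exact H.inv_mem (H.pow_mem hh n)
  have h2 : k ^ n = 1 := d.eq_one_of_mem_of_mem (K₀.pow_mem hk n) h1
  have h3 : orderOf k ∣ n := orderOf_dvd_of_pow_eq_one h2
  have h4 : orderOf k ∣ Nat.card K₀ := orderOf_dvd_of_pow_eq_one (pow_card_K hk)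
  have h5 : orderOf k = 1 := Nat.eq_one_of_dvd_coprimes hn h3 h4
  rw [orderOf_eq_one_iff] at h5
  rw [h5, one_mul]; exact hh

/-- `N_G(H) \ K₀` is a TI-set -/
theorem tiPair [Finite G] (d : TIHallData H K₀) (g : G)
    (hg : g ∉ Subgroup.normalizer (H : Set G)) (m : G)
    (hm : m ∈ Subgroup.normalizer (H : Set G))
    (hm' : g⁻¹ * m * g ∈ Subgroup.normalizer (H : Set G)) : m ∈ K₀ := by
  obtain ⟨k, hk, h, hh, rfl⟩ := d.prod m hm
  obtain ⟨k', hk', h', hh', he⟩ := d.prod _ hm'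
  have hc : Commute k h := d.commute hk hh
  have hc' : Commute k' h' := d.commute hk' hh'
  have h1 : (k * h) ^ Nat.card K₀ = h ^ Nat.card K₀ := by
    rw [hc.mul_pow, pow_card_K hk, one_mul]
  have h2 : (g⁻¹ * (k * h) * g) ^ Nat.card K₀ = h' ^ Nat.card K₀ := by
    rw [he, hc'.mul_pow, pow_card_K hk', one_mul]
  rw [inv_mul_mul_pow, h1] at h2
  have h3 : h ^ Nat.card K₀ = 1 :=
    d.ti g hg _ (H.pow_mem hh _) (by rw [h2]; exact H.pow_mem hh' _)
  have h4 : orderOf h ∣ Nat.card K₀ := orderOf_dvd_of_pow_eq_one h3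
  have h5 : orderOf h ∣ Nat.card H := orderOf_dvd_of_pow_eq_one (pow_card_H hh)
  have h6 : orderOf h = 1 := Nat.eq_one_of_dvd_coprimes d.cop h4 h5
  rw [orderOf_eq_one_iff] at h6
  rw [h6, mul_one]; exact hk

theorem card_normalizer [Finite G] (d : TIHallData H K₀) :
    Nat.card (Subgroup.normalizer (H : Set G)) = Nat.card K₀ * Nat.card H := by
  have hinj : Function.Injective (fun p : K₀ × H => (p.1 : G) * (p.2 : G)) :=
    Subgroup.mul_injective_of_disjoint (disjoint_iff.mpr d.disj)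
  let f : K₀ × H → Subgroup.normalizer (H : Set G) := fun p =>
    ⟨(p.1 : G) * (p.2 : G), (Subgroup.normalizer (H : Set G)).mul_mem (d.le p.1.2)
      (le_normalizer p.2.2)⟩
  have hf : Function.Bijective f := by
    constructor
    · intro p q hpq
      exact hinj (congrArg Subtype.val hpq)
    · rintro ⟨m, hm⟩
      obtain ⟨k, hk, h, hh, rfl⟩ := d.prod m hm
      exact ⟨(⟨k, hk⟩, ⟨h, hh⟩), rfl⟩
  rw [← Nat.card_prod, Nat.card_congr (Equiv.ofBijective f hf)]

end TIHallData

end Basic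

section Count

variable {G : Type u} [Group G] [Finite G]

theorem card_conj_compl_le (M K : Subgroup G) (hKM : K ≤ M)
    (hKn : ∀ m ∈ M, ∀ k ∈ K, m * k * m⁻¹ ∈ K) :
    Nat.card {g : G // ∃ x : G, x⁻¹ * g * x ∈ M ∧ x⁻¹ * g * x ∉ K}
      ≤ M.index * (Nat.card M - Nat.card K) := by
  classical
  let F : (G ⧸ M) × {m : M // (m : G) ∉ K} →
      {g : G // ∃ x : G, x⁻¹ * g * x ∈ M ∧ x⁻¹ * g * x ∉ K} := fun p =>
    ⟨Quotient.out p.1 * (p.2.1 : G) * (Quotient.out p.1)⁻¹, Quotient.out p.1, by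
      have : (Quotient.out p.1)⁻¹ * (Quotient.out p.1 * (p.2.1 : G) * (Quotient.out p.1)⁻¹)
          * Quotient.out p.1 = p.2.1 := by group
      rw [this]
      exact ⟨p.2.1.2, p.2.2⟩⟩
  have hsurj : Function.Surjective F := by
    rintro ⟨g, x, hxM, hxK⟩
    obtain ⟨k, hk⟩ := QuotientGroup.mk_out_eq_mul M x
    have hk1 : (k : G)⁻¹ * (x⁻¹ * g * x) * k ∈ M := M.mul_mem (M.mul_mem (M.inv_mem k.2) hxM) k.2
    have hk2 : (k : G)⁻¹ * (x⁻¹ * g * x) * k ∉ K := by
      intro h
      apply hxK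
      have h2 := hKn k k.2 _ h
      have h3 : (k : G) * ((k : G)⁻¹ * (x⁻¹ * g * x) * k) * (k : G)⁻¹ = x⁻¹ * g * x := by group
      rwa [h3] at h2
    refine ⟨⟨QuotientGroup.mk x, ⟨⟨(k : G)⁻¹ * (x⁻¹ * g * x) * k, hk1⟩, hk2⟩⟩, ?_⟩
    apply Subtype.ext
    change Quotient.out (QuotientGroup.mk x : G ⧸ M) * ((k : G)⁻¹ * (x⁻¹ * g * x) * k)
      * (Quotient.out (QuotientGroup.mk x : G ⧸ M))⁻¹ = g
    rw [hk]; group
  have h1 := Nat.card_le_card_of_surjective F hsurj
  rw [Nat.card_prod] at h1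
  have h2 : Nat.card {m : M // (m : G) ∈ K} = Nat.card K := by
    apply Nat.card_congr
    exact
      { toFun := fun m => ⟨m.1.1, m.2⟩
        invFun := fun k => ⟨⟨k.1, hKM k.2⟩, k.2⟩
        left_inv := fun m => rfl
        right_inv := fun k => rfl }
  have h3 : Nat.card {m : M // (m : G) ∈ K} + Nat.card {m : M // (m : G) ∉ K} = Nat.card M := by
    rw [← Nat.card_sum]
    exact Nat.card_congr (Equiv.sumCompl (fun m : M => (m : G) ∈ K))
  have h4 : Nat.card {m : M // (m : G) ∉ K} = Nat.card M - Nat.card K := by omega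
  rw [h4] at h1
  exact h1

/-- a normal subgroup consisting of the elements with no conjugate in `M \ K` is a complement
of `H` when `M = K × H`. -/
theorem isComplement'_of_forall_conj (M K H N : Subgroup G) (hKM : K ≤ M)
    (hKn : ∀ m ∈ M, ∀ k ∈ K, m * k * m⁻¹ ∈ K) (hHM : H ≤ M) (hKH : K ⊓ H = ⊥)
    (hcard : Nat.card M = Nat.card K * Nat.card H) (hNM : N ⊓ M = K)
    (hN : ∀ g : G, g ∈ N ↔ ∀ x : G, x⁻¹ * g * x ∈ M → x⁻¹ * g * x ∈ K) :
    N.IsComplement' H := by
  classical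
  have hdisj : Disjoint N H := by
    rw [disjoint_iff]
    apply le_antisymm _ bot_le
    intro x hx
    obtain ⟨hxN, hxH⟩ := Subgroup.mem_inf.mp hx
    have h1 : x ∈ N ⊓ M := Subgroup.mem_inf.mpr ⟨hxN, hHM hxH⟩
    rw [hNM] at h1
    have h2 : x ∈ K ⊓ H := Subgroup.mem_inf.mpr ⟨h1, hxH⟩
    rwa [hKH] at h2
  apply Subgroup.isComplement'_of_card_mul_and_disjoint _ hdisj
  have hle : Nat.card N * Nat.card H ≤ Nat.card G := by
    rw [← Nat.card_prod]
    exact Nat.card_le_card_of_injective _ (Subgroup.mul_injective_of_disjoint hdisj)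
  have h1 : Nat.card {g : G // g ∈ N} + Nat.card {g : G // g ∉ N} = Nat.card G := by
    rw [← Nat.card_sum]
    exact Nat.card_congr (Equiv.sumCompl (· ∈ N))
  have h2 : Nat.card {g : G // g ∉ N}
      = Nat.card {g : G // ∃ x : G, x⁻¹ * g * x ∈ M ∧ x⁻¹ * g * x ∉ K} := by
    apply Nat.card_congr
    apply Equiv.subtypeEquivRight
    intro g
    rw [hN]
    push Not
    rfl
  have h3 := card_conj_compl_le M K hKM hKn
  have h4 : M.index * Nat.card M = Nat.card G := M.index_mul_card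
  have h5 : Nat.card K ≤ Nat.card M := Subgroup.card_le_of_le hKM
  have h6 : Nat.card {g : G // g ∈ N} = Nat.card N := rfl
  have h7 : M.index * (Nat.card M - Nat.card K) = M.index * Nat.card M - M.index * Nat.card K :=
    Nat.mul_sub _ _ _
  have h8 : M.index * Nat.card K ≤ M.index * Nat.card M := Nat.mul_le_mul_left _ h5
  have h9 : M.index * Nat.card K ≤ Nat.card N := by omega
  have h10 : Nat.card G ≤ Nat.card N * Nat.card H := by
    calc Nat.card G = M.index * (Nat.card K * Nat.card H) := by rw [← hcard, h4]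
      _ = (M.index * Nat.card K) * Nat.card H := by ring
      _ ≤ Nat.card N * Nat.card H := Nat.mul_le_mul_right _ h9
  omega

end Count

section Main

variable {G : Type u} [Group G] [Finite G]

/-- a TI-subgroup which is a direct factor of its normaliser, with coprime cofactor, has a
normal complement -/
theorem TIHallData.exists_normal_complement {H K₀ : Subgroup G} (d : TIHallData H K₀) :
    ∃ N : Subgroup G, N.Normal ∧ N ⊓ Subgroup.normalizer (H : Set G) = K₀ ∧
      (∀ g : G, g ∈ N ↔ ∀ x : G, x⁻¹ * g * x ∈ Subgroup.normalizer (H : Set G) →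
        x⁻¹ * g * x ∈ K₀) ∧ N.IsComplement' H := by
  obtain ⟨N, hNn, hNM, hN⟩ := exists_normal_of_tiPair (Subgroup.normalizer (H : Set G)) K₀
    d.le d.norm (fun g hg m hm hm' => d.tiPair g hg m hm hm')
  exact ⟨N, hNn, hNM, hN, isComplement'_of_forall_conj _ K₀ H N d.le d.norm
    Subgroup.le_normalizer d.disj d.card_normalizer hNM hN⟩

/-- from a normal complement of `H` in its normaliser to the data -/
theorem tiHallData_of_complement (H : Subgroup G)
    (hTI : ∀ g : G, g ∉ Subgroup.normalizer (H : Set G) → ∀ x ∈ H, g * x * g⁻¹ ∈ H → x = 1)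
    (hHall : (Nat.card H).Coprime (H.subgroupOf (Subgroup.normalizer (H : Set G))).index)
    (K : Subgroup (Subgroup.normalizer (H : Set G))) (hKn : K.Normal)
    (hK : K.IsComplement' (H.subgroupOf (Subgroup.normalizer (H : Set G)))) :
    TIHallData H (K.map (Subgroup.normalizer (H : Set G)).subtype) := by
  refine ⟨?_, ?_, ?_, ?_, ?_, ?_⟩
  · intro g hg x hx hx'
    have hg' : g⁻¹ ∉ Subgroup.normalizer (H : Set G) := fun h =>
      hg (by simpa using (Subgroup.normalizer (H : Set G)).inv_mem h)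
    exact hTI g⁻¹ hg' x hx (by simpa using hx')
  · exact Subgroup.map_subtype_le K
  · rintro m hm k ⟨k', hk', rfl⟩
    refine ⟨⟨m, hm⟩ * k' * ⟨m, hm⟩⁻¹, hKn.conj_mem k' hk' ⟨m, hm⟩, rfl⟩
  · apply le_antisymm _ bot_le
    intro x hx
    obtain ⟨⟨k', hk', rfl⟩, hxH⟩ := Subgroup.mem_inf.mp hx
    have h1 : k' ∈ K ⊓ H.subgroupOf (Subgroup.normalizer (H : Set G)) :=
      Subgroup.mem_inf.mpr ⟨hk', Subgroup.mem_subgroupOf.mpr hxH⟩
    rw [disjoint_iff.mp hK.disjoint, Subgroup.mem_bot] at h1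
    rw [h1]; exact Subgroup.mem_bot.mpr rfl
  · intro m hm
    have h1 : (⟨m, hm⟩ : Subgroup.normalizer (H : Set G)) ∈
        K ⊔ H.subgroupOf (Subgroup.normalizer (H : Set G)) := by
      rw [hK.sup_eq_top]; exact Subgroup.mem_top _
    obtain ⟨y, hy, z, hz, hyz⟩ := Subgroup.mem_sup_of_normal_left.1 h1
    refine ⟨y, ⟨y, hy, rfl⟩, z, Subgroup.mem_subgroupOf.mp hz, ?_⟩
    have := congrArg Subtype.val hyz
    exact this.symm
  · have h1 : Nat.card (K.map (Subgroup.normalizer (H : Set G)).subtype) = Nat.card K :=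
      Subgroup.card_map_of_injective (Subgroup.subtype_injective _)
    rw [h1, ← hK.index_eq_card]
    exact hHall.symm

/-- the easy direction: a normal complement in `G` restricts to one in the normaliser -/
theorem exists_complement_normalizer_of_complement (H N : Subgroup G) (hNn : N.Normal)
    (hN : N.IsComplement' H) :
    ∃ K : Subgroup (Subgroup.normalizer (H : Set G)), K.Normal ∧
      K.IsComplement' (H.subgroupOf (Subgroup.normalizer (H : Set G))) := by
  refine ⟨N.subgroupOf _, hNn.subgroupOf _, ?_⟩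
  apply Subgroup.isComplement'_of_disjoint_and_mul_eq_univ
  · rw [disjoint_iff]
    apply le_antisymm _ bot_le
    intro x hx
    obtain ⟨h1, h2⟩ := Subgroup.mem_inf.mp hx
    have h3 : (x : G) ∈ N ⊓ H :=
      Subgroup.mem_inf.mpr ⟨Subgroup.mem_subgroupOf.mp h1, Subgroup.mem_subgroupOf.mp h2⟩
    rw [disjoint_iff.mp hN.disjoint, Subgroup.mem_bot] at h3
    exact Subgroup.mem_bot.mpr (Subtype.ext h3)
  · apply Set.eq_univ_of_forall
    rintro ⟨m, hm⟩
    have h1 : m ∈ N ⊔ H := by rw [hN.sup_eq_top]; exact Subgroup.mem_top _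
    obtain ⟨n, hn, h, hh, rfl⟩ := Subgroup.mem_sup_of_normal_left.1 h1
    have hhM : h ∈ Subgroup.normalizer (H : Set G) := Subgroup.le_normalizer hh
    have hnM : n ∈ Subgroup.normalizer (H : Set G) := by
      have : n = (n * h) * h⁻¹ := by group
      rw [this]
      exact (Subgroup.normalizer (H : Set G)).mul_mem hm
        ((Subgroup.normalizer (H : Set G)).inv_mem hhM)
    exact Set.mem_mul.mpr ⟨⟨n, hnM⟩, Subgroup.mem_subgroupOf.mpr hn, ⟨h, hhM⟩,
      Subgroup.mem_subgroupOf.mpr hh, rfl⟩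

end Main

end Cfsg.Agent.H67
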