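import Mathlib
import Cfsg.Prelude.Def_Solvable
import Cfsg.Agent.H67.TIHall
import Cfsg.Agent.H67.FrobSemi
import Cfsg.Agent.H67.AbelianIndexP
import Cfsg.Agent.H67.SylowAux

set_option autoImplicit false
set_option linter.style.haveILetI false
set_option linter.unusedSectionVars false

/-!
# A non-normal TI-subgroup that is a direct factor of its normaliser is a Frobenius complement
-/

namespace Cfsg.Agent.H67

open Cfsg.Agent.H75
open scoped Pointwise

universe u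

section Section

variable {G : Type u} [Group G] [Finite G]

/-- a Frobenius group as a section `S₁ H / S₀` -/
theorem exists_frobenius_of_section (S₁ S₀ H : Subgroup G)
    (h01 : S₀ ≤ S₁) (hne : ∃ s ∈ S₁, s ∉ S₀) (hH1 : H ≠ ⊥)
    (hHS₁ : ∀ h ∈ H, ∀ s ∈ S₁, h * s * h⁻¹ ∈ S₁)
    (hS₁S₀ : ∀ s ∈ S₁, ∀ z ∈ S₀, s * z * s⁻¹ ∈ S₀)
    (hHS₀ : ∀ h ∈ H, ∀ z ∈ S₀, h * z * h⁻¹ ∈ S₀)
    (hdisj : S₁ ⊓ H = ⊥)
    (hfpf : ∀ h ∈ H, h ≠ 1 → ∀ s ∈ S₁, s * h * s⁻¹ * h⁻¹ ∈ S₀ → s ∈ S₀) :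
    ∃ (F : Type u) (_ : Group F) (_ : Finite F) (C : Subgroup F),
      Cfsg.IsFrobeniusComplement C ∧ Nonempty (H ≃* C) := by
  obtain ⟨X, hXdef⟩ : ∃ X : Subgroup G, X = S₁ ⊔ H := ⟨_, rfl⟩
  have hS₁X : S₁ ≤ X := hXdef ▸ le_sup_left
  have hHX : H ≤ X := hXdef ▸ le_sup_right
  have hS₀X : S₀ ≤ X := h01.trans hS₁X
  have hXS₀ : X ≤ Subgroup.normalizer (S₀ : Set G) := by
    rw [hXdef]
    apply sup_le
    · intro s hs
      exact mem_normalizer_of_forall_conj_mem S₀ s (hS₁S₀ s hs)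
    · intro h hh
      exact mem_normalizer_of_forall_conj_mem S₀ h (hHS₀ h hh)
  have hXS₁ : X ≤ Subgroup.normalizer (S₁ : Set G) := by
    rw [hXdef]
    apply sup_le
    · exact Subgroup.le_normalizer
    · intro h hh
      exact mem_normalizer_of_forall_conj_mem S₁ h (hHS₁ h hh)
  haveI hS₀n : (S₀.subgroupOf X).Normal :=
    (Subgroup.normal_subgroupOf_iff_le_normalizer hS₀X).mpr hXS₀
  have hS₁n : (S₁.subgroupOf X).Normal :=
    (Subgroup.normal_subgroupOf_iff_le_normalizer hS₁X).mpr hXS₁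
  have hsurj : Function.Surjective (QuotientGroup.mk' (S₀.subgroupOf X)) :=
    QuotientGroup.mk'_surjective _
  haveI hNF : ((S₁.subgroupOf X).map (QuotientGroup.mk' (S₀.subgroupOf X))).Normal :=
    hS₁n.map _ hsurj
  have hmk : ∀ x : X, (QuotientGroup.mk' (S₀.subgroupOf X)) x = 1 ↔ (x : G) ∈ S₀ := by
    intro x
    rw [QuotientGroup.mk'_apply, QuotientGroup.eq_one_iff, Subgroup.mem_subgroupOf]
  have hHS₀' : ∀ h ∈ H, h ∈ S₀ → h = 1 := by
    intro h hh hh0
    have : h ∈ S₁ ⊓ H := Subgroup.mem_inf.mpr ⟨h01 hh0, hh⟩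
    rwa [hdisj, Subgroup.mem_bot] at this
  have hfrob := frobenius_of_semidirect
    ((S₁.subgroupOf X).map (QuotientGroup.mk' (S₀.subgroupOf X)))
    ((H.subgroupOf X).map (QuotientGroup.mk' (S₀.subgroupOf X))) ?_ ?_ ?_ ?_ ?_
  · refine ⟨↥X ⧸ S₀.subgroupOf X, inferInstance, inferInstance,
      (H.subgroupOf X).map (QuotientGroup.mk' (S₀.subgroupOf X)), hfrob.1, ?_⟩
    let f : H →* ((H.subgroupOf X).map (QuotientGroup.mk' (S₀.subgroupOf X))) :=
      ((QuotientGroup.mk' (S₀.subgroupOf X)).comp (Subgroup.inclusion hHX)).codRestrict _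
        (fun h => Subgroup.mem_map_of_mem _ (Subgroup.mem_subgroupOf.mpr h.2))
    have hf : Function.Bijective f := by
      constructor
      · rw [injective_iff_map_eq_one]
        intro h hh
        have h1 : (QuotientGroup.mk' (S₀.subgroupOf X)) (Subgroup.inclusion hHX h) = 1 :=
          congrArg Subtype.val hh
        rw [hmk] at h1
        exact Subtype.ext (hHS₀' h h.2 h1)
      · rintro ⟨b, x, hx, rfl⟩
        refine ⟨⟨x, Subgroup.mem_subgroupOf.mp hx⟩, ?_⟩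
        apply Subtype.ext
        rfl
    exact ⟨MulEquiv.ofBijective f hf⟩
  · -- inf
    apply le_antisymm _ bot_le
    intro x hx
    obtain ⟨⟨s, hs, rfl⟩, ⟨h, hh, hsh⟩⟩ := Subgroup.mem_inf.mp hx
    replace hs : (s : G) ∈ S₁ := Subgroup.mem_subgroupOf.mp hs
    replace hh : (h : G) ∈ H := Subgroup.mem_subgroupOf.mp hh
    have h1 : s⁻¹ * h ∈ S₀.subgroupOf X := QuotientGroup.eq.mp hsh.symm
    rw [Subgroup.mem_subgroupOf] at h1
    have h2 : (h : G) ∈ S₁ := by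
      have : (h : G) = (s : G) * ((s⁻¹ * h : X) : G) := by
        push_cast; group
      rw [this]
      exact S₁.mul_mem hs (h01 h1)
    have h3 : (h : G) ∈ S₁ ⊓ H := Subgroup.mem_inf.mpr ⟨h2, hh⟩
    rw [hdisj, Subgroup.mem_bot] at h3
    have h4 : h = 1 := Subtype.ext h3
    rw [Subgroup.mem_bot, ← hsh, h4, map_one]
  · -- sup
    rw [← Subgroup.map_sup, ← Subgroup.subgroupOf_sup hS₁X hHX, ← hXdef, Subgroup.subgroupOf_self,
      Subgroup.map_top_of_surjective _ hsurj]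
  · -- N ≠ ⊥
    obtain ⟨s, hs, hs0⟩ := hne
    intro hbot
    have h1 : (QuotientGroup.mk' (S₀.subgroupOf X)) ⟨s, hS₁X hs⟩ ∈
        (S₁.subgroupOf X).map (QuotientGroup.mk' (S₀.subgroupOf X)) :=
      Subgroup.mem_map_of_mem _ (Subgroup.mem_subgroupOf.mpr hs)
    rw [hbot, Subgroup.mem_bot, hmk] at h1
    exact hs0 h1
  · -- B ≠ ⊥
    obtain ⟨a, ha⟩ : ∃ a : H, a ≠ 1 := Subgroup.ne_bot_iff_exists_ne_one.mp hH1
    obtain ⟨h, hh, hh1⟩ : ∃ h : G, h ∈ H ∧ h ≠ 1 := ⟨(a : G), a.2, fun h => ha (Subtype.ext h)⟩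
    intro hbot
    have h1 : (QuotientGroup.mk' (S₀.subgroupOf X)) ⟨h, hHX hh⟩ ∈
        (H.subgroupOf X).map (QuotientGroup.mk' (S₀.subgroupOf X)) :=
      Subgroup.mem_map_of_mem _ (Subgroup.mem_subgroupOf.mpr hh)
    rw [hbot, Subgroup.mem_bot, hmk] at h1
    exact hh1 (hHS₀' h hh h1)
  · -- fixed point free
    rintro _ ⟨h, hh, rfl⟩ _ ⟨s, hs, rfl⟩ hcomm
    replace hs : (s : G) ∈ S₁ := Subgroup.mem_subgroupOf.mp hs
    replace hh : (h : G) ∈ H := Subgroup.mem_subgroupOf.mp hh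
    by_cases hh1 : (h : G) = 1
    · left
      have : h = 1 := Subtype.ext hh1
      rw [this, map_one]
    · right
      rw [← map_mul, ← map_mul] at hcomm
      have h1 : (h * s)⁻¹ * (s * h) ∈ S₀.subgroupOf X := QuotientGroup.eq.mp hcomm
      rw [Subgroup.mem_subgroupOf] at h1
      have h2 : (s : G)⁻¹ * (h : G)⁻¹ * (s : G)⁻¹⁻¹ * (h : G)⁻¹⁻¹ ∈ S₀ := by
        have : (((h * s)⁻¹ * (s * h) : X) : G)
            = (s : G)⁻¹ * (h : G)⁻¹ * (s : G)⁻¹⁻¹ * (h : G)⁻¹⁻¹ := by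
          push_cast; group
        rwa [this] at h1
      have h3 := hfpf (h : G)⁻¹ (H.inv_mem hh) (fun h' => hh1 (inv_eq_one.mp h')) (s : G)⁻¹
        (S₁.inv_mem hs) h2
      have h4 : (s : G) ∈ S₀ := by simpa using S₀.inv_mem h3
      exact (hmk s).mpr h4

end Section

section Conj

variable {G : Type u} [Group G] [Finite G]

namespace TIHallData

variable {H K₀ : Subgroup G}

/-- elements of `N` commuting with a nontrivial element of `H` lie in `K₀` -/
theorem mem_of_commute (d : TIHallData H K₀) {N : Subgroup G}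
    (hNM : N ⊓ Subgroup.normalizer (H : Set G) = K₀) {c h : G} (hc : c ∈ N) (hh : h ∈ H)
    (hh1 : h ≠ 1) (hch : c * h = h * c) : c ∈ K₀ := by
  have hcM : c ∈ Subgroup.normalizer (H : Set G) := by
    by_contra hcM
    apply hh1
    apply d.ti c hcM h hh
    have : c⁻¹ * h * c = h := by rw [mul_assoc, ← hch, ← mul_assoc, inv_mul_cancel, one_mul]
    rw [this]; exact hh
  rw [← hNM]
  exact Subgroup.mem_inf.mpr ⟨hc, hcM⟩

theorem mem_normalizer_of_common (d : TIHallData H K₀) {t x z : G} (ht : t ≠ 1)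
    (hx : x⁻¹ * t * x ∈ H) (hz : z⁻¹ * t * z ∈ H) :
    x⁻¹ * z ∈ Subgroup.normalizer (H : Set G) := by
  by_contra hm
  have h1 := d.ti (x⁻¹ * z) hm (x⁻¹ * t * x) hx (by
    have : (x⁻¹ * z)⁻¹ * (x⁻¹ * t * x) * (x⁻¹ * z) = z⁻¹ * t * z := by group
    rw [this]; exact hz)
  apply ht
  have : t = x * (x⁻¹ * t * x) * x⁻¹ := by group
  rw [this, h1]; group

theorem conj_mem_iff_of_common (d : TIHallData H K₀) {t x z : G} (ht : t ≠ 1)
    (hx : x⁻¹ * t * x ∈ H) (hz : z⁻¹ * t * z ∈ H) (w : G) :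
    x⁻¹ * w * x ∈ H ↔ z⁻¹ * w * z ∈ H := by
  have hm := d.mem_normalizer_of_common ht hx hz
  have h3 := Subgroup.mem_normalizer_iff.mp hm (z⁻¹ * w * z)
  have : x⁻¹ * z * (z⁻¹ * w * z) * (x⁻¹ * z)⁻¹ = x⁻¹ * w * x := by group
  rw [this] at h3
  exact h3.symm

/-- a subgroup `Y` meeting `N` trivially and of order prime to `|K₀|` lies in a conjugate of
`H` -/
theorem exists_conj_le (d : TIHallData H K₀) {N Y : Subgroup G}
    (hNmem : ∀ g : G, g ∈ N ↔ ∀ x : G, x⁻¹ * g * x ∈ Subgroup.normalizer (H : Set G) →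
      x⁻¹ * g * x ∈ K₀)
    (hYN : Y ⊓ N = ⊥) (hcop : (Nat.card Y).Coprime (Nat.card K₀)) :
    ∃ g : G, ∀ y ∈ Y, g⁻¹ * y * g ∈ H := by
  classical
  have hpowY : ∀ y ∈ Y, y ^ Nat.card Y = 1 := fun y hy => by
    have : (⟨y, hy⟩ : Y) ^ Nat.card Y = 1 := pow_card_eq_one'
    exact congrArg Subtype.val this
  have hF4 : ∀ y ∈ Y, ∀ x : G, x⁻¹ * y * x ∈ Subgroup.normalizer (H : Set G) →
      x⁻¹ * y * x ∈ H := by
    intro y hy x hx
    apply d.mem_of_pow_eq_one hx hcop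
    rw [inv_mul_mul_pow, hpowY y hy]; group
  have hF1 : ∀ y ∈ Y, y ≠ 1 → ∃ x : G, x⁻¹ * y * x ∈ H := by
    intro y hy hy1
    have hyN : y ∉ N := by
      intro hyN
      have : y ∈ Y ⊓ N := Subgroup.mem_inf.mpr ⟨hy, hyN⟩
      rw [hYN, Subgroup.mem_bot] at this
      exact hy1 this
    rw [hNmem] at hyN
    push Not at hyN
    obtain ⟨x, hxM, -⟩ := hyN
    exact ⟨x, hF4 y hy x hxM⟩
  by_cases hY1 : Y = ⊥
  · refine ⟨1, fun y hy => ?_⟩
    rw [hY1, Subgroup.mem_bot] at hy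
    rw [hy]; simp
  obtain ⟨y0, hy0⟩ : ∃ a : Y, a ≠ 1 := Subgroup.ne_bot_iff_exists_ne_one.mp hY1
  have hy0' : (y0 : G) ≠ 1 := fun h => hy0 (Subtype.ext h)
  obtain ⟨A, hAdef⟩ : ∃ A : G → Subgroup Y, A = fun x => (MulAut.conj x • H).subgroupOf Y :=
    ⟨_, rfl⟩
  have hA : ∀ (x : G) (y : Y), y ∈ A x ↔ x⁻¹ * (y : G) * x ∈ H := by
    intro x y
    rw [hAdef, Subgroup.mem_subgroupOf]
    exact mem_conj_smul
  have hfrob : ∀ x : G, A x ≠ ⊥ → A x ≠ ⊤ → Cfsg.IsFrobeniusComplement (A x) := by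
    intro x h1 h2
    rw [isFrobeniusComplement_iff]
    refine ⟨h1, h2, fun g hg t ht ht' => ?_⟩
    by_contra ht1
    rw [hA] at ht ht' hg
    have ht1' : (t : G) ≠ 1 := fun h => ht1 (Subtype.ext h)
    have hz : ((g : G) * x)⁻¹ * (t : G) * ((g : G) * x) ∈ H := by
      have : ((g : G) * x)⁻¹ * (t : G) * ((g : G) * x) = x⁻¹ * ((g⁻¹ * t * g : Y) : G) * x := by
        push_cast; group
      rw [this]; exact ht'
    have hm := d.mem_normalizer_of_common ht1' ht hz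
    have hm' : x⁻¹ * (g : G) * x ∈ Subgroup.normalizer (H : Set G) := by
      have : x⁻¹ * (g : G) * x = x⁻¹ * ((g : G) * x) := by group
      rw [this]; exact hm
    exact hg (hF4 g g.2 x hm')
  obtain ⟨x0, hx0⟩ := hF1 y0 y0.2 hy0'
  have hA0 : A x0 ≠ ⊥ := by
    intro h
    have : y0 ∈ A x0 := (hA x0 y0).mpr hx0
    rw [h, Subgroup.mem_bot] at this
    exact hy0 this
  by_cases hA0' : A x0 = ⊤
  · refine ⟨x0, fun y hy => ?_⟩
    have : (⟨y, hy⟩ : Y) ∈ A x0 := by rw [hA0']; exact Subgroup.mem_top _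
    exact (hA x0 ⟨y, hy⟩).mp this
  exfalso
  have hfA := hfrob x0 hA0 hA0'
  have hker : ∃ y1 : Y, y1 ∈ Cfsg.frobeniusKernel (A x0) ∧ y1 ≠ 1 := by
    by_contra hcon
    push Not at hcon
    have h1 : Nat.card (Cfsg.frobeniusKernel (A x0)) ≤ 1 := by
      rw [Finite.card_le_one_iff_subsingleton]
      exact ⟨fun a b => Subtype.ext ((hcon a a.2).trans (hcon b b.2).symm)⟩
    rw [card_frobeniusKernel hfA] at h1
    have h2 : (A x0).index = 1 := by
      have : (A x0).index ≠ 0 := Subgroup.index_ne_zero_of_finite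
      omega
    exact hA0' (Subgroup.index_eq_one.mp h2)
  obtain ⟨y1, hy1k, hy11⟩ := hker
  have hy11' : (y1 : G) ≠ 1 := fun h => hy11 (Subtype.ext h)
  have hy1k' : ∀ g : Y, g⁻¹ * y1 * g ∉ A x0 := by
    rw [mem_frobeniusKernel_iff] at hy1k
    rcases hy1k with h3 | h3
    · exact absurd h3 hy11
    · exact h3
  obtain ⟨x1, hx1⟩ := hF1 y1 y1.2 hy11'
  have hB0 : A x1 ≠ ⊥ := by
    intro h
    have : y1 ∈ A x1 := (hA x1 y1).mpr hx1
    rw [h, Subgroup.mem_bot] at this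
    exact hy11 this
  have hB0' : A x1 ≠ ⊤ := by
    intro h
    have h1 : y0 ∈ A x1 := by rw [h]; exact Subgroup.mem_top _
    rw [hA] at h1
    have h2 := (d.conj_mem_iff_of_common hy0' hx0 h1 (y1 : G)).mpr hx1
    apply hy1k' 1
    rw [hA]
    simpa using h2
  have hfB := hfrob x1 hB0 hB0'
  have hdisj : Disjoint (Cfsg.frobeniusKernel (A x0))ᶜ (Cfsg.frobeniusKernel (A x1))ᶜ := by
    rw [Set.disjoint_left]
    intro y hyA hyB
    rw [Set.mem_compl_iff, mem_frobeniusKernel_iff] at hyA hyB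
    push Not at hyA hyB
    obtain ⟨hy1, g, hg⟩ := hyA
    obtain ⟨-, g', hg'⟩ := hyB
    rw [hA] at hg hg'
    have hy1' : (y : G) ≠ 1 := fun h => hy1 (Subtype.ext h)
    have e1 : ((g : G) * x0)⁻¹ * (y : G) * ((g : G) * x0) ∈ H := by
      have : ((g : G) * x0)⁻¹ * (y : G) * ((g : G) * x0)
          = x0⁻¹ * ((g⁻¹ * y * g : Y) : G) * x0 := by
        push_cast; group
      rw [this]; exact hg
    have e2 : ((g' : G) * x1)⁻¹ * (y : G) * ((g' : G) * x1) ∈ H := by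
      have : ((g' : G) * x1)⁻¹ * (y : G) * ((g' : G) * x1)
          = x1⁻¹ * ((g'⁻¹ * y * g' : Y) : G) * x1 := by
        push_cast; group
      rw [this]; exact hg'
    have e3 := (d.conj_mem_iff_of_common hy1' e1 e2
      ((g' : G) * (y1 : G) * (g' : G)⁻¹)).mpr (by
        have : ((g' : G) * x1)⁻¹ * ((g' : G) * (y1 : G) * (g' : G)⁻¹) * ((g' : G) * x1)
            = x1⁻¹ * y1 * x1 := by group
        rw [this]; exact hx1)
    apply hy1k' (g'⁻¹ * g)
    rw [hA]
    have : x0⁻¹ * (((g'⁻¹ * g)⁻¹ * y1 * (g'⁻¹ * g) : Y) : G) * x0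
        = ((g : G) * x0)⁻¹ * ((g' : G) * (y1 : G) * (g' : G)⁻¹) * ((g : G) * x0) := by
      push_cast; group
    rw [this]; exact e3
  have hcA := card_not_mem_frobeniusKernel hfA
  have hcB := card_not_mem_frobeniusKernel hfB
  have hsub : (Cfsg.frobeniusKernel (A x0))ᶜ ∪ (Cfsg.frobeniusKernel (A x1))ᶜ
      ⊆ ({1} : Set Y)ᶜ := by
    intro y hy
    rw [Set.mem_compl_iff, Set.mem_singleton_iff]
    rintro rfl
    rcases hy with hy | hy
    · exact hy ((mem_frobeniusKernel_iff _ _).mpr (Or.inl rfl))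
    · exact hy ((mem_frobeniusKernel_iff _ _).mpr (Or.inl rfl))
  have h1 := Set.ncard_le_ncard hsub (Set.toFinite _)
  have hc1 : ({1} : Set Y)ᶜ.ncard = Nat.card Y - 1 := by
    rw [Set.ncard_compl, Set.ncard_singleton]
  rw [Set.ncard_union_eq hdisj, hc1] at h1
  have h2 : (Cfsg.frobeniusKernel (A x0))ᶜ.ncard = (A x0).index * (Nat.card (A x0) - 1) := by
    rw [← hcA, ← Nat.card_coe_set_eq]; rfl
  have h3 : (Cfsg.frobeniusKernel (A x1))ᶜ.ncard = (A x1).index * (Nat.card (A x1) - 1) := by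
    rw [← hcB, ← Nat.card_coe_set_eq]; rfl
  rw [h2, h3] at h1
  have h4 : (A x0).index * Nat.card (A x0) = Nat.card Y := (A x0).index_mul_card
  have h5 : (A x1).index * Nat.card (A x1) = Nat.card Y := (A x1).index_mul_card
  have h6 : 1 < Nat.card (A x0) := (Subgroup.one_lt_card_iff_ne_bot (A x0)).mpr hA0
  have h7 : 1 < Nat.card (A x1) := (Subgroup.one_lt_card_iff_ne_bot (A x1)).mpr hB0
  have h8 : (A x0).index * (Nat.card (A x0) - 1) = Nat.card Y - (A x0).index := by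
    rw [Nat.mul_sub_one, h4]
  have h9 : (A x1).index * (Nat.card (A x1) - 1) = Nat.card Y - (A x1).index := by
    rw [Nat.mul_sub_one, h5]
  have h10 : (A x0).index * 2 ≤ Nat.card Y := by
    rw [← h4]; exact Nat.mul_le_mul_left _ h6
  have h11 : (A x1).index * 2 ≤ Nat.card Y := by
    rw [← h5]; exact Nat.mul_le_mul_left _ h7
  have h12 : 0 < Nat.card Y := Nat.card_pos
  rw [h8, h9] at h1
  omega

/-- `|N|` is prime to `|H|` -/
theorem coprime_card (d : TIHallData H K₀) {N : Subgroup G} [hN : N.Normal]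
    (hNM : N ⊓ Subgroup.normalizer (H : Set G) = K₀) : (Nat.card N).Coprime (Nat.card H) := by
  apply Nat.coprime_of_dvd
  intro p hp hpN hpH
  haveI : Fact p.Prime := ⟨hp⟩
  obtain ⟨h', hh'⟩ := exists_prime_orderOf_dvd_card' (G := H) p hpH
  have hord : orderOf (h' : G) = p := by rw [Subgroup.orderOf_coe]; exact hh'
  have hh1 : (h' : G) ≠ 1 := by
    intro h
    rw [h, orderOf_one] at hord
    exact hp.one_lt.ne hord
  obtain ⟨P, hPdef⟩ : ∃ P : Subgroup G, P = Subgroup.zpowers (h' : G) := ⟨_, rfl⟩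
  have hP : IsPGroup p P := IsPGroup.of_card (n := 1) (by rw [hPdef, Nat.card_zpowers, hord, pow_one])
  letI : MulAction P N := MulAction.compHom N ((MulAut.conjNormal (H := N)).comp P.subtype)
  have hmod := hP.card_modEq_card_fixedPoints N
  have hsmul : ∀ (x : P) (n : N), ((x • n : N) : G) = (x : G) * (n : G) * (x : G)⁻¹ := by
    intro x n
    rfl
  have hCK : N ⊓ Subgroup.centralizer (P : Set G) ≤ K₀ := by
    intro c hc
    obtain ⟨hcN, hcP⟩ := Subgroup.mem_inf.mp hc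
    have := Subgroup.mem_centralizer_iff.mp hcP (h' : G) (by rw [hPdef]; exact Subgroup.mem_zpowers _)
    exact d.mem_of_commute hNM hcN h'.2 hh1 this.symm
  have hcardfix : Nat.card (MulAction.fixedPoints P N)
      = Nat.card ↥(N ⊓ Subgroup.centralizer (P : Set G)) := by
    apply Nat.card_congr
    exact
      { toFun := fun n => ⟨(n.1 : G), by
          refine Subgroup.mem_inf.mpr ⟨n.1.2, ?_⟩
          rw [Subgroup.mem_centralizer_iff]
          intro x hx
          have h1 := n.2 ⟨x, hx⟩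
          have h2 : x * (n.1 : G) * x⁻¹ = (n.1 : G) := by
            have := congrArg Subtype.val h1
            rwa [hsmul] at this
          calc x * (n.1 : G) = (x * (n.1 : G) * x⁻¹) * x := by group
            _ = (n.1 : G) * x := by rw [h2]⟩
        invFun := fun c => ⟨⟨c.1, (Subgroup.mem_inf.mp c.2).1⟩, by
          intro x
          apply Subtype.ext
          rw [hsmul]
          have h1 := Subgroup.mem_centralizer_iff.mp (Subgroup.mem_inf.mp c.2).2 (x : G) x.2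
          change (x : G) * (c : G) * (x : G)⁻¹ = c
          rw [h1]; group⟩
        left_inv := fun n => rfl
        right_inv := fun c => rfl }
  have h3 : p ∣ Nat.card ↥(N ⊓ Subgroup.centralizer (P : Set G)) := by
    rw [← hcardfix]
    exact (Nat.modEq_zero_iff_dvd.mp ((hmod.symm).trans (Nat.modEq_zero_iff_dvd.mpr hpN)))
  have h4 : p ∣ Nat.card K₀ := h3.trans (Subgroup.card_dvd_of_le hCK)
  have h5 : p = 1 := Nat.eq_one_of_dvd_coprimes d.cop h4 hpH
  exact hp.one_lt.ne' h5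

/-- **Main theorem**: a non-normal TI-subgroup which is a direct factor of its normaliser with
coprime cofactor is isomorphic to a Frobenius complement. -/
theorem exists_frobenius_complement (d : TIHallData H K₀) (hHn : ¬ H.Normal) :
    ∃ (F : Type u) (_ : Group F) (_ : Finite F) (C : Subgroup F),
      Cfsg.IsFrobeniusComplement C ∧ Nonempty (H ≃* C) := by
  classical
  obtain ⟨N, hNn, hNM, hNmem, hNc⟩ := d.exists_normal_complement
  haveI := hNn
  have hH1 : H ≠ ⊥ := by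
    rintro rfl
    exact hHn inferInstance
  have hcopNH : (Nat.card N).Coprime (Nat.card H) := d.coprime_card hNM
  have hNH : N ⊓ H = ⊥ := disjoint_iff.mp hNc.disjoint
  have hK₀N : K₀ ≤ N := by rw [← hNM]; exact inf_le_left
  have hK₀ne : K₀ ≠ N := by
    intro h
    apply hHn
    rw [← Subgroup.normalizer_eq_top_iff]
    apply top_le_iff.mp
    rw [← hNc.sup_eq_top]
    apply sup_le
    · rw [← h]; exact d.le
    · exact Subgroup.le_normalizer
  -- the prime `p`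
  obtain ⟨r, hr⟩ := Subgroup.card_dvd_of_le hK₀N
  have hr1 : r ≠ 1 := by
    intro h
    rw [h, mul_one] at hr
    exact hK₀ne (Subgroup.eq_of_le_of_card_ge hK₀N hr.le)
  obtain ⟨p, hp, hpr⟩ := Nat.exists_prime_and_dvd hr1
  haveI : Fact p.Prime := ⟨hp⟩
  have hpN : p ∣ Nat.card N := hr ▸ (hpr.mul_left _)
  have hpH : ¬ p ∣ Nat.card H := by
    intro h
    have := Nat.eq_one_of_dvd_coprimes hcopNH hpN h
    exact hp.one_lt.ne' this
  -- a Sylow `p`-subgroup of `N` and the Frattini argument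
  obtain ⟨S⟩ : Nonempty (Sylow p N) := inferInstance
  obtain ⟨S', hS'def⟩ : ∃ S' : Subgroup G, S' = (S : Subgroup N).map N.subtype := ⟨_, rfl⟩
  obtain ⟨L, hLdef⟩ : ∃ L : Subgroup G, L = Subgroup.normalizer (S' : Set G) := ⟨_, rfl⟩
  have hfrat : L ⊔ N = ⊤ := by rw [hLdef, hS'def]; exact Sylow.normalizer_sup_eq_top S
  -- a complement `Y` of `N ∩ L` in `L`
  haveI hNLn : (N.subgroupOf L).Normal := hNn.subgroupOf L
  have hidx : (N.subgroupOf L).index = Nat.card H := by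
    have h1 := Subgroup.relIndex_sup_right (H := L) (K := N)
    rw [hfrat, Subgroup.relIndex_top_right] at h1
    change N.relIndex L = _
    rw [← h1]
    exact hNc.symm.index_eq_card
  have hcardNL : Nat.card (N.subgroupOf L) ∣ Nat.card N := by
    rw [← Subgroup.inf_subgroupOf_right, card_subgroupOf_of_le inf_le_right]
    exact Subgroup.card_dvd_of_le inf_le_left
  obtain ⟨Y', hY'⟩ := Subgroup.exists_left_complement'_of_coprime (N := N.subgroupOf L)
    (by rw [hidx]; exact Nat.Coprime.coprime_dvd_left hcardNL hcopNH)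
  obtain ⟨Y, hYdef⟩ : ∃ Y : Subgroup G, Y = Y'.map L.subtype := ⟨_, rfl⟩
  have hYcard : Nat.card Y = Nat.card H := by
    rw [hYdef, Subgroup.card_map_of_injective (Subgroup.subtype_injective _), ← hidx]
    exact hY'.index_eq_card.symm
  have hYL : Y ≤ L := by rw [hYdef]; exact Subgroup.map_subtype_le Y'
  have hYN : Y ⊓ N = ⊥ := by
    apply le_antisymm _ bot_le
    intro y hy
    obtain ⟨hyY, hyN⟩ := Subgroup.mem_inf.mp hy
    rw [hYdef] at hyY
    obtain ⟨y', hy', rfl⟩ := hyY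
    have h1 : y' ∈ Y' ⊓ N.subgroupOf L :=
      Subgroup.mem_inf.mpr ⟨hy', Subgroup.mem_subgroupOf.mpr hyN⟩
    rw [disjoint_iff.mp hY'.disjoint, Subgroup.mem_bot] at h1
    rw [h1]; exact Subgroup.mem_bot.mpr rfl
  obtain ⟨g, hg⟩ := d.exists_conj_le hNmem hYN (by rw [hYcard]; exact d.cop.symm)
  have hgsurj : ∀ h ∈ H, g * h * g⁻¹ ∈ Y := by
    let f : Y → H := fun y => ⟨g⁻¹ * (y : G) * g, hg y y.2⟩
    have hf : Function.Injective f := by
      intro a b hab
      have h1 : g⁻¹ * (a : G) * g = g⁻¹ * (b : G) * g := congrArg Subtype.val hab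
      apply Subtype.ext
      have h2 : (a : G) = g * (g⁻¹ * (a : G) * g) * g⁻¹ := by group
      rw [h2, h1]; group
    have hbij : Function.Bijective f := (Nat.bijective_iff_injective_and_card f).mpr ⟨hf, hYcard⟩
    intro h hh
    obtain ⟨y, hy⟩ := hbij.2 ⟨h, hh⟩
    have h1 : g⁻¹ * (y : G) * g = h := congrArg Subtype.val hy
    rw [← h1]
    have : g * (g⁻¹ * (y : G) * g) * g⁻¹ = y := by group
    rw [this]; exact y.2
  -- the `H`-invariant Sylow subgroup `S2 = g⁻¹ S' g`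
  obtain ⟨S2, hS2def⟩ : ∃ S2 : Subgroup G, S2 = S'.map (MulAut.conj g⁻¹).toMonoidHom :=
    ⟨_, rfl⟩
  have hS2mem : ∀ s, s ∈ S2 ↔ g * s * g⁻¹ ∈ S' := by
    intro s
    rw [hS2def, mem_map_conj, inv_inv]
  have hS'N : S' ≤ N := by rw [hS'def]; exact Subgroup.map_subtype_le _
  have hS2N : S2 ≤ N := by
    intro s hs
    rw [hS2mem] at hs
    have h1 := hS'N hs
    have h2 := hNn.conj_mem _ h1 g⁻¹
    have : g⁻¹ * (g * s * g⁻¹) * g⁻¹⁻¹ = s := by group
    rwa [this] at h2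
  have hS2card : Nat.card S2 = p ^ (Nat.card N).factorization p := by
    rw [hS2def, card_map_conj, hS'def,
      Subgroup.card_map_of_injective (Subgroup.subtype_injective _)]
    exact Sylow.card_eq_multiplicity S
  have hHS2 : ∀ h ∈ H, ∀ s ∈ S2, h * s * h⁻¹ ∈ S2 := by
    intro h hh s hs
    rw [hS2mem] at hs ⊢
    have hy : g * h * g⁻¹ ∈ L := hYL (hgsurj h hh)
    rw [hLdef] at hy
    have h1 := (Subgroup.mem_normalizer_iff.mp hy (g * s * g⁻¹)).mp hs
    have : g * h * g⁻¹ * (g * s * g⁻¹) * (g * h * g⁻¹)⁻¹ = g * (h * s * h⁻¹) * g⁻¹ := by group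
    rwa [this] at h1
  -- `S₀ = C_{S2}(H)`
  obtain ⟨S₀, hS₀def⟩ : ∃ S₀ : Subgroup G, S₀ = S2 ⊓ K₀ := ⟨_, rfl⟩
  have hS₀S2 : S₀ ≤ S2 := by rw [hS₀def]; exact inf_le_left
  have hS₀K : S₀ ≤ K₀ := by rw [hS₀def]; exact inf_le_right
  have hS₀ne : ¬ S2 ≤ S₀ := by
    intro h
    have h1 : S2 ≤ K₀ := h.trans hS₀K
    have h2 : p ^ (Nat.card N).factorization p ∣ Nat.card K₀ := by
      rw [← hS2card]; exact Subgroup.card_dvd_of_le h1
    have h3 : p ^ ((Nat.card N).factorization p + 1) ∣ Nat.card N := by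
      rw [pow_succ]
      exact (Nat.mul_dvd_mul h2 hpr).trans (dvd_of_eq hr.symm)
    exact Nat.pow_succ_factorization_not_dvd Nat.card_pos.ne' hp h3
  have hS2p : IsPGroup p S2 := IsPGroup.of_card hS2card
  haveI : Group.IsNilpotent S2 := hS2p.isNilpotent
  have hlt : S₀.subgroupOf S2 < ⊤ := by
    rw [lt_top_iff_ne_top]
    intro h
    exact hS₀ne (Subgroup.subgroupOf_eq_top.mp h)
  have hnc := Group.normalizerCondition_of_isNilpotent (G := S2) (S₀.subgroupOf S2) hlt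
  obtain ⟨t, htn, htS⟩ := SetLike.exists_of_lt hnc
  obtain ⟨S₁, hS₁def⟩ : ∃ S₁ : Subgroup G, S₁ = S2 ⊓ Subgroup.normalizer (S₀ : Set G) :=
    ⟨_, rfl⟩
  have htS₁ : (t : G) ∈ S₁ := by
    rw [hS₁def]
    refine Subgroup.mem_inf.mpr ⟨t.2, ?_⟩
    apply mem_normalizer_of_forall_conj_mem
    intro z hz
    have h1 := (Subgroup.mem_normalizer_iff.mp htn ⟨z, hS₀S2 hz⟩).mp
      (Subgroup.mem_subgroupOf.mpr hz)
    exact Subgroup.mem_subgroupOf.mp h1
  have htS₀ : (t : G) ∉ S₀ := fun h => htS (Subgroup.mem_subgroupOf.mpr h)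
  have hHcent : ∀ h ∈ H, ∀ z ∈ S₀, h * z * h⁻¹ = z := by
    intro h hh z hz
    have := d.commute (hS₀K hz) hh
    rw [← this]; group
  have hHnorm : H ≤ Subgroup.normalizer (S₀ : Set G) := by
    intro h hh
    apply mem_normalizer_of_forall_conj_mem
    intro z hz
    rw [hHcent h hh z hz]; exact hz
  apply exists_frobenius_of_section S₁ S₀ H
  · rw [hS₁def]; exact le_inf hS₀S2 Subgroup.le_normalizer
  · exact ⟨t, htS₁, htS₀⟩
  · exact hH1
  · intro h hh s hs
    rw [hS₁def] at hs ⊢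
    obtain ⟨hs2, hsn⟩ := Subgroup.mem_inf.mp hs
    refine Subgroup.mem_inf.mpr ⟨hHS2 h hh s hs2, ?_⟩
    exact Subgroup.mul_mem _ (Subgroup.mul_mem _ (hHnorm hh) hsn)
      (Subgroup.inv_mem _ (hHnorm hh))
  · intro s hs z hz
    rw [hS₁def] at hs
    exact (Subgroup.mem_normalizer_iff.mp (Subgroup.mem_inf.mp hs).2 z).mp hz
  · intro h hh z hz
    rw [hHcent h hh z hz]; exact hz
  · apply le_antisymm _ bot_le
    intro x hx
    obtain ⟨hx1, hxH⟩ := Subgroup.mem_inf.mp hx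
    rw [hS₁def] at hx1
    have : x ∈ N ⊓ H := Subgroup.mem_inf.mpr ⟨hS2N (Subgroup.mem_inf.mp hx1).1, hxH⟩
    rwa [hNH] at this
  · intro h hh hh1 s hs hz
    rw [hS₁def] at hs
    have hs2 : s ∈ S2 := (Subgroup.mem_inf.mp hs).1
    obtain ⟨z, hzdef⟩ : ∃ z, z = s * h * s⁻¹ * h⁻¹ := ⟨_, rfl⟩
    rw [← hzdef] at hz
    have hzh : Commute z h := d.commute (hS₀K hz) hh
    have hconj : s * h * s⁻¹ = z * h := by rw [hzdef]; group
    have hzq : z ^ Nat.card S2 = 1 := by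
      have : (⟨z, hS₀S2 hz⟩ : S2) ^ Nat.card S2 = 1 := pow_card_eq_one'
      exact congrArg Subtype.val this
    have h1 : s * h ^ Nat.card S2 * s⁻¹ = h ^ Nat.card S2 := by
      rw [← conj_pow, hconj, hzh.mul_pow, hzq, one_mul]
    have h2 : h ^ Nat.card S2 ≠ 1 := by
      intro h3
      have h4 : orderOf h ∣ Nat.card S2 := orderOf_dvd_of_pow_eq_one h3
      have h5 : orderOf h ∣ Nat.card H := orderOf_dvd_of_pow_eq_one (TIHallData.pow_card_H hh)
      have h6 : (Nat.card S2).Coprime (Nat.card H) := by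
        rw [hS2card]
        exact Nat.Coprime.pow_left _ ((Nat.Prime.coprime_iff_not_dvd hp).mpr hpH)
      have h7 : orderOf h = 1 := Nat.eq_one_of_dvd_coprimes h6 h4 h5
      exact hh1 (orderOf_eq_one_iff.mp h7)
    have h3 : s ∈ K₀ := d.mem_of_commute hNM (hS2N hs2) (H.pow_mem hh _) h2 (by
      calc s * h ^ Nat.card S2 = (s * h ^ Nat.card S2 * s⁻¹) * s := by group
        _ = h ^ Nat.card S2 * s := by rw [h1])
    rw [hS₀def]
    exact Subgroup.mem_inf.mpr ⟨hs2, h3⟩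

end TIHallData

end Conj

end Cfsg.Agent.H67
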