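import Mathlib
import Cfsg.Agent.H36.WreathQuot

/-!
Helper lemmas of seat helper67 (towards S2807, Yoshida's transfer theorem): a finite `p`-group
without a quotient isomorphic to a Sylow `p`-subgroup of the symmetric group of degree `p ^ 2`
satisfies a norm condition for every normal subgroup of index `p`.
-/

set_option autoImplicit false

namespace Cfsg.Agent.H67

/-- A function multiplicative on a subgroup sends list products to products. -/
theorem map_list_prod_of_mem {Q A : Type*} [Group Q] [CommGroup A] (R : Subgroup Q) (ν : Q → A)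
    (hν : ∀ a ∈ R, ∀ b ∈ R, ν (a * b) = ν a * ν b) (g : ℕ → Q) (hg : ∀ i, g i ∈ R) (n : ℕ) :
    ((List.range n).map g).prod ∈ R ∧
      ν ((List.range n).map g).prod = ∏ i ∈ Finset.range n, ν (g i) := by
  have h1 : ν 1 = 1 := by
    have := hν 1 R.one_mem 1 R.one_mem
    rw [mul_one] at this
    exact (mul_eq_left.mp this.symm)
  induction n with
  | zero => simp [h1]
  | succ n ih =>
    rw [List.range_succ, List.map_append, List.prod_append, Finset.prod_range_succ]
    simp only [List.map_cons, List.map_nil, List.prod_cons, List.prod_nil, mul_one]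
    exact ⟨R.mul_mem ih.1 (hg n), by rw [hν _ ih.1 _ (hg n), ih.2]⟩

/-- The wreath-free norm condition: if a finite `p`-group `Q` has no quotient isomorphic to a
Sylow `p`-subgroup of `Sym(p ^ 2)`, then for every normal subgroup `R` of index `p`, every map
`ν` into an abelian group which is multiplicative of exponent `p` on `R`, every `x` and `r ∈ R`,
the product of the values of `ν` on the `p` conjugates `x^{-i} r x^i` is trivial. -/
theorem wf_prod_eq_one {Q : Type*} [Group Q] [Finite Q] {p : ℕ} [Fact p.Prime]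
    (hQ : IsPGroup p Q)
    (hW : ¬ ∃ (W : Sylow p (Equiv.Perm (Fin (p ^ 2))))
      (f : Q →* ↥(W : Subgroup (Equiv.Perm (Fin (p ^ 2))))), Function.Surjective f)
    {A : Type*} [CommGroup A] (R : Subgroup Q) [hRn : R.Normal] (hidx : R.index = p) (ν : Q → A)
    (hν : ∀ a ∈ R, ∀ b ∈ R, ν (a * b) = ν a * ν b) (hνp : ∀ a ∈ R, ν a ^ p = 1) (x r : Q)
    (hr : r ∈ R) : ∏ i ∈ Finset.range p, ν ((x ^ i)⁻¹ * r * x ^ i) = 1 := by
  have h1 : ν 1 = 1 := by
    have := hν 1 R.one_mem 1 R.one_mem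
    rw [mul_one] at this
    exact (mul_eq_left.mp this.symm)
  have hinv : ∀ a ∈ R, ν a⁻¹ = (ν a)⁻¹ := by
    intro a ha
    have := hν a ha a⁻¹ (R.inv_mem ha)
    rw [mul_inv_cancel, h1] at this
    exact eq_inv_of_mul_eq_one_right this.symm
  -- the kernel of `ν` on `R`
  let K₀ : Subgroup Q :=
    { carrier := {a | a ∈ R ∧ ν a = 1}
      mul_mem' := by
        rintro a b ⟨ha, ha1⟩ ⟨hb, hb1⟩
        exact ⟨R.mul_mem ha hb, by rw [hν a ha b hb, ha1, hb1, mul_one]⟩
      one_mem' := ⟨R.one_mem, h1⟩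
      inv_mem' := by
        rintro a ⟨ha, ha1⟩
        exact ⟨R.inv_mem ha, by rw [hinv a ha, ha1, inv_one]⟩ }
  have hK₀ : ∀ a, a ∈ K₀ ↔ a ∈ R ∧ ν a = 1 := fun a => Iff.rfl
  obtain ⟨K, hKdef⟩ : ∃ K : Subgroup Q, K = K₀.normalCore := ⟨_, rfl⟩
  have hKn : K.Normal := by rw [hKdef]; infer_instance
  have hKle : K ≤ R := by
    rw [hKdef]
    exact fun a ha => ((hK₀ a).1 (Subgroup.normalCore_le K₀ ha)).1
  have hKmem : ∀ a, a ∈ K ↔ ∀ g : Q, g * a * g⁻¹ ∈ K₀ := by
    intro a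
    rw [hKdef]
    exact Iff.rfl
  have hconj : ∀ (g : Q), ∀ a ∈ R, g * a * g⁻¹ ∈ R := fun g a ha => hRn.conj_mem a ha g
  -- commutators and `p`-th powers of `R` lie in `K`
  have hcomm : ∀ a ∈ R, ∀ b ∈ R, (b * a)⁻¹ * (a * b) ∈ K := by
    intro a ha b hb
    rw [hKmem]
    intro g
    have e : g * ((b * a)⁻¹ * (a * b)) * g⁻¹ =
        ((g * b * g⁻¹) * (g * a * g⁻¹))⁻¹ * ((g * a * g⁻¹) * (g * b * g⁻¹)) := by group
    rw [e, hK₀]
    have ha' := hconj g a ha
    have hb' := hconj g b hb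
    refine ⟨R.mul_mem (R.inv_mem (R.mul_mem hb' ha')) (R.mul_mem ha' hb'), ?_⟩
    rw [hν _ (R.inv_mem (R.mul_mem hb' ha')) _ (R.mul_mem ha' hb'), hinv _ (R.mul_mem hb' ha'),
      hν _ hb' _ ha', hν _ ha' _ hb', mul_comm (ν (g * b * g⁻¹)), inv_mul_cancel]
  have hpow : ∀ a ∈ R, a ^ p ∈ K := by
    intro a ha
    rw [hKmem]
    intro g
    have e : g * a ^ p * g⁻¹ = (g * a * g⁻¹) ^ p := by
      rw [conj_pow]
    rw [e, hK₀]
    have ha' := hconj g a ha
    refine ⟨R.pow_mem ha' p, ?_⟩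
    have hpw : ∀ n : ℕ, ν ((g * a * g⁻¹) ^ n) = ν (g * a * g⁻¹) ^ n := by
      intro n
      induction n with
      | zero => simp [h1]
      | succ n ih => rw [pow_succ, hν _ (R.pow_mem ha' n) _ ha', ih, pow_succ]
    rw [hpw, hνp _ ha']
  -- pass to the quotient
  let π : Q →* Q ⧸ K := QuotientGroup.mk' K
  have hπs : Function.Surjective π := QuotientGroup.mk'_surjective K
  have hπ1 : ∀ a : Q, π a = 1 ↔ a ∈ K := fun a => QuotientGroup.eq_one_iff a
  have hπeq : ∀ a b : Q, π a = π b ↔ a⁻¹ * b ∈ K := fun a b => QuotientGroup.eq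
  have hAn : (R.map π).Normal := hRn.map π hπs
  have hAidx : (R.map π).index = p := by
    rw [Subgroup.index_map_eq R hπs (by rw [QuotientGroup.ker_mk']; exact hKle), hidx]
  have hAc : IsMulCommutative ↥(R.map π) := by
    refine ⟨⟨fun a b => ?_⟩⟩
    obtain ⟨a', ha', haa⟩ := a.2
    obtain ⟨b', hb', hbb⟩ := b.2
    apply Subtype.ext
    rw [Subgroup.coe_mul, Subgroup.coe_mul, ← haa, ← hbb, ← map_mul, ← map_mul, eq_comm, hπeq]
    exact hcomm a' ha' b' hb'
  have hAe : ∀ a ∈ R.map π, a ^ p = 1 := by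
    rintro _ ⟨a', ha', rfl⟩
    rw [← map_pow, hπ1]
    exact hpow a' ha'
  have hprod : ((List.range p).map (fun i => (π x ^ i)⁻¹ * π r * π x ^ i)).prod = 1 := by
    by_contra hne
    obtain ⟨A₀, hA1, hA2⟩ := Cfsg.Agent.H36.exists_index_sq_core_index_ge (R.map π) hAc hAe hAidx
      (π r) (π x) (Subgroup.mem_map_of_mem π hr) hne
    obtain ⟨W, f, hf⟩ := Cfsg.Agent.H36.exists_surj_sylow_perm (hQ.to_quotient K) A₀ hA1 hA2
    exact hW ⟨W, f.comp π, hf.comp hπs⟩
  have hprod' : π ((List.range p).map (fun i => (x ^ i)⁻¹ * r * x ^ i)).prod = 1 := by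
    rw [map_list_prod, List.map_map, ← hprod]
    congr 1
  rw [hπ1] at hprod'
  have hmemR : ∀ i : ℕ, (x ^ i)⁻¹ * r * x ^ i ∈ R := by
    intro i
    have := hconj (x ^ i)⁻¹ r hr
    rwa [inv_inv] at this
  have h2 := (map_list_prod_of_mem R ν hν (fun i => (x ^ i)⁻¹ * r * x ^ i) hmemR p).2
  rw [← h2]
  have h3 : ((List.range p).map (fun i => (x ^ i)⁻¹ * r * x ^ i)).prod ∈ K₀ := by
    have := hprod'
    rw [hKdef] at this
    exact Subgroup.normalCore_le K₀ this
  exact ((hK₀ _).1 h3).2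

end Cfsg.Agent.H67
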