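import Mathlib
import Cfsg.Agent.H67.YoshidaWF
import Cfsg.Agent.H67.PGroup
import Cfsg.Agent.H67.AbelianIndexP

/-!
Helper lemmas of seat helper67 (towards S2807, Yoshida's transfer theorem): products of an
abelian-valued cocycle of a finite `p`-group `Q` without wreath quotient over `Q`-invariant sets
without fixed points.
-/

set_option autoImplicit false

namespace Cfsg.Agent.H67

/-- A product over a finite set is trivial if one can always peel off a nonempty subset with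
trivial product while preserving an invariant. -/
theorem prod_eq_one_of_peel {Ω A : Type*} [DecidableEq Ω] [CommMonoid A] (h : Ω → A)
    (Inv : Finset Ω → Prop)
    (hpeel : ∀ T, Inv T → T.Nonempty →
      ∃ O, O ⊆ T ∧ O.Nonempty ∧ Inv (T \ O) ∧ ∏ ω ∈ O, h ω = 1) :
    ∀ T, Inv T → ∏ ω ∈ T, h ω = 1 := by
  intro T
  induction T using Finset.strongInduction with
  | H T ih =>
    intro hT
    rcases T.eq_empty_or_nonempty with rfl | hne
    · simp
    · obtain ⟨O, hOT, hOne, hInv, hprod⟩ := hpeel T hT hne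
      have hlt : T \ O ⊂ T := by
        refine Finset.ssubset_iff_subset_ne.mpr ⟨Finset.sdiff_subset, ?_⟩
        intro heq
        obtain ⟨ω, hω⟩ := hOne
        have : ω ∈ T \ O := by rw [heq]; exact hOT hω
        exact (Finset.mem_sdiff.mp this).2 hω
      rw [← Finset.prod_sdiff hOT, ih _ hlt hInv, hprod, one_mul]

/-- Reindexing a product over a finite set stable under a group element. -/
theorem prod_smul_eq_prod {K Ω A : Type*} [Group K] [MulAction K Ω] [DecidableEq Ω]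
    [CommMonoid A] (k : K) (T : Finset Ω) (hT : ∀ ω ∈ T, k • ω ∈ T) (h : Ω → A) :
    ∏ ω ∈ T, h (k • ω) = ∏ ω ∈ T, h ω := by
  have himg : T.image (fun ω => k • ω) = T := by
    apply Finset.eq_of_subset_of_card_le
    · intro ω hω
      obtain ⟨ω', hω', rfl⟩ := Finset.mem_image.mp hω
      exact hT ω' hω'
    · rw [Finset.card_image_of_injective _ (MulAction.injective k)]
  conv_rhs => rw [← himg]
  rw [Finset.prod_image (fun a _ b _ hab => MulAction.injective k hab)]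

section Cocycle

variable {K Ω A : Type*} [Group K] [MulAction K Ω] [CommGroup A] (c : K → Ω → A)
  (hc : ∀ k k' ω, c (k * k') ω = c k (k' • ω) * c k' ω)

include hc

theorem coc_one (ω : Ω) : c 1 ω = 1 := by
  have := hc 1 1 ω
  rw [mul_one, one_smul] at this
  exact mul_eq_left.mp this.symm

theorem coc_prod_mul [DecidableEq Ω] (k k' : K) (T : Finset Ω) (hT : ∀ ω ∈ T, k' • ω ∈ T) :
    ∏ ω ∈ T, c (k * k') ω = (∏ ω ∈ T, c k ω) * ∏ ω ∈ T, c k' ω := by
  rw [← prod_smul_eq_prod k' T hT (c k), ← Finset.prod_mul_distrib]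
  exact Finset.prod_congr rfl (fun ω _ => hc k k' ω)

theorem coc_pow (u : K) (ω : Ω) (n : ℕ) :
    c (u ^ n) ω = ∏ j ∈ Finset.range n, c u (u ^ j • ω) := by
  induction n with
  | zero => simp [coc_one c hc]
  | succ n ih => rw [pow_succ', hc, Finset.prod_range_succ, ih, mul_comm]

/-- Cyclic orbit lemma: the product of `c u` over a `u`-stable finite set is trivial if
`c (u ^ n) ω = 1` whenever `u ^ n` fixes a point `ω` of the set. -/
theorem coc_prod_cyclic [DecidableEq Ω] [Finite K] (u : K) (T : Finset Ω)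
    (hT : ∀ ω ∈ T, u • ω ∈ T)
    (hu : ∀ ω ∈ T, ∀ n : ℕ, u ^ n • ω = ω → c (u ^ n) ω = 1) : ∏ ω ∈ T, c u ω = 1 := by
  refine prod_eq_one_of_peel (c u) (fun T => (∀ ω ∈ T, u • ω ∈ T) ∧
    ∀ ω ∈ T, ∀ n : ℕ, u ^ n • ω = ω → c (u ^ n) ω = 1) ?_ T ⟨hT, hu⟩
  rintro T ⟨hT, hu⟩ ⟨ω₀, hω₀⟩
  have hex : ∃ n, 0 < n ∧ u ^ n • ω₀ = ω₀ :=
    ⟨orderOf u, orderOf_pos u, by rw [pow_orderOf_eq_one, one_smul]⟩
  obtain ⟨n, ⟨hn0, hn⟩, hmin⟩ : ∃ n, (0 < n ∧ u ^ n • ω₀ = ω₀) ∧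
      ∀ m, m < n → ¬ (0 < m ∧ u ^ m • ω₀ = ω₀) := by
    classical
    exact ⟨Nat.find hex, Nat.find_spec hex, fun m hm => Nat.find_min hex hm⟩
  have hpowT : ∀ j : ℕ, u ^ j • ω₀ ∈ T := by
    intro j
    induction j with
    | zero => simpa using hω₀
    | succ j ih => rw [pow_succ', mul_smul]; exact hT _ ih
  have key : ∀ i j, i < j → j < n → u ^ i • ω₀ ≠ u ^ j • ω₀ := by
    intro i j hij hjn heq
    apply hmin (j - i) (by omega)
    refine ⟨by omega, ?_⟩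
    have : u ^ j = u ^ i * u ^ (j - i) := by rw [← pow_add]; congr 1; omega
    rw [this, mul_smul] at heq
    exact (MulAction.injective (u ^ i) heq).symm
  have hinj : Set.InjOn (fun j : ℕ => u ^ j • ω₀) (Finset.range n : Set ℕ) := by
    intro i hi j hj hij
    simp only [Finset.coe_range, Set.mem_Iio] at hi hj
    by_contra hne
    rcases Nat.lt_or_gt_of_ne hne with h | h
    · exact key i j h hj hij
    · exact key j i h hi hij.symm
  refine ⟨(Finset.range n).image (fun j => u ^ j • ω₀), ?_, ?_, ⟨?_, ?_⟩, ?_⟩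
  · intro ω hω
    obtain ⟨j, _, rfl⟩ := Finset.mem_image.mp hω
    exact hpowT j
  · exact ⟨ω₀, Finset.mem_image.mpr ⟨0, Finset.mem_range.mpr hn0, by simp⟩⟩
  · intro ω hω
    rw [Finset.mem_sdiff] at hω ⊢
    refine ⟨hT ω hω.1, fun hmem => hω.2 ?_⟩
    obtain ⟨j, hj, hjeq⟩ := Finset.mem_image.mp hmem
    have hjeq' : u ^ j • ω₀ = u • ω := hjeq
    rw [Finset.mem_range] at hj
    rw [Finset.mem_image]
    rcases Nat.eq_zero_or_pos j with rfl | hjpos
    · refine ⟨n - 1, Finset.mem_range.mpr (by omega), ?_⟩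
      apply MulAction.injective u
      show u • u ^ (n - 1) • ω₀ = u • ω
      rw [← hjeq', ← mul_smul, ← pow_succ', Nat.sub_add_cancel hn0, hn, pow_zero, one_smul]
    · refine ⟨j - 1, Finset.mem_range.mpr (by omega), ?_⟩
      apply MulAction.injective u
      show u • u ^ (j - 1) • ω₀ = u • ω
      rw [← hjeq', ← mul_smul, ← pow_succ', Nat.sub_add_cancel hjpos]
  · intro ω hω k hk
    exact hu ω (Finset.mem_sdiff.mp hω).1 k hk
  · rw [Finset.prod_image hinj, ← coc_pow c hc]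
    exact hu ω₀ hω₀ n hn

end Cocycle

/-- In a finite `p`-group every proper subgroup lies in a normal subgroup of index `p`. -/
theorem exists_normal_index_p_ge {Q : Type*} [Group Q] [Finite Q] {p : ℕ} [Fact p.Prime]
    (hQ : IsPGroup p Q) (H : Subgroup Q) (hH : H ≠ ⊤) :
    ∃ R : Subgroup Q, R.Normal ∧ R.index = p ∧ H ≤ R := by
  have hp : p.Prime := Fact.out
  obtain ⟨k, hk⟩ := IsPGroup.iff_card.1 hQ
  obtain ⟨n, hn⟩ := IsPGroup.iff_card.1 (hQ.to_subgroup H)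
  have hnk : n < k := by
    have hlt : Nat.card H < Nat.card Q := by
      by_contra hge
      push Not at hge
      exact hH (Subgroup.eq_top_of_card_eq H (le_antisymm (Subgroup.card_le_card_group H) hge))
    rw [hk, hn] at hlt
    exact (Nat.pow_lt_pow_iff_right hp.one_lt).mp hlt
  obtain ⟨R, hR, hHR⟩ := Sylow.exists_subgroup_card_pow_prime_le p (n := n) (m := k - 1)
    (by rw [hk]; exact pow_dvd_pow p (Nat.sub_le k 1)) H hn (by omega)
  have hidx : R.index = p := by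
    have h1 := R.card_mul_index
    rw [hR, hk] at h1
    have h2 : p ^ k = p ^ (k - 1) * p := by rw [← pow_succ]; congr 1; omega
    rw [h2] at h1
    exact Nat.eq_of_mul_eq_mul_left (pow_pos hp.pos _) h1
  exact ⟨R, normal_of_index_eq_prime hQ R hidx, hidx, hHR⟩

/-- Coset arithmetic modulo a normal subgroup of prime index. -/
theorem pow_coset_of_index_prime {Q : Type*} [Group Q] [Finite Q] {p : ℕ} [Fact p.Prime]
    (R : Subgroup Q) [R.Normal] (hidx : R.index = p) (x : Q) (hx : x ∉ R) :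
    (∀ q : Q, ∃ i < p, (x ^ i)⁻¹ * q ∈ R) ∧
      (∀ i < p, ∀ j < p, (x ^ j)⁻¹ * x ^ i ∈ R → i = j) ∧ (∀ n : ℕ, x ^ n ∈ R → p ∣ n) := by
  have hp : p.Prime := Fact.out
  have hcard : Nat.card (Q ⧸ R) = p := by rw [← hidx]; rfl
  have hx1 : (QuotientGroup.mk x : Q ⧸ R) ≠ 1 := by rwa [Ne, QuotientGroup.eq_one_iff]
  have hord : orderOf (QuotientGroup.mk x : Q ⧸ R) = p := by
    have hdvd : orderOf (QuotientGroup.mk x : Q ⧸ R) ∣ p := by
      rw [← hcard]; exact orderOf_dvd_natCard _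
    rcases (Nat.dvd_prime hp).mp hdvd with h | h
    · exact absurd (orderOf_eq_one_iff.mp h) hx1
    · exact h
  refine ⟨?_, ?_, ?_⟩
  · intro q
    classical
    have hmem : (QuotientGroup.mk q : Q ⧸ R) ∈ Subgroup.zpowers (QuotientGroup.mk x : Q ⧸ R) := by
      have : Subgroup.zpowers (QuotientGroup.mk x : Q ⧸ R) = ⊤ := by
        apply Subgroup.eq_top_of_card_eq
        rw [Nat.card_zpowers, hord, hcard]
      rw [this]; trivial
    rw [mem_zpowers_iff_mem_range_orderOf, hord] at hmem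
    obtain ⟨i, hi, hiq⟩ := Finset.mem_image.mp hmem
    refine ⟨i, Finset.mem_range.mp hi, ?_⟩
    rw [← QuotientGroup.eq, ← hiq]
    rfl
  · intro i hi j hj hmem
    have h1 : (QuotientGroup.mk (x ^ j) : Q ⧸ R) = QuotientGroup.mk (x ^ i) :=
      QuotientGroup.eq.mpr hmem
    rw [QuotientGroup.mk_pow, QuotientGroup.mk_pow, pow_eq_pow_iff_modEq, hord] at h1
    exact (Nat.ModEq.eq_of_lt_of_lt h1 hj hi).symm
  · intro n hn
    have h1 : (QuotientGroup.mk x : Q ⧸ R) ^ n = 1 := by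
      rw [← QuotientGroup.mk_pow, QuotientGroup.eq_one_iff]; exact hn
    rw [← hord]; exact orderOf_dvd_of_pow_eq_one h1

section PGroup

variable {Q : Type*} [Group Q] [Finite Q] {p : ℕ} [Fact p.Prime]
  {Ω : Type*} [MulAction Q Ω] [DecidableEq Ω] {A : Type*} [CommGroup A]

/-- Single orbit lemma. -/
theorem coc_prod_orbit (hQ : IsPGroup p Q)
    (hW : ¬ ∃ (W : Sylow p (Equiv.Perm (Fin (p ^ 2))))
      (f : Q →* ↥(W : Subgroup (Equiv.Perm (Fin (p ^ 2))))), Function.Surjective f)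
    (c : Q → Ω → A) (hc : ∀ k k' ω, c (k * k') ω = c k (k' • ω) * c k' ω)
    (hcp : ∀ k ω, c k ω ^ p = 1) (u : Q) (ω₀ : Ω) (hω₀ : ∃ q : Q, q • ω₀ ≠ ω₀) (O : Finset Ω)
    (hO : ∀ ω, ω ∈ O ↔ ∃ q : Q, q • ω₀ = ω)
    (hu : ∀ ω ∈ O, ∀ n : ℕ, p ∣ n → u ^ n • ω = ω → c (u ^ n) ω = 1) :
    ∏ ω ∈ O, c u ω = 1 := by
  have hp : p.Prime := Fact.out
  have hstab : MulAction.stabilizer Q ω₀ ≠ ⊤ := by
    intro h
    obtain ⟨q, hq⟩ := hω₀
    exact hq (MulAction.mem_stabilizer_iff.mp (h ▸ Subgroup.mem_top q))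
  obtain ⟨R, hRn, hidx, hSR⟩ := exists_normal_index_p_ge hQ _ hstab
  obtain ⟨x, hx⟩ := exists_not_mem_of_index_eq_prime R hidx
  obtain ⟨hcos, hinjx, -⟩ := pow_coset_of_index_prime R hidx x hx
  have hOinv : ∀ q : Q, ∀ ω ∈ O, q • ω ∈ O := by
    intro q ω hω
    obtain ⟨q', rfl⟩ := (hO ω).mp hω
    exact (hO _).mpr ⟨q * q', mul_smul q q' ω₀⟩
  by_cases huR : u ∈ R
  · have : Fintype Q := Fintype.ofFinite Q
    obtain ⟨O₀, hO₀⟩ : ∃ O₀ : Finset Ω, ∀ ω, ω ∈ O₀ ↔ ∃ r ∈ R, r • ω₀ = ω := by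
      classical
      refine ⟨(Finset.univ.filter (fun q : Q => q ∈ R)).image (fun q => q • ω₀), ?_⟩
      intro ω
      simp [Finset.mem_image]
    have hO₀inv : ∀ r ∈ R, ∀ ω ∈ O₀, r • ω ∈ O₀ := by
      intro r hr ω hω
      obtain ⟨r', hr', rfl⟩ := (hO₀ ω).mp hω
      exact (hO₀ _).mpr ⟨r * r', R.mul_mem hr hr', mul_smul r r' ω₀⟩
    let ν : Q → A := fun r => ∏ ω ∈ O₀, c r ω
    have hν : ∀ a ∈ R, ∀ b ∈ R, ν (a * b) = ν a * ν b :=
      fun a _ b hb => coc_prod_mul c hc a b O₀ (hO₀inv b hb)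
    have hνp : ∀ a ∈ R, ν a ^ p = 1 := by
      intro a _
      show (∏ ω ∈ O₀, c a ω) ^ p = 1
      rw [← Finset.prod_pow]
      exact Finset.prod_eq_one (fun ω _ => hcp a ω)
    have hwf := wf_prod_eq_one hQ hW R hidx ν hν hνp x u huR
    have hOeq : O = ((Finset.range p) ×ˢ O₀).image (fun a : ℕ × Ω => x ^ a.1 • a.2) := by
      ext ω
      rw [hO, Finset.mem_image]
      constructor
      · rintro ⟨q, rfl⟩
        obtain ⟨i, hi, hmem⟩ := hcos q
        refine ⟨(i, ((x ^ i)⁻¹ * q) • ω₀), Finset.mem_product.mpr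
          ⟨Finset.mem_range.mpr hi, (hO₀ _).mpr ⟨_, hmem, rfl⟩⟩, ?_⟩
        show x ^ i • ((x ^ i)⁻¹ * q) • ω₀ = q • ω₀
        rw [← mul_smul, mul_inv_cancel_left]
      · rintro ⟨⟨i, ω'⟩, hmem, rfl⟩
        obtain ⟨_, hω'⟩ := Finset.mem_product.mp hmem
        obtain ⟨r, _, rfl⟩ := (hO₀ ω').mp hω'
        exact ⟨x ^ i * r, mul_smul _ _ _⟩
    have hinj : Set.InjOn (fun a : ℕ × Ω => x ^ a.1 • a.2)
        (((Finset.range p) ×ˢ O₀ : Finset (ℕ × Ω)) : Set (ℕ × Ω)) := by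
      rintro ⟨i, ω₁⟩ h1 ⟨j, ω₂⟩ h2 heq
      rw [Finset.mem_coe, Finset.mem_product] at h1 h2
      obtain ⟨r₁, hr₁, rfl⟩ := (hO₀ ω₁).mp h1.2
      obtain ⟨r₂, hr₂, rfl⟩ := (hO₀ ω₂).mp h2.2
      have heq' : x ^ i • r₁ • ω₀ = x ^ j • r₂ • ω₀ := heq
      have hij : i = j := by
        apply hinjx i (Finset.mem_range.mp h1.1) j (Finset.mem_range.mp h2.1)
        have hst : (x ^ j * r₂)⁻¹ * (x ^ i * r₁) ∈ MulAction.stabilizer Q ω₀ := by
          rw [MulAction.mem_stabilizer_iff, mul_smul, mul_smul, heq', ← mul_smul, ← mul_smul,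
            mul_assoc, inv_mul_cancel, one_smul]
        have hR' := hSR hst
        have : (x ^ j)⁻¹ * x ^ i = r₂ * ((x ^ j * r₂)⁻¹ * (x ^ i * r₁)) * r₁⁻¹ := by group
        rw [this]
        exact R.mul_mem (R.mul_mem hr₂ hR') (R.inv_mem hr₁)
      subst hij
      have := MulAction.injective (x ^ i) heq'
      simp [this]
    rw [hOeq, Finset.prod_image hinj, Finset.prod_product, ← hwf]
    apply Finset.prod_congr rfl
    intro i _
    show ∏ ω ∈ O₀, c u (x ^ i • ω) = ν ((x ^ i)⁻¹ * u * x ^ i)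
    have hui : (x ^ i)⁻¹ * u * x ^ i ∈ R := by
      have := hRn.conj_mem u huR (x ^ i)⁻¹
      rwa [inv_inv] at this
    have h1 : ∀ ω, c u (x ^ i • ω) * c (x ^ i) ω =
        c (x ^ i) (((x ^ i)⁻¹ * u * x ^ i) • ω) * c ((x ^ i)⁻¹ * u * x ^ i) ω := by
      intro ω
      rw [← hc, ← hc]
      congr 1
      group
    have h2 : (∏ ω ∈ O₀, c u (x ^ i • ω)) * ∏ ω ∈ O₀, c (x ^ i) ω =
        (∏ ω ∈ O₀, c (x ^ i) ω) * ν ((x ^ i)⁻¹ * u * x ^ i) := by
      rw [← Finset.prod_mul_distrib, Finset.prod_congr rfl (fun ω _ => h1 ω),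
        Finset.prod_mul_distrib, prod_smul_eq_prod _ O₀ (hO₀inv _ hui) (c (x ^ i))]
    rw [mul_comm] at h2
    exact mul_left_cancel h2
  · apply coc_prod_cyclic c hc u O (hOinv u)
    intro ω hω n hn
    apply hu ω hω n _ hn
    apply (pow_coset_of_index_prime R hidx u huR).2.2
    obtain ⟨q, rfl⟩ := (hO ω).mp hω
    have hst : q⁻¹ * u ^ n * q ∈ MulAction.stabilizer Q ω₀ := by
      rw [MulAction.mem_stabilizer_iff, mul_smul, mul_smul, hn, inv_smul_smul]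
    have hR' := hRn.conj_mem _ (hSR hst) q
    have e : q * (q⁻¹ * u ^ n * q) * q⁻¹ = u ^ n := by group
    rwa [e] at hR'

/-- **Theorem Z**: for a finite `p`-group `Q` without wreath quotient, an abelian-valued cocycle
`c` of exponent `p`, a `Q`-stable finite set `T` without `Q`-fixed points and an element `u`
such that `c (u ^ n) ω = 1` whenever `p ∣ n` and `u ^ n` fixes `ω ∈ T`, the product of `c u`
over `T` is trivial. -/
theorem coc_prod_eq_one (hQ : IsPGroup p Q)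
    (hW : ¬ ∃ (W : Sylow p (Equiv.Perm (Fin (p ^ 2))))
      (f : Q →* ↥(W : Subgroup (Equiv.Perm (Fin (p ^ 2))))), Function.Surjective f)
    (c : Q → Ω → A) (hc : ∀ k k' ω, c (k * k') ω = c k (k' • ω) * c k' ω)
    (hcp : ∀ k ω, c k ω ^ p = 1) (u : Q) (T : Finset Ω) (hT : ∀ q : Q, ∀ ω ∈ T, q • ω ∈ T)
    (hfix : ∀ ω ∈ T, ∃ q : Q, q • ω ≠ ω)
    (hu : ∀ ω ∈ T, ∀ n : ℕ, p ∣ n → u ^ n • ω = ω → c (u ^ n) ω = 1) :
    ∏ ω ∈ T, c u ω = 1 := by
  have : Fintype Q := Fintype.ofFinite Q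
  refine prod_eq_one_of_peel (c u) (fun T => (∀ q : Q, ∀ ω ∈ T, q • ω ∈ T) ∧
    (∀ ω ∈ T, ∃ q : Q, q • ω ≠ ω) ∧
    ∀ ω ∈ T, ∀ n : ℕ, p ∣ n → u ^ n • ω = ω → c (u ^ n) ω = 1) ?_ T ⟨hT, hfix, hu⟩
  rintro T ⟨hT, hfix, hu⟩ ⟨ω₀, hω₀⟩
  have hO : ∀ ω, ω ∈ Finset.univ.image (fun q : Q => q • ω₀) ↔ ∃ q : Q, q • ω₀ = ω := by
    intro ω; simp
  have hsub : Finset.univ.image (fun q : Q => q • ω₀) ⊆ T := by
    intro ω hω
    obtain ⟨q, rfl⟩ := (hO ω).mp hω
    exact hT q ω₀ hω₀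
  refine ⟨_, hsub, ⟨ω₀, (hO _).mpr ⟨1, one_smul _ _⟩⟩, ⟨?_, ?_, ?_⟩, ?_⟩
  · intro q ω hω
    rw [Finset.mem_sdiff] at hω ⊢
    refine ⟨hT q ω hω.1, fun hmem => hω.2 ?_⟩
    obtain ⟨q', hq'⟩ := (hO _).mp hmem
    refine (hO _).mpr ⟨q⁻¹ * q', ?_⟩
    rw [mul_smul, hq', inv_smul_smul]
  · exact fun ω hω => hfix ω (Finset.mem_sdiff.mp hω).1
  · exact fun ω hω => hu ω (Finset.mem_sdiff.mp hω).1
  · exact coc_prod_orbit hQ hW c hc hcp u ω₀ (hfix ω₀ hω₀) _ hO (fun ω hω => hu ω (hsub hω))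

end PGroup

end Cfsg.Agent.H67
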