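import Mathlib
import Cfsg.Agent.H67.YoshidaCocycle

/-!
Helper lemmas of seat helper67 (towards S2807, Yoshida's transfer theorem): the transfer of a
finite group `G` into an abelian group `A` along a function `f : G → A` multiplicative on a
subgroup `P`, and the extension of normalizer-invariant homomorphisms of a Sylow `p`-subgroup
without wreath quotient.
-/

set_option autoImplicit false

namespace Cfsg.Agent.H67

theorem eq_one_of_pow_eq_one_of_not_dvd {A : Type*} [Monoid A] {p e : ℕ} (hp : p.Prime)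
    (he : ¬ p ∣ e) (a : A) (h1 : a ^ p = 1) (h2 : a ^ e = 1) : a = 1 := by
  have hd1 := orderOf_dvd_of_pow_eq_one h1
  have hd2 := orderOf_dvd_of_pow_eq_one h2
  rcases (Nat.dvd_prime hp).mp hd1 with h | h
  · exact orderOf_eq_one_iff.mp h
  · exact absurd (h ▸ hd2) he

theorem pow_eq_self_of_mod_eq_one {A : Type*} [Monoid A] {q n : ℕ} (a : A) (h : a ^ q = 1)
    (hn : n % q = 1) : a ^ n = a := by
  rw [← Nat.div_add_mod n q, pow_add, pow_mul, h, one_pow, one_mul, hn, pow_one]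

theorem conj_inv_pow {G : Type*} [Group G] (s a : G) (m : ℕ) :
    (s⁻¹ * a * s) ^ m = s⁻¹ * a ^ m * s := by
  have := conj_pow (a := s⁻¹) (b := a) (i := m)
  rwa [inv_inv] at this

section Transfer

variable {G : Type*} [Group G] (P : Subgroup G) {A : Type*} [CommGroup A]

/-- The coset cocycle of `f : G → A` with respect to the subgroup `P`. -/
noncomputable def cosetCoc (f : G → A) (g : G) (ω : G ⧸ P) : A :=
  f ((Quotient.out (g • ω))⁻¹ * g * Quotient.out ω)

theorem cosetCoc_mem (g : G) (ω : G ⧸ P) :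
    (Quotient.out (g • ω))⁻¹ * g * Quotient.out ω ∈ P := by
  rw [mul_assoc, ← QuotientGroup.eq, QuotientGroup.out_eq']
  conv_lhs => rw [← QuotientGroup.out_eq' ω]
  rfl

theorem cosetCoc_mul (f : G → A) (hf : ∀ a ∈ P, ∀ b ∈ P, f (a * b) = f a * f b) (g g' : G)
    (ω : G ⧸ P) : cosetCoc P f (g * g') ω = cosetCoc P f g (g' • ω) * cosetCoc P f g' ω := by
  unfold cosetCoc
  rw [← hf _ (cosetCoc_mem P g (g' • ω)) _ (cosetCoc_mem P g' ω), mul_smul]
  congr 1
  group

/-- The transfer homomorphism of `f : G → A`, multiplicative on `P`. -/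
noncomputable def cosetTransfer [Fintype (G ⧸ P)] (f : G → A)
    (hf : ∀ a ∈ P, ∀ b ∈ P, f (a * b) = f a * f b) : G →* A :=
  MonoidHom.mk' (fun g => ∏ ω : G ⧸ P, cosetCoc P f g ω) (by
    intro g g'
    classical
    exact coc_prod_mul (cosetCoc P f) (cosetCoc_mul P f hf) g g' Finset.univ
      (fun ω _ => Finset.mem_univ _))

theorem cosetTransfer_apply [Fintype (G ⧸ P)] (f : G → A)
    (hf : ∀ a ∈ P, ∀ b ∈ P, f (a * b) = f a * f b) (g : G) :
    cosetTransfer P f hf g = ∏ ω : G ⧸ P, cosetCoc P f g ω := rfl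

variable [Finite G] [Fintype (G ⧸ P)] {p : ℕ} [Fact p.Prime]

/-- Step 5': for a normalizer-invariant `f` of exponent `p` on a Sylow `p`-subgroup `P` without
wreath quotient, the transfer restricted to `P` is a power of `f` with exponent prime to `p`. -/
theorem transfer_eq_pow_of_exp_p (hP : IsPGroup p P) (hidx : ¬ p ∣ P.index)
    (hW : ¬ ∃ (W : Sylow p (Equiv.Perm (Fin (p ^ 2))))
      (φ : ↥P →* ↥(W : Subgroup (Equiv.Perm (Fin (p ^ 2))))), Function.Surjective φ)
    (f : G → A) (hf : ∀ a ∈ P, ∀ b ∈ P, f (a * b) = f a * f b)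
    (hinv : ∀ g : G, (∀ q ∈ P, g⁻¹ * q * g ∈ P) → ∀ u ∈ P, f (g⁻¹ * u * g) = f u)
    (hfp : ∀ a ∈ P, f a ^ p = 1) :
    ∃ e : ℕ, ¬ p ∣ e ∧ ∀ u ∈ P, cosetTransfer P f hf u = f u ^ e := by
  classical
  have hp : p.Prime := Fact.out
  have hf1 : f 1 = 1 := by
    have := hf 1 P.one_mem 1 P.one_mem
    rw [mul_one] at this
    exact mul_eq_left.mp this.symm
  obtain ⟨Fix, hFix⟩ : ∃ Fix : Finset (G ⧸ P), Fix =
      Finset.univ.filter (fun ω : G ⧸ P => ∀ q : ↥P, q • ω = ω) := ⟨_, rfl⟩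
  have hcardfix : P.index ≡ Fix.card [MOD p] := by
    have h1 := hP.card_modEq_card_fixedPoints (G ⧸ P)
    have h2 : Nat.card (MulAction.fixedPoints ↥P (G ⧸ P)) = Fix.card :=
      Nat.subtype_card Fix (by intro ω; simp [hFix, MulAction.mem_fixedPoints])
    rw [h2] at h1
    exact h1
  have hep : ¬ p ∣ Fix.card := fun h =>
    hidx (Nat.modEq_zero_iff_dvd.mp (hcardfix.trans (Nat.modEq_zero_iff_dvd.mpr h)))
  refine ⟨Fix.card, hep, ?_⟩
  have hτp : ∀ g : G, cosetTransfer P f hf g ^ p = 1 := by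
    intro g
    rw [cosetTransfer_apply, ← Finset.prod_pow]
    exact Finset.prod_eq_one (fun ω _ => hfp _ (cosetCoc_mem P g ω))
  have main : ∀ k : ℕ, ∀ u ∈ P, u ^ p ^ k = 1 → cosetTransfer P f hf u = f u ^ Fix.card := by
    intro k
    induction k with
    | zero =>
      intro u _ hu1
      rw [pow_zero, pow_one] at hu1
      subst hu1
      rw [map_one, hf1, one_pow]
    | succ k ih =>
      intro u hu hupk
      rw [cosetTransfer_apply, ← Finset.prod_filter_mul_prod_filter_not Finset.univ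
        (fun ω : G ⧸ P => ∀ q : ↥P, q • ω = ω), ← hFix]
      have hfixpart : ∏ ω ∈ Fix, cosetCoc P f u ω = f u ^ Fix.card := by
        apply Finset.prod_eq_pow_card
        intro ω hω
        rw [hFix, Finset.mem_filter] at hω
        have hfixed : ∀ q ∈ P, q • ω = ω := fun q hq => hω.2 ⟨q, hq⟩
        unfold cosetCoc
        rw [hfixed u hu]
        apply hinv _ _ u hu
        intro q hq
        have := cosetCoc_mem P q ω
        rwa [hfixed q hq] at this
      have hrest : ∏ ω ∈ Finset.univ.filter (fun ω : G ⧸ P => ¬ ∀ q : ↥P, q • ω = ω),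
          cosetCoc P f u ω = 1 := by
        have key := coc_prod_eq_one hP hW (fun (q : ↥P) (ω : G ⧸ P) => cosetCoc P f (q : G) ω)
          (fun k k' ω => cosetCoc_mul P f hf k k' ω) (fun k ω => hfp _ (cosetCoc_mem P k ω))
          ⟨u, hu⟩ (Finset.univ.filter (fun ω : G ⧸ P => ¬ ∀ q : ↥P, q • ω = ω)) ?_ ?_ ?_
        · exact key
        · intro q ω hω
          rw [Finset.mem_filter] at hω ⊢
          refine ⟨Finset.mem_univ _, fun hfix => hω.2 (fun q' => ?_)⟩
          have h1 := hfix (q * q' * q⁻¹)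
          rw [← mul_smul, inv_mul_cancel_right, mul_smul] at h1
          exact MulAction.injective q h1
        · intro ω hω
          rw [Finset.mem_filter] at hω
          have := hω.2
          push Not at this
          exact this
        · intro ω _ n hpn hfix
          have hfix' : u ^ n • ω = ω := hfix
          show cosetCoc P f (u ^ n) ω = 1
          unfold cosetCoc
          rw [hfix']
          have hv : (Quotient.out ω)⁻¹ * u ^ n * Quotient.out ω ∈ P := by
            have := cosetCoc_mem P (u ^ n) ω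
            rwa [hfix'] at this
          have hvk : ((Quotient.out ω)⁻¹ * u ^ n * Quotient.out ω) ^ p ^ k = 1 := by
            obtain ⟨m, rfl⟩ := hpn
            rw [conj_inv_pow, ← pow_mul, mul_right_comm, ← pow_succ', pow_mul, hupk, one_pow,
              mul_one, inv_mul_cancel]
          have h1 := ih _ hv hvk
          have h2 : cosetTransfer P f hf ((Quotient.out ω)⁻¹ * u ^ n * Quotient.out ω) = 1 := by
            obtain ⟨m, rfl⟩ := hpn
            rw [map_mul, map_mul, map_inv, map_pow, pow_mul, hτp, one_pow, mul_one,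
              inv_mul_cancel]
          rw [h2] at h1
          exact eq_one_of_pow_eq_one_of_not_dvd hp hep _ (hfp _ hv) h1.symm
      rw [hfixpart, hrest, mul_one]
  intro u hu
  obtain ⟨k, hk⟩ := (IsPGroup.iff_orderOf.mp hP) ⟨u, hu⟩
  apply main k u hu
  have h3 : (⟨u, hu⟩ : ↥P) ^ p ^ k = 1 := by rw [← hk]; exact pow_orderOf_eq_one _
  exact congrArg Subtype.val h3

/-- Step 6: a normalizer-invariant map of exponent `p` on a Sylow `p`-subgroup `P` without
wreath quotient extends to a homomorphism of `G`. -/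
theorem exists_hom_extending_of_exp_p (hP : IsPGroup p P) (hidx : ¬ p ∣ P.index)
    (hW : ¬ ∃ (W : Sylow p (Equiv.Perm (Fin (p ^ 2))))
      (φ : ↥P →* ↥(W : Subgroup (Equiv.Perm (Fin (p ^ 2))))), Function.Surjective φ)
    (f : G → A) (hf : ∀ a ∈ P, ∀ b ∈ P, f (a * b) = f a * f b)
    (hinv : ∀ g : G, (∀ q ∈ P, g⁻¹ * q * g ∈ P) → ∀ u ∈ P, f (g⁻¹ * u * g) = f u)
    (hfp : ∀ a ∈ P, f a ^ p = 1) : ∃ κ : G →* A, ∀ u ∈ P, κ u = f u := by
  have hp : p.Prime := Fact.out
  obtain ⟨e, hep, he⟩ := transfer_eq_pow_of_exp_p P hP hidx hW f hf hinv hfp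
  have hcop : Nat.Coprime e p := ((Nat.Prime.coprime_iff_not_dvd hp).mpr hep).symm
  obtain ⟨m, -, hm⟩ := Nat.exists_mul_mod_eq_one_of_coprime hcop hp.one_lt
  refine ⟨(cosetTransfer P f hf) ^ m, fun u hu => ?_⟩
  rw [MonoidHom.pow_apply, he u hu, ← pow_mul]
  exact pow_eq_self_of_mod_eq_one _ (hfp u hu) hm

/-- Step 7: a normalizer-invariant map of `p`-power exponent on a Sylow `p`-subgroup `P`
without wreath quotient extends to a homomorphism of `G`. -/
theorem exists_hom_extending (hP : IsPGroup p P) (hidx : ¬ p ∣ P.index)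
    (hW : ¬ ∃ (W : Sylow p (Equiv.Perm (Fin (p ^ 2))))
      (φ : ↥P →* ↥(W : Subgroup (Equiv.Perm (Fin (p ^ 2))))), Function.Surjective φ) :
    ∀ (k : ℕ) (χ : G → A), (∀ a ∈ P, ∀ b ∈ P, χ (a * b) = χ a * χ b) →
      (∀ g : G, (∀ q ∈ P, g⁻¹ * q * g ∈ P) → ∀ u ∈ P, χ (g⁻¹ * u * g) = χ u) →
      (∀ a ∈ P, χ a ^ p ^ k = 1) → ∃ κ : G →* A, ∀ u ∈ P, κ u = χ u := by
  classical
  have hp : p.Prime := Fact.out
  intro k
  induction k with
  | zero =>
    intro χ _ _ h1
    refine ⟨1, fun u hu => ?_⟩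
    have := h1 u hu
    rw [pow_zero, pow_one] at this
    rw [MonoidHom.one_apply, this]
  | succ k ih =>
    intro χ hχ hinv hexp
    obtain ⟨κ₁, hκ₁⟩ := ih (fun g => χ g ^ p)
      (fun a ha b hb => by rw [hχ a ha b hb, mul_pow])
      (fun g hg u hu => by rw [hinv g hg u hu])
      (fun a ha => by rw [← pow_mul, ← pow_succ']; exact hexp a ha)
    have hκ₁' : ∀ u ∈ P, κ₁ u = χ u ^ p := hκ₁
    have hn : Fintype.card (G ⧸ P) = P.index := by
      rw [Subgroup.index, Nat.card_eq_fintype_card]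
    have hτp : ∀ u ∈ P, cosetTransfer P χ hχ u ^ p = (χ u ^ p) ^ P.index := by
      intro u hu
      rw [cosetTransfer_apply, ← Finset.prod_pow]
      have h1 : ∀ ω : G ⧸ P, cosetCoc P χ u ω ^ p =
          (κ₁ (Quotient.out (u • ω)))⁻¹ * κ₁ u * κ₁ (Quotient.out ω) := by
        intro ω
        show χ ((Quotient.out (u • ω))⁻¹ * u * Quotient.out ω) ^ p = _
        rw [← hκ₁' _ (cosetCoc_mem P u ω), map_mul, map_mul, map_inv]
      rw [Finset.prod_congr rfl (fun ω _ => h1 ω), Finset.prod_mul_distrib,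
        Finset.prod_mul_distrib, Finset.prod_inv_distrib,
        prod_smul_eq_prod u (Finset.univ : Finset (G ⧸ P)) (fun ω _ => Finset.mem_univ _)
          (fun ω : G ⧸ P => κ₁ (Quotient.out ω)), Finset.prod_const, Finset.card_univ, hn,
        hκ₁' u hu, mul_comm, mul_inv_cancel_left]
    have hδ : ∀ a ∈ P, ∀ b ∈ P, cosetTransfer P χ hχ (a * b) * (χ (a * b) ^ P.index)⁻¹ =
        cosetTransfer P χ hχ a * (χ a ^ P.index)⁻¹ *
          (cosetTransfer P χ hχ b * (χ b ^ P.index)⁻¹) := by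
      intro a ha b hb
      rw [map_mul, hχ a ha b hb, mul_pow, mul_inv, mul_mul_mul_comm]
    have hδinv : ∀ g : G, (∀ q ∈ P, g⁻¹ * q * g ∈ P) → ∀ u ∈ P,
        cosetTransfer P χ hχ (g⁻¹ * u * g) * (χ (g⁻¹ * u * g) ^ P.index)⁻¹ =
          cosetTransfer P χ hχ u * (χ u ^ P.index)⁻¹ := by
      intro g hg u hu
      rw [hinv g hg u hu, map_mul, map_mul, map_inv, mul_comm ((cosetTransfer P χ hχ g)⁻¹ * _),
        mul_inv_cancel_left]
    have hδp : ∀ a ∈ P, (cosetTransfer P χ hχ a * (χ a ^ P.index)⁻¹) ^ p = 1 := by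
      intro a ha
      rw [mul_pow, inv_pow, hτp a ha, ← pow_mul, ← pow_mul, mul_comm p, mul_inv_cancel]
    obtain ⟨κ₃, hκ₃⟩ := exists_hom_extending_of_exp_p P hP hidx hW
      (fun g => cosetTransfer P χ hχ g * (χ g ^ P.index)⁻¹) hδ hδinv hδp
    have hκ₃' : ∀ u ∈ P, κ₃ u = cosetTransfer P χ hχ u * (χ u ^ P.index)⁻¹ := hκ₃
    have hcop : Nat.Coprime P.index (p ^ (k + 1)) :=
      Nat.Coprime.pow_right (k + 1) ((Nat.Prime.coprime_iff_not_dvd hp).mpr hidx).symm
    obtain ⟨m, -, hm⟩ := Nat.exists_mul_mod_eq_one_of_coprime hcop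
      (Nat.one_lt_pow (by omega) hp.one_lt)
    refine ⟨(cosetTransfer P χ hχ * κ₃⁻¹) ^ m, fun u hu => ?_⟩
    rw [MonoidHom.pow_apply, MonoidHom.mul_apply, MonoidHom.inv_apply, hκ₃' u hu, mul_inv,
      inv_inv, mul_inv_cancel_left, ← pow_mul]
    exact pow_eq_self_of_mod_eq_one _ (hexp u hu) hm

end Transfer

/-- **Yoshida's transfer theorem** (contrapositive form): if a Sylow `p`-subgroup `S` of the
finite group `G` has no quotient isomorphic to a Sylow `p`-subgroup of `Sym(p ^ 2)`, then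
`S ∩ G' ≤ N_G(S)'`. -/
theorem sylow_inf_commutator_le {G : Type*} [Group G] [Finite G] {p : ℕ} [Fact p.Prime]
    (S : Sylow p G)
    (hW : ¬ ∃ (W : Sylow p (Equiv.Perm (Fin (p ^ 2))))
      (φ : ↥(S : Subgroup G) →* ↥(W : Subgroup (Equiv.Perm (Fin (p ^ 2))))),
        Function.Surjective φ) :
    (S : Subgroup G) ⊓ commutator G ≤
      ⁅Subgroup.normalizer ((S : Subgroup G) : Set G),
        Subgroup.normalizer ((S : Subgroup G) : Set G)⁆ := by
  classical
  have hp : p.Prime := Fact.out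
  have : Fintype (G ⧸ (S : Subgroup G)) := Fintype.ofFinite _
  obtain ⟨N, hNdef⟩ : ∃ N : Subgroup G, N = Subgroup.normalizer ((S : Subgroup G) : Set G) :=
    ⟨_, rfl⟩
  rw [← hNdef]
  have hSN : (S : Subgroup G) ≤ N := by rw [hNdef]; exact Subgroup.le_normalizer
  let χ : G → Abelianization ↥N := fun g => if h : g ∈ N then Abelianization.of ⟨g, h⟩ else 1
  have hχN : ∀ g (h : g ∈ N), χ g = Abelianization.of ⟨g, h⟩ := fun g h => dif_pos h
  have hχmul : ∀ a ∈ N, ∀ b ∈ N, χ (a * b) = χ a * χ b := by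
    intro a ha b hb
    rw [hχN a ha, hχN b hb, hχN _ (N.mul_mem ha hb), ← map_mul]
    rfl
  have hχ1 : χ 1 = 1 := by
    rw [hχN 1 N.one_mem]
    exact map_one _
  have hχinvN : ∀ g ∈ N, ∀ u ∈ N, χ (g⁻¹ * u * g) = χ u := by
    intro g hg u hu
    rw [hχmul _ (N.mul_mem (N.inv_mem hg) hu) _ hg, hχmul _ (N.inv_mem hg) _ hu, mul_comm,
      ← mul_assoc, ← hχmul _ hg _ (N.inv_mem hg), mul_inv_cancel, hχ1, one_mul]
  have hinv : ∀ g : G, (∀ q ∈ (S : Subgroup G), g⁻¹ * q * g ∈ (S : Subgroup G)) →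
      ∀ u ∈ (S : Subgroup G), χ (g⁻¹ * u * g) = χ u := by
    intro g hg u hu
    have hgN : g⁻¹ ∈ N := by
      rw [hNdef]
      apply mem_normalizer_of_forall_conj_mem
      intro r hr
      have := hg r hr
      rwa [inv_inv]
    exact hχinvN g (by simpa using N.inv_mem hgN) u (hSN hu)
  obtain ⟨k, hk⟩ := IsPGroup.iff_card.1 S.isPGroup'
  have hexp : ∀ a ∈ (S : Subgroup G), χ a ^ p ^ k = 1 := by
    intro a ha
    have hpow : ∀ n : ℕ, χ (a ^ n) = χ a ^ n := by
      intro n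
      induction n with
      | zero => simp [hχ1]
      | succ n ih => rw [pow_succ, hχmul _ (N.pow_mem (hSN ha) n) _ (hSN ha), ih, pow_succ]
    rw [← hpow, ← hk]
    have h3 : a ^ Nat.card ↥(S : Subgroup G) = 1 := by
      have h4 := pow_card_eq_one' (G := ↥(S : Subgroup G)) (x := ⟨a, ha⟩)
      exact congrArg Subtype.val h4
    rw [h3, hχ1]
  obtain ⟨κ, hκ⟩ := exists_hom_extending (S : Subgroup G) S.isPGroup' S.not_dvd_index hW k χ
    (fun a ha b hb => hχmul a (hSN ha) b (hSN hb)) hinv hexp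
  intro u hu
  obtain ⟨huS, huG⟩ := Subgroup.mem_inf.mp hu
  have h1 : κ u = 1 := MonoidHom.mem_ker.mp (Abelianization.commutator_subset_ker κ huG)
  rw [hκ u huS, hχN u (hSN huS)] at h1
  have h2 : (⟨u, hSN huS⟩ : ↥N) ∈ commutator ↥N := by
    rw [← Abelianization.ker_of]
    exact h1
  rw [← Subgroup.map_subtype_commutator]
  exact ⟨_, h2, rfl⟩

end Cfsg.Agent.H67
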