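import Mathlib
import Cfsg.Agent.H67.YoshidaCocycle
import Cfsg.Agent.H67.YoshidaTransfer
import Cfsg.Agent.H90.BisetTransfer

/-!
Helper lemmas of seat helper67 (towards S5225, Yoshida's transfer theorem for fusion systems):
the transfer of a characteristic biset of a saturated fusion system `F` over a finite `p`-group
`S` without wreath quotient shows that every homomorphism from `S` to an abelian group which is
invariant under the `F`-automorphisms of `S` is invariant under all maps of `F`.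
-/

set_option autoImplicit false

namespace Cfsg.Agent.H67

open Cfsg Cfsg.FusionSystem Cfsg.Agent.H86 Cfsg.Agent.H87 Cfsg.Agent.H90 MulAction

universe u

variable {Ω : Type u} [Group Ω] {S : Subgroup Ω}

theorem mor_map_pow {F : FusionSystem S} {V : Subgroup Ω} {f : Ω → Ω} (hf : Mor F V f) {x : Ω}
    (hx : x ∈ V) (n : ℕ) : f (x ^ n) = f x ^ n := by
  induction n with
  | zero => rw [pow_zero, pow_zero, hf.map_one]
  | succ n ih => rw [pow_succ, hf.map_mul (V.pow_mem hx n) hx, ih, pow_succ]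

/-- `χ` is constant on the classes of the system `F`. -/
def FInv (F : FusionSystem S) {A : Type*} (χ : S → A) : Prop :=
  ∀ (V : Subgroup Ω) (f : Ω → Ω) (hf : Mor F V f) (v : S) (hv : (v : Ω) ∈ V),
    χ ⟨f v, hf.mem hv⟩ = χ v

/-- `χ` is invariant under the automorphisms of `S` in the system `F`. -/
def AInv (F : FusionSystem S) {A : Type*} (χ : S → A) : Prop :=
  ∀ (g : Ω → Ω) (hg : Mor F S g) (x : S), χ ⟨g x, hg.mem x.2⟩ = χ x

theorem FInv.aInv {F : FusionSystem S} {A : Type*} {χ : S → A} (h : FInv F χ) : AInv F χ :=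
  fun g hg x => h S g hg x x.2

section biset

variable [Finite S] {F : FusionSystem S} {X : Type u} [MulAction (S × S) X] [Finite X]
  {A : Type*} [CommGroup A]

/-- The abelian-valued cocycle of a section of the right orbits of a biset. -/
noncomputable def bisetCoc (σ : ROrb S X → X) (hσ : ∀ y, Quotient.mk (rSetoid S X) (σ y) = y)
    (lam : S →* A) (g : rAut S X) (y : ROrb S X) : A :=
  lam (coc σ hσ g y)⁻¹

theorem bisetCoc_mul (hfree : ∀ (b : S) (x : X), ((1 : S), b) • x = x → b = 1)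
    (σ : ROrb S X → X) (hσ : ∀ y, Quotient.mk (rSetoid S X) (σ y) = y) (lam : S →* A)
    (g g' : rAut S X) (y : ROrb S X) :
    bisetCoc σ hσ lam (g * g') y = bisetCoc σ hσ lam g (g' • y) * bisetCoc σ hσ lam g' y := by
  unfold bisetCoc
  rw [coc_mul hfree, mul_inv_rev, map_mul]

/-- The transfer of a biset along `lam`, as a homomorphism on the right-equivariant
permutations. -/
noncomputable def bisetTr [Fintype (ROrb S X)]
    (hfree : ∀ (b : S) (x : X), ((1 : S), b) • x = x → b = 1)
    (σ : ROrb S X → X) (hσ : ∀ y, Quotient.mk (rSetoid S X) (σ y) = y) (lam : S →* A) :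
    rAut S X →* A :=
  MonoidHom.mk' (fun g => ∏ y : ROrb S X, bisetCoc σ hσ lam g y) (by
    intro g g'
    classical
    exact coc_prod_mul (bisetCoc σ hσ lam) (bisetCoc_mul hfree σ hσ lam) g g' Finset.univ
      (fun _ _ => Finset.mem_univ _))

theorem bisetTr_apply [Fintype (ROrb S X)]
    (hfree : ∀ (b : S) (x : X), ((1 : S), b) • x = x → b = 1)
    (σ : ROrb S X → X) (hσ : ∀ y, Quotient.mk (rSetoid S X) (σ y) = y) (lam : S →* A)
    (g : rAut S X) : bisetTr hfree σ hσ lam g = ∏ y : ROrb S X, bisetCoc σ hσ lam g y := rfl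

theorem coc_inv_mem_stab (σ : ROrb S X → X) (hσ : ∀ y, Quotient.mk (rSetoid S X) (σ y) = y)
    (s : S) (y : ROrb S X) (hy : lamHom S X s • y = y) :
    ((s, (coc σ hσ (lamHom S X s) y)⁻¹) : S × S) ∈ stabilizer (S × S) (σ y) := by
  rw [mem_stabilizer_iff]
  have h := coc_spec σ hσ (lamHom S X s) y
  rw [hy, lamHom_apply] at h
  have e : ((s, (coc σ hσ (lamHom S X s) y)⁻¹) : S × S) =
      ((1 : S), (coc σ hσ (lamHom S X s) y)⁻¹) * (s, (1 : S)) := by ext <;> simp
  rw [e, mul_smul, ← h, ← mul_smul]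
  have e2 : (((1 : S), (coc σ hσ (lamHom S X s) y)⁻¹) : S × S) *
      ((1 : S), coc σ hσ (lamHom S X s) y) = 1 := by ext <;> simp
  rw [e2, one_smul]

/-- A transfer homomorphism is constant on the classes of the system. -/
theorem hom_lamHom_mor (hgr : ∀ x : X, IsGraph F (stabilizer (S × S) x))
    (hbal : ∀ D D' : Subgroup (S × S), IsGraph F D → IsGraph F D' → sndRel D D' →
      fixCount (S × S) X D = fixCount (S × S) X D')
    (W : rAut S X →* A) : FInv F (fun s => W (lamHom S X s)) := by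
  intro V f hf v hv
  obtain ⟨φ, hφ, hφf⟩ := hf
  have hP : V ≤ S := (F.le_of_mem hφ).1
  have hφS : ∀ x : V, φ x ∈ S := (F.le_of_mem hφ).2
  obtain ⟨e, he⟩ := exists_rAut_conj hgr hbal hP hφ hφS
  have h1 := he ⟨v, hv⟩
  have h2 : (⟨f v, Mor.mem ⟨φ, hφ, hφf⟩ hv⟩ : S) = ⟨φ ⟨v, hv⟩, hφS ⟨v, hv⟩⟩ :=
    Subtype.ext (hφf ⟨v, hv⟩).symm
  show W (lamHom S X ⟨f v, _⟩) = W (lamHom S X v)
  rw [h2, h1, map_mul, map_mul, map_inv, mul_comm, inv_mul_cancel_left]

/-- The number of right orbits of a free biset. -/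
theorem card_eq_card_rOrb_mul (hfree : ∀ (b : S) (x : X), ((1 : S), b) • x = x → b = 1)
    (σ : ROrb S X → X) (hσ : ∀ y, Quotient.mk (rSetoid S X) (σ y) = y) :
    Nat.card X = Nat.card (ROrb S X) * Nat.card S := by
  rw [← Nat.card_prod]
  refine (Nat.card_congr (Equiv.ofBijective
    (fun yb : ROrb S X × S => ((1 : S), yb.2) • σ yb.1) ⟨?_, ?_⟩)).symm
  · rintro ⟨y, b⟩ ⟨y', b'⟩ h
    have h1 : ∀ (y : ROrb S X) (b : S),
        Quotient.mk (rSetoid S X) (((1 : S), b) • σ y) = y := by
      intro y b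
      have : Quotient.mk (rSetoid S X) (σ y) =
          Quotient.mk (rSetoid S X) (((1 : S), b) • σ y) := Quotient.sound ⟨b, rfl⟩
      rw [← this, hσ]
    have hy : y = y' := by
      have h2 : ((1 : S), b) • σ y = ((1 : S), b') • σ y' := h
      rw [← h1 y b, h2, h1 y' b']
    subst hy
    have h2 : ((1 : S), b) • σ y = ((1 : S), b') • σ y := h
    rw [right_cancel_of_free hfree h2]
  · intro x
    obtain ⟨b, hb⟩ := Quotient.exact (hσ (Quotient.mk (rSetoid S X) x))
    exact ⟨(Quotient.mk (rSetoid S X) x, b), hb⟩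

/-- The value of the cocycle at a fixed right orbit, for a map invariant under the automorphisms
of `S` in the system. -/
theorem bisetCoc_fixed (hgr : ∀ x : X, IsGraph F (stabilizer (S × S) x))
    (σ : ROrb S X → X) (hσ : ∀ y, Quotient.mk (rSetoid S X) (σ y) = y) (lam : S →* A)
    (hinv : AInv F lam) (y : ROrb S X) (hy : ∀ s : S, lamHom S X s • y = y) (s : S) :
    bisetCoc σ hσ lam (lamHom S X s) y = lam s := by
  obtain ⟨V, f, hf, hmem⟩ := hgr (σ y)
  have key : ∀ t : S, (((coc σ hσ (lamHom S X t) y)⁻¹ : S) : Ω) ∈ V ∧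
      (t : Ω) = f ((coc σ hσ (lamHom S X t) y)⁻¹ : S) :=
    fun t => (hmem _ _).1 (coc_inv_mem_stab σ hσ t y (hy t))
  have hVS : V = S := by
    have hle : V ≤ S := hf.le
    have : Finite V := Finite.of_injective _ (Subgroup.inclusion_injective hle)
    apply Subgroup.eq_of_le_of_card_ge hle
    apply Nat.card_le_card_of_injective
      (fun t : S => (⟨((coc σ hσ (lamHom S X t) y)⁻¹ : S), (key t).1⟩ : V))
    intro t t' htt
    have h1 : (((coc σ hσ (lamHom S X t) y)⁻¹ : S) : Ω) =
        ((coc σ hσ (lamHom S X t') y)⁻¹ : S) := congrArg (fun w : V => (w : Ω)) htt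
    apply Subtype.ext
    rw [(key t).2, (key t').2, h1]
  have hSV : S = V := hVS.symm
  subst hSV
  have h2 := hinv f hf (coc σ hσ (lamHom S X s) y)⁻¹
  show lam (coc σ hσ (lamHom S X s) y)⁻¹ = lam s
  rw [← h2]
  congr 1
  exact Subtype.ext (key s).2.symm

/-- The value of the cocycle at an orbit fixed by `s`. -/
theorem exists_mor_of_fixed (hgr : ∀ x : X, IsGraph F (stabilizer (S × S) x))
    (σ : ROrb S X → X) (hσ : ∀ y, Quotient.mk (rSetoid S X) (σ y) = y)
    (s : S) (y : ROrb S X) (hy : lamHom S X s • y = y) :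
    ∃ (V : Subgroup Ω) (f : Ω → Ω), Mor F V f ∧
      (((coc σ hσ (lamHom S X s) y)⁻¹ : S) : Ω) ∈ V ∧
      (s : Ω) = f ((coc σ hσ (lamHom S X s) y)⁻¹ : S) := by
  obtain ⟨V, f, hf, hmem⟩ := hgr (σ y)
  exact ⟨V, f, hf, (hmem _ _).1 (coc_inv_mem_stab σ hσ s y hy)⟩

variable {p : ℕ} [Fact p.Prime]

/-- Step 5' for fusion systems. -/
theorem bisetTr_eq_pow_of_exp_p (hS : IsPGroup p S)
    (hW : ¬ ∃ (W : Sylow p (Equiv.Perm (Fin (p ^ 2))))
      (φ : ↥S →* ↥(W : Subgroup (Equiv.Perm (Fin (p ^ 2))))), Function.Surjective φ)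
    (hgr : ∀ x : X, IsGraph F (stabilizer (S × S) x))
    (hbal : ∀ D D' : Subgroup (S × S), IsGraph F D → IsGraph F D' → sndRel D D' →
      fixCount (S × S) X D = fixCount (S × S) X D')
    [Fintype (ROrb S X)] (hcard : ¬ p ∣ Nat.card (ROrb S X))
    (hfree : ∀ (b : S) (x : X), ((1 : S), b) • x = x → b = 1)
    (σ : ROrb S X → X) (hσ : ∀ y, Quotient.mk (rSetoid S X) (σ y) = y) (lam : S →* A)
    (hinv : AInv F lam) (hlamp : ∀ a : S, lam a ^ p = 1) :
    ∃ e : ℕ, ¬ p ∣ e ∧ ∀ u : S, bisetTr hfree σ hσ lam (lamHom S X u) = lam u ^ e := by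
  classical
  have hp : p.Prime := Fact.out
  letI : MulAction S (ROrb S X) := MulAction.compHom (ROrb S X) (lamHom S X)
  have hsmul : ∀ (s : S) (y : ROrb S X), s • y = lamHom S X s • y := fun _ _ => rfl
  obtain ⟨Fix, hFix⟩ : ∃ Fix : Finset (ROrb S X), Fix =
      Finset.univ.filter (fun y : ROrb S X => ∀ q : S, q • y = y) := ⟨_, rfl⟩
  have hcardfix : Nat.card (ROrb S X) ≡ Fix.card [MOD p] := by
    have h1 := hS.card_modEq_card_fixedPoints (ROrb S X)
    have h2 : Nat.card (MulAction.fixedPoints S (ROrb S X)) = Fix.card :=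
      Nat.subtype_card Fix (by intro ω; simp [hFix, MulAction.mem_fixedPoints])
    rw [h2] at h1
    exact h1
  have hep : ¬ p ∣ Fix.card := fun h =>
    hcard (Nat.modEq_zero_iff_dvd.mp (hcardfix.trans (Nat.modEq_zero_iff_dvd.mpr h)))
  refine ⟨Fix.card, hep, ?_⟩
  have hτp : ∀ g : rAut S X, bisetTr hfree σ hσ lam g ^ p = 1 := by
    intro g
    rw [bisetTr_apply, ← Finset.prod_pow]
    exact Finset.prod_eq_one (fun ω _ => hlamp _)
  have hFI := hom_lamHom_mor hgr hbal (bisetTr hfree σ hσ lam)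
  have main : ∀ k : ℕ, ∀ u : S, u ^ p ^ k = 1 →
      bisetTr hfree σ hσ lam (lamHom S X u) = lam u ^ Fix.card := by
    intro k
    induction k with
    | zero =>
      intro u hu1
      rw [pow_zero, pow_one] at hu1
      subst hu1
      rw [map_one, map_one, map_one, one_pow]
    | succ k ih =>
      intro u hupk
      rw [bisetTr_apply, ← Finset.prod_filter_mul_prod_filter_not Finset.univ
        (fun y : ROrb S X => ∀ q : S, q • y = y), ← hFix]
      have hfixpart : ∏ y ∈ Fix, bisetCoc σ hσ lam (lamHom S X u) y = lam u ^ Fix.card := by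
        apply Finset.prod_eq_pow_card
        intro y hy
        rw [hFix, Finset.mem_filter] at hy
        exact bisetCoc_fixed hgr σ hσ lam hinv y (fun s => hy.2 s) u
      have hrest : ∏ y ∈ Finset.univ.filter (fun y : ROrb S X => ¬ ∀ q : S, q • y = y),
          bisetCoc σ hσ lam (lamHom S X u) y = 1 := by
        have key := coc_prod_eq_one hS hW
          (fun (q : S) (y : ROrb S X) => bisetCoc σ hσ lam (lamHom S X q) y)
          (fun k k' ω => by
            show bisetCoc σ hσ lam (lamHom S X (k * k')) ω = _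
            rw [map_mul]
            exact bisetCoc_mul hfree σ hσ lam _ _ ω)
          (fun k ω => hlamp _) u
          (Finset.univ.filter (fun y : ROrb S X => ¬ ∀ q : S, q • y = y)) ?_ ?_ ?_
        · exact key
        · intro q ω hω
          rw [Finset.mem_filter] at hω ⊢
          refine ⟨Finset.mem_univ _, fun hfix => hω.2 (fun q' => ?_)⟩
          have h1 := hfix (q * q' * q⁻¹)
          rw [← mul_smul, inv_mul_cancel_right, mul_smul] at h1
          exact MulAction.injective q h1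
        · intro ω hω
          rw [Finset.mem_filter] at hω
          have := hω.2
          push Not at this
          exact this
        · intro ω _ n hpn hfix
          have hfix' : lamHom S X (u ^ n) • ω = ω := hfix
          obtain ⟨V, f, hf, hvV, hsf⟩ := exists_mor_of_fixed hgr σ hσ (u ^ n) ω hfix'
          show lam (coc σ hσ (lamHom S X (u ^ n)) ω)⁻¹ = 1
          obtain ⟨v, hvdef⟩ : ∃ v : S, v = (coc σ hσ (lamHom S X (u ^ n)) ω)⁻¹ := ⟨_, rfl⟩
          rw [← hvdef] at hvV hsf ⊢
          have hvk : v ^ p ^ k = 1 := by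
            apply Subtype.ext
            apply hf.injOn (V.pow_mem hvV _) V.one_mem
            rw [mor_map_pow hf hvV, ← hsf, hf.map_one, ← Subgroup.coe_pow]
            obtain ⟨m, rfl⟩ := hpn
            rw [← pow_mul, mul_right_comm, ← pow_succ', pow_mul, hupk, one_pow]
            rfl
          have h1 := ih v hvk
          have h2 : bisetTr hfree σ hσ lam (lamHom S X v) = 1 := by
            have h3 : bisetTr hfree σ hσ lam (lamHom S X ⟨f v, hf.mem hvV⟩) =
                bisetTr hfree σ hσ lam (lamHom S X v) := hFI V f hf v hvV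
            have h4 : (⟨f v, hf.mem hvV⟩ : S) = u ^ n := Subtype.ext hsf.symm
            rw [h4] at h3
            have h5 : bisetTr hfree σ hσ lam (lamHom S X (u ^ n)) = 1 := by
              obtain ⟨m, rfl⟩ := hpn
              rw [map_pow, map_pow, pow_mul, hτp, one_pow]
            rw [← h3]
            exact h5
          rw [h2] at h1
          exact eq_one_of_pow_eq_one_of_not_dvd hp hep _ (hlamp v) h1.symm
      rw [hfixpart, hrest, mul_one]
  intro u
  obtain ⟨k, hk⟩ := (IsPGroup.iff_orderOf.mp hS) u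
  apply main k u
  rw [← hk]
  exact pow_orderOf_eq_one _

/-- Step 6' for fusion systems. -/
theorem fInv_of_exp_p (hS : IsPGroup p S)
    (hW : ¬ ∃ (W : Sylow p (Equiv.Perm (Fin (p ^ 2))))
      (φ : ↥S →* ↥(W : Subgroup (Equiv.Perm (Fin (p ^ 2))))), Function.Surjective φ)
    (hgr : ∀ x : X, IsGraph F (stabilizer (S × S) x))
    (hbal : ∀ D D' : Subgroup (S × S), IsGraph F D → IsGraph F D' → sndRel D D' →
      fixCount (S × S) X D = fixCount (S × S) X D')
    [Fintype (ROrb S X)] (hcard : ¬ p ∣ Nat.card (ROrb S X))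
    (hfree : ∀ (b : S) (x : X), ((1 : S), b) • x = x → b = 1)
    (σ : ROrb S X → X) (hσ : ∀ y, Quotient.mk (rSetoid S X) (σ y) = y) (lam : S →* A)
    (hinv : AInv F lam) (hlamp : ∀ a : S, lam a ^ p = 1) : FInv F lam := by
  have hp : p.Prime := Fact.out
  obtain ⟨e, hep, he⟩ := bisetTr_eq_pow_of_exp_p hS hW hgr hbal hcard hfree σ hσ lam hinv hlamp
  have hcop : Nat.Coprime e p := ((Nat.Prime.coprime_iff_not_dvd hp).mpr hep).symm
  obtain ⟨m, -, hm⟩ := Nat.exists_mul_mod_eq_one_of_coprime hcop hp.one_lt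
  have hFI := hom_lamHom_mor hgr hbal ((bisetTr hfree σ hσ lam) ^ m)
  have hlam : ∀ u : S, lam u = ((bisetTr hfree σ hσ lam) ^ m) (lamHom S X u) := by
    intro u
    rw [MonoidHom.pow_apply, he u, ← pow_mul]
    exact (pow_eq_self_of_mod_eq_one _ (hlamp u) hm).symm
  intro V f hf v hv
  rw [hlam, hlam]
  exact hFI V f hf v hv

/-- The transfer of a map constant on the classes of the system is a power map. -/
theorem bisetTr_of_fInv (hgr : ∀ x : X, IsGraph F (stabilizer (S × S) x))
    [Fintype (ROrb S X)] (hfree : ∀ (b : S) (x : X), ((1 : S), b) • x = x → b = 1)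
    (σ : ROrb S X → X) (hσ : ∀ y, Quotient.mk (rSetoid S X) (σ y) = y) (κ : S →* A)
    (hκ : FInv F κ) (u : S) :
    bisetTr hfree σ hσ κ (lamHom S X u) = κ u ^ Nat.card (ROrb S X) := by
  classical
  letI : MulAction S (ROrb S X) := MulAction.compHom (ROrb S X) (lamHom S X)
  have key := coc_prod_cyclic
    (fun (q : S) (y : ROrb S X) => bisetCoc σ hσ κ (lamHom S X q) y * (κ q)⁻¹)
    (fun k k' ω => by
      show bisetCoc σ hσ κ (lamHom S X (k * k')) ω * (κ (k * k'))⁻¹ = _
      rw [map_mul, bisetCoc_mul hfree σ hσ κ _ _ ω, map_mul, mul_inv]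
      exact mul_mul_mul_comm _ _ _ _)
    u Finset.univ (fun _ _ => Finset.mem_univ _) (by
      intro ω _ n hfix
      have hfix' : lamHom S X (u ^ n) • ω = ω := hfix
      obtain ⟨V, f, hf, hvV, hsf⟩ := exists_mor_of_fixed hgr σ hσ (u ^ n) ω hfix'
      show κ (coc σ hσ (lamHom S X (u ^ n)) ω)⁻¹ * (κ (u ^ n))⁻¹ = 1
      have h3 := hκ V f hf _ hvV
      have h4 : (⟨f ((coc σ hσ (lamHom S X (u ^ n)) ω)⁻¹ : S), hf.mem hvV⟩ : S) = u ^ n :=
        Subtype.ext hsf.symm
      rw [h4] at h3
      rw [← h3, mul_inv_cancel])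
  rw [Finset.prod_mul_distrib, Finset.prod_const, Finset.card_univ] at key
  rw [bisetTr_apply, Nat.card_eq_fintype_card]
  rw [inv_pow] at key
  exact mul_inv_eq_one.mp key

/-- Step 7' for fusion systems. -/
theorem fInv_of_exp_pow (hS : IsPGroup p S)
    (hW : ¬ ∃ (W : Sylow p (Equiv.Perm (Fin (p ^ 2))))
      (φ : ↥S →* ↥(W : Subgroup (Equiv.Perm (Fin (p ^ 2))))), Function.Surjective φ)
    (hgr : ∀ x : X, IsGraph F (stabilizer (S × S) x))
    (hbal : ∀ D D' : Subgroup (S × S), IsGraph F D → IsGraph F D' → sndRel D D' →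
      fixCount (S × S) X D = fixCount (S × S) X D')
    [Fintype (ROrb S X)] (hcard : ¬ p ∣ Nat.card (ROrb S X))
    (hfree : ∀ (b : S) (x : X), ((1 : S), b) • x = x → b = 1)
    (σ : ROrb S X → X) (hσ : ∀ y, Quotient.mk (rSetoid S X) (σ y) = y) :
    ∀ (k : ℕ) (χ : S →* A), AInv F χ → (∀ a : S, χ a ^ p ^ k = 1) → FInv F χ := by
  have hp : p.Prime := Fact.out
  intro k
  induction k with
  | zero =>
    intro χ _ h1 V f hf v hv
    have h2 := h1 v
    have h3 := h1 ⟨f v, hf.mem hv⟩
    rw [pow_zero, pow_one] at h2 h3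
    rw [h2, h3]
  | succ k ih =>
    intro χ hinv hexp
    have hκ₁ : FInv F (χ ^ p : S →* A) := by
      apply ih (χ ^ p)
      · intro g hg x
        rw [MonoidHom.pow_apply, MonoidHom.pow_apply, hinv g hg x]
      · intro a
        rw [MonoidHom.pow_apply, ← pow_mul, ← pow_succ']
        exact hexp a
    have hτp : ∀ u : S, bisetTr hfree σ hσ χ (lamHom S X u) ^ p =
        (χ u ^ p) ^ Nat.card (ROrb S X) := by
      intro u
      have h1 := bisetTr_of_fInv hgr hfree σ hσ (χ ^ p) hκ₁ u
      rw [MonoidHom.pow_apply] at h1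
      rw [← h1, bisetTr_apply, bisetTr_apply, ← Finset.prod_pow]
      rfl
    have hFIτ := hom_lamHom_mor hgr hbal (bisetTr hfree σ hσ χ)
    obtain ⟨δ, hδ⟩ : ∃ δ : S →* A, δ =
        (bisetTr hfree σ hσ χ).comp (lamHom S X) * (χ ^ Nat.card (ROrb S X))⁻¹ := ⟨_, rfl⟩
    have hδapp : ∀ u : S, δ u = bisetTr hfree σ hσ χ (lamHom S X u) *
        (χ u ^ Nat.card (ROrb S X))⁻¹ := by
      intro u
      rw [hδ]
      rfl
    have hδinv : AInv F δ := by
      intro g hg x
      rw [hδapp, hδapp, hinv g hg x]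
      congr 1
      exact hFIτ S g hg x x.2
    have hδp : ∀ a : S, δ a ^ p = 1 := by
      intro a
      rw [hδapp, mul_pow, inv_pow, hτp a, ← pow_mul, ← pow_mul, mul_comm p, mul_inv_cancel]
    have hδF := fInv_of_exp_p hS hW hgr hbal hcard hfree σ hσ δ hδinv hδp
    have hcop : Nat.Coprime (Nat.card (ROrb S X)) (p ^ (k + 1)) :=
      Nat.Coprime.pow_right (k + 1) ((Nat.Prime.coprime_iff_not_dvd hp).mpr hcard).symm
    obtain ⟨m, -, hm⟩ := Nat.exists_mul_mod_eq_one_of_coprime hcop
      (Nat.one_lt_pow (by omega) hp.one_lt)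
    intro V f hf v hv
    have h1 := hδF V f hf v hv
    have h2 := hFIτ V f hf v hv
    rw [hδapp, hδapp] at h1
    have h2' : bisetTr hfree σ hσ χ (lamHom S X ⟨f v, hf.mem hv⟩) =
        bisetTr hfree σ hσ χ (lamHom S X v) := h2
    rw [h2'] at h1
    have h3 : χ ⟨f v, hf.mem hv⟩ ^ Nat.card (ROrb S X) = χ v ^ Nat.card (ROrb S X) :=
      inv_injective (mul_left_cancel h1)
    have h4 := congrArg (fun a => a ^ m) h3
    simp only [← pow_mul] at h4
    rw [pow_eq_self_of_mod_eq_one _ (hexp _) hm, pow_eq_self_of_mod_eq_one _ (hexp _) hm] at h4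
    exact h4

end biset

/-- **Yoshida's theorem for fusion systems**, transfer form: in a saturated fusion system over
a finite `p`-group without wreath quotient, a homomorphism to an abelian group which is invariant
under the automorphisms of `S` in the system is constant on the classes of the system. -/
theorem fInv_of_aInv [Finite S] {p : ℕ} [Fact p.Prime] (hS : IsPGroup p S) {F : FusionSystem S}
    (hF : F.IsSaturated p)
    (hW : ¬ ∃ (W : Sylow p (Equiv.Perm (Fin (p ^ 2))))
      (φ : ↥S →* ↥(W : Subgroup (Equiv.Perm (Fin (p ^ 2))))), Function.Surjective φ)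
    {A : Type*} [CommGroup A] (χ : S →* A) (hinv : AInv F χ) : FInv F χ := by
  classical
  have hp : p.Prime := Fact.out
  obtain ⟨X, _, _, hgr, hbal, -, k, hk, hpk⟩ := exists_char_biset hS hF
  have hfree : ∀ (b : S) (x : X), ((1 : S), b) • x = x → b = 1 := free_of_isGraph hgr
  haveI : Fintype (ROrb S X) := Fintype.ofFinite _
  have hσ : ∀ y : ROrb S X, Quotient.mk (rSetoid S X) (Quotient.out y) = y :=
    fun y => Quotient.out_eq y
  have hcard := card_eq_card_rOrb_mul hfree (fun y : ROrb S X => Quotient.out y) hσ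
  have hkk : Nat.card (ROrb S X) = k := by
    have hpos : 0 < Nat.card S := Nat.card_pos
    rw [hk, mul_comm] at hcard
    exact (Nat.eq_of_mul_eq_mul_right hpos hcard).symm
  obtain ⟨n, hn⟩ := IsPGroup.iff_card.1 hS
  have hexp : ∀ a : S, χ a ^ p ^ n = 1 := by
    intro a
    rw [← map_pow, ← hn, pow_card_eq_one', map_one]
  exact fInv_of_exp_pow hS hW hgr hbal (by rw [hkk]; exact hpk) hfree _ hσ n χ hinv hexp

end Cfsg.Agent.H67
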