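import Mathlib
import Cfsg.Agent.H67.YoshidaFus

/-!
Helper lemmas of seat helper67 (towards S5225): Yoshida's theorem for fusion systems in focal
subgroup form.
-/

set_option autoImplicit false

namespace Cfsg.Agent.H67

open Cfsg Cfsg.FusionSystem Cfsg.Agent.H86

open scoped commutatorElement

universe u

variable {Ω : Type u} [Group Ω] {S : Subgroup Ω}

/-- An `F`-automorphism of `S` is a map of the normalizer system of `S`. -/
theorem mem_normalizerHom_self [Finite S] (F : FusionSystem S) {φ : S →* Ω} (hφ : φ ∈ F.Hom S) :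
    φ ∈ F.normalizerHom S S := by
  have hφS : ∀ x : S, φ x ∈ S := (F.le_of_mem hφ).2
  have hSN : S ≤ normalizerIn S S := le_inf le_rfl Subgroup.le_normalizer
  have hsurj : ∀ y ∈ S, ∃ x : S, φ x = y := by
    have hinj : Function.Injective (fun x : S => (⟨φ x, hφS x⟩ : S)) := by
      intro a b hab
      exact F.injective_of_mem hφ (congrArg Subtype.val hab)
    have hs := Finite.surjective_of_injective hinj
    intro y hy
    obtain ⟨x, hx⟩ := hs ⟨y, hy⟩
    exact ⟨x, congrArg Subtype.val hx⟩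
  have aux : ∀ (P : Subgroup Ω) (hP : S ≤ P), S = P → ∃ ψ ∈ F.Hom P,
      (∀ x : S, ψ (Subgroup.inclusion hP x) = φ x) ∧ (S.subgroupOf P).map ψ = S := by
    intro P hP hPS
    subst hPS
    refine ⟨φ, hφ, fun x => rfl, ?_⟩
    ext y
    constructor
    · rintro ⟨x, -, rfl⟩
      exact hφS x
    · intro hy
      obtain ⟨x, hx⟩ := hsurj y hy
      exact ⟨x, Subgroup.mem_subgroupOf.mpr x.2, hx⟩
  exact ⟨hφ, hSN, fun x => hSN (hφS x), aux (S ⊔ S) le_sup_left (sup_idem S).symm⟩

/-- **Yoshida's theorem for fusion systems**: if `S` has no quotient isomorphic to a Sylow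
`p`-subgroup of `Sym(p ^ 2)`, then the normalizer system of `S` in a saturated fusion system `F`
over `S` has the same focal subgroup as `F`. -/
theorem focal_normalizer_eq [Finite S] (p : ℕ) [Fact p.Prime] (hS : IsPGroup p S)
    (F : FusionSystem S) (hF : F.IsSaturated p) (N : FusionSystem (normalizerIn S S))
    (hN : F.IsNormalizerSystem S N)
    (hW : ¬ ∃ (W : Sylow p (Equiv.Perm (Fin (p ^ 2))))
      (φ : ↥S →* ↥(W : Subgroup (Equiv.Perm (Fin (p ^ 2))))), Function.Surjective φ) :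
    N.focalSubgroup = F.focalSubgroup := by
  have hSN : S ≤ normalizerIn S S := le_inf le_rfl Subgroup.le_normalizer
  have hNS : normalizerIn S S ≤ S := inf_le_left
  apply le_antisymm
  · unfold focalSubgroup
    apply Subgroup.closure_mono
    rintro y ⟨P, φ, x, hφ, rfl⟩
    rw [hN P] at hφ
    exact ⟨P, φ, x, hφ.1, rfl⟩
  obtain ⟨S₀, hS₀⟩ : ∃ S₀ : Subgroup Ω, S₀ = N.focalSubgroup := ⟨_, rfl⟩
  rw [← hS₀]
  have hgen : ∀ (P : Subgroup Ω) (φ : P →* Ω) (x : P), φ ∈ N.Hom P → (x : Ω)⁻¹ * φ x ∈ S₀ := by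
    intro P φ x hφ
    rw [hS₀]
    exact Subgroup.subset_closure ⟨P, φ, x, hφ, rfl⟩
  -- commutators of `S` lie in `S₀`
  have hcomm : commutator S ≤ S₀.subgroupOf S := by
    rw [commutator_def, Subgroup.commutator_le]
    intro a _ b _
    rw [Subgroup.mem_subgroupOf]
    have h1 := hgen (normalizerIn S S) (conjHom (normalizerIn S S) (b : Ω))
      ⟨((a⁻¹ : S) : Ω), hSN (a⁻¹).2⟩ (N.conj_mem le_rfl (hSN b.2))
    have e : (((⁅a, b⁆ : S)) : Ω) = (((a⁻¹ : S) : Ω))⁻¹ * ((b : Ω) * ((a⁻¹ : S) : Ω) * (b : Ω)⁻¹) := by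
      rw [commutatorElement_def]
      simp [mul_assoc]
    rw [e]
    exact h1
  -- the quotient map
  obtain ⟨χ, hχ⟩ : ∃ χ : S →* (Abelianization S ⧸ (S₀.subgroupOf S).map Abelianization.of),
      χ = (QuotientGroup.mk' _).comp Abelianization.of := ⟨_, rfl⟩
  have hχ1 : ∀ s : S, (s : Ω) ∈ S₀ → χ s = 1 := by
    intro s hs
    rw [hχ]
    show (QuotientGroup.mk (Abelianization.of s) : Abelianization S ⧸ _) = 1
    rw [QuotientGroup.eq_one_iff]
    exact Subgroup.mem_map_of_mem _ (Subgroup.mem_subgroupOf.mpr hs)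
  have hker : ∀ s : S, χ s = 1 → (s : Ω) ∈ S₀ := by
    intro s hs
    rw [hχ] at hs
    have hs' : (QuotientGroup.mk (Abelianization.of s) : Abelianization S ⧸ _) = 1 := hs
    rw [QuotientGroup.eq_one_iff] at hs'
    obtain ⟨t, ht, hts⟩ := hs'
    have h1 : t⁻¹ * s ∈ commutator S := by
      rw [← Abelianization.ker_of, MonoidHom.mem_ker, map_mul, map_inv, hts, inv_mul_cancel]
    have h2 := (S₀.subgroupOf S).mul_mem ht (hcomm h1)
    rw [mul_inv_cancel_left] at h2
    exact Subgroup.mem_subgroupOf.mp h2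
  -- invariance under the automorphisms of `S`
  have hinv : AInv F χ := by
    intro g hg x
    obtain ⟨φ, hφ, hφg⟩ := id hg
    have hφN : φ ∈ N.Hom S := by
      rw [hN S]
      exact mem_normalizerHom_self F hφ
    have h1 := hgen S φ x hφN
    have h2 : χ (x⁻¹ * ⟨g x, hg.mem x.2⟩) = 1 := by
      apply hχ1
      rw [Subgroup.coe_mul, Subgroup.coe_inv]
      show (x : Ω)⁻¹ * g x ∈ S₀
      rw [← hφg x]
      exact h1
    rw [map_mul, map_inv] at h2
    exact (inv_mul_eq_one.mp h2).symm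
  have hFI := fInv_of_aInv hS hF hW χ hinv
  unfold focalSubgroup
  rw [Subgroup.closure_le]
  rintro y ⟨P, φ, x, hφ, rfl⟩
  have hP : P ≤ S := (F.le_of_mem hφ).1
  have hφS : ∀ x : P, φ x ∈ S := (F.le_of_mem hφ).2
  have h1 := hFI P (extFun P φ) (mor_extFun hφ) ⟨x, hP x.2⟩ x.2
  have h2 : χ ((⟨x, hP x.2⟩ : S)⁻¹ * ⟨φ x, hφS x⟩) = 1 := by
    rw [map_mul, map_inv, inv_mul_eq_one, ← h1]
    congr 1
    exact Subtype.ext (extFun_apply P φ x)
  exact hker _ h2

end Cfsg.Agent.H67
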